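import Mathlib
import Cfsg.Prelude.Def_BaumannBlocks
import Cfsg.Agent.Lib.Ord6.Alm
import Cfsg.Agent.Lib.Blocks.Bau
import Cfsg.Agent.Lib.BG.S1_2
import Cfsg.Agent.Lib.Sect.Tools

/-! Finite groups all of whose elements have order at most eight: definitions, basic tools. -/

set_option autoImplicit false
set_option linter.unusedSectionVars false

namespace CfsgLib.O8

open Cfsg Subgroup CfsgLib.LAE CfsgLib.PLocal CfsgLib.ZJ CfsgLib.Blocks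
open scoped CfsgLib.BG MatrixGroups commutatorElement

universe u

/-- `A₅` -/
abbrev A5 : Type := alternatingGroup (Fin 5)
/-- `A₆` -/
abbrev A6 : Type := alternatingGroup (Fin 6)
/-- `A₇` -/
abbrev A7 : Type := alternatingGroup (Fin 7)
/-- `S₅` -/
abbrev S5 : Type := Equiv.Perm (Fin 5)
/-- `L₃(2)` -/
abbrev L32 : Type := SL(3, ZMod 2)

/-- All elements have order at most eight. -/
def Cl (G : Type*) [Group G] : Prop := ∀ g : G, orderOf g ≤ 8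

/-- `G ≅ L₃(4)` -/
def IsL34 (G : Type*) [Group G] : Prop :=
  ∃ (F : Type) (_ : Field F) (_ : Fintype F), Fintype.card F = 4 ∧ Nonempty (G ≃* PSL(3, F))

/-- The simple members of the class. -/
def Sm (G : Type*) [Group G] : Prop :=
  Nonempty (G ≃* A5) ∨ Nonempty (G ≃* L32) ∨ Nonempty (G ≃* A6) ∨ Nonempty (G ≃* A7) ∨ IsL34 G

/-- Almost simple, with socle of index at most two in the list. -/
def AS (H : Type*) [Group H] : Prop :=
  ∃ N : Subgroup H, N.Normal ∧ Sm N ∧ N.index ∣ 2 ∧ 𝒞(N) = ⊥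

/-- An extension of a 2-group by `L`. -/
def Ext (G L : Type*) [Group G] [Group L] : Prop :=
  ∃ π : G →* L, Function.Surjective π ∧ IsPGroup 2 π.ker

/-- The four shapes of non-solvable groups with a non-trivial normal 2-subgroup. -/
def Ty (G : Type*) [Group G] : Prop := Ext G A5 ∨ Ext G S5 ∨ Ext G L32 ∨ Ext G A6

/-- The rough structure of a member of the class. -/
def ST0 (G : Type u) [Group G] : Prop :=
  Group.IsSolvable G ∨ ∃ (H : Type u) (_ : Group H), Ext G H ∧ AS H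

/-- The structure of a member of the class. -/
def ST (G : Type*) [Group G] : Prop := Group.IsSolvable G ∨ Ty G ∨ AS G

/-- The simple members of the class of order at most `n` are in the list. -/
def Kn (n : ℕ) : Prop := ∀ (A : Type u) [Group A] [Finite A], Nat.card A ≤ n → Cl A →
  IsSimpleGroup A → ¬ IsMulCommutative A → Sm A

/-- `L = G / ker π` acts on the normal elementary abelian 2-subgroup `V`. -/
structure Act {G L : Type*} [Group G] [Group L] (π : G →* L) (V : Subgroup G) : Prop where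
  cl : Cl G
  surj : Function.Surjective π
  two : IsPGroup 2 π.ker
  nV : V.Normal
  ea : IsElementaryAbelian 2 V
  le : V ≤ π.ker
  cen : π.ker ≤ 𝒞(V)

/-- The properties of `V` as a module for `L = G / ker π` in the situation `Act π V`. -/
structure Mod (L A : Type*) [Group L] [AddCommGroup A] [DistribMulAction L A] : Prop where
  cl : Cl L
  two : ∀ a : A, a + a = 0
  fpf : ∀ f : L, orderOf f = 5 ∨ orderOf f = 7 → ∀ a : A, f • a = a → a = 0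
  cx : ∀ x t : L, orderOf x = 3 → t * t = 1 → x * t = t * x → ∀ a : A, x • a = a → t • a = a
  o8 : ∀ g : L, orderOf g = 8 → ∀ a : A, ∑ i ∈ Finset.range 8, g ^ i • a = 0

/-- the number of fixed points of `g` on `A` -/
noncomputable abbrev nfix {L : Type*} (A : Type*) [SMul L A] (g : L) : ℕ :=
  Nat.card {a : A // g • a = a}

/-- Every involution has three conjugates whose product has order five or seven. -/
def Inv57 (L : Type*) [Group L] : Prop := ∀ t : L, t * t = 1 → t ≠ 1 → ∃ a b : L,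
  orderOf (t * (a * t * a⁻¹) * (b * t * b⁻¹)) = 5 ∨ orderOf (t * (a * t * a⁻¹) * (b * t * b⁻¹)) = 7

section Amb

variable {G : Type*} [Group G]

/-- the Thompson subgroup -/
abbrev JJ (T : Subgroup G) : Subgroup G := thompsonSubgroupOf 2 T

/-- `Ω₁(Z(T))` -/
abbrev ZZ (T : Subgroup G) : Subgroup G := omegaZ 2 T

/-- `O₂(N)` contains its centralizer. -/
def Sc (N : Subgroup G) : Prop := 𝒞(pCoreOf 2 N) ≤ pCoreOf 2 N

/-- `H / R ≅ S₃` with Sylow 2-subgroup `T / R`. -/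
structure S3 (H R T : Subgroup G) (x : G) : Prop where
  RT : R ≤ T
  TH : T ≤ H
  nR : H ≤ 𝒩(R)
  two : IsPGroup 2 T
  i2 : R.relIndex T = 2
  i3 : T.relIndex H = 3
  xH : x ∈ H
  x3 : orderOf x = 3
  inv : ∀ s ∈ T, s ∉ R → s * x * s⁻¹ * x ∈ R

/-- The family of the four-groups `[U, E]`, `E ≅ SL₂(2)` the factors of `J(N) / C(U)`. -/
structure Fam (N U J : Subgroup G) (F : Set (Subgroup G)) : Prop where
  ne : F.Nonempty
  le : ∀ W ∈ F, W ≤ U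
  four : ∀ W ∈ F, Nat.card W = 4
  fix : ∀ W ∈ F, ∃ u ∈ W, u ≠ 1 ∧ J ≤ 𝒞[u]
  nc : ∀ W ∈ F, ¬ J ≤ 𝒞(W)
  norm : ∀ W ∈ F, J ≤ 𝒩(W)
  conj : ∀ W ∈ F, ∀ n ∈ N, conjS n W ∈ F
  disj : ∀ W ∈ F, ∀ W' ∈ F, W ≠ W' → W ⊓ W' = ⊥
  prod : ∀ P : Subgroup G, P ≤ N → P ≤ 𝒩(J) → ∃ w ∈ U, w ≠ 1 ∧ P ≤ 𝒞[w]

/-- `M` is a non-solvable maximal 2-local subgroup, `Q = O₂(M)`, `V = Ω₁ Z(Q)`, `T` Sylow in `M`. -/
structure NS (M Q V T : Subgroup G) : Prop where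
  cl : Cl G
  syl : IsSylowIn 2 T M
  QT : Q ≤ T
  nQ : M ≤ 𝒩(Q)
  Q1 : Q ≠ ⊥
  cQ : 𝒞(Q) ≤ Q
  hV : V = ZZ Q
  ne : ¬ T ≤ Q
  soc : ∀ K : Subgroup G, K ≤ M → M ≤ 𝒩(K) → ¬ K ≤ Q → ∃ f ∈ K, orderOf f = 5 ∨ orderOf f = 7
  max : ∀ X : Subgroup G, IsPGroup 2 X → X ≠ ⊥ → M ≤ 𝒩(X) → 𝒩(X) = M

/-- `T / Q` has 2-rank at most two. -/
def Rk2 (Q T : Subgroup G) : Prop :=
  ∀ A : Subgroup G, A ≤ T → (∀ a ∈ A, a * a ∈ Q) → Q.relIndex A ≤ 4

/-- `T / Q` contains an offender on `V`. -/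
def Off (Q V T : Subgroup G) : Prop := ∃ A : Subgroup G, A ≤ T ∧ ¬ A ≤ Q ∧ (∀ a ∈ A, a * a ∈ Q) ∧
  𝒞(A).relIndex V ≤ Q.relIndex A

/-- All involutions of `M / Q` act freely on `V`. -/
def F2 (M Q V : Subgroup G) : Prop :=
  ∀ t ∈ M, t ∉ Q → t * t ∈ Q → Nat.card ↥(V ⊓ 𝒞[t]) ^ 2 = Nat.card V

/-- `M / Q ≅ A₅` -/
structure TA (M Q V T : Subgroup G) (x : G) : Prop where
  idx : Q.relIndex T = 4
  sq : ∀ t ∈ T, t * t ∈ Q
  xM : x ∈ M
  x3 : orderOf x = 3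
  xT : x ∈ 𝒩(T)
  nT : M ⊓ 𝒩(T) ≤ T ⊔ zpowers x
  opp : ∃ m ∈ M, m * x * m⁻¹ * x ∈ Q ∧ T ⊔ conjS m T = M
  f2 : F2 M Q V
  five : ∃ f ∈ M, orderOf f = 5
  hom : ∃ π : M →* A5, Function.Surjective π ∧ ∀ m : M, π m = 1 ↔ (m : G) ∈ Q

/-- `M / Q ≅ S₅` -/
structure TS (M Q V T : Subgroup G) : Prop where
  eq : V = Q
  idx : Q.relIndex T = 8
  nab : ∃ a ∈ T, ∃ b ∈ T, ⁅a, b⁆ ∉ Q
  f2 : F2 M Q V
  five : ∃ f ∈ M, orderOf f = 5

/-- One half of the data for `M / Q ≅ L₃(2), A₆`: `Q₁ / Q` is a four-subgroup of the dihedral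
group `T / Q` and `⟨T, x⟩ / Q ≅ S₄` is a maximal subgroup. -/
structure TH (M Q T Q₁ : Subgroup G) (x : G) : Prop where
  le : Q ≤ Q₁
  leT : Q₁ ≤ T
  i4 : Q.relIndex Q₁ = 4
  i2 : Q₁.relIndex T = 2
  sq : ∀ a ∈ Q₁, a * a ∈ Q
  xM : x ∈ M
  x3 : orderOf x = 3
  xn : x ∈ 𝒩(Q₁)
  fpf : ∀ a ∈ Q₁, ⁅x, a⁆ ∈ Q → a ∈ Q
  nn : x ∉ 𝒩(T)
  i3 : T.relIndex (T ⊔ zpowers x) = 3
  max : ∀ X : Subgroup G, T ⊔ zpowers x ≤ X → X ≤ M → X = T ⊔ zpowers x ∨ X = M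

/-- The group-theoretic data for `M / Q ≅ L₃(2), A₆`. -/
structure TG (M Q T Q₁ Q₂ : Subgroup G) (x₁ x₂ : G) : Prop where
  h1 : TH M Q T Q₁ x₁
  h2 : TH M Q T Q₂ x₂
  ne : Q₁ ≠ Q₂
  inv : ∀ t ∈ T, t * t ∈ Q → t ∈ Q₁ ∨ t ∈ Q₂
  gen : (T ⊔ zpowers x₁) ⊔ (T ⊔ zpowers x₂) = M

/-- `M / Q ≅ L₃(2), A₆` -/
structure TD (M Q V T Q₁ Q₂ : Subgroup G) (x₁ x₂ : G) : Prop extends TG M Q T Q₁ Q₂ x₁ x₂ where
  cod : ∀ t ∈ M, t ∉ Q → t * t ∈ Q → Nat.card V ≤ (𝒞[t] : Subgroup G).relIndex V ^ 3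
  ord : Q.relIndex M = 168 ∨ Q.relIndex M = 360

/-- The failure of factorization case without transvections: `Q₂ / Q` is the offender. -/
structure T4 (M Q V T Q₁ Q₂ : Subgroup G) (x₁ x₂ : G) : Prop extends TD M Q V T Q₁ Q₂ x₁ x₂ where
  big : ∀ t ∈ M, t ∉ Q → t * t ∈ Q → 4 ≤ (𝒞[t] : Subgroup G).relIndex V
  c4 : 𝒞(Q₂).relIndex V = 4
  off : ∃ A ∈ maxElemIn 2 T, A ⊔ Q = Q₂

/-- The natural `L₃(2)`-module: `⟨z⟩ < V ⊓ C(Q₂) < V` is the flag of `T`. -/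
structure T3 (M Q V T Q₁ Q₂ : Subgroup G) (x₁ x₂ z : G) : Prop extends TD M Q V T Q₁ Q₂ x₁ x₂ where
  c8 : Nat.card V = 8
  o168 : Q.relIndex M = 168
  z1 : z ≠ 1
  hZ : ZZ T = zpowers z
  c1 : V ⊓ 𝒞(Q₁) = zpowers z
  cm : ∀ v ∈ V, ∀ a ∈ Q₁, ⁅v, a⁆ ∈ zpowers z
  l4 : Nat.card ↥(V ⊓ 𝒞(Q₂)) = 4
  nl : ∀ v ∈ V, (∀ a ∈ Q₂, ⁅v, a⁆ ∈ zpowers z) → v ∈ 𝒞(Q₂)

/-- The first consequences of `T4`. -/
structure D4 (Q V T Q₁ Q₂ : Subgroup G) (x₁ : G) : Prop where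
  cZ : 𝒞(ZZ T) = T ⊔ zpowers x₁
  nZ : 𝒩(ZZ T) = T ⊔ zpowers x₁
  syl : IsSylowIn 2 T ⊤
  nT : 𝒩(T) = T
  c1 : V ⊓ 𝒞(Q₁) = ZZ T
  zj : zj 2 T = V ⊓ 𝒞(Q₂)
  J2 : JJ T ≤ Q₂
  J1 : ¬ JJ T ≤ Q₁
  cl : 𝒞((V ⊓ 𝒞(Q₂) : Subgroup G)) = Q₂

/-- The first consequences of `T3`. -/
structure D3 (M Q V T Q₂ : Subgroup G) (x₁ x₂ z : G) : Prop where
  z2 : ∀ u ∈ M, u * u = 1 → (∀ q ∈ Q, ⁅u, q⁆ ∈ zpowers z) → u ∈ V
  cz : (𝒞[z] : Subgroup G) = T ⊔ zpowers x₁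
  syl : IsSylowIn 2 T ⊤
  nT : 𝒩(T) = T
  cl : 𝒞((V ⊓ 𝒞(Q₂) : Subgroup G)) = Q₂
  nl : 𝒩((V ⊓ 𝒞(Q₂) : Subgroup G)) = T ⊔ zpowers x₂
  zq : ZZ Q₂ = V ⊓ 𝒞(Q₂)

/-- The first consequences of `TA` when `J(T) ≰ Q`. -/
structure DA (Q V T : Subgroup G) (x : G) : Prop where
  c16 : Nat.card V = 16
  z4 : Nat.card (ZZ T) = 4
  ct : ∀ t ∈ T, t ∉ Q → V ⊓ 𝒞[t] = ZZ T
  fx : ∀ z ∈ ZZ T, x * z = z * x → z = 1
  zj : zj 2 T = ZZ T

/-- one of the three types -/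
def Typ (M Q V T : Subgroup G) : Prop :=
  (∃ x, TA M Q V T x) ∨ TS M Q V T ∨ ∃ Q₁ Q₂ x₁ x₂, TD M Q V T Q₁ Q₂ x₁ x₂

/-- A self-centralizing `E₁₆` with automizer `A₅`, `S₅` or `A₆`. -/
structure Sm16 (V T : Subgroup G) : Prop where
  ea : IsElementaryAbelian 2 V
  c16 : Nat.card V = 16
  cV : 𝒞(V) ≤ V
  syl : IsSylowIn 2 T 𝒩(V)
  VT : V ≤ T
  fr : ∀ t ∈ T, t ∉ V → t * t ∈ V → Nat.card ↥(V ⊓ 𝒞[t]) = 4
  sh : (V.relIndex T = 4 ∧ ∀ t ∈ T, t * t ∈ V) ∨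
    (V.relIndex T = 8 ∧ ∃ a ∈ T, ∃ b ∈ T, ⁅a, b⁆ ∉ V)

/-- A 2-group `S` interchanging two `E₁₆`. -/
structure Sw16 (S T V V' : Subgroup G) : Prop where
  two : IsPGroup 2 S
  TS : T ≤ S
  i2 : T.relIndex S = 2
  ea : IsElementaryAbelian 2 V
  ea' : IsElementaryAbelian 2 V'
  c16 : Nat.card V = 16
  c16' : Nat.card V' = 16
  VT : V ≤ T
  VT' : V' ≤ T
  nV : T ≤ 𝒩(V)
  nV' : T ≤ 𝒩(V')
  sw : ∀ k ∈ S, k ∉ T → conjS k V = V' ∧ conjS k V' = V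
  l4 : Nat.card ↥(V ⊓ V') = 4
  nd : ∀ v ∈ V, v ∉ V' → ∀ w ∈ V', w ∉ V → v * w ≠ w * v
  i0 : (V ⊔ V').relIndex T ≤ 2
  act : ∀ t ∈ T, t ∉ V ⊔ V' → ∃ v ∈ V, ⁅t, v⁆ ∉ V'

end Amb

/-- The properties of a minimal simple counterexample with a non-solvable 2-local subgroup. -/
structure Gl (G : Type*) [Group G] : Prop where
  cl : Cl G
  o2 : ∀ X : Subgroup G, IsPGroup 2 X → X ≠ ⊥ → 𝒩(X) ≠ ⊤
  scN : ∀ X : Subgroup G, IsPGroup 2 X → X ≠ ⊥ → Sc 𝒩(X)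
  scC : ∀ X : Subgroup G, IsElementaryAbelian 2 X → X ≠ ⊥ → Sc 𝒞(X)
  ty : ∀ N X : Subgroup G, IsPGroup 2 X → X ≠ ⊥ → X ≤ N → N ≤ 𝒩(X) → Group.IsSolvable N ∨ Ty N
  rk : ∀ S : Subgroup G, IsSylowIn 2 S ⊤ → ¬ Sect.SR 16 S
  cs : ∀ S M : Subgroup G, IsSylowIn 2 S ⊤ → M ≠ ⊤ → 𝒞(ZZ S) ≤ M →
    ∃ C : Subgroup G, C ≤ bau 2 S ∧ C ≠ ⊥ ∧ 𝒩(bau 2 S) ≤ 𝒩(C) ∧ ¬ 𝒩(C) ≤ M
  cz : ∀ (S : Subgroup G) (z : G), IsSylowIn 2 S ⊤ → orderOf z = 2 → S ≤ 𝒞[z] →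
    ¬ (𝒞[z] : Subgroup G) ≤ 𝒩(S)

variable {G : Type*} [Group G] [Finite G] {x y : G}

theorem TG.symm {M Q T Q₁ Q₂ : Subgroup G} {x₁ x₂ : G} (d : TG M Q T Q₁ Q₂ x₁ x₂) :
    TG M Q T Q₂ Q₁ x₂ x₁ :=
  ⟨d.h2, d.h1, d.ne.symm, fun t ht e => (d.inv t ht e).symm, by rw [sup_comm, d.gen]⟩

theorem TD.symm {M Q V T Q₁ Q₂ : Subgroup G} {x₁ x₂ : G} (d : TD M Q V T Q₁ Q₂ x₁ x₂) :
    TD M Q V T Q₂ Q₁ x₂ x₁ := ⟨d.toTG.symm, d.cod, d.ord⟩

namespace Cl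

variable (h : Cl G)
include h

theorem of_inj {A : Type*} [Group A] (f : A →* G) (hf : Function.Injective f) : Cl A := fun a => by
  rw [← orderOf_injective f hf]; exact h _

theorem sub (H : Subgroup G) : Cl H := h.of_inj H.subtype H.subtype_injective

theorem of_surj {A : Type*} [Group A] (f : G →* A) (hf : Function.Surjective f) : Cl A := fun a => by
  obtain ⟨g, rfl⟩ := hf a
  exact (Nat.le_of_dvd (orderOf_pos g) (orderOf_map_dvd f g)).trans (h g)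

theorem of_equiv {A : Type*} [Group A] (e : G ≃* A) : Cl A := h.of_surj e.toMonoidHom e.surjective

theorem quot (N : Subgroup G) [N.Normal] : Cl (G ⧸ N) := h.of_surj _ (QuotientGroup.mk'_surjective N)

theorem comm (hc : x * y = y * x) {r s : ℕ} (hr : r ∣ orderOf x) (hs : s ∣ orderOf y)
    (cop : r.Coprime s) : r * s ≤ 8 := by
  have o1 := orderOf_pow_orderOf_div (orderOf_pos x).ne' hr
  have o2 := orderOf_pow_orderOf_div (orderOf_pos y).ne' hs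
  have := h (x ^ (orderOf x / r) * y ^ (orderOf y / s))
  rwa [(Commute.pow_pow hc _ _).orderOf_mul_eq_mul_orderOf_of_coprime (by rwa [o1, o2]), o1, o2] at this

theorem primes {p : ℕ} (hp : p.Prime) (hd : p ∣ Nat.card G) : p = 2 ∨ p = 3 ∨ p = 5 ∨ p = 7 := by
  have := Fact.mk hp
  obtain ⟨g, hg⟩ := exists_prime_orderOf_dvd_card' p hd
  have h1 := h g
  have h2 := hp.two_le
  rw [hg] at h1
  interval_cases p <;> simp_all (config := {decide := true})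

/-- `x ^ n` has exponent `p` with `n p > 8` -/
theorem pow_eq_one {n p : ℕ} (hp : p.Prime) (hn : n ∣ orderOf x) (h8 : 8 < n * p)
    (e : (x ^ n) ^ p = 1) : x ^ n = 1 := by
  by_contra h1
  have := Fact.mk hp
  have h2 := orderOf_eq_prime e h1
  have n0 : n ≠ 0 := by rintro rfl; simp at h8
  rw [orderOf_pow_of_dvd n0 hn] at h2
  have := Nat.mul_div_cancel' hn
  have := h x
  rw [h2] at *
  omega

theorem pow_840 (x : G) : x ^ 840 = 1 := by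
  have h1 := h x
  have h2 := orderOf_pos x
  refine orderOf_dvd_iff_pow_eq_one.1 ?_
  generalize orderOf x = n at *
  interval_cases n <;> norm_num

theorem cube {k : ℕ} (e : x ^ 3 ^ k = 1) : x ^ 3 = 1 := by
  have h1 := orderOf_dvd_iff_pow_eq_one.2 e
  have h2 := orderOf_dvd_iff_pow_eq_one.2 (h.pow_840 x)
  refine orderOf_dvd_iff_pow_eq_one.1 (Nat.Coprime.dvd_of_dvd_mul_right (m := 3) (n := 280) ?_ h2)
  exact Nat.Coprime.coprime_dvd_left h1 (Nat.Coprime.pow_left k (by norm_num))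

theorem cube_of_mem {P : Subgroup G} (hP : IsPGroup 3 P) (hx : x ∈ P) : x ^ 3 = 1 := by
  obtain ⟨k, hk⟩ := hP ⟨x, hx⟩
  exact h.cube (congrArg Subtype.val hk)

/-- the centralizer of an element of order `p = 5, 7` has exponent `p` -/
theorem big {p : ℕ} (hp : p = 5 ∨ p = 7) (hx : p ∣ orderOf x) (hc : x * y = y * x) : y ^ p = 1 := by
  have h1 := h y
  have h2 := orderOf_pos y
  have h3 := fun e => h.comm hc hx (s := 2) e (by rcases hp with rfl | rfl <;> norm_num)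
  have h4 := fun e => h.comm hc hx (s := 3) e (by rcases hp with rfl | rfl <;> norm_num)
  have h5 := fun e => h.comm hc hx (s := 12 - p) e (by rcases hp with rfl | rfl <;> norm_num)
  refine orderOf_dvd_iff_pow_eq_one.1 ?_
  generalize orderOf y = n at *
  rcases hp with rfl | rfl <;> interval_cases n <;> simp_all

theorem big_cop {p n : ℕ} (hp : p = 5 ∨ p = 7) (hx : p ∣ orderOf x) (hc : x * y = y * x)
    (e : y ^ n = 1) (cop : p.Coprime n) : y = 1 :=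
  orderOf_eq_one_iff.1 (Nat.eq_one_of_dvd_coprimes cop
    (orderOf_dvd_iff_pow_eq_one.2 (h.big hp hx hc)) (orderOf_dvd_iff_pow_eq_one.2 e))

/-- elements of order five and seven act without fixed points on 2-groups -/
theorem fpf {Q : Subgroup G} (hQ : IsPGroup 2 Q) {f : G} (hf : 5 ∣ orderOf f ∨ 7 ∣ orderOf f) :
    ∀ q ∈ Q, f * q = q * f → q = 1 := fun q hq e => by
  obtain ⟨k, hk⟩ := hQ ⟨q, hq⟩
  rcases hf with hf | hf
  · exact h.big_cop (.inl rfl) hf e (congrArg Subtype.val hk) (Nat.Coprime.pow_right k (by norm_num))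
  · exact h.big_cop (.inr rfl) hf e (congrArg Subtype.val hk) (Nat.Coprime.pow_right k (by norm_num))

theorem fpf' {Q : Subgroup G} (hQ : IsPGroup 2 Q) {f : G} (hf : orderOf f = 5 ∨ orderOf f = 7) :
    ∀ q ∈ Q, f * q = q * f → q = 1 := h.fpf hQ (hf.imp (fun e => by rw [e]) fun e => by rw [e])

/-- a 2-element centralizing an element of order three is an involution -/
theorem three (hx : 3 ∣ orderOf x) (hc : x * y = y * x) {k : ℕ} (e : y ^ 2 ^ k = 1) : y * y = 1 := by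
  have h3 := fun e => h.comm hc hx (s := 4) e (by norm_num)
  obtain ⟨i, -, hi⟩ := (Nat.dvd_prime_pow Nat.prime_two).1 (orderOf_dvd_iff_pow_eq_one.2 e)
  rw [← pow_two, ← orderOf_dvd_iff_pow_eq_one, hi]
  rcases i with _ | _ | i
  · norm_num
  · norm_num
  · have := h3 (hi ▸ ⟨2 ^ i, by ring⟩)
    omega

theorem three_sq {R : Subgroup G} (hR : IsPGroup 2 R) (hx : 3 ∣ orderOf x) {a : G} (ha : a ∈ R)
    (hc : x * a = a * x) : a * a = 1 := by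
  obtain ⟨k, hk⟩ := hR ⟨a, ha⟩
  exact h.three hx hc (congrArg Subtype.val hk)

/-- `C_R(x)` is abelian for a 2-group `R` and `x` of order three -/
theorem three_comm {R : Subgroup G} (hR : IsPGroup 2 R) (hx : 3 ∣ orderOf x) {a b : G} (ha : a ∈ R)
    (hb : b ∈ R) (ca : x * a = a * x) (cb : x * b = b * x) : a * b = b * a := by
  have h1 := h.three_sq hR hx ha ca
  have h2 := h.three_sq hR hx hb cb
  have h3 := h.three_sq hR hx (mul_mem ha hb) (by rw [← mul_assoc, ca, mul_assoc, cb, mul_assoc])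
  rw [eq_inv_of_mul_eq_one_left h3, mul_inv_rev, inv_eq_of_mul_eq_one_right h1,
    inv_eq_of_mul_eq_one_right h2]

/-- the centralizer of an involution is a `{2, 3}`-group -/
theorem cent23 (hx : orderOf x = 2) {H : Subgroup G} (hH : H ≤ 𝒞[x]) {p : ℕ} (hp : p.Prime)
    (hd : p ∣ Nat.card H) : p = 2 ∨ p = 3 := by
  have := Fact.mk hp
  obtain ⟨g, hg⟩ := exists_prime_orderOf_dvd_card' p hd
  have hc := mem_centralizer_singleton_iff.1 (hH g.2)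
  rcases (h.sub H).primes hp hd with e | e | e | e
  · exact .inl e
  · exact .inr e
  all_goals
    subst e
    have := h.comm hc (r := _) (s := 2) (by rw [orderOf_coe, hg]) (by rw [hx]) (by norm_num)
    omega

theorem solvable_cent (hx : orderOf x = 2) {H : Subgroup G} (hH : H ≤ 𝒞[x]) :
    Group.IsSolvable H := by
  refine Char.isSolvable_of_card_primeFactors_le_two
    ((Finset.card_le_card (t := {2, 3}) fun p hp => ?_).trans (by simp))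
  rcases h.cent23 hx hH (Nat.prime_of_mem_primeFactors hp) (Nat.dvd_of_mem_primeFactors hp) with
    rfl | rfl <;> simp

/-- a power of `g` of order dividing `n` in the same coset -/
theorem pow_lift (g : G) {n : ℕ} (hn : n = 3 ∨ n = 5 ∨ n = 7) :
    ∃ a, (g ^ (n * a + 1)) ^ n = 1 := by
  have h1 := h.pow_840 g
  rcases hn with rfl | rfl | rfl
  · exact ⟨93, by rw [← pow_mul, show (3 * 93 + 1) * 3 = 840 from rfl, h1]⟩
  · exact ⟨67, by rw [← pow_mul, show (5 * 67 + 1) * 5 = 840 * 2 from rfl, pow_mul, h1, one_pow]⟩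
  · exact ⟨17, by rw [← pow_mul, show (7 * 17 + 1) * 7 = 840 from rfl, h1]⟩

theorem lift {L : Type*} [Group L] (π : G →* L) (hπ : Function.Surjective π) {s : L} {n : ℕ}
    (hn : n = 3 ∨ n = 5 ∨ n = 7) (ho : s ^ n = 1) : ∃ g, π g = s ∧ g ^ n = 1 := by
  obtain ⟨g, rfl⟩ := hπ s
  obtain ⟨a, ha⟩ := h.pow_lift g hn
  exact ⟨_, by rw [map_pow, pow_succ, pow_mul, ho, one_pow, one_mul], ha⟩

theorem lift' {L : Type*} [Group L] (π : G →* L) (hπ : Function.Surjective π) {s : L} {n : ℕ}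
    (hn : n = 3 ∨ n = 5 ∨ n = 7) (ho : orderOf s = n) : ∃ g, π g = s ∧ orderOf g = n := by
  obtain ⟨g, rfl, hg⟩ := h.lift π hπ hn (ho ▸ pow_orderOf_eq_one s)
  exact ⟨g, rfl, Nat.dvd_antisymm (orderOf_dvd_of_pow_eq_one hg) (ho ▸ orderOf_map_dvd π g)⟩

/-- Mazurov's lemma: a Frobenius section acting on an elementary abelian normal subgroup -/
theorem maz1 {L : Type*} [Group L] (π : G →* L) (hπ : Function.Surjective π)
    {V : Subgroup G} [hN : V.Normal] {p : ℕ} (hp : p.Prime) (hV : IsElementaryAbelian p V)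
    (hk : ∀ g, π g = 1 → ∀ v ∈ V, g * v = v * g) (hk' : ∀ v ∈ V, π v = 1)
    (F : Subgroup L) (s : G) (m : ℕ) (hF : ∀ f ∈ F, π s * f * (π s)⁻¹ ∈ F)
    (fpf : ∀ i, i < m → ∀ f ∈ F, f * π s ^ (i + 1) = π s ^ (i + 1) * f → f = 1)
    (cop : (Nat.card F).Coprime p) (ho : orderOf (π s) = m + 1) (hs : s ^ (m + 1) ∈ V)
    (h8 : 8 < (m + 1) * p) {g : G} (hg : π g ∈ F) {v : G} (hv : v ∈ V) : g * v = v * g := by
  have := Fact.mk hp
  obtain ⟨k, hk2⟩ := IsPGroup.iff_card.1 (Core.isElementaryAbelian_isPGroup hV)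
  have key : ∀ v ∈ V, (v * s) ^ (m + 1) = 1 := fun v hv => by
    refine h.pow_eq_one hp ?_ h8 (hV.2 _ ?_)
    · rw [← ho, ← one_mul (π s), ← hk' v hv, ← map_mul]; exact orderOf_map_dvd π _
    · rw [← QuotientGroup.eq_one_iff, QuotientGroup.mk_pow, QuotientGroup.mk_mul,
        (QuotientGroup.eq_one_iff v).2 hv, one_mul, ← QuotientGroup.mk_pow, QuotientGroup.eq_one_iff]
      exact hs
  refine Ord6.maz π hπ (fun a ha b hb => have := hV.1; setLike_mul_comm ha hb) hk F s m hF fpf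
    (hk2 ▸ cop.pow_right k) (fun v hv => ?_) hg hv
  have h1 := Agent.S3703.pow_mul_eq v s (m + 1)
  rw [key v hv, show s ^ (m + 1) = 1 by simpa using key 1 (one_mem V), mul_one] at h1
  exact h1.symm

end Cl

theorem Gl.scz (g : Gl G) {z : G} (hz : orderOf z = 2) : Sc (𝒞[z] : Subgroup G) := by
  have := Fact.mk Nat.prime_two
  have e := g.scC (zpowers z) ⟨inferInstance, fun a ha =>
    orderOf_dvd_iff_pow_eq_one.1 (hz ▸ orderOf_dvd_of_mem_zpowers ha)⟩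
    (fun e => by rw [zpowers_eq_bot] at e; simp [e] at hz)
  rwa [BG.cent_zpowers] at e

end CfsgLib.O8
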