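import Mathlib
import Cfsg.Agent.Lib.O8.Defs

/-! Elements of order three acting on 2-groups. -/

set_option autoImplicit false
set_option linter.unusedSectionVars false

namespace CfsgLib.O8

open Cfsg Subgroup CfsgLib.LAE CfsgLib.PLocal CfsgLib.ZJ CfsgLib.Blocks
open scoped CfsgLib.BG MatrixGroups commutatorElement

universe u

variable {G : Type*} [Group G] [Finite G] {R : Subgroup G}

theorem cx_cop (hR : IsPGroup 2 R) {x : G} (x3 : orderOf x = 3) :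
    (Nat.card R).Coprime (Nat.card (zpowers x)) := by
  have := Fact.mk Nat.prime_two
  obtain ⟨k, hk⟩ := IsPGroup.iff_card.1 hR
  rw [hk, Nat.card_zpowers, x3]
  exact Nat.Coprime.pow_left k (by norm_num)

theorem cx_solv (hR : IsPGroup 2 R) : Group.IsSolvable R :=
  have := Fact.mk Nat.prime_two
  have := hR.isNilpotent
  inferInstance

theorem cx_conj {g r : G} (hg : g ∈ 𝒩(R)) (hr : r ∈ R) : g * r * g⁻¹ ∈ R :=
  (mem_normalizer_iff.1 hg r).1 hr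

/-- `x` fixes an element of every coset it fixes -/
theorem cx_fix (hR : IsPGroup 2 R) {x t : G} (x3 : orderOf x = 3) (hx : x ∈ 𝒩(R))
    (ht : t ∈ 𝒩(R)) (hc : ⁅x, t⁆ ∈ R) : ∃ q ∈ R, x * (q * t) = q * t * x := by
  have h1 : ∀ n : ℕ, ⁅t, x ^ n⁆ ∈ R := fun n => by
    induction n with
    | zero => simp
    | succ n ih =>
      have := mul_mem ih (cx_conj (pow_mem hx n) (inv_mem hc))
      convert this using 1
      simp only [commutatorElement_def]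
      group
  have h2 := BG.coprime_cent_mod (H := 𝒩(R)) (N := R) (A := zpowers x) ⟨le_normalizer, le_rfl⟩
    (zpowers_le.2 hx) (cx_cop hR x3) (.inr (cx_solv hR)) ht fun a ha => by
      obtain ⟨n, rfl⟩ := (mem_powers_iff_mem_zpowers.2 ha : a ∈ Submonoid.powers x)
      exact h1 n
  obtain ⟨r, hr, c, hc', rfl⟩ := (Core.mem_sup_of_le_normalizer_left inf_le_left).1 h2
  exact ⟨r⁻¹, inv_mem hr, by
    rw [inv_mul_cancel_left]; exact mem_centralizer_iff.1 hc'.2 x (mem_zpowers x)⟩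

theorem cx_sq {t q : G} (ht : t ∈ 𝒩(R)) (h2 : t * t ∈ R) (hq : q ∈ R) : q * t * (q * t) ∈ R := by
  convert mul_mem (mul_mem hq (cx_conj ht hq)) h2 using 1
  group

theorem cx_inv (h : Cl G) (hR : IsPGroup 2 R) {x c : G} (x3 : orderOf x = 3) (hc : x * c = c * x)
    (h2 : c * c ∈ R) : c * c = 1 := by
  obtain ⟨k, hk⟩ := hR ⟨_, h2⟩
  exact h.three (k := k + 1) (by rw [x3]) hc (by
    rw [pow_succ', pow_mul, pow_two]; exact congrArg Subtype.val hk)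

theorem Cl.cx (h : Cl G) (hR : IsPGroup 2 R) {x t : G} (x3 : orderOf x = 3) (hx : x ∈ 𝒩(R))
    (ht : t ∈ 𝒩(R)) (hc : ⁅x, t⁆ ∈ R) (h2 : t * t ∈ R) : ∃ q ∈ R, x * (q * t) = q * t * x ∧
      q * t * (q * t) = 1 ∧ ∀ c ∈ R, x * c = c * x → q * t * c = c * (q * t) := by
  obtain ⟨q, hq, e⟩ := cx_fix hR x3 hx ht hc
  have h1 := cx_inv h hR x3 e (cx_sq ht h2 hq)
  refine ⟨q, hq, e, h1, fun c hc ec => ?_⟩
  have h3 := h.three_sq hR (by rw [x3]) hc ec
  have h4 := cx_inv h hR x3 (c := c * (q * t)) (by rw [← mul_assoc, ec, mul_assoc, e, mul_assoc c])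
    (cx_sq (mul_mem (le_normalizer hq) ht) (h1 ▸ one_mem R) hc)
  rw [eq_inv_of_mul_eq_one_left h4, mul_inv_rev, inv_eq_of_mul_eq_one_right h1,
    inv_eq_of_mul_eq_one_right h3]

theorem Cl.cen_of (h : Cl G) (hR : IsPGroup 2 R) {x w : G} (x3 : orderOf x = 3) (hx : x ∈ 𝒩(R))
    (hw : w ∈ R) (c : x * w = w * x) (hc : ∀ r ∈ R, w * ⁅x, r⁆ = ⁅x, r⁆ * w) : w ∈ 𝒞(R) := by
  have h1 : R ≤ 𝒞[w] := by
    rw [← BG.coprime_cent_prod (zpowers_le.2 hx) (cx_cop hR x3) (cx_solv hR)]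
    have hx' : x ∈ (𝒞[w] : Subgroup G) := mem_centralizer_singleton_iff.2 c
    refine sup_le (commutator_le.2 fun r hr a ha => ?_) fun a ha => mem_centralizer_singleton_iff.2
      (h.three_comm hR (by rw [x3]) ha.1 hw (mem_centralizer_iff.1 ha.2 x (mem_zpowers x)) c)
    obtain ⟨n, rfl⟩ := mem_zpowers_iff.1 ha
    have h2 := mul_mem (inv_mem (mem_centralizer_singleton_iff.2 (hc r hr).symm)) hx'
    convert mul_mem (zpow_mem h2 n) (inv_mem (zpow_mem hx' n)) using 1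
    rw [commutatorElement_def, ← conj_zpow, commutatorElement_def]
    group
  exact mem_centralizer_iff.2 fun r hr => mem_centralizer_singleton_iff.1 (h1 hr)

theorem Cl.lam (h : Cl G) (hR : IsPGroup 2 R) {x w : G} (x3 : orderOf x = 3) (hx : x ∈ 𝒩(R))
    (hw : w ∈ R) (c : x * w = w * x) (hc : ∀ r ∈ R, ⁅w, r⁆ ∈ 𝒞(R) ∧ x * ⁅w, r⁆ = ⁅w, r⁆ * x) :
    w ∈ 𝒞(R) := by
  refine h.cen_of hR x3 hx hw c fun r hr => ?_
  obtain ⟨h1, h2⟩ := hc r hr
  have h3 := mem_centralizer_iff.1 h1 _ (mul_mem (cx_conj hx hr) (inv_mem hr))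
  have c' : w * x * w⁻¹ = x := by rw [← c, mul_inv_cancel_right]
  have h4 : w * r * w⁻¹ = ⁅w, r⁆ * r := by rw [commutatorElement_def]; group
  rw [← mul_inv_eq_iff_eq_mul, commutatorElement_def x]
  calc w * (x * r * x⁻¹ * r⁻¹) * w⁻¹
      = (w * x * w⁻¹) * (w * r * w⁻¹) * (w * x * w⁻¹)⁻¹ * (w * r * w⁻¹)⁻¹ := by group
    _ = (x * ⁅w, r⁆) * r * x⁻¹ * r⁻¹ * ⁅w, r⁆⁻¹ := by rw [c', h4]; group
    _ = ⁅w, r⁆ * (x * r * x⁻¹ * r⁻¹) * ⁅w, r⁆⁻¹ := by rw [h2]; group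
    _ = _ := by rw [← h3, mul_inv_cancel_right]

theorem Cl.ylem (h : Cl G) (hR : IsPGroup 2 R) {y d s : G} (y3 : orderOf y = 3) (d3 : orderOf d = 3)
    (yd : y * d = d * y) (hy : y ∈ 𝒩(R)) (hd : d ∈ 𝒩(R)) (hs : s ∈ 𝒩(R)) (s2 : s * s ∈ R)
    (ys : ⁅y, s⁆ ∈ R) (ds : s * d * s⁻¹ * d ∈ R) : ∀ c ∈ R, y * c = c * y → d * c = c * d := by
  obtain ⟨q, hq, e, -, hu⟩ := h.cx hR y3 hy hs ys s2
  have h1 : q * s * d * (q * s)⁻¹ * d ∈ R := by
    convert mul_mem (mul_mem hq (cx_conj (mul_mem (mul_mem hs hd) (inv_mem hs)) (inv_mem hq))) ds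
      using 1
    group
  generalize q * s = u at e hu h1
  have ce : Commute y u := e
  have cd : Commute y d := yd
  have h2 : Commute y (u * d * u⁻¹ * d) := ((ce.mul_right cd).mul_right ce.inv_right).mul_right cd
  have st : ∀ c ∈ R, Commute y c → d * c * d⁻¹ ∈ R ∧ Commute y (d * c * d⁻¹) := fun c hc cc =>
    ⟨cx_conj hd hc, (cd.mul_right cc).mul_right cd.inv_right⟩
  intro c hc cc
  obtain ⟨a1, a2⟩ := st c hc cc
  obtain ⟨b1, b2⟩ := st _ a1 a2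
  have h3 := h.three_comm hR (by rw [y3]) h1 hc h2 cc
  have h4 := hu _ a1 a2
  have h5 := hu _ b1 b2
  have h6 : d * (d * c * d⁻¹) * d⁻¹ = c :=
    calc d * (d * c * d⁻¹) * d⁻¹ = u * (d * (d * c * d⁻¹) * d⁻¹) * u⁻¹ := by
          rw [h5, mul_inv_cancel_right]
      _ = u * (d * (u⁻¹ * (d * c * d⁻¹ * u)) * d⁻¹) * u⁻¹ := by rw [← h4, inv_mul_cancel_left]
      _ = u * d * u⁻¹ * d * c * (u * d * u⁻¹ * d)⁻¹ := by group
      _ = c := by rw [h3, mul_inv_cancel_right]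
  have h7 : Commute (d ^ 2) c := by
    rw [Commute, SemiconjBy, ← mul_inv_eq_iff_eq_mul]
    convert h6 using 1
    rw [pow_two]; group
  have h8 : d = (d ^ 2) ^ 2 := by
    rw [← pow_mul, show 2 * 2 = 3 + 1 from rfl, pow_succ, ← d3, pow_orderOf_eq_one, one_mul]
  exact h8 ▸ h7.pow_left 2

theorem card_mod {X : Subgroup G} {f : G} {p : ℕ} (hp : p.Prime) (ho : orderOf f = p)
    (hf : f ∈ 𝒩(X)) (fp : ∀ q ∈ X, f * q = q * f → q = 1) : Nat.card X % p = 1 := by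
  have := Fact.mk hp
  let P := zpowers (⟨f, hf⟩ : 𝒩(X))
  have hP : IsPGroup p P := IsPGroup.of_card (n := 1) (by rw [Nat.card_zpowers, orderOf_mk, ho, pow_one])
  let _ : MulAction P X := MulAction.compHom X (X.normalizerMonoidHom.comp P.subtype)
  have h1 := hP.card_modEq_card_fixedPoints X
  have h2 : MulAction.fixedPoints P X = {1} := by
    ext a
    refine ⟨fun ha => Subtype.ext (fp _ a.2 ?_), ?_⟩
    · exact mul_inv_eq_iff_eq_mul.1 (congrArg Subtype.val (ha ⟨_, mem_zpowers _⟩))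
    · rintro rfl g
      exact map_one (X.normalizerMonoidHom g)
  rw [h2, Nat.card_coe_set_eq, Set.ncard_singleton] at h1
  exact Eq.trans h1 (Nat.mod_eq_of_lt hp.one_lt)

theorem Cl.comm3 (h : Cl G) (hR : IsPGroup 2 R) {x y : G} (x3 : orderOf x = 3) (y3 : orderOf y = 3)
    (hx : x ∈ 𝒩(R)) (hy : y ∈ 𝒩(R)) (hc : ⁅x, y⁆ ∈ R) :
    ∃ r ∈ R, orderOf (r * y) = 3 ∧ x * (r * y) = r * y * x := by
  have := Fact.mk Nat.prime_three
  obtain ⟨q, hq, e⟩ := cx_fix hR x3 hx hy hc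
  obtain ⟨a, ha⟩ := h.pow_lift (q * y) (n := 3) (.inl rfl)
  have y1 : y * y * y = 1 := by rw [← pow_three', ← y3, pow_orderOf_eq_one]
  have h1 : (q * y) ^ 3 ∈ R := by
    convert mul_mem (mul_mem hq (cx_conj hy hq)) (cx_conj (mul_mem hy hy) hq) using 1
    rw [pow_three', mul_inv_rev, ← mul_one (q * y * (q * y) * (q * y)), ← inv_one, ← y1]
    group
  have h2 : ((q * y) ^ 3) ^ a * q * y = (q * y) ^ (3 * a + 1) := by
    rw [pow_succ _ (3 * a), pow_mul, mul_assoc]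
  have h3 := mul_mem (pow_mem h1 a) hq
  refine ⟨_, h3, ?_, ?_⟩
  · refine orderOf_eq_prime (h2 ▸ ha) fun e1 => ?_
    obtain ⟨k, hk⟩ := hR ⟨y, by rw [eq_inv_of_mul_eq_one_right e1]; exact inv_mem h3⟩
    have h4 := orderOf_dvd_of_pow_eq_one (congrArg Subtype.val hk : y ^ 2 ^ k = 1)
    exact absurd (Nat.prime_three.dvd_of_dvd_pow (y3 ▸ h4)) (by norm_num)
  · rw [h2]
    exact Commute.pow_right e _

end CfsgLib.O8
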