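import Mathlib
import Cfsg.Agent.Lib.O8.Cx

/-! Groups of order nine acting on 2-groups. -/

set_option autoImplicit false
set_option linter.unusedSectionVars false

namespace CfsgLib.O8

open Cfsg Subgroup CfsgLib.LAE CfsgLib.PLocal CfsgLib.ZJ CfsgLib.Blocks
open scoped CfsgLib.BG MatrixGroups commutatorElement

universe u

variable {G : Type*} [Group G] [Finite G] {R : Subgroup G}

theorem cy_mem {y d e : G} (y3 : orderOf y = 3) (d3 : orderOf d = 3) (yd : y * d = d * y)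
    (he : e ∈ zpowers y ⊔ zpowers d) : ∃ i < 3, ∃ j < 3, e = y ^ i * d ^ j := by
  classical
  obtain ⟨a, ha, b, hb, rfl⟩ := (Core.mem_sup_of_le_normalizer_right (zpowers_le.2
    (centralizer_le_normalizer _ (by
      rw [BG.cent_zpowers]; exact mem_centralizer_singleton_iff.2 yd)))).1 he
  rw [mem_zpowers_iff_mem_range_orderOf, Finset.mem_image] at ha hb
  obtain ⟨i, hi, rfl⟩ := ha
  obtain ⟨j, hj, rfl⟩ := hb
  exact ⟨i, y3 ▸ Finset.mem_range.1 hi, j, d3 ▸ Finset.mem_range.1 hj, rfl⟩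

theorem cy_cube {y d e : G} (y3 : orderOf y = 3) (d3 : orderOf d = 3) (yd : y * d = d * y)
    (he : e ∈ zpowers y ⊔ zpowers d) : e ^ 3 = 1 := by
  obtain ⟨i, -, j, -, rfl⟩ := cy_mem y3 d3 yd he
  rw [(Commute.pow_pow yd i j).mul_pow, pow_right_comm y, pow_right_comm d, ← y3, pow_orderOf_eq_one, y3,
    ← d3, pow_orderOf_eq_one]
  simp

theorem cy_cop (hR : IsPGroup 2 R) {y d : G} (y3 : orderOf y = 3) (d3 : orderOf d = 3)
    (yd : y * d = d * y) : (Nat.card R).Coprime (Nat.card ↥(zpowers y ⊔ zpowers d)) := by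
  have := Fact.mk Nat.prime_three
  have p3 : IsPGroup 3 ↥(zpowers y ⊔ zpowers d) := fun e =>
    ⟨1, Subtype.ext (cy_cube y3 d3 yd e.2)⟩
  exact IsPGroup.coprime_card_of_ne 2 3 (by norm_num) _ _ hR p3

theorem gen9 (hR : IsPGroup 2 R) {y d : G} (y3 : orderOf y = 3) (d3 : orderOf d = 3)
    (yd : y * d = d * y) (nd : d ∉ zpowers y) (hy : y ∈ 𝒩(R)) (hd : d ∈ 𝒩(R)) {K : Subgroup G}
    (h1 : R ⊓ 𝒞[y] ≤ K) (h2 : R ⊓ 𝒞[d] ≤ K) (h3 : R ⊓ 𝒞[y * d] ≤ K) (h4 : R ⊓ 𝒞[y * d⁻¹] ≤ K) :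
    R ≤ K := by
  have di : d⁻¹ = d ^ 2 := inv_eq_of_mul_eq_one_right (by
    rw [← pow_succ']; exact orderOf_dvd_iff_pow_eq_one.1 d3.dvd)
  rw [di] at h4
  refine BG.coprime_abelian_gen_cent1_le (A := zpowers y ⊔ zpowers d) ⟨⟨fun a b => Subtype.ext ?_⟩⟩
    (fun hc => nd ?_) (sup_le (zpowers_le.2 hy) (zpowers_le.2 hd)) (cy_cop hR y3 d3 yd) fun a ha a1 => ?_
  · obtain ⟨i, -, j, -, e⟩ := cy_mem y3 d3 yd a.2
    obtain ⟨k, -, l, -, e'⟩ := cy_mem y3 d3 yd b.2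
    have c : Commute y d := yd
    rw [coe_mul, coe_mul, e, e']
    exact (((Commute.refl y).pow_pow _ _).mul_right (c.pow_pow _ _)).mul_left
      ((c.symm.pow_pow _ _).mul_right ((Commute.refl d).pow_pow _ _))
  · obtain ⟨g, hg⟩ := hc.exists_generator
    have := Nat.le_of_dvd three_pos (orderOf_dvd_of_pow_eq_one
      (show g ^ 3 = 1 from Subtype.ext (cy_cube y3 d3 yd g.2)))
    rw [orderOf_eq_card_of_forall_mem_zpowers hg] at this
    rw [eq_of_le_of_card_ge (le_sup_left (a := zpowers y) (b := zpowers d))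
      (by rwa [Nat.card_zpowers, y3])]
    exact mem_sup_right (mem_zpowers d)
  obtain ⟨i, hi, j, hj, rfl⟩ := cy_mem y3 d3 yd ha
  have sq : R ⊓ 𝒞[y ^ (i * 2 % 3) * d ^ (j * 2 % 3)] ≤ K → R ⊓ 𝒞[y ^ i * d ^ j] ≤ K := fun e =>
    le_trans (inf_le_inf_left _ fun x hx => mem_centralizer_singleton_iff.2 (by
      rw [← y3, pow_mod_orderOf, y3, ← d3, pow_mod_orderOf, pow_mul, pow_mul,
        ← (Commute.pow_pow yd i j).mul_pow]
      exact Commute.pow_right (mem_centralizer_singleton_iff.1 hx) 2)) e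
  interval_cases i <;> interval_cases j
  · simp at a1
  all_goals first | simpa | exact sq (by simpa)

theorem Cl.cen9 (h : Cl G) (hR : IsPGroup 2 R) {y d c : G} (y3 : orderOf y = 3) (d3 : orderOf d = 3)
    (yd : y * d = d * y) (nd : d ∉ zpowers y) (hy : y ∈ 𝒩(R)) (hd : d ∈ 𝒩(R)) (hc : c ∈ R)
    (cy : y * c = c * y) (cd : d * c = c * d) : c ∈ 𝒞(R) := by
  have := Fact.mk Nat.prime_three
  have key : ∀ e, orderOf e = 3 → Commute e c → R ⊓ 𝒞[e] ≤ 𝒞[c] := fun e e3 ec x hx =>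
    mem_centralizer_singleton_iff.2 (h.three_comm hR (by rw [e3]) hx.1 hc
      (mem_centralizer_singleton_iff.1 hx.2).symm ec)
  have o : ∀ e ∈ zpowers d, d ∈ zpowers e → orderOf (y * e) = 3 := fun e he he' =>
    orderOf_eq_prime (cy_cube y3 d3 yd (mul_mem_sup (mem_zpowers y) he)) fun e1 => nd
      (zpowers_le.2 (eq_inv_of_mul_eq_one_right e1 ▸ inv_mem (mem_zpowers y)) he')
  have le := gen9 hR y3 d3 yd nd hy hd (key y y3 cy) (key d d3 cd)
    (key _ (o d (mem_zpowers d) (mem_zpowers d)) (Commute.mul_left cy cd))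
    (key _ (o _ (inv_mem (mem_zpowers d)) (by simp)) (Commute.mul_left cy (Commute.inv_left cd)))
  exact fun r hr => mem_centralizer_singleton_iff.1 (le hr)

theorem Cl.ex9 (h : Cl G) {X : Subgroup G} (h9 : 9 ∣ Nat.card X) : ∃ y ∈ X, ∃ d ∈ X,
    orderOf y = 3 ∧ orderOf d = 3 ∧ y * d = d * y ∧ d ∉ zpowers y := by
  have := Fact.mk Nat.prime_three
  obtain ⟨P, hP⟩ := Sylow.exists_subgroup_card_pow_prime 3 (n := 2) (G := X) h9
  have o : ∀ a : P, a ≠ 1 → orderOf ((a : X) : G) = 3 := fun a a1 => by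
    obtain ⟨k, hk⟩ := IsPGroup.of_card hP a
    exact orderOf_eq_prime (h.cube (congrArg (fun x : P => ((x : X) : G)) hk))
      fun e => a1 (Subtype.ext (Subtype.ext e))
  have : Nontrivial P := Finite.one_lt_card_iff_nontrivial.1 (by rw [hP]; norm_num)
  obtain ⟨y, y1⟩ := exists_ne (1 : P)
  obtain ⟨d, hd⟩ : ∃ d, d ∉ zpowers y := by
    by_contra! e
    have := o y y1
    rw [orderOf_coe, orderOf_coe, orderOf_eq_card_of_forall_mem_zpowers e, hP] at this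
    omega
  refine ⟨_, (y : X).2, _, (d : X).2, o y y1, o d fun e => hd (e ▸ one_mem _),
    congrArg (fun x : P => ((x : X) : G)) ((IsPGroup.isMulCommutative_of_card_eq_prime_sq hP).1.1 y d),
    fun ⟨n, hn⟩ => hd ⟨n, Subtype.ext (Subtype.ext hn)⟩⟩

theorem Cl.inv9 (h : Cl G) (hR : IsPGroup 2 R) (cR : 𝒞(R) ≤ R) {X : Subgroup G} (hX : X ≤ 𝒩(R))
    (h9 : 9 ∣ Nat.card X) {s : G} (hs : s ∈ 𝒩(R)) (s2 : s * s ∈ R) (hc : ∀ e ∈ X, ⁅e, s⁆ ∈ R) :
    s ∈ R := by
  obtain ⟨y, hy, d, hd, y3, d3, yd, nd⟩ := h.ex9 h9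
  have cj : ∀ a ∈ 𝒩(R), ∀ r ∈ R, a * r * a⁻¹ ∈ R := fun a ha r hr => (ha r).1 hr
  have K2 : IsPGroup 2 ↥(R ⊔ zpowers s) := by
    obtain ⟨k, hk⟩ := hR ⟨_, s2⟩
    exact hR.to_sup_of_normal_left' (Core.isPGroup_zpowers_iff.2 ⟨k + 1, by
      rw [pow_succ', pow_mul, pow_two]; exact congrArg Subtype.val hk⟩) (zpowers_le.2 hs)
  have c : ⁅R ⊔ zpowers s, zpowers y ⊔ zpowers d⁆ ≤ R := by
    refine commutator_le.2 fun k hk e he => ?_
    have eX : e ∈ X := sup_le (zpowers_le.2 hy) (zpowers_le.2 hd) he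
    let D : Subgroup G :=
      { carrier := {k | k ∈ 𝒩(R) ∧ ⁅k, e⁆ ∈ R}
        one_mem' := ⟨one_mem _, by simp⟩
        mul_mem' := fun {a b} ha hb => ⟨mul_mem ha.1 hb.1, by
          convert mul_mem (cj a ha.1 _ hb.2) ha.2 using 1
          simp only [commutatorElement_def]; group⟩
        inv_mem' := fun {a} ha => ⟨inv_mem ha.1, by
          convert cj _ (inv_mem ha.1) _ (inv_mem ha.2) using 1
          simp only [commutatorElement_def]; group⟩ }
    refine ((sup_le (fun r hr => ⟨le_normalizer hr, ?_⟩) (zpowers_le.2 ⟨hs, ?_⟩) :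
      R ⊔ zpowers s ≤ D) hk).2
    · convert mul_mem hr (cj e (hX eX) _ (inv_mem hr)) using 1
      simp only [commutatorElement_def]; group
    · rw [← commutatorElement_inv]; exact inv_mem (hc e eX)
  have n := BG.commg_subl.1 (c.trans le_sup_left)
  have := Fact.mk Nat.prime_two
  have e := BG.coprime_cent_prod n (cy_cop K2 y3 d3 yd) (by have := K2.isNilpotent; infer_instance)
  refine (e.ge.trans (sup_le c fun x hx => cR (centralizer_le (le_sup_left (a := R) (b := zpowers s))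
    (h.cen9 K2 y3 d3 yd nd (n (mem_sup_left (mem_zpowers y))) (n (mem_sup_right (mem_zpowers d))) hx.1
      (hx.2 y (mem_sup_left (mem_zpowers y))) (hx.2 d (mem_sup_right (mem_zpowers d)))))))
    (mem_sup_right (mem_zpowers s))

end CfsgLib.O8
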