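import Mathlib
import Cfsg.Agent.Lib.O8.Cy

/-! 2-subgroups normalized by an element of order three in solvable groups. -/

set_option autoImplicit false
set_option linter.unusedSectionVars false

namespace CfsgLib.O8

open Cfsg Subgroup CfsgLib.LAE CfsgLib.PLocal CfsgLib.ZJ CfsgLib.Blocks
open scoped CfsgLib.BG MatrixGroups commutatorElement

universe u

variable {G : Type*} [Group G] [Finite G]

theorem ab_cop {Y F : Subgroup G} (hY : IsPGroup 2 Y) (oF : Odd (Nat.card F)) :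
    (Nat.card F).Coprime (Nat.card Y) := by
  obtain ⟨k, hk⟩ := BG.pgroup_card Nat.prime_two hY
  rw [hk]
  exact (Nat.coprime_two_right.2 oF).pow_right k

theorem ab_two_odd {Y F : Subgroup G} (hY : IsPGroup 2 Y) (oF : Odd (Nat.card F)) {t : G}
    (h1 : t ∈ Y) (h2 : t ∈ F) : t = 1 :=
  orderOf_eq_one_iff.1 (Nat.eq_one_of_dvd_coprimes (ab_cop hY oF) (BG.order_dvdG h2)
    (BG.order_dvdG h1))

theorem ab_comm_mem {Y : Subgroup G} {y t : G} (hy : y ∈ 𝒩(Y)) (ht : t ∈ Y) :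
    t * y * t⁻¹ * y⁻¹ ∈ Y := by
  have := mul_mem ht ((mem_normalizer_iff.1 hy t⁻¹).1 (inv_mem ht))
  simpa only [mul_assoc] using this

theorem ab_frob (n : ℕ) : ∀ (L : Type u) [Group L] [Finite L], Nat.card L ≤ n → Cl L →
    Group.IsSolvable L → ∀ (F Y : Subgroup L) (y : L), F.Normal → Odd (Nat.card F) →
    IsPGroup 2 Y → orderOf y = 3 → y ∈ 𝒩(Y) → (∀ t ∈ Y, t * y = y * t → t = 1) → Y ≤ 𝒞(F) := by
  induction n with
  | zero => intro L _ _ hn; have := Nat.card_pos (α := L); omega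
  | succ n ih =>
    intro L _ _ hn h sL F Y y nF oF hY y3 yN fp
    have := Fact.mk Nat.prime_three
    by_cases F1 : F = ⊥
    · rw [F1]; intro t _; simp
    by_cases Y1 : Y = ⊥
    · rw [Y1]; exact bot_le
    obtain ⟨p, V, hp, nV, V1, VF, hV, -⟩ := Core.exists_elementaryAbelian_minimal_normal_le F1
    have oV : Odd (Nat.card V) := oF.of_dvd_nat (card_dvd_of_le VF)
    have := Fact.mk hp
    have pV : p ∣ Nat.card V :=
      Core.dvd_card_of_isPGroup_of_ne_bot (Core.isElementaryAbelian_isPGroup hV) V1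
    have po : Odd p := oV.of_dvd_nat pV
    have p3 : 3 ≤ p := by
      have := hp.two_le
      obtain ⟨k, rfl⟩ := po
      omega
    have y33 : y ^ 3 = 1 := y3 ▸ pow_orderOf_eq_one y
    set π := QuotientGroup.mk' V with hπ
    have hs : Function.Surjective π := QuotientGroup.mk'_surjective V
    have hk : ∀ g, π g = 1 ↔ g ∈ V := fun g => QuotientGroup.eq_one_iff g
    have fp' : ∀ t ∈ Y.map π, t * π y = π y * t → t = 1 := by
      rintro _ ⟨t, ht, rfl⟩ e
      have m : t * y * t⁻¹ * y⁻¹ ∈ V := by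
        rw [← hk]; simp only [map_mul, map_inv]; rw [e]; group
      have := ab_two_odd hY oV (ab_comm_mem yN ht) m
      rw [fp t ht (by rw [mul_inv_eq_one, mul_inv_eq_iff_eq_mul] at this; exact this), map_one]
    have yV : y ∉ V := fun m => Y1 (by
      rw [eq_bot_iff]
      intro t ht
      have m2 : t * y * t⁻¹ * y⁻¹ ∈ V := mul_mem (nV.conj_mem _ m t) (inv_mem m)
      have := ab_two_odd hY oV (ab_comm_mem yN ht) m2
      exact fp t ht (by rw [mul_inv_eq_one, mul_inv_eq_iff_eq_mul] at this; exact this))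
    have py3 : orderOf (π y) = 3 :=
      orderOf_eq_prime (by rw [← map_pow, y33, map_one]) (fun e => yV ((hk y).1 e))
    have yN' : π y ∈ 𝒩(Y.map π) := le_normalizer_map π (mem_map_of_mem π yN)
    have c1 : Y ≤ 𝒞(V) := fun g hg => mem_centralizer_iff.2 fun v hv => by
      refine (h.maz1 π hs hp hV (fun g hg v hv => ?_) (fun v hv => (hk v).2 hv) (Y.map π) y 2
        (fun f hf => (mem_normalizer_iff.1 yN' f).1 hf) (fun i hi f hf e => fp' f hf ?_) ?_ py3
        (by rw [y33]; exact one_mem V) (by omega) (mem_map_of_mem π hg) hv).symm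
      · have := hV.1; exact setLike_mul_comm ((hk g).1 hg) hv
      · interval_cases i
        · simpa using e
        · have c : Commute f (π y ^ (1 + 1)) := e
          have := c.pow_right 2
          rw [← pow_mul, show (1 + 1) * 2 = 3 + 1 from rfl, pow_succ, ← map_pow, y33, map_one,
            one_mul] at this
          exact this.eq
      · obtain ⟨k, hk⟩ := BG.pgroup_card Nat.prime_two (hY.map π)
        rw [hk]
        exact (Nat.coprime_two_left.2 po).pow_left k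
    have lt : Nat.card (L ⧸ V) ≤ n := by
      have e := card_eq_card_quotient_mul_card_subgroup V
      have : 1 < Nat.card V := (one_lt_card_iff_ne_bot V).2 V1
      have : 0 < Nat.card (L ⧸ V) := Nat.card_pos
      nlinarith
    have c2 := ih (L ⧸ V) lt (h.quot V) inferInstance (F.map π) (Y.map π) (π y) (nF.map π hs)
      (oF.of_dvd_nat (card_map_dvd _ π)) (hY.map π) py3 yN' fp'
    refine BG.stable_factor_cent c1 (commutator_le.2 fun f hf t ht => ?_) (ab_cop hY oV)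
    rw [← hk, map_commutatorElement, commutatorElement_eq_one_iff_mul_comm]
    exact mem_centralizer_iff.1 (c2 (mem_map_of_mem π ht)) _ (mem_map_of_mem π hf)

theorem ab_nsq {p : ℕ} (hp : p.Prime) {V : Subgroup G} [V.Normal] (V1 : V ≠ ⊥)
    (cop : p.Coprime (Nat.card V)) (hf : ∀ x, orderOf x = p → ∀ v ∈ V, x * v = v * x → v = 1)
    (he : ∀ x : G, orderOf x ≠ p ^ 2) : ¬ p ^ 2 ∣ Nat.card G := fun e => by
  have := Fact.mk hp
  obtain ⟨A, hA⟩ := Sylow.exists_subgroup_card_pow_prime p e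
  have ab := IsPGroup.isMulCommutative_of_card_eq_prime_sq hA
  refine V1 (le_bot_iff.1 (BG.coprime_abelian_gen_cent1_le (A := A) ab (fun hc => ?_)
    le_normalizer_of_normal (hA ▸ (cop.pow_left 2).symm) fun a ha a1 v hv => ?_))
  · obtain ⟨g, hg⟩ := IsCyclic.exists_ofOrder_eq_natCard (α := A)
    exact he g (by rw [orderOf_coe, hg, hA])
  · refine hf a ?_ v hv.1 (BG.mem_cent1.1 hv.2).symm
    obtain ⟨i, hi, e⟩ := (Nat.dvd_prime_pow hp).1 (hA ▸ BG.order_dvdG ha)
    interval_cases i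
    · exact absurd (orderOf_eq_one_iff.1 e) a1
    · simpa using e
    · exact absurd e (he a)

theorem ab_odd_ord (h : Cl G) {F : Subgroup G} (oF : Odd (Nat.card F)) {e : G} (he : e ∈ F) :
    e ^ 3 = 1 ∨ orderOf e = 5 ∨ orderOf e = 7 := by
  have o : Odd (orderOf e) := oF.of_dvd_nat (BG.order_dvdG he)
  have l := h e
  rw [← orderOf_dvd_iff_pow_eq_one]
  obtain ⟨k, hk⟩ := o
  have : k ≤ 3 := by omega
  rw [hk]
  interval_cases k <;> simp

/-- (2): the fixed points of an involution centralizing `y` on `F` lie in `⟨y⟩`. -/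
theorem ab_cen (h : Cl G) {F : Subgroup G} [F.Normal] (oF : Odd (Nat.card F)) {y s : G}
    (y3 : orderOf y = 3) (s2 : s * s = 1) (s1 : s ≠ 1) (c : s * y = y * s)
    (n9 : ¬ 9 ∣ Nat.card (𝒞[s] : Subgroup G)) : F ⊓ 𝒞[s] ≤ zpowers y := by
  have y33 : y ^ 3 = 1 := y3 ▸ pow_orderOf_eq_one y
  have yc : zpowers y ≤ 𝒞[s] := zpowers_le.2 (BG.mem_cent1.2 c.symm)
  have h3 : IsPGroup 3 ↥(F ⊓ 𝒞[s]) := Core.isPGroup_of_forall_pow_eq_one fun e he => by
    have cs : e * s = s * e := BG.mem_cent1.1 he.2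
    rcases ab_odd_ord h oF he.1 with a | a | a
    · exact a
    · exact absurd (h.big_cop (.inl rfl) a.symm.dvd cs (n := 2) (by rw [pow_two, s2])
        (by norm_num)) s1
    · exact absurd (h.big_cop (.inr rfl) a.symm.dvd cs (n := 2) (by rw [pow_two, s2])
        (by norm_num)) s1
  obtain ⟨k, hk⟩ := BG.pgroup_card Nat.prime_three (BG.pgroupY (.inl (BG.normsI
    le_normalizer_of_normal (BG.norms_cent1 yc)))
    (Core.isElementaryAbelian_isPGroup (Core.isElementaryAbelian_zpowers y33)) h3)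
  have h1 : k ≤ 1 := by_contra fun e => n9 (((pow_dvd_pow 3 (by omega : 2 ≤ k)).trans
    hk.symm.dvd).trans (card_dvd_of_le (sup_le yc inf_le_right)))
  have e := BG.eq_of_le_card (le_sup_left : zpowers y ≤ zpowers y ⊔ (F ⊓ 𝒞[s])) (by
    rw [hk, Nat.card_zpowers, y3]; exact Nat.pow_le_pow_right (by norm_num) h1)
  exact le_sup_right.trans e.ge

theorem ab_cyc {e t y : G} (ht : t * e * t⁻¹ ∈ zpowers e) (hy : y * e * y⁻¹ ∈ zpowers e) :
    t * y * t⁻¹ * y⁻¹ * e = e * (t * y * t⁻¹ * y⁻¹) := by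
  obtain ⟨a, ha⟩ := mem_zpowers_iff.1 ht
  obtain ⟨b, hb⟩ := mem_zpowers_iff.1 hy
  have e1 : t * y * e * (t * y)⁻¹ = y * t * e * (y * t)⁻¹ := by
    calc t * y * e * (t * y)⁻¹ = t * (y * e * y⁻¹) * t⁻¹ := by group
      _ = (t * e * t⁻¹) ^ b := by rw [← hb, conj_zpow]
      _ = (y * e * y⁻¹) ^ a := by rw [← ha, ← hb, ← zpow_mul, ← zpow_mul, mul_comm]
      _ = y * (t * e * t⁻¹) * y⁻¹ := by rw [← ha, conj_zpow]
      _ = _ := by group
  have e2 : (y * t) * e * (y * t)⁻¹ ∈ zpowers e := by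
    rw [← e1, show t * y * e * (t * y)⁻¹ = t * (y * e * y⁻¹) * t⁻¹ by group, ← hb, ← conj_zpow]
    exact zpow_mem ht b
  have g1 : zpowers (y * t * e * (y * t)⁻¹) = zpowers e :=
    BG.eq_of_le_card (zpowers_le.2 e2) (by
      rw [Nat.card_zpowers, Nat.card_zpowers, ← MulAut.conj_apply, MulEquiv.orderOf_eq])
  have c : t * y * t⁻¹ * y⁻¹ ∈ 𝒞[y * t * e * (y * t)⁻¹] := BG.mem_cent1.2 (by
    conv_rhs => rw [← e1]
    group)
  rw [← BG.cent_zpowers, g1, BG.cent_zpowers] at c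
  exact BG.mem_cent1.1 c

/-- the final contradiction for an elementary abelian `3`-group `F` inverted by `s` -/
theorem ab_three {L : Type*} [Group L] (h : Cl G) (π : G →* L) (hπ : Function.Surjective π)
    (hR : IsPGroup 2 π.ker) (cR : 𝒞(π.ker) ≤ π.ker) {F : Subgroup L} [nF : F.Normal]
    (F3 : ∀ f ∈ F, f ^ 3 = 1) {x : G} (x3 : orderOf x = 3) (yF : π x ∉ F) {s : L}
    (s2 : s * s = 1) (sy : s * π x = π x * s) (inv : ∀ f ∈ F, s * f * s⁻¹ = f⁻¹)
    (ab : ∀ a ∈ F, ∀ b ∈ F, a * b = b * a) {g : L} (gF : g ∈ F) : g * π x = π x * g := by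
  by_contra gy
  have := Fact.mk Nat.prime_three
  have : Finite L := Finite.of_surjective π hπ
  have hL : Cl L := h.of_surj π hπ
  set y := π x with hy
  have x33 : x ^ 3 = 1 := x3 ▸ pow_orderOf_eq_one x
  have y33 : y ^ 3 = 1 := by rw [hy, ← map_pow, x33, map_one]
  have y1 : y ≠ 1 := fun e => yF (e ▸ one_mem F)
  have y3 : orderOf y = 3 := orderOf_eq_prime y33 y1
  have bF : y * g * y⁻¹ ∈ F := nF.conj_mem _ gF y
  have cF : y * (y * g * y⁻¹) * y⁻¹ ∈ F := nF.conj_mem _ bF y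
  have e3 : (g * y) ^ 3 = g * (y * g * y⁻¹) * (y * (y * g * y⁻¹) * y⁻¹) := by
    calc (g * y) ^ 3 = g * (y * g * y⁻¹) * (y * (y * g * y⁻¹) * y⁻¹) * y ^ 3 := by
          simp only [pow_succ, pow_zero]; group
      _ = _ := by rw [y33, mul_one]
  have abc : g * (y * g * y⁻¹) * (y * (y * g * y⁻¹) * y⁻¹) = 1 := by
    rw [← e3]
    refine hL.cube (k := 2) ?_
    rw [show 3 ^ 2 = 3 * 3 from rfl, pow_mul, e3]
    exact F3 _ (mul_mem (mul_mem gF bF) cF)
  obtain ⟨d, hd⟩ : ∃ d, d = g * y * g⁻¹ * y⁻¹ := ⟨_, rfl⟩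
  have d' : d = g * (y * g * y⁻¹)⁻¹ := by rw [hd]; group
  have dF : d ∈ F := d' ▸ mul_mem gF (inv_mem bF)
  have d1 : d ≠ 1 := fun e => gy (by
    rw [hd, mul_inv_eq_one, mul_inv_eq_iff_eq_mul] at e; exact e)
  have yd : y * d = d * y := by
    rw [← mul_inv_eq_iff_eq_mul, show y * d * y⁻¹ =
      (y * g * y⁻¹) * (y * (y * g * y⁻¹) * y⁻¹)⁻¹ by rw [hd]; group, d']
    generalize y * (y * g * y⁻¹) * y⁻¹ = c at abc cF
    generalize y * g * y⁻¹ = b at abc bF
    have b3 := F3 b bF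
    have : c⁻¹ = g * b := (eq_inv_of_mul_eq_one_left abc).symm
    rw [this, ← mul_assoc, ab b bF g gF, mul_assoc, mul_right_inj]
    exact eq_inv_of_mul_eq_one_left (by rw [← b3, pow_succ, pow_two])
  have d3 : orderOf d = 3 := orderOf_eq_prime (F3 d dF) d1
  obtain ⟨d0, pd0, o0⟩ := h.lift' π hπ (.inl rfl) d3
  have nR : ∀ a : G, a ∈ 𝒩(π.ker) := fun a => le_normalizer_of_normal (mem_top a)
  obtain ⟨r, hr, D3, xD⟩ := h.comm3 hR x3 o0 (nR _) (nR _) (by
    rw [MonoidHom.mem_ker, map_commutatorElement, pd0, commutatorElement_eq_one_iff_mul_comm]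
    exact yd)
  set D := r * d0 with hD
  have pD : π D = d := by rw [hD, map_mul, MonoidHom.mem_ker.1 hr, one_mul, pd0]
  have D33 : D ^ 3 = 1 := D3 ▸ pow_orderOf_eq_one D
  have key : ∀ (z : G) (k : L), k ∈ F → z ^ 3 = 1 → z * D = D * z → π z = k * y * k⁻¹ →
      π.ker ⊓ 𝒞[z] ≤ 𝒞[D] := fun z k kF z3 zD pz c hc => by
    obtain ⟨σ, hσ⟩ := hπ (k * s * k⁻¹)
    have z1 : z ≠ 1 := fun e => y1 (by
      rw [e, map_one, eq_comm, mul_inv_eq_one, mul_eq_left] at pz; exact pz)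
    refine BG.mem_cent1.2 (h.ylem hR (orderOf_eq_prime z3 z1) D3 zD (nR _) (nR _) (nR σ) ?_ ?_ ?_
      c hc.1 (BG.mem_cent1.1 hc.2).symm).symm
    · rw [MonoidHom.mem_ker, map_mul, hσ, show k * s * k⁻¹ * (k * s * k⁻¹) = k * (s * s) * k⁻¹ by
        group, s2]; group
    · rw [MonoidHom.mem_ker, map_commutatorElement, hσ, pz, commutatorElement_eq_one_iff_mul_comm,
        show k * y * k⁻¹ * (k * s * k⁻¹) = k * (y * s) * k⁻¹ by group, ← sy]; group
    · rw [MonoidHom.mem_ker]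
      simp only [map_mul, map_inv, hσ, pD]
      rw [show k * s * k⁻¹ * d * (k * s * k⁻¹)⁻¹ * d = k * (s * (k⁻¹ * d * k) * s⁻¹) * k⁻¹ * d by
        group, inv _ (mul_mem (mul_mem (inv_mem kF) dF) kF)]; group
  have cx : Commute x D := xD
  have le := gen9 hR x3 D3 xD (fun m => ?_) (nR _) (nR _) (K := 𝒞[D])
    (key x 1 (one_mem F) x33 xD (by simp [hy])) inf_le_right
    (key _ g gF (by rw [cx.mul_pow, x33, D33, one_mul]) (cx.mul_left (Commute.refl D)).eq
      (by rw [map_mul, pD, ← hy, yd, hd]; group))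
    (key _ g⁻¹ (inv_mem gF) (by rw [cx.inv_right.mul_pow, x33, inv_pow, D33]; simp)
      (cx.mul_left (Commute.refl D).inv_left).eq ?_)
  · have : D ∈ π.ker := cR (mem_centralizer_iff.2 fun c hc => BG.mem_cent1.1 (le hc))
    exact d1 (pD ▸ this)
  · have m2 : d ∈ zpowers y := by
      rw [← pD, hy, ← MonoidHom.map_zpowers]; exact mem_map_of_mem π m
    have := Core.zpowers_inf_eq_bot_of_prime_orderOf (y3 ▸ Nat.prime_three) yF
    exact d1 (mem_bot.1 (this ▸ mem_inf.2 ⟨m2, dF⟩))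
  · have cy : Commute y d := yd
    rw [map_mul, map_inv, pD, ← hy, cy.inv_right.eq, d', mul_inv_rev, inv_inv,
      ab _ bF _ (inv_mem gF)]; group

theorem ab_core {L : Type*} [Group L] (h : Cl G) (π : G →* L) (hπ : Function.Surjective π)
    (hR : IsPGroup 2 π.ker) (cR : 𝒞(π.ker) ≤ π.ker) (sL : Group.IsSolvable L) {F : Subgroup L}
    [nF : F.Normal] (oF : Odd (Nat.card F)) (cF : 𝒞(F) ≤ F) {x : G} (x3 : orderOf x = 3)
    {K : Subgroup L} (hK : IsPGroup 2 K) (hx : π x ∈ 𝒩(K)) : Nat.card K ≤ 2 := by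
  by_contra big
  have := Fact.mk Nat.prime_three
  have := Fact.mk Nat.prime_two
  have : Finite L := Finite.of_surjective π hπ
  have hL : Cl L := h.of_surj π hπ
  set y := π x with hy
  have x33 : x ^ 3 = 1 := x3 ▸ pow_orderOf_eq_one x
  have x1 : x ≠ 1 := fun e => by simp [e] at x3
  have y33 : y ^ 3 = 1 := by rw [hy, ← map_pow, x33, map_one]
  have y1 : y ≠ 1 := fun e => x1 (ab_two_odd hR (F := zpowers x)
    (by rw [Nat.card_zpowers, x3]; decide) e (mem_zpowers x))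
  have y3 : orderOf y = 3 := orderOf_eq_prime y33 y1
  have nR : ∀ a : G, a ∈ 𝒩(π.ker) := fun a => le_normalizer_of_normal (mem_top a)
  have KF : ∀ t ∈ K, t ∈ 𝒞(F) → t = 1 := fun t ht c => ab_two_odd hK oF ht (cF c)
  have K1 : K ≠ ⊥ := fun e => big (by rw [e]; simp)
  have Z1 := Core.inf_centralizer_ne_bot_of_isPGroup hK hK le_normalizer K1
  obtain ⟨s, sK, sy, s1⟩ : ∃ s ∈ K ⊓ 𝒞(K), s * y = y * s ∧ s ≠ 1 := by
    by_contra! e
    have := ab_frob _ L le_rfl hL sL F (K ⊓ 𝒞(K)) y nF oF (hK.to_le inf_le_left) y3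
      (BG.normsI (zpowers_le.2 hx) (BG.norms_cent (zpowers_le.2 hx)) (mem_zpowers y)) e
    exact Z1 (eq_bot_iff.2 fun t ht => KF t ht.1 (this ht))
  have sq : ∀ t ∈ K, t * y = y * t → t * t = 1 := fun t ht c =>
    hL.three_sq hK y3.symm.dvd ht c.symm
  have cen : ∀ t ∈ K, t ≠ 1 → t * y = y * t → F ⊓ 𝒞[t] ≤ zpowers y := fun t ht t1 c => by
    refine ab_cen hL oF y3 (sq t ht c) t1 c fun h9 => t1 ?_
    obtain ⟨τ, rfl⟩ := hπ t
    refine h.inv9 hR cR (X := comap π 𝒞[π τ]) le_normalizer_of_normal (h9.trans ?_) (nR τ) ?_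
      fun e he => ?_
    · conv_lhs => rw [← map_comap_eq_self_of_surjective hπ 𝒞[π τ]]
      exact card_map_dvd _ π
    · rw [MonoidHom.mem_ker, map_mul, sq _ ht c]
    · rw [MonoidHom.mem_ker, map_commutatorElement, commutatorElement_eq_one_iff_mul_comm]
      exact BG.mem_cent1.1 he
  have uniq : ∀ t ∈ K, t * y = y * t → t = 1 ∨ t = s := fun t ht c => by
    by_contra! e
    have le := BG.coprime_abelian_gen_cent1_le (H := F) (A := K ⊓ 𝒞[y]) (L := zpowers y)
      ⟨⟨fun a b => Subtype.ext (hL.three_comm hK y3.symm.dvd a.2.1 b.2.1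
        (BG.mem_cent1.1 a.2.2).symm (BG.mem_cent1.1 b.2.2).symm)⟩⟩ (fun hc => ?_)
      le_normalizer_of_normal (ab_cop (hK.to_le inf_le_left) oF)
      fun a ha a1 => cen a ha.1 a1 (BG.mem_cent1.1 ha.2)
    · refine s1 (KF s sK.1 (mem_centralizer_iff.2 fun f hf => ?_))
      exact BG.mem_cent1.1 ((zpowers_le.2 (BG.mem_cent1.2 sy.symm)) (le hf))
    · obtain ⟨⟨g, hg⟩, gen⟩ := hc.exists_generator
      have g2 : g ^ (2 : ℤ) = 1 := by
        rw [zpow_two]; exact sq g hg.1 (BG.mem_cent1.1 hg.2)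
      have all : ∀ a ∈ K ⊓ 𝒞[y], a ≠ 1 → a = g := fun a ha a1 => by
        obtain ⟨n, hn⟩ := mem_zpowers_iff.1 (gen ⟨a, ha⟩)
        have hn : g ^ n = a := congrArg Subtype.val hn
        rcases Int.even_or_odd' n with ⟨m, rfl | rfl⟩
        · rw [zpow_mul, g2, one_zpow] at hn; exact absurd hn.symm a1
        · rw [zpow_add, zpow_mul, g2, one_zpow, one_mul, zpow_one] at hn; exact hn.symm
      exact e.2 ((all t ⟨ht, BG.mem_cent1.2 c⟩ e.1).trans
        (all s ⟨sK.1, BG.mem_cent1.2 sy⟩ s1).symm)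
  obtain ⟨t, tK, ty⟩ : ∃ t ∈ K, t * y ≠ y * t := by
    by_contra! e
    refine big ?_
    have s2 : orderOf s = 2 := orderOf_eq_prime (by rw [pow_two, sq s sK.1 sy]) s1
    rw [← s2, ← Nat.card_zpowers]
    refine card_le_of_le fun a ha => ?_
    rcases uniq a ha (e a ha) with rfl | rfl
    exacts [one_mem _, mem_zpowers _]
  have nc : t * y * t⁻¹ * y⁻¹ ∉ F := fun m => ty (by
    have := ab_two_odd hK oF (ab_comm_mem hx tK) m
    rw [mul_inv_eq_one, mul_inv_eq_iff_eq_mul] at this; exact this)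
  have yF : y ∉ F := fun m => nc (mul_mem (nF.conj_mem _ m t) (inv_mem m))
  have fp : ∀ q ∈ F, s * q = q * s → q = 1 := fun q hq c => by
    have := Core.zpowers_inf_eq_bot_of_prime_orderOf (y3 ▸ Nat.prime_three) yF
    exact mem_bot.1 (this ▸ mem_inf.2 ⟨cen s sK.1 s1 sy ⟨hq, BG.mem_cent1.2 c.symm⟩, hq⟩)
  have s2 := sq s sK.1 sy
  have inv : ∀ f ∈ F, s * f * s⁻¹ = f⁻¹ := fun f hf => by
    obtain ⟨q, -, rfl⟩ := Ord6.fpf_surj (fun q hq => nF.conj_mem q hq s) fp hf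
    rw [show s * (q⁻¹ * (s * q * s⁻¹)) * s⁻¹ = s * q⁻¹ * (s * s) * s⁻¹ * q * (s * s)⁻¹ by group, s2]
    group
  have ab : ∀ a ∈ F, ∀ b ∈ F, a * b = b * a := fun a ha b hb => by
    have e := inv _ (mul_mem ha hb)
    rw [show s * (a * b) * s⁻¹ = s * a * s⁻¹ * (s * b * s⁻¹) by group, inv a ha, inv b hb,
      ← mul_inv_rev, inv_inj] at e
    exact e.symm
  by_cases h57 : ∃ e ∈ F, orderOf e = 5 ∨ orderOf e = 7
  · obtain ⟨e, eF, he⟩ := h57
    obtain ⟨p, hp⟩ : ∃ p, p = orderOf e := ⟨_, rfl⟩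
    rw [← hp] at he
    have pp : p.Prime := by rcases he with rfl | rfl <;> norm_num
    have R1 : π.ker ≠ ⊥ := fun e => x1 (by
      rw [e] at cR; exact cR (mem_centralizer_iff.2 fun a ha => by rw [mem_bot.1 ha]; simp))
    have nsq := ab_nsq pp R1 (by
      obtain ⟨k, hk⟩ := BG.pgroup_card Nat.prime_two hR
      rw [hk]; rcases he with rfl | rfl <;> exact Nat.Coprime.pow_right k (by norm_num))
      (fun a ha => h.fpf' hR (ha ▸ he)) (fun a ha => by
        have := h a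
        rcases he with rfl | rfl <;> omega)
    obtain ⟨k, hk⟩ := BG.pgroup_card pp (Core.isPGroup_of_forall_pow_eq_one (H := F)
      fun f hf => hL.big he hp.dvd (ab e eF f hf))
    have h1 : k ≤ 1 := by_contra fun c => nsq ((((pow_dvd_pow p (by omega : 2 ≤ k)).trans
      hk.symm.dvd).trans (card_subgroup_dvd_card F)).trans (card_dvd_of_surjective π hπ))
    have eq := BG.eq_of_le_card (zpowers_le.2 eF) (by
      rw [hk, Nat.card_zpowers, ← hp]
      exact (Nat.pow_le_pow_right pp.pos h1).trans (pow_one p).le)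
    refine nc (cF ?_)
    rw [← eq, BG.cent_zpowers]
    exact BG.mem_cent1.2 (ab_cyc (eq ▸ nF.conj_mem e eF t) (eq ▸ nF.conj_mem e eF y))
  · push Not at h57
    have F3 : ∀ f ∈ F, f ^ 3 = 1 := fun f hf => by
      rcases ab_odd_ord hL oF hf with a | a | a
      exacts [a, absurd a (h57 f hf).1, absurd a (h57 f hf).2]
    exact yF (cF (mem_centralizer_iff.2 fun g hg =>
      ab_three h π hπ hR cR F3 x3 yF s2 sy inv ab hg))

theorem Cl.ab (h : Cl G) {N K : Subgroup G} (hs : Group.IsSolvable N) (sc : Sc N) {x : G}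
    (xN : x ∈ N) (x3 : orderOf x = 3) (h1 : pCoreOf 2 N ≤ K) (h2 : K ≤ N) (hK : IsPGroup 2 K)
    (hx : x ∈ 𝒩(K)) : (pCoreOf 2 N).relIndex K ≤ 2 := by
  have nR : (pCore 2 N).Normal := inferInstance
  set π := QuotientGroup.mk' (pCore 2 N) with hπ
  have hk : π.ker = pCore 2 N := QuotientGroup.ker_mk' _
  rw [← relIndex_subgroupOf h2, pCoreOf_subgroupOf, ← hk, relIndex_ker]
  have := Core.fittingSubgroup_normal (N ⧸ pCore 2 N)
  refine ab_core (h.sub N) π (QuotientGroup.mk'_surjective _) (hk.symm ▸ Core.isPGroup_pCore 2 N) ?_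
    inferInstance (F := fittingSubgroup (N ⧸ pCore 2 N)) ?_ Core.centralizer_fittingSubgroup_le
    (x := ⟨x, xN⟩) (by rw [← x3, ← orderOf_coe]) ((hK.comap_subtype).map π)
    (le_normalizer_map π (mem_map_of_mem π ?_))
  · rw [hk]
    intro a ha
    refine mem_pCore_iff.2 (sc (mem_centralizer_iff.2 fun b hb => ?_))
    exact congrArg Subtype.val (mem_centralizer_iff.1 ha ⟨b, pCoreOf_le N hb⟩ (mem_pCore_iff.2 hb))
  · exact (Core.odd_card_oddCore _).of_dvd_nat (card_dvd_of_le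
      (Core.fittingSubgroup_le_pPrimeCore_of_pCore_eq_bot Nat.prime_two
        (Core.pCore_quotient_pCore 2 N)))
  · exact mem_normalizer_iff.2 fun a => mem_normalizer_iff.1 hx a

end CfsgLib.O8
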