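import Mathlib
import Cfsg.Agent.Lib.O8.AB

/-! The centralizer of `Ω₁ Z(S)`. -/

set_option autoImplicit false
set_option linter.unusedSectionVars false

namespace CfsgLib.O8

open Cfsg Subgroup CfsgLib.LAE CfsgLib.PLocal CfsgLib.ZJ CfsgLib.Blocks
open scoped CfsgLib.BG MatrixGroups commutatorElement

universe u

variable {G : Type*} [Group G] [Finite G]

theorem h3_cw {R D P S : Subgroup G} [R.Normal] [D.Normal] (hR : IsPGroup 2 R) (hP : IsPGroup 3 P)
    (hD : D ≤ R ⊔ P) (PD : P ≤ D) (hS : IsPGroup 2 S) (RS : R ≤ S)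
    (hZ : ∀ z ∈ S, z ∈ 𝒞(S) → z ^ 2 = 1 → ∀ g, g * z = z * g) : P ≤ 𝒞(ZZ R) := by
  have := Fact.mk Nat.prime_two
  have nW : (ZZ R).Normal := normalizer_eq_top_iff.1 (top_le_iff.1
    (le_normalizer_omegaZ_of_le le_normalizer_of_normal))
  have hW := elemAb_omegaZ (p := 2) R
  have WR := omegaZ_le (p := 2) R
  have le : ⁅ZZ R, D⁆ ≤ ⁅ZZ R, P⁆ := commutator_le.2 fun w hw d hd => by
    obtain ⟨r, hr, q, hq, rfl⟩ := mem_sup_of_normal_left.1 (hD hd)
    have c : ∀ v ∈ ZZ R, r * v = v * r := fun v hv =>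
      mem_centralizer_iff.1 (omegaZ_le_centralizer R hv) r hr
    have m : ⁅w, q⁆ ∈ ZZ R := commutator_le_left (ZZ R) P (commutator_mem_commutator hw hq)
    have : ⁅w, r * q⁆ = ⁅w, q⁆ := by
      calc ⁅w, r * q⁆ = (w * r) * w⁻¹ * ⁅w, q⁆ * r⁻¹ := by simp only [commutatorElement_def]; group
        _ = r * ⁅w, q⁆ * r⁻¹ := by rw [← c w hw]; group
        _ = _ := by rw [c _ m]; group
    rw [this]; exact commutator_mem_commutator hw hq
  have co : (Nat.card (ZZ R)).Coprime (Nat.card P) :=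
    IsPGroup.coprime_card_of_ne 2 3 (by norm_num) _ _ (hR.to_le WR) hP
  have ti := BG.coprime_abel_cent_TI (H := ZZ R) (A := P) le_normalizer_of_normal co hW.1
  have bot : ⁅ZZ R, D⁆ = ⊥ := by
    by_contra ne
    have l : ⁅ZZ R, D⁆ ≤ ZZ R := commutator_le_left _ _
    obtain ⟨⟨z, hz⟩, z1⟩ := (ne_bot_iff_exists_ne_one).1 (Core.inf_centralizer_ne_bot_of_isPGroup
      ((hR.to_le WR).to_le l) hS le_normalizer_of_normal ne)
    have c := hZ z (RS (WR (l hz.1))) hz.2 (hW.2 z (l hz.1))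
    have : z ∈ ⁅ZZ R, P⁆ ⊓ 𝒞(P) := ⟨le hz.1, mem_centralizer_iff.2 fun g _ => c g⟩
    rw [ti] at this
    exact z1 (Subtype.ext this)
  exact PD.trans (le_centralizer_iff.1 (commutator_eq_bot_iff_le_centralizer.1 bot))

theorem h3_n9 (h : Cl G) {R P : Subgroup G} [nR : R.Normal] (hR : IsPGroup 2 R) (cR : 𝒞(R) ≤ R)
    (hP : P ≤ 𝒞(ZZ R)) : ¬ 9 ∣ Nat.card P := fun h9 => by
  have := Fact.mk Nat.prime_two
  have := Fact.mk Nat.prime_three
  obtain ⟨y, hy, d, hd, y3, d3, yd, nd⟩ := h.ex9 h9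
  have y33 : y ^ 3 = 1 := y3 ▸ pow_orderOf_eq_one y
  have d33 : d ^ 3 = 1 := d3 ▸ pow_orderOf_eq_one d
  have c : Commute y d := yd
  have o1 : orderOf (y * d) = 3 := orderOf_eq_prime (by rw [c.mul_pow, y33, d33, one_mul])
    fun e => nd (by rw [eq_inv_of_mul_eq_one_right e]; exact inv_mem (mem_zpowers y))
  have o2 : orderOf (y * d⁻¹) = 3 := orderOf_eq_prime
    (by rw [c.inv_right.mul_pow, y33, inv_pow, d33]; simp)
    fun e => nd (by rw [← mul_inv_eq_one.1 e]; exact mem_zpowers y)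
  have all : ∀ (Y K : Subgroup G) [Y.Normal], Y ≤ R →
      (∀ e ∈ P, orderOf e = 3 → Y ⊓ 𝒞[e] ≤ K) → Y ≤ K := fun Y K _ YR k =>
    gen9 (hR.to_le YR) y3 d3 yd nd (le_normalizer_of_normal (mem_top y))
      (le_normalizer_of_normal (mem_top d)) (k y hy y3) (k d hd d3) (k _ (mul_mem hy hd) o1)
      (k _ (mul_mem hy (inv_mem hd)) o2)
  set σ := QuotientGroup.mk' (R ⊓ 𝒞(R)) with hσ
  have hs : Function.Surjective σ := QuotientGroup.mk'_surjective _
  have hk : ∀ g, σ g = 1 ↔ g ∈ R ⊓ 𝒞(R) := fun g => QuotientGroup.eq_one_iff g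
  have := nR.map σ hs
  have l2 : R ⊓ comap σ 𝒞(R.map σ) ≤ 𝒞(R) := all _ _ inf_le_left fun e he e3 w hw => by
    have ce : e * w = w * e := (BG.mem_cent1.1 hw.2).symm
    have w2 := h.three_sq hR e3.symm.dvd hw.1.1 ce
    refine h.lam hR e3 (le_normalizer_of_normal (mem_top e)) hw.1.1 ce fun r hr => ?_
    have m : ⁅w, r⁆ ∈ R ⊓ 𝒞(R) := by
      rw [← hk, map_commutatorElement, commutatorElement_eq_one_iff_mul_comm]
      exact (mem_centralizer_iff.1 hw.1.2 _ (mem_map_of_mem σ hr)).symm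
    refine ⟨m.2, (mem_centralizer_iff.1 (hP he) _ (mem_omegaZ.2 ⟨m.1, m.2, ?_⟩)).symm⟩
    have cw : w * ⁅w, r⁆ = ⁅w, r⁆ * w := mem_centralizer_iff.1 m.2 w hw.1.1
    have wi : w⁻¹ = w := inv_eq_of_mul_eq_one_right w2
    calc ⁅w, r⁆ ^ 2 = w⁻¹ * (w * ⁅w, r⁆) * ⁅w, r⁆ := by rw [pow_two]; group
      _ = w⁻¹ * (w * r * w⁻¹ * r⁻¹) * (w * w) * r * w⁻¹ * r⁻¹ := by
          rw [cw, commutatorElement_def]; group
      _ = r * (w⁻¹ * w⁻¹) * r⁻¹ := by rw [w2]; group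
      _ = 1 := by rw [wi, w2]; group
  have ab : R ≤ 𝒞(R) := by
    by_contra na
    have ne : R.map σ ≠ ⊥ := fun e => na fun r hr => by
      have : σ r ∈ R.map σ := mem_map_of_mem σ hr
      rw [e] at this
      exact ((hk r).1 this).2
    obtain ⟨⟨_, ⟨w, hw, rfl⟩, hc⟩, z1⟩ := (ne_bot_iff_exists_ne_one).1
      (Core.inf_centralizer_ne_bot_of_isPGroup (hR.map σ) (hR.map σ) le_normalizer ne)
    exact z1 (Subtype.ext ((hk w).2 ⟨hw, l2 ⟨hw, hc⟩⟩))
  have l3 : R ≤ 𝒞[y] := all _ _ le_rfl fun e he e3 w hw => BG.mem_cent1.2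
    (mem_centralizer_iff.1 (hP hy) w (mem_omegaZ.2 ⟨hw.1, ab hw.1, by
      rw [pow_two]; exact h.three_sq hR e3.symm.dvd hw.1 (BG.mem_cent1.1 hw.2).symm⟩))
  have yR : y ∈ R := cR (mem_centralizer_iff.2 fun r hr => BG.mem_cent1.1 (l3 hr))
  have := ab_two_odd hR (F := zpowers y) (by rw [Nat.card_zpowers, y3]; decide) yR (mem_zpowers y)
  simp [this] at y3

theorem h3_L {F T : Subgroup G} [nF : F.Normal] (cF : 𝒞(F) ≤ F) (h3 : Nat.card F ∣ 3)
    (hT : IsSylowIn 2 T ⊤) : T.index ∣ 3 ∧ (T = ⊥ ∨ (Nat.card T = 2 ∧ T.index = 3 ∧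
      ∃ y : G, orderOf y = 3 ∧ ∀ t ∈ T, t ≠ 1 → t * y * t⁻¹ * y = 1)) := by
  have := Fact.mk Nat.prime_two
  have := Fact.mk Nat.prime_three
  have oF : Odd (Nat.card F) := Odd.of_dvd_nat (by decide) h3
  have tf := fun t ht hf => ab_two_odd (t := t) hT.isPGroup oF ht hf
  have top : F = ⊤ → T.index ∣ 3 ∧ T = ⊥ := fun e => by
    refine ⟨(index_dvd_card T).trans ?_, eq_bot_iff.2 fun t ht => tf t ht (e ▸ mem_top t)⟩
    rwa [e, card_top] at h3
  rcases (Nat.dvd_prime Nat.prime_three).1 h3 with c | c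
  · have e : F = ⊤ := by
      rw [card_eq_one] at c
      rw [eq_top_iff]; refine le_trans ?_ cF
      rw [c]; intro a _; simp
    exact ⟨(top e).1, .inl (top e).2⟩
  obtain ⟨y, yF, y3⟩ := Core.exists_mem_orderOf_eq_of_dvd_card Nat.prime_three c.symm.dvd
  have e : zpowers y = F := BG.eq_of_le_card (zpowers_le.2 yF) (by rw [Nat.card_zpowers, y3, c])
  have y33 : y ^ 3 = 1 := y3 ▸ pow_orderOf_eq_one y
  have inv : ∀ g, g ∉ F → g * y * g⁻¹ * y = 1 := fun g hg => by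
    obtain ⟨n, hn⟩ := mem_powers_iff_mem_zpowers.2 (e.ge (nF.conj_mem y yF g))
    have := Nat.mod_lt n (by norm_num : 0 < 3)
    simp only at hn
    rw [← pow_mod_orderOf, y3] at hn
    interval_cases n % 3
    · rw [pow_zero, eq_comm, mul_inv_eq_one, mul_eq_left] at hn
      simp [hn] at y3
    · refine absurd (cF ?_) hg
      rw [← e, BG.cent_zpowers, BG.mem_cent1, ← mul_inv_eq_iff_eq_mul, ← hn, pow_one]
    · rw [← hn, ← pow_succ, y33]
  by_cases ft : F = ⊤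
  · exact ⟨(top ft).1, .inl (top ft).2⟩
  obtain ⟨a, ha⟩ : ∃ a, a ∉ F := by
    by_contra! k; exact ft (eq_top_iff.2 fun a _ => k a)
  have i2 : F.index = 2 := index_eq_two_iff_exists_notMem_and.2 ⟨a, ha, fun b => by
    by_cases hb : b ∈ F
    · exact .inr hb
    · refine .inl (cF ?_)
      rw [← e, BG.cent_zpowers, BG.mem_cent1, ← mul_inv_eq_iff_eq_mul,
        show b * a * y * (b * a)⁻¹ = b * (a * y * a⁻¹) * b⁻¹ by group,
        eq_inv_of_mul_eq_one_left (inv a ha), ← inv_inj,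
        show (b * y⁻¹ * b⁻¹)⁻¹ = b * y * b⁻¹ by group]
      exact eq_inv_of_mul_eq_one_left (inv b hb)⟩
  have c6 : Nat.card T * T.index = 6 := by rw [card_mul_index, ← card_mul_index F, c, i2]
  have nd := hT.not_dvd_relIndex
  rw [relIndex_top_right] at nd
  obtain ⟨k, hk⟩ := BG.pgroup_card Nat.prime_two hT.isPGroup
  have l6 : T.index ≤ 6 := Nat.le_of_dvd (by norm_num) (Dvd.intro_left _ c6)
  have i3 : T.index = 3 := by
    generalize T.index = m at *
    interval_cases m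
    all_goals first | omega | skip
    rw [hk, mul_one] at c6
    exact absurd (Nat.prime_three.dvd_of_dvd_pow (c6 ▸ by norm_num : 3 ∣ 2 ^ k)) (by norm_num)
  rw [i3] at c6 ⊢
  exact ⟨dvd_rfl, .inr ⟨by omega, rfl, y, y3, fun t ht t1 => inv t fun m => t1 (tf t ht m)⟩⟩

theorem Cl.h3 (h : Cl G) {H S : Subgroup G} (sc : Sc H) (hS : IsSylowIn 2 S H) (S1 : S ≠ ⊥)
    (hZ : H ≤ 𝒞(ZZ S)) : S.relIndex H ∣ 3 ∧ (H ≤ 𝒩(S) ∨ ∃ x, S3 H (pCoreOf 2 H) S x) := by
  have := Fact.mk Nat.prime_two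
  have := Fact.mk Nat.prime_three
  obtain ⟨z, hz, z2⟩ := Core.exists_mem_orderOf_eq_of_isPGroup
    (hS.isPGroup.to_le (omegaZ_le (p := 2) S)) (omegaZ_ne_bot hS.isPGroup S1)
  have Hz : H ≤ 𝒞[z] := fun g hg => BG.mem_cent1.2 (mem_centralizer_iff.1 (hZ hg) z hz).symm
  have hs := h.solvable_cent z2 Hz
  have hH := h.sub H
  have nR : (pCore 2 H).Normal := inferInstance
  have hR := Core.isPGroup_pCore 2 H
  set π := QuotientGroup.mk' (pCore 2 H) with hπ
  have sπ : Function.Surjective π := QuotientGroup.mk'_surjective _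
  have hk : π.ker = pCore 2 H := QuotientGroup.ker_mk' _
  have RS := hS.pCoreOf_le
  have RS0 : pCore 2 H ≤ S.subgroupOf H := fun a ha => RS (mem_pCore_iff.1 ha)
  have cR : 𝒞(pCore 2 H) ≤ pCore 2 H := fun a ha =>
    mem_pCore_iff.2 (sc (mem_centralizer_iff.2 fun b hb => congrArg Subtype.val
      (mem_centralizer_iff.1 ha ⟨b, pCoreOf_le H hb⟩ (mem_pCore_iff.2 hb))))
  have nF := Core.fittingSubgroup_normal (H ⧸ pCore 2 H)
  set F := fittingSubgroup (H ⧸ pCore 2 H) with hF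
  have oF : Odd (Nat.card F) := (Core.odd_card_oddCore _).of_dvd_nat (card_dvd_of_le
    (Core.fittingSubgroup_le_pPrimeCore_of_pCore_eq_bot Nat.prime_two
      (Core.pCore_quotient_pCore 2 H)))
  have F3 : IsPGroup 3 F := Core.isPGroup_of_forall_pow_eq_one fun f hf => by
    have d := fun p (hp : p.Prime) (e : orderOf f = p) => h.cent23 z2 Hz hp
      (e ▸ (orderOf_dvd_natCard f).trans (card_dvd_of_surjective π sπ))
    rcases ab_odd_ord (hH.quot _) oF hf with a | a | a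
    · exact a
    · have := d 5 (by norm_num) a; omega
    · have := d 7 (by norm_num) a; omega
  obtain ⟨P, hP⟩ := exists_isSylowIn 3 (comap π F)
  have PF : P.map π = F := by
    have := hP.map π
    rw [map_comap_eq_self_of_surjective sπ] at this
    exact (this.eq_of_le F F3 this.le le_rfl).symm
  have cw := h3_cw (D := comap π F) (S := S.subgroupOf H) hR hP.isPGroup
    (by rw [← PF, comap_map_eq, hk, sup_comm]) hP.le hS.isPGroup.comap_subtype RS0
    fun w hw wc w2 g => Subtype.ext (mem_centralizer_iff.1 (hZ g.2) w (mem_omegaZ.2 ⟨hw,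
      mem_centralizer_iff.2 fun s hs => congrArg Subtype.val
        (mem_centralizer_iff.1 wc ⟨s, hS.le hs⟩ hs), congrArg Subtype.val w2⟩)).symm
  have n9 := h3_n9 hH hR cR cw
  have d3 : Nat.card F ∣ 3 := by
    obtain ⟨k, hk⟩ := BG.pgroup_card Nat.prime_three F3
    have : k ≤ 1 := by_contra fun e => n9 (((pow_dvd_pow 3 (by omega : 2 ≤ k)).trans
      hk.symm.dvd).trans (PF ▸ card_map_dvd P π))
    rw [hk]; exact (pow_dvd_pow 3 this).trans (pow_one 3).dvd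
  have hT : IsSylowIn 2 ((S.subgroupOf H).map π) ⊤ := by
    have := (hS.subgroupOf le_rfl).map π
    rwa [subgroupOf_self, map_top_of_surjective π sπ] at this
  have ix : ((S.subgroupOf H).map π).index = S.relIndex H := index_map_eq _ sπ (hk.le.trans RS0)
  obtain ⟨a, b⟩ := h3_L Core.centralizer_fittingSubgroup_le d3 hT
  refine ⟨ix ▸ a, b.imp (fun e => ?_) fun ⟨c2, i3, y, y3, inv⟩ => ?_⟩
  · rw [Subgroup.map_eq_bot_iff, hk] at e
    have : S = pCoreOf 2 H := le_antisymm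
      (fun s hs => mem_pCore_iff.1 (e (show (⟨s, hS.le hs⟩ : H) ∈ S.subgroupOf H from hs))) RS
    rw [this]; exact le_normalizer_pCoreOf H
  · obtain ⟨x, rfl, x3⟩ := hH.lift' π sπ (.inl rfl) y3
    refine ⟨x, RS, hS.le, le_normalizer_pCoreOf H, hS.isPGroup, ?_, ix ▸ i3, x.2,
      by rw [orderOf_coe, x3], fun s hs sR => ?_⟩
    · rw [← relIndex_subgroupOf hS.le, pCoreOf_subgroupOf, ← hk, relIndex_ker, c2]
    · have := inv (π ⟨s, hS.le hs⟩) (mem_map_of_mem π hs) fun e =>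
        sR (mem_pCore_iff.1 (hk ▸ MonoidHom.mem_ker.2 e :))
      rw [← map_inv, ← map_mul, ← map_mul, ← map_mul, ← MonoidHom.mem_ker, hk] at this
      exact mem_pCore_iff.1 this

end CfsgLib.O8
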