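import Mathlib
import Cfsg.Agent.Lib.O8.Defs

/-! Basic properties of the non-solvable 2-local subgroup. -/

set_option autoImplicit false
set_option linter.unusedSectionVars false

namespace CfsgLib.O8

open Cfsg Subgroup CfsgLib.LAE CfsgLib.PLocal CfsgLib.ZJ CfsgLib.Blocks
open scoped CfsgLib.BG MatrixGroups commutatorElement

universe u

variable {G : Type*} [Group G] [Finite G] {M Q V T : Subgroup G}

theorem NS.two (n : NS M Q V T) : IsPGroup 2 T := by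
  exact n.syl.isPGroup

theorem NS.twoQ (n : NS M Q V T) : IsPGroup 2 Q := by
  exact n.two.to_le n.QT

theorem NS.TM (n : NS M Q V T) : T ≤ M := by
  exact n.syl.le

theorem NS.VQ (n : NS M Q V T) : V ≤ Q := by
  rw [n.hV]; exact omegaZ_le Q

theorem NS.eaV (n : NS M Q V T) : IsElementaryAbelian 2 V := by
  rw [n.hV]; exact elemAb_omegaZ Q

theorem NS.V1 (n : NS M Q V T) : V ≠ ⊥ := by
  have := Fact.mk Nat.prime_two
  rw [n.hV]; exact omegaZ_ne_bot n.twoQ n.Q1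

theorem NS.nQ' (n : NS M Q V T) : 𝒩(Q) = M := by
  exact n.max Q n.twoQ n.Q1 n.nQ

theorem NS.nV (n : NS M Q V T) : 𝒩(V) = M := by
  refine n.max V (n.twoQ.to_le n.VQ) n.V1 ?_
  rw [n.hV]; exact le_normalizer_omegaZ_of_le n.nQ

theorem NS.le_Q (n : NS M Q V T) {K : Subgroup G} (hK : IsPGroup 2 K) (h1 : K ≤ M) (h2 : M ≤ 𝒩(K)) :
    K ≤ Q := by
  by_contra h
  obtain ⟨f, hf, o⟩ := n.soc K h1 h2 h
  have := n.cl.fpf' hK o f hf rfl
  subst this
  simp at o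

theorem NS.ex57 (n : NS M Q V T) : ∃ f ∈ M, orderOf f = 5 ∨ orderOf f = 7 := by
  exact n.soc M le_rfl le_normalizer fun h => n.ne (n.TM.trans h)

/-- `M` centralizes no involution of `Q` -/
theorem NS.ncent (n : NS M Q V T) {z : G} (hz : z ∈ Q) (h : M ≤ 𝒞[z]) : z = 1 := by
  obtain ⟨f, hf, o⟩ := n.ex57
  exact n.cl.fpf' n.twoQ o z hz (mem_centralizer_singleton_iff.1 (h hf))

theorem NS.nt (n : NS M Q V T) {Y Y₀ : Subgroup G} (h0 : Y₀ ≤ Y) (hY : Y ≤ Q) (n1 : M ≤ 𝒩(Y))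
    (n0 : M ≤ 𝒩(Y₀)) (ne : ¬ Y ≤ Y₀) {a : G} (ha : a ∈ M) (hc : ∀ y ∈ Y, ⁅y, a⁆ ∈ Y₀) : a ∈ Q := by
  have YM : Y ≤ M := hY.trans (n.QT.trans n.TM)
  let K : Subgroup G :=
    { carrier := {m | m ∈ M ∧ ∀ y ∈ Y, ⁅y, m⁆ ∈ Y₀}
      one_mem' := ⟨one_mem _, fun y _ => by simp⟩
      mul_mem' := fun {a b} ha hb => ⟨mul_mem ha.1 hb.1, fun y hy => by
        have : ⁅y, a * b⁆ = ⁅y, a⁆ * (a * ⁅y, b⁆ * a⁻¹) := by simp only [commutatorElement_def]; group
        rw [this]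
        exact mul_mem (ha.2 y hy) (LAE.conj_mem_of_mem_normalizer (n0 ha.1) (hb.2 y hy))⟩
      inv_mem' := fun {a} ha => ⟨inv_mem ha.1, fun y hy => by
        have : ⁅y, a⁻¹⁆ = a⁻¹ * ⁅y, a⁆⁻¹ * a := by simp only [commutatorElement_def]; group
        rw [this]
        exact conj_inv_mem_of_mem_normalizer (n0 ha.1) (inv_mem (ha.2 y hy))⟩ }
  by_contra h
  obtain ⟨f, hf, o⟩ := n.soc K (fun _ h => h.1) (fun g hg => mem_normalizer_of_conjS_le
    (conjS_le_iff_forall.2 fun m hm => ⟨mul_mem (mul_mem hg hm.1) (inv_mem hg), fun y hy => by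
      have : ⁅y, g * m * g⁻¹⁆ = g * ⁅g⁻¹ * y * g, m⁆ * g⁻¹ := by
        simp only [commutatorElement_def]; group
      rw [this]
      exact LAE.conj_mem_of_mem_normalizer (n0 hg) (hm.2 _ (conj_inv_mem_of_mem_normalizer (n1 hg) hy))⟩))
    fun k => h (k (show a ∈ K from ⟨ha, hc⟩))
  refine ne fun y hy => ?_
  obtain ⟨q, hq, rfl⟩ := Ord6.fpf_surj (fun q hq => LAE.conj_mem_of_mem_normalizer (n1 hf.1) hq)
    (n.cl.fpf' (n.twoQ.to_le hY) o) hy
  have := hf.2 _ (inv_mem hq)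
  rwa [commutatorElement_def, inv_inv, mul_assoc, mul_assoc, ← mul_assoc f] at this

theorem NS.cV (n : NS M Q V T) : 𝒞(V) = Q := by
  refine le_antisymm (fun a ha => n.nt bot_le n.VQ n.nV.ge (by rw [normalizer_eq_top]; exact le_top)
    (fun h => n.V1 (le_bot_iff.1 h)) (n.nV ▸ centralizer_le_normalizer _ ha) fun y hy => ?_) ?_
  · exact mem_bot.2 (commutatorElement_eq_one_iff_mul_comm.2 (ha y hy))
  · rw [n.hV]; exact le_centralizer_omegaZ Q

theorem NS.hZ (n : NS M Q V T) : ZZ T = V ⊓ 𝒞(T) := by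
  ext z
  rw [mem_omegaZ, mem_inf, n.hV, mem_omegaZ]
  exact ⟨fun h => ⟨⟨n.cQ (centralizer_le n.QT h.2.1), centralizer_le n.QT h.2.1, h.2.2⟩, h.2.1⟩,
    fun h => ⟨n.QT h.1.1, h.2, h.1.2.2⟩⟩

theorem NS.Z1 (n : NS M Q V T) : ZZ T ≠ ⊥ := by
  have := Fact.mk Nat.prime_two
  exact omegaZ_ne_bot n.two fun h => n.ne (h ▸ bot_le)

theorem NS.syl_of (n : NS M Q V T) (h : 𝒩(T) ≤ M) : IsSylowIn 2 T ⊤ := by
  have := Fact.mk Nat.prime_two
  refine ⟨le_top, n.two, fun S hS h1 _ => ?_⟩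
  by_contra ne
  have lt : T < S := lt_of_le_of_ne h1 (Ne.symm ne)
  exact (Core.lt_inf_normalizer_of_isPGroup hS lt).not_ge
    (n.syl.le_of_normalizes hS.to_inf_left (inf_le_right.trans h) inf_le_right)

/-- elements of order two of `T` centralizing `J(T)` -/
theorem mem_zj (hT : IsPGroup 2 T) {u : G} (hu : u ∈ T) (u2 : u * u = 1) (hc : JJ T ≤ 𝒞[u]) :
    u ∈ zj 2 T := by
  rw [← omegaOne_centralizer_thompson]
  exact mem_omegaOne ⟨hu, fun a ha => mem_centralizer_singleton_iff.1 (hc ha)⟩ (by rwa [pow_two])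


end CfsgLib.O8
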