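import Mathlib
import Cfsg.Agent.Lib.O8.Nsb
import Cfsg.Agent.Lib.O8.H3

/-! The centralizer of `Z` when `M / Q ≅ A₅`. -/

set_option autoImplicit false
set_option linter.unusedSectionVars false

namespace CfsgLib.O8

open Cfsg Subgroup CfsgLib.LAE CfsgLib.PLocal CfsgLib.ZJ CfsgLib.Blocks
open scoped CfsgLib.BG MatrixGroups commutatorElement

universe u

variable {G : Type*} [Group G] [Finite G] {M Q V T : Subgroup G} {x : G}

theorem a5z_pow {K : Type*} [Group K] [Finite K] {x b : K} (x3 : x ^ 3 = 1) (hb : b ∈ zpowers x) :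
    b = 1 ∨ b = x ∨ b * x = 1 := by
  obtain ⟨k, rfl⟩ := (mem_powers_iff_mem_zpowers.2 hb)
  have e : x ^ k = x ^ (k % 3) := by
    conv_lhs => rw [← Nat.div_add_mod k 3, pow_add, pow_mul, x3, one_pow, one_mul]
  have : k % 3 < 3 := Nat.mod_lt _ (by norm_num)
  simp only [e]
  generalize k % 3 = j at this
  interval_cases j
  · simp
  · simp
  · right; right; rw [← pow_succ, x3]

theorem a5z_two (k : ℕ) : 2 ^ k % 15 = 1 ∨ 2 ^ k % 15 = 2 ∨ 2 ^ k % 15 = 4 ∨ 2 ^ k % 15 = 8 := by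
  induction k with
  | zero => simp
  | succ k ih => rw [pow_succ]; omega

theorem a5z_mul {R : Subgroup G} (RT : R ≤ T) (i2 : R.relIndex T = 2) {a b : G} (ha : a ∈ T) (hb : b ∈ T)
    (ha' : a ∉ R) (hb' : b ∉ R) : a * b ∈ R :=
  (mul_mem_iff_of_index_two (H := R.subgroupOf T) i2 (a := ⟨a, ha⟩) (b := ⟨b, hb⟩)).2 (iff_of_false ha' hb')

theorem a5z_three {H R : Subgroup G} {y w : G} (s : S3 H R T y) (hw : w ∈ H) (w3 : w ^ 3 = 1) (yR : y ∉ R) :
    w ∈ R ∨ w * y⁻¹ ∈ R ∨ w * y ∈ R := by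
  haveI : (R.subgroupOf H).Normal := normal_subgroupOf_of_le_normalizer s.nR
  haveI : Fact (Nat.Prime 3) := ⟨Nat.prime_three⟩
  let f := QuotientGroup.mk' (R.subgroupOf H)
  have hf : ∀ a : H, f a = 1 ↔ (a : G) ∈ R := fun a => QuotientGroup.eq_one_iff a
  have y3 : f ⟨y, s.xH⟩ ^ 3 = 1 := by
    rw [← map_pow, show (⟨y, s.xH⟩ : H) ^ 3 = 1 from Subtype.ext (s.x3 ▸ pow_orderOf_eq_one y), map_one]
  have w3' : f ⟨w, hw⟩ ^ 3 = 1 := by
    rw [← map_pow, show (⟨w, hw⟩ : H) ^ 3 = 1 from Subtype.ext w3, map_one]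
  have o3 : orderOf (f ⟨y, s.xH⟩) = 3 := orderOf_eq_prime y3 fun e => yR ((hf _).1 e)
  have c6 : Nat.card (H ⧸ R.subgroupOf H) = 6 := by
    have := relIndex_mul_relIndex R T H s.RT s.TH
    rw [s.i2, s.i3] at this
    exact this.symm
  have i2 : (zpowers (f ⟨y, s.xH⟩)).index = 2 := by
    have := (zpowers (f ⟨y, s.xH⟩)).card_mul_index
    rw [Nat.card_zpowers, o3, c6] at this
    omega
  have h1 := sq_mem_of_index_two i2 (f ⟨w, hw⟩ ^ 2)
  rw [← pow_mul, show 2 * 2 = 3 + 1 from rfl, pow_succ, w3', one_mul] at h1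
  rcases a5z_pow y3 h1 with e | e | e
  · exact Or.inl ((hf _).1 e)
  · refine Or.inr (Or.inl ((hf (⟨w, hw⟩ * ⟨y, s.xH⟩⁻¹)).1 ?_))
    rw [map_mul, map_inv, e, mul_inv_cancel]
  · exact Or.inr (Or.inr ((hf (⟨w, hw⟩ * ⟨y, s.xH⟩)).1 (by rw [map_mul, e])))

theorem Gl.a5z (g : Gl G) (n : NS M Q V T) (d : TA M Q V T x) (hN : 𝒩(T) ≤ M)
    (fx : ∀ z ∈ ZZ T, x * z = z * x → z = 1) : 𝒞(ZZ T) ≤ T := by
  haveI : Fact (Nat.Prime 2) := ⟨Nat.prime_two⟩
  have TH : T ≤ 𝒞(ZZ T) := le_centralizer_omegaZ T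
  have x3 : x ^ 3 = 1 := d.x3 ▸ pow_orderOf_eq_one x
  have xH : x ∉ 𝒞(ZZ T) := fun h => n.Z1 (eq_bot_iff.2 fun z hz => fx z hz (h z hz).symm)
  have hx1 : ∀ b ∈ zpowers x, b ∈ 𝒞(ZZ T) → b = 1 := fun b hb hb' => by
    rcases a5z_pow x3 hb with e | e | e
    · exact e
    · exact absurd (e ▸ hb') xH
    · exact absurd (eq_inv_of_mul_eq_one_right e ▸ inv_mem hb') xH
  obtain ⟨-, h | ⟨y, s⟩⟩ := g.cl.h3 (g.scC _ (elemAb_omegaZ T) n.Z1) ((n.syl_of hN).mono TH le_top)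
    (fun h => n.ne (h ▸ bot_le)) le_rfl
  · intro a ha
    obtain ⟨t, ht, b, hb, rfl⟩ := (mem_sup_iff_of_right_le_normalizer (zpowers_le.2 d.xT)).1
      (d.nT ⟨hN (h ha), h ha⟩)
    rw [hx1 b hb (by simpa using mul_mem (inv_mem (TH ht)) ha), mul_one]
    exact ht
  exfalso
  have xH' : x ∈ 𝒩(𝒞(ZZ T)) :=
    mem_normalizer_iff_conjS.2 (by
      rw [conjS_centralizer, mem_normalizer_iff_conjS.1
        (le_normalizer_omegaZ_of_le (zpowers_le.2 d.xT) (mem_zpowers x))])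
  have xR := normalizer_le_normalizer_pCoreOf (p := 2) _ xH'
  generalize pCoreOf 2 𝒞(ZZ T) = R at s xR
  have hR : IsPGroup 2 R := s.two.to_le s.RT
  have y3 : y ^ 3 = 1 := s.x3 ▸ pow_orderOf_eq_one y
  have yR : y ∉ R := fun h => by
    obtain ⟨k, hk⟩ := hR ⟨y, h⟩
    have h1 := orderOf_dvd_of_pow_eq_one (congrArg Subtype.val hk : y ^ 2 ^ k = 1)
    rw [s.x3] at h1
    exact absurd (Nat.prime_three.dvd_of_dvd_pow h1) (by norm_num)
  have yN := s.nR s.xH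
  have cR : ∀ {k r : G}, k ∈ 𝒩(R) → r ∈ R → k * r * k⁻¹ ∈ R := fun hk hr => (mem_normalizer_iff.1 hk _).1 hr
  have xy : ⁅x, y⁆ ∈ R := by
    rcases a5z_three s ((mem_normalizer_iff.1 xH' y).1 s.xH) (by rw [conj_pow, y3]; simp) yR with h | h | h
    · exact absurd ((mem_normalizer_iff.1 xR y).2 h) yR
    · exact h
    · exfalso
      have h1 := cR xR h
      have h2 := cR xR h1
      have e : x * (x * (x * y * x⁻¹ * y) * x⁻¹) * x⁻¹ = y * (x * (x * y * x⁻¹) * x⁻¹) := by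
        calc _ = x ^ 3 * y * (x ^ 3)⁻¹ * (x * (x * y * x⁻¹) * x⁻¹) := by
              simp only [pow_three, mul_inv_rev, mul_assoc, inv_mul_cancel_left]
          _ = _ := by rw [x3]; simp
      rw [e] at h2
      rw [← conj_mul] at h1
      generalize x * (x * y * x⁻¹) * x⁻¹ = w2 at h1 h2
      generalize x * y * x⁻¹ = w at h h1
      have h3 := mul_mem (inv_mem (mul_mem h2 h)) (cR yN h1)
      have e2 : (y * w2 * (w * y))⁻¹ * (y * (w2 * w) * y⁻¹) = y * (y ^ 3)⁻¹ := by group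
      rw [e2, y3, inv_one, mul_one] at h3
      exact yR h3
  obtain ⟨r, hr, d3, xd⟩ := g.cl.comm3 hR d.x3 s.x3 xR yN xy
  have dN : r * y ∈ 𝒩(R) := Subgroup.mul_mem _ (le_normalizer hr) yN
  have nd : r * y ∉ zpowers x := fun h => by
    rw [hx1 _ h (mul_mem (s.TH (s.RT hr)) s.xH), orderOf_one] at d3
    omega
  obtain ⟨t, ht, tR⟩ : ∃ t ∈ T, t ∉ R := by
    by_contra h
    push Not at h
    have := s.i2
    rw [relIndex_eq_one.2 h] at this
    omega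
  have tN := s.nR (s.TH ht)
  have tt := a5z_mul s.RT s.i2 ht ht tR tR
  have xt : ⁅x, t⁆ ∈ R := a5z_mul s.RT s.i2 ((mem_normalizer_iff.1 d.xT t).1 ht) (inv_mem ht)
    (fun h => tR ((mem_normalizer_iff.1 xR t).2 h)) fun h => tR (inv_mem_iff.1 h)
  have h1 := g.cl.ylem hR d.x3 d3 xd xR dN tN tt xt (by
    have := mul_mem (mul_mem (cR tN hr) (s.inv t ht tR)) (cR (Subgroup.inv_mem _ yN) hr)
    convert this using 1
    group)
  obtain ⟨q, hq, -, -, h2⟩ := g.cl.cx hR d.x3 xR tN xt tt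
  have h3 := card_mod Nat.prime_three d.x3 xR fun c hc e => by
    refine fx c (mem_omegaZ.2 ⟨s.RT hc, fun a ha => ?_, ?_⟩) e
    · have h4 := g.cl.cen9 hR d.x3 d3 xd nd xR dN hc e (h1 c hc e)
      by_cases haR : a ∈ R
      · exact h4 a haR
      · have h5 := a5z_mul s.RT s.i2 ha (inv_mem (mul_mem (s.RT hq) ht)) haR
          fun h => tR (by simpa using mul_mem (inv_mem hq) (inv_mem_iff.1 h))
        have h6 : Commute (a * (q * t)⁻¹ * (q * t)) c := Commute.mul_left (h4 _ h5) (h2 c hc e)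
        rwa [inv_mul_cancel_right] at h6
    · rw [pow_two]; exact g.cl.three_sq hR (by rw [d.x3]) hc e
  obtain ⟨f, hf, f5⟩ := d.five
  have h4 := card_mod Nat.prime_five f5 (n.nQ hf) (g.cl.fpf' n.twoQ (Or.inl f5))
  obtain ⟨k, hk⟩ := n.twoQ.exists_card_eq
  have h5 := Tech.card_mul_relIndex' s.RT
  have h6 := Tech.card_mul_relIndex' n.QT
  have h7 := a5z_two k
  rw [s.i2] at h5
  rw [d.idx] at h6
  omega


end CfsgLib.O8
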