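import Mathlib
import Cfsg.Agent.Lib.O8.Nsb
import Cfsg.Agent.Lib.O8.Cx

/-! From groups to modules. -/

set_option autoImplicit false
set_option linter.unusedSectionVars false

namespace CfsgLib.O8

open Cfsg Subgroup CfsgLib.LAE CfsgLib.PLocal CfsgLib.ZJ CfsgLib.Blocks
open scoped CfsgLib.BG MatrixGroups commutatorElement

universe u

variable {G : Type u} [Group G] [Finite G] {L : Type*} [Group L]

theorem Act.mod {π : G →* L} {V : Subgroup G} (h : Act π V) :
    ∃ (A : Type u) (_ : AddCommGroup A) (_ : Finite A) (_ : DistribMulAction L A), Mod L A ∧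
      Nat.card A = Nat.card V ∧ ∀ g : G, nfix A (π g) = Nat.card ↥(V ⊓ 𝒞[g]) := by
  haveI := h.nV
  have cm : ∀ a ∈ V, ∀ b ∈ V, a * b = b * a := fun a ha b hb => have := h.ea.1; setLike_mul_comm ha hb
  letI : CommGroup V := { (inferInstance : Group V) with mul_comm := fun a b => Subtype.ext (cm _ a.2 _ b.2) }
  have hk : π.ker ≤ (MulAut.conjNormal : G →* MulAut V).ker := fun g hg => by
    ext v
    rw [MulAut.conjNormal_apply, ← h.cen hg v v.2, mul_inv_cancel_right]
    rfl
  let ρ : L →* MulAut V := π.liftOfSurjective h.surj ⟨_, hk⟩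
  have hρ : ∀ (g : G) (v : V), (ρ (π g) v : G) = g * v * g⁻¹ := fun g v => by
    rw [show ρ (π g) = MulAut.conjNormal g from MonoidHom.liftOfRightInverse_comp_apply _ _ _ _ g,
      MulAut.conjNormal_apply]
  letI : DistribMulAction L (Additive V) :=
    { smul := fun l a => Additive.ofMul (ρ l a.toMul)
      one_smul := fun a => by change Additive.ofMul (ρ 1 a.toMul) = a; simp
      mul_smul := fun x y a => by
        change Additive.ofMul (ρ (x * y) a.toMul) = Additive.ofMul (ρ x (ρ y a.toMul)); simp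
      smul_zero := fun x => by change Additive.ofMul (ρ x 1) = 0; simp
      smul_add := fun x a b => by
        change Additive.ofMul (ρ x (a.toMul * b.toMul)) = Additive.ofMul (ρ x a.toMul * ρ x b.toMul)
        rw [map_mul] }
  have hs : ∀ (g : G) (a : Additive V), (((π g • a).toMul : V) : G) = g * (a.toMul : V) * g⁻¹ :=
    fun g a => hρ g _
  have hfix : ∀ (g : G) (a : Additive V), π g • a = a ↔ g * (a.toMul : V) = (a.toMul : V) * g := fun g a => by
    rw [← mul_inv_eq_iff_eq_mul, ← hs]
    exact ⟨fun e => by rw [e], fun e => Additive.toMul.injective (Subtype.ext e)⟩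
  refine ⟨Additive V, inferInstance, inferInstance, inferInstance, ⟨h.cl.of_surj π h.surj, fun a => ?_,
    fun f hf a ha => ?_, fun x t x3 tt xt a ha => ?_, fun g g8 a => ?_⟩, rfl, fun g => ?_⟩
  · refine Additive.toMul.injective (Subtype.ext ?_)
    have := h.ea.2 _ a.toMul.2
    rwa [pow_two] at this
  · obtain ⟨k, rfl, hk⟩ := h.cl.lift' π h.surj (n := orderOf f) (Or.inr hf) rfl
    exact Additive.toMul.injective (Subtype.ext
      (h.cl.fpf' h.two (by rwa [hk]) _ (h.le a.toMul.2) ((hfix k a).1 ha)))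
  · obtain ⟨y, rfl, hy⟩ := h.cl.lift' π h.surj (Or.inl rfl) x3
    obtain ⟨s, rfl⟩ := h.surj t
    obtain ⟨q, hq, -, -, e⟩ := h.cl.cx h.two hy (t := s) (le_normalizer_of_normal (mem_top _))
      (le_normalizer_of_normal (mem_top _))
      (by rw [MonoidHom.mem_ker, map_commutatorElement, commutatorElement_eq_one_iff_mul_comm, xt])
      (by rw [MonoidHom.mem_ker, map_mul, tt])
    have := (hfix (q * s) a).2 (e _ (h.le a.toMul.2) ((hfix y a).1 ha))
    rwa [map_mul, MonoidHom.mem_ker.1 hq, one_mul] at this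
  · obtain ⟨s, rfl⟩ := h.surj g
    have key : ∀ v ∈ V, (v * s) ^ 8 = 1 := fun v hv => by
      have h1 := orderOf_map_dvd π (v * s)
      rw [map_mul, MonoidHom.mem_ker.1 (h.le hv), one_mul, g8] at h1
      rw [← le_antisymm (h.cl (v * s)) (Nat.le_of_dvd (orderOf_pos _) h1), pow_orderOf_eq_one]
    have h1 : ∀ n : ℕ, ((a.toMul : V) * s) ^ n =
        (((∑ i ∈ Finset.range n, π s ^ i • a).toMul : V) : G) * s ^ n := fun n => by
      induction n with
      | zero => simp
      | succ n ih =>
        rw [pow_succ, ih, Finset.sum_range_succ, toMul_add, coe_mul, ← map_pow, hs, pow_succ]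
        simp only [mul_assoc, inv_mul_cancel_left]
    have h2 := h1 8
    rw [key _ a.toMul.2, show s ^ 8 = 1 by simpa using key 1 (one_mem V), mul_one] at h2
    exact Additive.toMul.injective (Subtype.ext h2.symm)
  · refine Nat.card_congr
      { toFun := fun a => ⟨(a.1.toMul : V), a.1.toMul.2,
          mem_centralizer_singleton_iff.2 ((hfix g a.1).1 a.2).symm⟩
        invFun := fun v => ⟨Additive.ofMul ⟨v.1, v.2.1⟩,
          (hfix g _).2 (mem_centralizer_singleton_iff.1 v.2.2).symm⟩
        left_inv := fun _ => rfl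
        right_inv := fun _ => rfl }

theorem NS.mod {M Q V T : Subgroup G} (n : NS M Q V T) (π : M →* L) (hπ : Function.Surjective π)
    (hk : ∀ m : M, π m = 1 ↔ (m : G) ∈ Q) :
    ∃ (A : Type u) (_ : AddCommGroup A) (_ : Finite A) (_ : DistribMulAction L A), Mod L A ∧
      Nat.card A = Nat.card V ∧ ∀ m : M, nfix A (π m) = Nat.card ↥(V ⊓ 𝒞[(m : G)]) := by
  have VM : V ≤ M := n.VQ.trans (n.QT.trans n.TM)
  have hker : π.ker = Q.subgroupOf M := Subgroup.ext fun m => hk m
  have act : Act π (V.subgroupOf M) :=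
    { cl := n.cl.sub M
      surj := hπ
      two := hker ▸ n.twoQ.comap_subtype
      nV := normal_subgroupOf_of_le_normalizer n.nV.ge
      ea := ⟨⟨⟨fun a b => Subtype.ext (Subtype.ext (have := n.eaV.1; setLike_mul_comm (s := V) a.2 b.2))⟩⟩,
        fun a ha => Subtype.ext (n.eaV.2 _ ha)⟩
      le := fun v hv => (hk v).2 (n.VQ hv)
      cen := fun m hm v hv => Subtype.ext (n.cV.ge ((hk m).1 hm) v hv) }
  obtain ⟨A, i1, i2, i3, h1, h2, h3⟩ := act.mod
  refine ⟨A, i1, i2, i3, h1, h2.trans (Nat.card_congr (subgroupOfEquivOfLe VM).toEquiv), fun m => ?_⟩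
  rw [h3, ← Nat.card_congr (subgroupOfEquivOfLe (inf_le_left.trans VM : V ⊓ 𝒞[(m : G)] ≤ M)).toEquiv]
  congr 2
  ext v
  simp only [mem_inf, mem_subgroupOf, mem_centralizer_singleton_iff, Subtype.ext_iff, coe_mul]


end CfsgLib.O8
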