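import Mathlib
import Cfsg.Agent.Lib.O8.Nsb

/-! The parabolic subgroups for `M / Q ≅ L₃(2), A₆`. -/

set_option autoImplicit false
set_option linter.unusedSectionVars false
set_option linter.unusedVariables false

namespace CfsgLib.O8

open Cfsg Subgroup CfsgLib.LAE CfsgLib.PLocal CfsgLib.ZJ CfsgLib.Blocks
open scoped CfsgLib.BG MatrixGroups commutatorElement

universe u

variable {G : Type*} [Group G] [Finite G] {M Q V T Q₁ Q₂ : Subgroup G} {x x₁ x₂ z : G}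

theorem tdb_between {A B X : Subgroup G} {p : ℕ} (hp : p.Prime) (h : A.relIndex B = p) (h1 : A ≤ X)
    (h2 : X ≤ B) : X = A ∨ X = B := by
  have e := relIndex_mul_relIndex A X B h1 h2
  rw [h] at e
  rcases (Nat.dvd_prime hp).1 (Dvd.intro _ e) with k | k
  · exact .inl (le_antisymm (relIndex_eq_one.1 k) h1)
  · rw [k] at e
    exact .inr (le_antisymm h2 (relIndex_eq_one.1 (Nat.eq_of_mul_eq_mul_left hp.pos (by rw [e, mul_one]))))

theorem tdb_two {A B : Subgroup G} (h : A.relIndex B = 2) {a b : G} (ha : a ∈ B) (hb : b ∈ B) (h1 : a ∉ A)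
    (h2 : b ∉ A) : a * b ∈ A :=
  (mul_mem_iff_of_index_two (H := A.subgroupOf B) h (a := ⟨a, ha⟩) (b := ⟨b, hb⟩)).2 (iff_of_false h1 h2)

theorem tdb_norm {A B : Subgroup G} (hle : A ≤ B) (h : A.relIndex B = 2) : B ≤ 𝒩(A) :=
  (normal_subgroupOf_iff_le_normalizer hle).1 (normal_of_index_eq_two h)

theorem tdb_card {A B : Subgroup G} (h : A ≤ B) : Nat.card A * A.relIndex B = Nat.card B := by
  rw [← relIndex_bot_left, ← relIndex_bot_left, relIndex_mul_relIndex ⊥ A B bot_le h]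

theorem tdb_pow {K : Subgroup G} {k q : G} (hk : k ∈ K) (hq : q ∈ 𝒩(K)) (j : ℕ) :
    (k * q) ^ j * (q ^ j)⁻¹ ∈ K := by
  induction j with
  | zero => simp
  | succ j ih =>
    rw [show (k * q) ^ (j + 1) * (q ^ (j + 1))⁻¹ = k * (q * ((k * q) ^ j * (q ^ j)⁻¹) * q⁻¹) by
      rw [pow_succ', pow_succ']; group]
    exact mul_mem hk (LAE.conj_mem_of_mem_normalizer hq ih)

theorem TH.tdb_ex (d : TH M Q T Q₁ x) : ∃ a ∈ Q₁, a ∉ Q := by
  refine SetLike.not_le_iff_exists.1 fun e => ?_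
  have := d.i4
  rw [relIndex_eq_one.2 e] at this
  omega

theorem TH.tdb_ex' (d : TH M Q T Q₁ x) : ∃ t ∈ T, t ∉ Q₁ := by
  refine SetLike.not_le_iff_exists.1 fun e => ?_
  have := d.i2
  rw [relIndex_eq_one.2 e] at this
  omega

theorem TH.tdb_sup (d : TH M Q T Q₁ x) {K : Subgroup G} (h1 : K ≤ T) (h2 : ¬ K ≤ Q₁) : K ⊔ Q₁ = T :=
  (tdb_between Nat.prime_two d.i2 le_sup_right (sup_le h1 d.leT)).resolve_left
    fun e => h2 (le_sup_left.trans e.le)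

/-- a subgroup of `Q₁` with image of order more than two covers `Q₁ / Q` -/
theorem TH.tdb_cover (d : TH M Q T Q₁ x) {A : Subgroup G} (h1 : A ≤ Q₁) (h2 : 2 < Q.relIndex A) :
    A ⊔ Q = Q₁ := by
  have e := relIndex_mul_relIndex Q (A ⊔ Q) Q₁ le_sup_right (sup_le h1 d.le)
  rw [d.i4] at e
  have k := relIndex_le_of_le_right (H := Q) (le_sup_left : A ≤ A ⊔ Q) (left_ne_zero_of_mul (e ▸ four_ne_zero))
  refine le_antisymm (sup_le h1 d.le) (relIndex_eq_one.1 ?_)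
  have := Nat.pos_of_ne_zero (right_ne_zero_of_mul (e ▸ four_ne_zero))
  nlinarith

theorem TH.PM (d : TH M Q T Q₁ x) (n : NS M Q V T) : T ⊔ zpowers x ≤ M := by
  exact sup_le n.TM (zpowers_le.2 d.xM)

theorem TH.nQ (d : TH M Q T Q₁ x) (n : NS M Q V T) : T ⊔ zpowers x ≤ 𝒩(Q₁) := by
  exact sup_le (tdb_norm d.leT d.i2) (zpowers_le.2 d.xn)

theorem TH.ne_M (d : TH M Q T Q₁ x) (n : NS M Q V T) : T ⊔ zpowers x ≠ M := by
  intro e
  obtain ⟨a, h1, h2⟩ := d.tdb_ex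
  exact h2 (n.le_Q (n.two.to_le d.leT) (d.leT.trans n.TM) (e ▸ d.nQ n) h1)

theorem TH.xT (d : TH M Q T Q₁ x) (n : NS M Q V T) : x ∉ T := by
  exact fun e => d.nn (le_normalizer e)

theorem TH.maxT (d : TH M Q T Q₁ x) (n : NS M Q V T) {X : Subgroup G} (h1 : T ≤ X)
    (h2 : X ≤ T ⊔ zpowers x) : X = T ∨ X = T ⊔ zpowers x := by
  exact tdb_between Nat.prime_three d.i3 h1 h2

theorem TH.core (d : TH M Q T Q₁ x) (n : NS M Q V T) {K : Subgroup G} (hK : IsPGroup 2 K)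
    (h1 : K ≤ T ⊔ zpowers x) (h2 : T ⊔ zpowers x ≤ 𝒩(K)) : K ≤ Q₁ := by
  by_contra h
  have k := n.syl.le_of_le_normalizer hK (h1.trans (d.PM n)) (le_sup_left.trans h2)
  have := le_normalizer_sup h2 (d.nQ n) (mem_sup_right (mem_zpowers x))
  rw [d.tdb_sup k h] at this
  exact d.nn this

/-- `x` acts irreducibly on `Q₁ / Q` -/
theorem TH.tr (d : TH M Q T Q₁ x) (n : NS M Q V T) {K : Subgroup G} (h1 : K ≤ Q₁) (h2 : x ∈ 𝒩(K))
    (h3 : ¬ K ≤ Q) : K ⊔ Q = Q₁ := by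
  by_contra ne
  obtain ⟨a, a1, a2⟩ := SetLike.not_le_iff_exists.1 h3
  have k1 : ¬ 2 < Q.relIndex (K ⊔ Q) := fun e =>
    ne (by rw [← d.tdb_cover (sup_le h1 d.le) e, sup_assoc, sup_idem])
  have k2 : Q.relIndex (K ⊔ Q) ≠ 1 := fun e => h3 (le_sup_left.trans (relIndex_eq_one.1 e))
  have k3 : Q.relIndex (K ⊔ Q) ≠ 0 := index_ne_zero_of_finite
  refine a2 (d.fpf a (h1 a1) (tdb_two (B := K ⊔ Q) (by omega)
    (mem_sup_left (LAE.conj_mem_of_mem_normalizer h2 a1)) (mem_sup_left (inv_mem a1)) (fun e => a2 ?_)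
    fun e => a2 (inv_mem_iff.1 e)))
  simpa [mul_assoc] using conj_inv_mem_of_mem_normalizer (n.nQ d.xM) e

theorem TH.cov (d : TH M Q T Q₁ x) (n : NS M Q V T) {K : Subgroup G} (h : ∀ a ∈ Q₁, ⁅x, a⁆ ∈ K) :
    Q₁ ≤ K ⊔ Q := by
  have k1 : closure {w | ∃ a ∈ Q₁, w = ⁅x, a⁆} ≤ Q₁ := (closure_le _).2 (by
    rintro _ ⟨a, ha, rfl⟩
    exact mul_mem (LAE.conj_mem_of_mem_normalizer d.xn ha) (inv_mem ha))
  have k2 : closure {w | ∃ a ∈ Q₁, w = ⁅x, a⁆} ≤ K := (closure_le _).2 (by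
    rintro _ ⟨a, ha, rfl⟩
    exact h a ha)
  rw [← d.tr n k1 (mem_normalizer_of_conjS_le (conjS_le_iff.2 ((closure_le _).2 ?_))) fun e => ?_]
  · exact sup_le_sup_right k2 Q
  · rintro _ ⟨a, ha, rfl⟩
    refine mem_conjS.2 (Subgroup.subset_closure ⟨_, LAE.conj_mem_of_mem_normalizer d.xn ha, ?_⟩)
    simp only [commutatorElement_def]
    group
  · obtain ⟨a, h1, h2⟩ := d.tdb_ex
    exact h2 (d.fpf a h1 (e (Subgroup.subset_closure ⟨a, h1, rfl⟩)))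

theorem TH.ncl (d : TH M Q T Q₁ x) (n : NS M Q V T) {K : Subgroup G} (hK : T ⊔ zpowers x ≤ 𝒩(K))
    {t : G} (tK : t ∈ K) (tT : t ∈ T) (tQ : t ∉ Q₁) : x ∈ K ∧ T ⊔ zpowers x ≤ K ⊔ Q := by
  have xP : x ∈ T ⊔ zpowers x := mem_sup_right (mem_zpowers x)
  have QP : Q₁ ≤ T ⊔ zpowers x := d.leT.trans le_sup_left
  have e1 := d.tdb_sup (zpowers_le.2 tT) fun e => tQ (e (mem_zpowers t))
  have n1 : T ⊔ zpowers x ≤ 𝒩((K ⊓ (T ⊔ zpowers x) : Subgroup G)) := le_normalizer_inf hK le_normalizer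
  have e2 := (d.maxT n (X := K ⊓ (T ⊔ zpowers x) ⊔ Q₁)
    (e1.ge.trans (sup_le_sup_right (zpowers_le.2 (mem_inf.2 ⟨tK, mem_sup_left tT⟩)) _))
    (sup_le inf_le_right QP)).resolve_left fun e => d.nn (e ▸ le_normalizer_sup n1 (d.nQ n) xP)
  obtain ⟨k, hk, q, hq, e3⟩ := (mem_sup_iff_of_right_le_normalizer (QP.trans n1)).1 (e2.ge xP)
  obtain ⟨j, hj⟩ := isPGroup_iff_forall_mem.1 n.two q (d.leT hq)
  have k1 := tdb_pow hk.1 (hK (QP hq)) (2 ^ j)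
  rw [hj, inv_one, mul_one, ← e3] at k1
  obtain ⟨i, hi⟩ := exists_pow_eq_self_of_coprime (x := x) (n := 2 ^ j)
    (by rw [d.x3]; exact Nat.Coprime.pow_left j (by norm_num))
  have xK : x ∈ K := hi ▸ pow_mem k1 i
  refine ⟨xK, sup_le (e1.ge.trans (sup_le (zpowers_le.2 (mem_sup_left tK)) (d.cov n fun a ha => ?_)))
    (zpowers_le.2 (mem_sup_left xK))⟩
  rw [commutatorElement_def, mul_assoc, mul_assoc, ← mul_assoc a]
  exact mul_mem xK (LAE.conj_mem_of_mem_normalizer (hK (QP ha)) (inv_mem xK))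

theorem TH.cz (d : TH M Q T Q₁ x) (n : NS M Q V T) (h : V ⊓ 𝒞(Q₁) ≤ 𝒞(T)) : x ∈ 𝒞(ZZ T) := by
  have e : ZZ T = V ⊓ 𝒞(Q₁) :=
    n.hZ.trans (le_antisymm (inf_le_inf_left V (centralizer_anti d.leT)) (le_inf inf_le_left h))
  obtain ⟨t, h1, h2⟩ := d.tdb_ex'
  refine (d.ncl n (le_normalizer_centralizer ?_) (le_centralizer_omegaZ T h1) h1 h2).1
  rw [show omegaZ 2 T = V ⊓ 𝒞(Q₁) from e]
  exact le_normalizer_inf ((d.PM n).trans n.nV.ge) (le_normalizer_centralizer (d.nQ n))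

theorem TG.sup (d : TG M Q T Q₁ Q₂ x₁ x₂) (n : NS M Q V T) : Q₁ ⊔ Q₂ = T := by
  refine d.h2.tdb_sup d.h1.leT fun e => ?_
  rcases tdb_between Nat.prime_two d.h1.i2 e d.h2.leT with k | k
  · exact d.ne k.symm
  · obtain ⟨t, h1, h2⟩ := d.h2.tdb_ex'
    exact h2 (k.ge h1)

theorem TG.inf (d : TG M Q T Q₁ Q₂ x₁ x₂) (n : NS M Q V T) : Q.relIndex (Q₁ ⊓ Q₂) = 2 := by
  have e := relIndex_mul_relIndex Q (Q₁ ⊓ Q₂) Q₁ (le_inf d.h1.le d.h2.le) inf_le_left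
  have k : Q₂.relIndex Q₁ = 2 := by
    obtain ⟨a, h1, h2⟩ : ∃ a ∈ Q₁, a ∉ Q₂ := SetLike.not_le_iff_exists.1 fun e => by
      obtain ⟨t, h1, h2⟩ := d.h2.tdb_ex'
      exact h2 (sup_le e le_rfl ((d.sup n).ge h1))
    exact relIndex_eq_two_iff_exists_notMem_and.2 ⟨a, h1, h2, fun b hb =>
      (em (b ∈ Q₂)).symm.imp_left fun k => tdb_two d.h2.i2 (d.h1.leT hb) (d.h1.leT h1) k h2⟩
  rw [d.h1.i4, inf_relIndex_left, k] at e
  omega

theorem TG.le_or (d : TG M Q T Q₁ Q₂ x₁ x₂) {A : Subgroup G} (hA : A ≤ T) (h : ∀ a ∈ A, a * a ∈ Q) :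
    A ≤ Q₁ ∨ A ≤ Q₂ := by
  by_contra ne
  rw [not_or] at ne
  obtain ⟨a, a1, a2⟩ := SetLike.not_le_iff_exists.1 ne.1
  obtain ⟨b, b1, b2⟩ := SetLike.not_le_iff_exists.1 ne.2
  have a3 := (d.inv a (hA a1) (h a a1)).resolve_left a2
  have b3 := (d.inv b (hA b1) (h b b1)).resolve_right b2
  rcases d.inv _ (hA (mul_mem a1 b1)) (h _ (mul_mem a1 b1)) with e | e
  exacts [a2 ((Q₁.mul_mem_cancel_right b3).1 e), b2 ((Q₂.mul_mem_cancel_left a3).1 e)]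

theorem TG.rk2 (d : TG M Q T Q₁ Q₂ x₁ x₂) : Rk2 Q T := by
  intro A hA h
  rcases d.le_or hA h with e | e
  · exact d.h1.i4 ▸ relIndex_le_of_le_right e index_ne_zero_of_finite
  · exact d.h2.i4 ▸ relIndex_le_of_le_right e index_ne_zero_of_finite

theorem TG.core2 (d : TG M Q T Q₁ Q₂ x₁ x₂) (n : NS M Q V T) {K : Subgroup G}
    (h1 : K ≤ T ⊔ zpowers x₁) (h2 : T ⊔ zpowers x₂ ≤ 𝒩(K)) : K ≤ Q₂ := by
  have nT : T ≤ 𝒩(K) := le_sup_left.trans h2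
  by_cases hK : K ≤ T
  · exact d.h2.core n (n.two.to_le hK) (hK.trans le_sup_left) h2
  have e := (d.h1.maxT n (X := K ⊔ T) le_sup_right (sup_le h1 le_sup_left)).resolve_left
    fun e => hK (le_sup_left.trans e.le)
  obtain ⟨f, hf, o⟩ := n.soc K (h1.trans (d.h1.PM n))
    (d.gen.ge.trans (sup_le (e.ge.trans (sup_le le_normalizer nT)) h2)) fun e => hK (e.trans n.QT)
  have := Fact.mk Nat.prime_two
  obtain ⟨j, hj⟩ := IsPGroup.iff_card.1 n.two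
  have k := (T ⊔ zpowers x₁).orderOf_dvd_natCard (h1 hf)
  rw [← tdb_card (le_sup_left : T ≤ T ⊔ zpowers x₁), d.h1.i3, hj] at k
  rcases o with o | o <;> rw [o] at k
  all_goals
    have := Nat.Coprime.dvd_of_dvd_mul_left (Nat.Coprime.pow_right j (by norm_num)) k
    omega


end CfsgLib.O8
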