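import Mathlib
import Cfsg.Agent.Lib.O8.Tdb
import Cfsg.Agent.Lib.O8.H3

/-! The centralizer of `Z` is a parabolic subgroup. -/

set_option autoImplicit false
set_option linter.unusedSectionVars false

namespace CfsgLib.O8

open Cfsg Subgroup CfsgLib.LAE CfsgLib.PLocal CfsgLib.ZJ CfsgLib.Blocks
open scoped CfsgLib.BG MatrixGroups commutatorElement

universe u

variable {G : Type*} [Group G] [Finite G] {M Q V T Q₁ Q₂ : Subgroup G} {x x₁ x₂ z : G}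

theorem TH.hz (d : TH M Q T Q₁ x) (g : Gl G) (n : NS M Q V T) (hx : x ∈ 𝒞(ZZ T))
    (hN : 𝒩(Q₁) ⊓ 𝒩(ZZ T) ≤ M) : 𝒞(ZZ T) = T ⊔ zpowers x ∧ 𝒩(ZZ T) = T ⊔ zpowers x ∧
      IsSylowIn 2 T ⊤ ∧ 𝒩(T) = T := by
  have := Fact.mk Nat.prime_two
  have TH : T ≤ 𝒞(ZZ T) := le_centralizer_omegaZ T
  have PH : T ⊔ zpowers x ≤ 𝒞(ZZ T) := sup_le TH (zpowers_le.2 hx)
  have HN : 𝒞(ZZ T) ≤ 𝒩(ZZ T) := centralizer_le_normalizer _
  have ZQ : ZZ T ≤ Q := by rw [n.hZ]; exact inf_le_left.trans n.VQ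
  obtain ⟨z, hz, z1⟩ := (ZZ T).bot_or_exists_ne_one.resolve_left n.Z1
  obtain ⟨S, hS, TS⟩ := exists_isSylowIn_ge n.two TH
  have T1 : T ≠ ⊥ := fun e => n.Q1 (le_bot_iff.1 (e ▸ n.QT))
  have S1 : S ≠ ⊥ := fun e => T1 (le_bot_iff.1 (e ▸ TS))
  have ZS : ZZ S ≤ ZZ T := fun u hu => by
    rw [mem_omegaZ] at hu ⊢
    exact ⟨n.QT (n.cQ (centralizer_le (n.QT.trans TS) hu.2.1)), centralizer_le TS hu.2.1, hu.2.2⟩
  have HM : 𝒞(ZZ T) ⊓ M = T ⊔ zpowers x := by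
    rcases d.max _ (le_inf PH (d.PM n)) inf_le_right with e | e
    · exact e
    · refine absurd (n.ncent (ZQ hz) fun m hm => ?_) z1
      have : m ∈ 𝒞(ZZ T) ⊓ M := e.symm ▸ hm
      exact mem_centralizer_singleton_iff.2 (this.1 z hz).symm
  obtain ⟨-, a | ⟨y, e⟩⟩ := g.cl.h3 (g.scC _ (elemAb_omegaZ T) n.Z1) hS S1 (centralizer_le ZS)
  · have e : S ⊓ M = T := n.syl.eq_of_le _ hS.isPGroup.to_inf_left (le_inf TS n.TM) inf_le_right
    refine absurd ?_ d.nn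
    rw [← e]
    exact le_normalizer_inf (L := zpowers x) (zpowers_le.2 (a hx))
      (zpowers_le.2 (le_normalizer d.xM)) (mem_zpowers x)
  set R := pCoreOf 2 (𝒞(ZZ T) : Subgroup G) with hR
  have R2 : IsPGroup 2 R := isPGroup_pCoreOf _
  have RH : R ≤ 𝒞(ZZ T) := pCoreOf_le _
  have RM : R ⊓ M ≤ Q₁ := d.core n R2.to_inf_left (HM ▸ inf_le_inf_right _ RH)
    (le_normalizer_inf (PH.trans e.nR) ((d.PM n).trans le_normalizer))
  have QR : Q₁ ≤ R := by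
    have h1 : R.relIndex T ≤ 2 := e.i2 ▸ relIndex_le_of_le_right TS (by rw [e.i2]; norm_num)
    have h2 := relIndex_mul_relIndex (R ⊓ T) Q₁ T ((inf_le_inf_left _ n.TM).trans RM) d.leT
    rw [d.i2, inf_relIndex_right] at h2
    have h3 : (R ⊓ T).relIndex Q₁ ≠ 0 := index_ne_zero_of_finite
    exact (relIndex_eq_one.1 (by omega : (R ⊓ T).relIndex Q₁ = 1)).trans inf_le_left
  have RQ : R = Q₁ := by
    by_contra ne
    refine (Core.lt_inf_normalizer_of_isPGroup R2 (lt_of_le_of_ne QR (Ne.symm ne))).not_ge ?_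
    exact fun u hu => RM ⟨hu.1, hN ⟨hu.2, HN (RH hu.1)⟩⟩
  have NM : 𝒩(ZZ T) ≤ M := fun u hu => hN ⟨RQ ▸ (normalizer_le_normalizer_pCoreOf _
    (normalizer_le_normalizer_centralizer _ hu)), hu⟩
  have NP : 𝒩(ZZ T) = T ⊔ zpowers x := by
    rcases d.max _ (PH.trans HN) NM with e | e
    · exact e
    · obtain ⟨f, hf, o⟩ := n.soc _ (HN.trans NM) (e ▸ normalizer_le_normalizer_centralizer _)
        fun k => n.ne (TH.trans k)
      exact absurd (n.cl.fpf' n.twoQ o z (ZQ hz) (hf z hz).symm) z1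
  have NT : 𝒩(T) = T := by
    rcases d.maxT n le_normalizer (NP ▸ normalizer_le_normalizer_omegaZ T) with e | e
    · exact e
    · exact absurd (e ▸ mem_sup_right (mem_zpowers x)) d.nn
  exact ⟨le_antisymm (NP ▸ HN) PH, NP, n.syl_of (NT.le.trans n.TM), NT⟩


end CfsgLib.O8
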