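import Mathlib
import Cfsg.Agent.Lib.O8.Nsb
import Cfsg.Agent.Lib.O8.Cx
import Cfsg.Agent.Lib.G23.Setup

/-! The second center of `Q` over the natural `L₃(2)`-module. -/

set_option autoImplicit false
set_option linter.unusedSectionVars false

namespace CfsgLib.O8

open Cfsg Subgroup CfsgLib.LAE CfsgLib.PLocal CfsgLib.ZJ CfsgLib.Blocks
open scoped CfsgLib.BG MatrixGroups commutatorElement

universe u

open CfsgLib.G23 (E₈)

/-- a linear form on `E₈` -/
def r8k (k : ℕ) (p : E₈) : ZMod 2 :=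
  (k : ZMod 2) * p.1.toAdd + ((k / 2 : ℕ) : ZMod 2) * p.2.1.toAdd + ((k / 4 : ℕ) : ZMod 2) * p.2.2.toAdd

/-- an endomorphism of `E₈` -/
def r8a (n : ℕ) (p : E₈) : E₈ := (.ofAdd (r8k n p), .ofAdd (r8k (n / 8) p), .ofAdd (r8k (n / 64) p))

/-- the first basis vector -/
def r8e : E₈ := (.ofAdd 1, 1, 1)

theorem r8k_mul (k : ℕ) (p p' : E₈) : r8k k (p * p') = r8k k p + r8k k p' := by
  simp only [r8k, Prod.fst_mul, Prod.snd_mul, toAdd_mul]
  ring

theorem r8k_one (k : ℕ) : r8k k 1 = 0 := by simp [r8k]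

theorem r8a_mul (n : ℕ) (p p' : E₈) : r8a n (p * p') = r8a n p * r8a n p' := by
  simp only [r8a, r8k_mul, ofAdd_add, Prod.mk_mul_mk]

/-- chains `a, f a, f² a, …` -/
def r8ch (f : ℕ) : ℕ → List ℕ → Bool
  | _, [] => true
  | a, b :: l => decide (∀ p, r8a b p = r8a f (r8a a p)) && r8ch f b l

/-- correct relations -/
def R8ok (r : ℕ × ℕ × ℕ × List ℕ) : Prop :=
  (∀ p, r8a r.1 p = 1 → p = 1) ∧ (∀ p, r8a r.2.2.1 p = 1 → p = 1) ∧ r8ch r.1 r.2.2.1 r.2.2.2 = true ∧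
    (∀ p, (r8a r.1)^[r.2.2.2.length + 1] p = p) ∧ (∃ p, r8a r.1 p ≠ p) ∧
    (r.2.2.2.length + 1 = 7 ∨
      r.2.2.2.length + 1 = 3 ∧ r8a r.1 (r8a r.2.2.1 r8e) = r8a r.2.2.1 r8e)

set_option synthInstance.maxSize 1024 in
instance r8dec (r : ℕ × ℕ × ℕ × List ℕ) : Decidable (R8ok r) := by unfold R8ok; infer_instance

/-- the certificate -/
def r8c : List (ℕ × ℕ × ℕ × List ℕ) :=
  [(396, 4, 396, [486, 247, 379, 157, 106, 273]), (204, 3, 124, [225, 331, 157, 426, 470, 311]),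
   (172, 6, 340, [141, 122, 473, 247, 419, 302]), (500, 2, 84, [473, 359, 397, 190, 234, 307]),
   (282, 4, 244, [214, 226]), (492, 2, 340, [205, 499, 167, 106, 409, 318]), (500, 2, 492, [407,
   230, 123, 369, 157, 266]), (498, 1, 409, [299, 141]), (412, 3, 140, [234, 443, 102, 337, 477,
   311]), (342, 2, 380, [122, 254]), (172, 3, 380, [461, 87, 177, 410, 230, 299]), (172, 2, 372,
   [397, 94, 249, 467, 167, 298]), (346, 4, 340, [114, 230]), (204, 5, 428, [102, 177, 458, 215,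
   379, 285]), (492, 4, 460, [159, 426, 102, 249, 339, 309]), (244, 5, 172, [122, 369, 477, 423,
   214, 267]), (500, 2, 188, [106, 417, 214, 459, 375, 285]), (492, 6, 188, [114, 345, 485, 407,
   206, 299]), (172, 6, 500, [415, 206, 107, 337, 165, 314]), (244, 2, 204, [339, 125, 177, 482,
   415, 302]), (204, 1, 372, [165, 106, 465, 207, 443, 286]), (492, 3, 492, [415, 142, 354, 253,
   115, 273]), (236, 1, 465, [247, 99]), (396, 2, 124, [417, 142, 242, 339, 477, 303]), (481, 1,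
   459, [379, 107]), (172, 3, 372, [397, 94, 249, 467, 167, 298]), (492, 3, 340, [205, 499, 167,
   106, 409, 318]), (396, 6, 140, [226, 467, 351, 445, 110, 305]), (172, 7, 500, [415, 206, 107,
   337, 165, 314]), (234, 1, 445, [159, 299]), (140, 1, 473, [207, 123]), (412, 2, 340, [501, 95,
   161, 426, 254, 267]), (396, 3, 460, [423, 190, 370, 213, 107, 281]), (425, 1, 99, [339, 499]),
   (172, 6, 380, [461, 87, 177, 410, 230, 299]), (244, 4, 244, [171, 442, 334, 485, 95, 273]), (234,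
   1, 157, [443, 303]), (318, 1, 225, [247, 213]), (244, 6, 236, [115, 377, 405, 486, 159, 266]),
   (342, 2, 204, [458, 334]), (481, 1, 205, [477, 125])]

/-- the terms of the certificate -/
def r8f : List ℕ :=
  [486, 247, 379, 106, 124, 225, 426, 311, 340, 141, 247, 302, 473, 397, 190, 234, 244, 214, 226,
   205, 106, 409, 318, 492, 123, 157, 266, 409, 299, 141, 140, 234, 337, 311, 380, 122, 254, 380,
   87, 177, 410, 397, 94, 249, 298, 340, 114, 230, 102, 177, 458, 285, 460, 102, 249, 339, 122, 423,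
   214, 267, 188, 106, 459, 285, 188, 114, 485, 299, 500, 415, 337, 314, 204, 125, 415, 302, 165,
   465, 207, 443, 492, 142, 115, 273, 465, 247, 99, 124, 142, 477, 303, 459, 379, 107, 94, 467, 167,
   298, 499, 167, 106, 318, 140, 226, 467, 445, 500, 107, 165, 314, 445, 159, 299, 473, 207, 123,
   95, 426, 254, 267, 460, 423, 190, 213, 99, 339, 499, 87, 410, 230, 299, 244, 334, 485, 95, 157,
   443, 303, 225, 247, 213, 115, 486, 159, 266, 204, 458, 334, 205, 477, 125]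

theorem r8c_ok : ∀ r ∈ r8c, R8ok r := by decide +kernel

theorem r8c_flat : (r8c.map fun r =>
    (r.2.2.1 :: r.2.2.2).filter fun a => r8k r.2.1 (r8a a r8e) = 1).flatten = r8f := by
  decide +kernel

theorem r8f_count : ∀ a ∈ r8f, r8f.count a % 2 = if a = 273 then 1 else 0 := by decide +kernel

theorem r8_id : ∀ p, r8a 273 p = p := by decide +kernel

theorem r8_filter (c ψ : ℕ → ZMod 2) (l : List ℕ) :
    (l.map fun a => c a * ψ a).sum = ((l.filter fun a => c a = 1).map ψ).sum := by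
  induction l with
  | nil => rfl
  | cons a l ih =>
    rcases (by decide : ∀ t : ZMod 2, t = 0 ∨ t = 1) (c a) with h | h <;> simp [h, ih]

theorem r8_fin (ψ : ℕ → ZMod 2) (h : ∀ r : ℕ × ℕ × ℕ × List ℕ, R8ok r →
    ((r.2.2.1 :: r.2.2.2).map fun a => r8k r.2.1 (r8a a r8e) * ψ a).sum = 0) : ψ 273 = 0 := by
  have h1 : (r8f.map ψ).sum = 0 := by
    rw [← r8c_flat, List.map_flatten, List.sum_flatten, List.map_map, List.map_map]
    refine List.sum_eq_zero fun t ht => ?_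
    obtain ⟨r, hr, rfl⟩ := List.mem_map.1 ht
    exact (r8_filter _ ψ _).symm.trans (h r (r8c_ok r hr))
  have h2 : ∀ a ∈ r8f, r8f.count a • ψ a = if a = 273 then ψ a else 0 := fun a ha => by
    rw [nsmul_eq_mul, ← ZMod.natCast_mod, r8f_count a ha]
    split_ifs <;> simp
  rw [Finset.sum_list_map_count, Finset.sum_congr rfl fun a ha => h2 a (List.mem_toFinset.1 ha),
    Finset.sum_ite_eq', if_pos (List.mem_toFinset.2 (by decide +kernel))] at h1
  exact h1

variable {G : Type*} [Group G] [Finite G] {M Q V T : Subgroup G}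

theorem r8_mul {w w' q : G} (h : w * ⁅w', q⁆ = ⁅w', q⁆ * w) : ⁅w * w', q⁆ = ⁅w', q⁆ * ⁅w, q⁆ := by
  calc _ = w * ⁅w', q⁆ * w⁻¹ * ⁅w, q⁆ := by simp only [commutatorElement_def]; group
    _ = _ := by rw [h, mul_inv_cancel_right]

theorem r8_conj (g w q : G) : ⁅g * w * g⁻¹, q⁆ = g * ⁅w, g⁻¹ * q * g⁆ * g⁻¹ := by
  simp only [commutatorElement_def]; group

/-- the elements of `Q` which are central modulo `X` -/
def r8Y (Q X : Subgroup G) (h : X ≤ 𝒞(Q)) : Subgroup G where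
  carrier := {w | w ∈ Q ∧ ∀ q ∈ Q, ⁅w, q⁆ ∈ X}
  one_mem' := ⟨one_mem _, fun q _ => by simp⟩
  mul_mem' := fun {a b} ha hb => ⟨mul_mem ha.1 hb.1, fun q hq => by
    rw [r8_mul (h (hb.2 q hq) a ha.1)]
    exact mul_mem (hb.2 q hq) (ha.2 q hq)⟩
  inv_mem' := fun {a} ha => ⟨inv_mem ha.1, fun q hq => by
    have := r8_mul (h (ha.2 q hq) _ (inv_mem ha.1))
    rw [inv_mul_cancel, commutatorElement_one_left] at this
    rw [eq_inv_of_mul_eq_one_right this.symm]
    exact inv_mem (ha.2 q hq)⟩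

/-- the product `w w^x w^{x²} ⋯` -/
def r8P (x : G) : ℕ → G → G
  | 0, _ => 1
  | k + 1, w => w * r8P x k (x * w * x⁻¹)

theorem r8P_conj (x : G) (k : ℕ) (w : G) : x * r8P x k w * x⁻¹ = r8P x k (x * w * x⁻¹) := by
  induction k generalizing w with
  | zero => simp [r8P]
  | succ k ih => rw [r8P, r8P, ← ih (x * w * x⁻¹)]; group

theorem r8P_succ (x : G) (k : ℕ) (w : G) : r8P x (k + 1) w = r8P x k w * (x ^ k * w * (x ^ k)⁻¹) := by
  induction k generalizing w with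
  | zero => simp [r8P]
  | succ k ih => rw [r8P, ih, r8P]; group

theorem r8P_mem {X : Subgroup G} {h : X ≤ 𝒞(Q)} {x : G} (hx : x ∈ 𝒩(Q))
    (hX : ∀ y ∈ X, x * y * x⁻¹ ∈ X) (k : ℕ) {w : G} (hw : w ∈ r8Y Q X h) : r8P x k w ∈ r8Y Q X h := by
  induction k generalizing w with
  | zero => exact one_mem _
  | succ k ih =>
    refine mul_mem hw (ih ⟨LAE.conj_mem_of_mem_normalizer hx hw.1, fun q hq => ?_⟩)
    rw [r8_conj]
    exact hX _ (hw.2 _ (LAE.conj_inv_mem_of_mem_normalizer hx hq))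

theorem NS.r8_norm (n : NS M Q V T) {x w : G} (hx : x ∈ M) {k : ℕ} (ho : orderOf x = k + 1)
    (hk : Odd (k + 1)) (hw : w ∈ r8Y Q 𝒞(Q) le_rfl) :
    ∃ c ∈ 𝒞(Q), x * (c * r8P x (k + 1) w) = c * r8P x (k + 1) w * x := by
  have hN : x ∈ 𝒩(𝒞(Q)) := normalizer_le_normalizer_centralizer Q (n.nQ hx)
  have hL := r8P_mem (n.nQ hx) (fun y hy => LAE.conj_mem_of_mem_normalizer hN hy) k
    (w := x * w * x⁻¹) ⟨LAE.conj_mem_of_mem_normalizer (n.nQ hx) hw.1, fun q hq => by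
      rw [r8_conj]
      exact LAE.conj_mem_of_mem_normalizer hN
        (hw.2 _ (LAE.conj_inv_mem_of_mem_normalizer (n.nQ hx) hq))⟩ (h := le_rfl)
  have h1 : x * r8P x (k + 1) w * x⁻¹ * (r8P x (k + 1) w)⁻¹ ∈ 𝒞(Q) := by
    have e : x ^ k * (x * w * x⁻¹) * (x ^ k)⁻¹ = w := by
      calc _ = x ^ (k + 1) * w * (x ^ (k + 1))⁻¹ := by group
        _ = _ := by rw [← ho, pow_orderOf_eq_one]; group
    rw [r8P_conj, r8P_succ, e, r8P]
    convert inv_mem (hw.2 _ hL.1) using 1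
    simp only [commutatorElement_def]; group
  obtain ⟨j, hj⟩ := IsPGroup.iff_card.1 (n.twoQ.to_le n.cQ)
  obtain ⟨c, hc, e⟩ := Coprime.exists_mul_mem_centralizer' (U := 𝒞(Q)) (A := zpowers x)
    (zpowers_le.2 hN) (by
      rw [Nat.card_zpowers, ho, hj]
      exact (Nat.coprime_two_right.2 hk).pow_right j) (Or.inl inferInstance) (r8P x (k + 1) w) fun a ha => by
      obtain ⟨i, rfl⟩ := mem_powers_iff_mem_zpowers.2 ha
      generalize r8P x (k + 1) w = y at h1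
      clear ha
      induction i with
      | zero => simp
      | succ i ih =>
        convert mul_mem (LAE.conj_mem_of_mem_normalizer hN ih) h1 using 1
        group
  exact ⟨c, hc, e x (mem_zpowers x)⟩

theorem NS.r8_zero (n : NS M Q V T) {x w : G} (hx : x ∈ M) {k : ℕ} (ho : orderOf x = k + 1)
    (hw : w ∈ r8Y Q 𝒞(Q) le_rfl) (hk : k + 1 = 7 ∨ k + 1 = 3 ∧ ∀ q ∈ Q, ⁅w, q⁆ ∈ 𝒞[x]) :
    r8P x (k + 1) w ∈ 𝒞(Q) := by
  obtain ⟨c, hc, e⟩ := n.r8_norm hx ho (by rcases hk with h | ⟨h, -⟩ <;> rw [h] <;> decide) hw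
  have hN : x ∈ 𝒩(𝒞(Q)) := normalizer_le_normalizer_centralizer Q (n.nQ hx)
  have hP := r8P_mem (n.nQ hx) (fun y hy => LAE.conj_mem_of_mem_normalizer hN hy) (k + 1) hw
  rw [← mul_mem_cancel_left hc]
  rcases hk with h | ⟨h, h'⟩
  · rw [n.cl.fpf' n.twoQ (Or.inr (ho.trans h)) _ (mul_mem (n.cQ hc) hP.1) e]
    exact one_mem _
  · have hP' := r8P_mem (X := 𝒞(Q) ⊓ 𝒞[x]) (h := inf_le_left) (n.nQ hx) (fun y hy => by
      rwa [← mem_centralizer_singleton_iff.1 hy.2, mul_inv_cancel_right]) (k + 1)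
      ⟨hw.1, fun q hq => ⟨hw.2 q hq, h' q hq⟩⟩
    refine n.cl.lam n.twoQ (ho.trans h) (n.nQ hx) (mul_mem (n.cQ hc) hP.1) e fun r hr => ?_
    rw [r8_mul (hP.2 r hr c (n.cQ hc)), commutatorElement_eq_one_iff_mul_comm.2 (hc r hr).symm, mul_one]
    exact ⟨hP.2 r hr, (mem_centralizer_singleton_iff.1 (hP'.2 r hr).2).symm⟩

/-- `g` induces `α` -/
def R8r (M : Subgroup G) (b : E₈ →* G) (g : G) (α : E₈ → E₈) : Prop :=
  g ∈ M ∧ ∀ p, g * b p * g⁻¹ = b (α p)

theorem NS.r8_coord (n : NS M Q V T) (c8 : Nat.card V = 8) (o : Q.relIndex M = 168) {z : G}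
    (hz : z ∈ V) (z1 : z ≠ 1) : ∃ b : E₈ →* G, Function.Injective b ∧ b.range = V ∧ b r8e = z ∧
      ∀ a, (∀ p, r8a a p = 1 → p = 1) → ∃ g, R8r M b g (r8a a) := by
  have hel := n.eaV
  have := hel.1
  have hc : ∀ a b : V, a * b = b * a := fun a b => mul_comm' a b
  have h2 : ∀ v : V, v ^ 2 = 1 := fun v => Subtype.ext (hel.2 v v.2)
  have hs : V.normalizerMonoidHom.range = ⊤ := by
    refine eq_top_of_le_card _ ?_
    rw [← index_ker, normalizerMonoidHom_ker, n.cV, ← relIndex, n.nV, o]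
    exact Nat.le_of_dvd (by norm_num) (Fgs.card_mulAut_dvd_of_elementary (r := 3) h2 c8)
  let _ : CommGroup V := { (inferInstance : Group V) with mul_comm := hc }
  obtain ⟨β, hβ⟩ := G23.exists_coord (fun v : V => by rw [← sq, h2]) c8 (z := ⟨z, hz⟩)
    fun h => z1 (congrArg Subtype.val h)
  refine ⟨V.subtype.comp β.toMonoidHom, V.subtype_injective.comp β.injective, ?_,
    congrArg Subtype.val hβ, fun a ha => ?_⟩
  · rw [MonoidHom.range_comp, MonoidHom.range_eq_top_of_surjective _ β.surjective,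
      ← MonoidHom.range_eq_map, range_subtype]
  · have hα : Function.Bijective (MonoidHom.mk' (r8a a) (r8a_mul a)) :=
      Finite.injective_iff_bijective.1 ((injective_iff_map_eq_one _).2 ha)
    obtain ⟨g, hg⟩ : β.symm.trans ((MulEquiv.ofBijective _ hα).trans β) ∈
      V.normalizerMonoidHom.range := hs ▸ mem_top _
    refine ⟨g, n.nV ▸ g.2, fun p => ?_⟩
    have := congrArg Subtype.val (MulEquiv.congr_fun hg (β p))
    rw [MulEquiv.trans_apply, MulEquiv.symm_apply_apply] at this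
    exact this

section
variable {b : E₈ →* G} {g g' u q : G} {α γ : E₈ → E₈}

theorem R8r.mul (h : R8r M b g α) (h' : R8r M b g' γ) : R8r M b (g * g') fun p => α (γ p) :=
  ⟨mul_mem h.1 h'.1, fun p => by rw [← h.2, ← h'.2]; group⟩

theorem R8r.pow (h : R8r M b g α) (k : ℕ) : R8r M b (g ^ k) α^[k] := by
  induction k with
  | zero => exact ⟨by simp, by simp⟩
  | succ k ih => rw [pow_succ, Function.iterate_succ]; exact ih.mul h

variable (n : NS M Q V T) (hb : Function.Injective b) (hV : b.range = V) (hu : u ∈ Q)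
  (h : ∀ q ∈ Q, ⁅u, q⁆ ∈ zpowers (b r8e)) (hq : q ∈ Q)
include n hV

theorem NS.r8_cen (p : E₈) : b p ∈ 𝒞(Q) :=
  le_centralizer_iff.1 n.cV.ge (hV ▸ ⟨p, rfl⟩)

theorem NS.r8_lift (hg : R8r M b g α) {k : ℕ} (hk : k = 7 ∨ k = 3) (h1 : ∀ p, α^[k] p = p)
    (h2 : ∃ p, α p ≠ p) (hb : Function.Injective b) : ∃ x, R8r M b x α ∧ orderOf x = k := by
  obtain ⟨a, ha⟩ := n.cl.pow_lift g (n := k) (by omega)
  have h3 := ((hg.pow k).pow a).mul hg
  rw [← pow_mul, ← pow_succ, funext h1, show (fun p : E₈ => p)^[a] = id from Function.iterate_id a] at h3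
  have : Fact k.Prime := ⟨by rcases hk with rfl | rfl <;> norm_num⟩
  refine ⟨_, h3, orderOf_eq_prime ha fun e => ?_⟩
  obtain ⟨p, hp⟩ := h2
  have := h3.2 p
  rw [e] at this
  exact hp (hb (by simpa using this.symm))

include h in
theorem NS.r8_val (hg : R8r M b g α) (hq : q ∈ Q) :
    ⁅g * u * g⁻¹, q⁆ = 1 ∨ ⁅g * u * g⁻¹, q⁆ = b (α r8e) := by
  rw [r8_conj, ← hg.2]
  have h2 : b r8e * b r8e = 1 := by rw [← map_mul, show r8e * r8e = 1 by decide, map_one]
  obtain ⟨i, hi⟩ := mem_powers_iff_mem_zpowers.2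
    (h _ (LAE.conj_inv_mem_of_mem_normalizer (n.nQ hg.1) hq))
  rw [← hi]
  rcases Nat.even_or_odd' i with ⟨j, rfl | rfl⟩
  · left
    simp [pow_mul, pow_two, h2]
  · right
    simp [pow_succ, pow_mul, h2]

include hu h in
theorem NS.r8_ind (hg : R8r M b g α) (hg' : R8r M b g' α) (hq : q ∈ Q) :
    ⁅g' * u * g'⁻¹, q⁆ = ⁅g * u * g⁻¹, q⁆ := by
  have h1 : g⁻¹ * g' ∈ Q := by
    rw [← n.cV, ← hV]
    rintro _ ⟨p, rfl⟩
    calc _ = g⁻¹ * (g * b p * g⁻¹) * g' := by group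
      _ = _ := by rw [hg.2, ← hg'.2]; group
  have h2 : ⁅u, g⁻¹ * g'⁆ ∈ 𝒞(Q) := zpowers_le.2 (n.r8_cen hV r8e) (h _ h1)
  have h3 := LAE.conj_inv_mem_of_mem_normalizer (n.nQ hg.1) hq
  have h4 : ⁅u, g⁻¹ * q * g⁆ ∈ 𝒞(Q) := zpowers_le.2 (n.r8_cen hV r8e) (h _ h3)
  have e : g' * u * g'⁻¹ = g * (⁅u, g⁻¹ * g'⁆⁻¹ * u) * g⁻¹ := by
    simp only [commutatorElement_def]; group
  rw [e, r8_conj, r8_conj, r8_mul (h4 _ (n.cQ (inv_mem h2))),
    commutatorElement_eq_one_iff_mul_comm.2 (inv_mem h2 _ h3).symm, mul_one]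

open _root_.Classical in
/-- the coefficient -/
noncomputable def r8ψ (M : Subgroup G) (b : E₈ →* G) (u q : G) (a : ℕ) : ZMod 2 :=
  if ∀ g, R8r M b g (r8a a) → ⁅g * u * g⁻¹, q⁆ = 1 then 0 else 1

include hu h hq in
theorem NS.r8_one {a : ℕ} (hg : R8r M b g (r8a a)) :
    ∃ p, ⁅g * u * g⁻¹, q⁆ = b p ∧ ∀ k, r8k k p = r8k k (r8a a r8e) * r8ψ M b u q a := by
  unfold r8ψ
  split_ifs with e
  · exact ⟨1, by rw [e g hg, map_one], fun k => by rw [r8k_one, mul_zero]⟩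
  · push Not at e
    obtain ⟨g', hg', e⟩ := e
    rw [n.r8_ind hV hu h hg hg' hq] at e
    exact ⟨_, (n.r8_val hV h hg hq).resolve_left e, fun k => (mul_one _).symm⟩

include hu h hq in
theorem NS.r8_chain {x : G} {f : ℕ} (hx : R8r M b x (r8a f)) (l : List ℕ) {a : ℕ}
    (hg : R8r M b g (r8a a)) (hl : r8ch f a l = true) :
    ∃ p, ⁅r8P x (l.length + 1) (g * u * g⁻¹), q⁆ = b p ∧
      ∀ k, r8k k p = ((a :: l).map fun a => r8k k (r8a a r8e) * r8ψ M b u q a).sum := by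
  induction l generalizing a g with
  | nil => simpa [r8P] using n.r8_one hV hu h hq hg
  | cons c l ih =>
    rw [r8ch, Bool.and_eq_true, decide_eq_true_iff] at hl
    obtain ⟨p, e, hp⟩ := n.r8_one hV hu h hq hg
    obtain ⟨p', e', hp'⟩ := ih (g := x * g) (a := c) (by rw [funext hl.1]; exact hx.mul hg) hl.2
    refine ⟨p' * p, ?_, fun k => by rw [r8k_mul, hp, hp', List.map_cons (a := a), List.sum_cons, add_comm]⟩
    rw [List.length_cons, r8P, show x * (g * u * g⁻¹) * x⁻¹ = x * g * u * (x * g)⁻¹ by group,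
      r8_mul (by
        rw [e']
        exact n.r8_cen hV p' _ (LAE.conj_mem_of_mem_normalizer (n.nQ hg.1) hu)), e, e', map_mul]

end

theorem NS.r8 (n : NS M Q V T) (c8 : Nat.card V = 8) (o : Q.relIndex M = 168) {u z : G} (hu : u ∈ Q)
    (hz : z ∈ V) (h : ∀ q ∈ Q, ⁅u, q⁆ ∈ zpowers z) : u ∈ 𝒞(Q) := by
  intro q hq
  refine (commutatorElement_eq_one_iff_mul_comm.1 ?_).symm
  by_cases z1 : z = 1
  · simpa [z1] using h q hq
  obtain ⟨b, hb, hV, rfl, key⟩ := n.r8_coord c8 o hz z1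
  have h1 := r8_fin (r8ψ M b u q) fun ⟨f, k, a, l⟩ ⟨i1, i2, hc, hi, hn, hl⟩ => by
    obtain ⟨F, hF⟩ := key f i1
    obtain ⟨g, hg⟩ := key a i2
    obtain ⟨x, hx, ho⟩ := n.r8_lift hV hF (hl.imp id And.left) hi hn hb
    obtain ⟨p, e, hp⟩ := n.r8_chain hV hu h hq hx l hg hc
    have h2 := n.r8_zero hx.1 ho (w := g * u * g⁻¹)
      ⟨LAE.conj_mem_of_mem_normalizer (n.nQ hg.1) hu, fun r hr => by
        rcases n.r8_val hV h hg hr with e | e <;> rw [e]
        exacts [one_mem _, n.r8_cen hV _]⟩ (hl.imp id (And.imp id fun e1 r hr => by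
        rcases n.r8_val hV h hg hr with e | e <;> rw [e]
        · exact one_mem _
        · have := hx.2 (r8a a r8e)
          rw [e1] at this
          exact mem_centralizer_singleton_iff.2 (mul_inv_eq_iff_eq_mul.1 this).symm))
    rw [commutatorElement_eq_one_iff_mul_comm.2 (h2 q hq).symm, ← map_one b] at e
    rw [← hp k, ← hb e, r8k_one]
  unfold r8ψ at h1
  split_ifs at h1 with e
  · simpa using e 1 ⟨one_mem _, fun p => by rw [r8_id]; simp⟩
  · exact absurd h1 one_ne_zero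

end CfsgLib.O8
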