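import Mathlib
import Cfsg.Agent.Lib.O8.Hz
import Cfsg.Agent.Lib.O8.R8
import Cfsg.Agent.S1232

/-! The case `T3`: first consequences. -/

set_option autoImplicit false
set_option linter.unusedSectionVars false

namespace CfsgLib.O8

open Cfsg Subgroup CfsgLib.LAE CfsgLib.PLocal CfsgLib.ZJ CfsgLib.Blocks
open scoped CfsgLib.BG MatrixGroups commutatorElement

universe u

variable {G : Type*} [Group G] [Finite G] {M Q V T Q₁ Q₂ : Subgroup G} {x x₁ x₂ z : G}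

theorem T3.c3a_zV (d : T3 M Q V T Q₁ Q₂ x₁ x₂ z) (n : NS M Q V T) : z ∈ V ⊓ 𝒞(T) := by
  rw [← n.hZ, d.hZ]; exact mem_zpowers z

theorem T3.c3a_ne (d : T3 M Q V T Q₁ Q₂ x₁ x₂ z) (g : Gl G) (n : NS M Q V T) : ¬ Q ≤ V := fun h => by
  have := Fact.mk Nat.prime_two
  obtain ⟨S, hS, TS⟩ := exists_isSylowIn_ge n.two (le_top (a := T))
  have VS : V ≤ S := n.VQ.trans (n.QT.trans TS)
  refine g.rk S hS ((Sect.sr_iff (k := 4)).1 (Agent.S1232.result hS.isPGroup (V.subgroupOf S)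
    (elemAb_subgroupOf n.eaV S) ((card_subgroupOf VS).trans d.c8) ?_))
  rw [centralizer_subgroupOf VS, n.cV, le_antisymm h n.VQ]

theorem T3.c3a_z2 (d : T3 M Q V T Q₁ Q₂ x₁ x₂ z) (g : Gl G) (n : NS M Q V T) (u : G) (hu : u ∈ M)
    (u2 : u * u = 1) (h : ∀ q ∈ Q, ⁅u, q⁆ ∈ zpowers z) : u ∈ V := by
  have zV := (d.c3a_zV n).1
  have uQ : u ∈ Q := n.nt n.VQ le_rfl n.nQ n.nV.ge (d.c3a_ne g n) hu fun y hy => by
    rw [← commutatorElement_inv]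
    exact inv_mem (zpowers_le.2 zV (h y hy))
  rw [n.hV, mem_omegaZ]
  exact ⟨uQ, n.r8 d.c8 d.o168 uQ zV h, by rwa [pow_two]⟩

theorem T3.d3 (d : T3 M Q V T Q₁ Q₂ x₁ x₂ z) (g : Gl G) (n : NS M Q V T) : D3 M Q V T Q₂ x₁ x₂ z := by
  have z2 := d.c3a_z2 g n
  have zV := d.c3a_zV n
  have hN : 𝒩(Q₁) ⊓ 𝒩(ZZ T) ≤ M := fun u hu => by
    rw [← n.nV]
    refine mem_normalizer_of_conjS_le (conjS_le_iff_forall.2 fun v hv => z2 _ ?_ ?_ fun q hq => ?_)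
    · exact n.TM (d.h1.leT (LAE.conj_mem_of_mem_normalizer hu.1 (d.h1.le (n.VQ hv))))
    · have : v * v = 1 := by rw [← pow_two]; exact n.eaV.2 v hv
      calc u * v * u⁻¹ * (u * v * u⁻¹) = u * (v * v) * u⁻¹ := by group
        _ = 1 := by rw [this]; group
    · have : ⁅u * v * u⁻¹, q⁆ = u * ⁅v, u⁻¹ * q * u⁆ * u⁻¹ := by
        simp only [commutatorElement_def]; group
      rw [this, ← d.hZ]
      refine LAE.conj_mem_of_mem_normalizer hu.2 ?_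
      rw [d.hZ]
      exact d.cm v hv _ (conj_inv_mem_of_mem_normalizer hu.1 (d.h1.le hq))
  obtain ⟨c1, -, syl, nT⟩ := d.h1.hz g n (d.h1.cz n (by
    rw [d.c1, ← d.hZ]; exact omegaZ_le_centralizer T)) hN
  rw [d.hZ, BG.cent_zpowers] at c1
  have zl : z ∈ V ⊓ 𝒞(Q₂) := ⟨zV.1, centralizer_le d.h2.leT zV.2⟩
  have Pl : T ⊔ zpowers x₂ ≤ 𝒩((V ⊓ 𝒞(Q₂) : Subgroup G)) :=
    le_normalizer_inf ((d.h2.PM n).trans n.nV.ge) (le_normalizer_centralizer (d.h2.nQ n))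
  have cl : 𝒞((V ⊓ 𝒞(Q₂) : Subgroup G)) = Q₂ := by
    refine le_antisymm (d.toTG.core2 n (fun u hu => ?_) (le_normalizer_centralizer Pl))
      fun u hu v hv => (hv.2 u hu).symm
    rw [← c1]
    exact mem_centralizer_singleton_iff.2 (hu z zl).symm
  refine ⟨z2, c1, syl, nT, cl, le_antisymm ?_ Pl, ?_⟩
  · have h1 : 𝒩((V ⊓ 𝒞(Q₂) : Subgroup G)) ⊓ (T ⊔ zpowers x₁) = T := by
      rcases d.h1.maxT n (le_inf (le_sup_left.trans Pl) le_sup_left) inf_le_right with e | e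
      · exact e
      · have h2 : M ≤ 𝒩((V ⊓ 𝒞(Q₂) : Subgroup G)) := d.gen ▸ sup_le (e ▸ inf_le_left) Pl
        have h3 := n.le_Q (n.two.to_le d.h2.leT) (d.h2.leT.trans n.TM)
          (cl ▸ le_normalizer_centralizer h2)
        have h4 := d.h2.i4
        rw [relIndex_eq_one.2 h3] at h4
        omega
    have h2 := Sect.index_lt 𝒩((V ⊓ 𝒞(Q₂) : Subgroup G)) T (fun a => a * z * a⁻¹)
      ((V ⊓ 𝒞(Q₂) : Subgroup G) : Set G) (fun a ha => LAE.conj_mem_of_mem_normalizer ha zl)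
      (fun a ha b hb e => by
        rw [← h1, ← c1]
        refine mem_inf.2 ⟨mul_mem (inv_mem ha) hb, mem_centralizer_singleton_iff.2 ?_⟩
        calc a⁻¹ * b * z = a⁻¹ * (b * z * b⁻¹) * b := by group
          _ = z * (a⁻¹ * b) := by rw [← show a * z * a⁻¹ = b * z * b⁻¹ from e]; group)
      (one_mem (V ⊓ 𝒞(Q₂))) fun a _ e => d.z1 (by simpa using e)
    have h3 := relIndex_mul_relIndex T _ _ le_sup_left Pl
    have h4 : (T ⊔ zpowers x₂).relIndex 𝒩((V ⊓ 𝒞(Q₂) : Subgroup G)) ≠ 0 := index_ne_zero_of_finite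
    rw [d.h2.i3] at h3
    rw [show Nat.card ((V ⊓ 𝒞(Q₂) : Subgroup G) : Set G) = 4 from d.l4] at h2
    exact relIndex_eq_one.1 (by omega)
  · ext u
    rw [mem_omegaZ, mem_inf, n.hV, mem_omegaZ]
    exact ⟨fun h => ⟨⟨n.cQ (centralizer_le d.h2.le h.2.1), centralizer_le d.h2.le h.2.1, h.2.2⟩, h.2.1⟩,
      fun h => ⟨d.h2.le h.1.1, h.2, h.1.2.2⟩⟩


end CfsgLib.O8
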