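import Mathlib
import Cfsg.Agent.Lib.O8.Tdb
import Cfsg.Agent.Lib.O8.AB

/-! The case `T3`: solvable overgroups of `P₂`. -/

set_option autoImplicit false
set_option linter.unusedSectionVars false

namespace CfsgLib.O8

open Cfsg Subgroup CfsgLib.LAE CfsgLib.PLocal CfsgLib.ZJ CfsgLib.Blocks
open scoped CfsgLib.BG MatrixGroups commutatorElement

universe u

variable {G : Type*} [Group G] [Finite G] {M Q V T Q₁ Q₂ : Subgroup G} {x x₁ x₂ z : G}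

/-- `P₂` is transitive on the involutions of `l` -/
theorem T3.c3c_tr (d : T3 M Q V T Q₁ Q₂ x₁ x₂ z) (n : NS M Q V T) (e : D3 M Q V T Q₂ x₁ x₂ z)
    {w : G} (hw : w ∈ V ⊓ 𝒞(Q₂)) (w1 : w ≠ 1) : ∃ g ∈ zpowers x₂, g * w * g⁻¹ = z := by
  have zV : z ∈ V ⊓ 𝒞(T) := by rw [← n.hZ, d.hZ]; exact mem_zpowers z
  have zl : z ∈ V ⊓ 𝒞(Q₂) := ⟨zV.1, centralizer_le d.h2.leT zV.2⟩
  have zz : z * z = 1 := by rw [← pow_two]; exact n.eaV.2 z zV.1
  have xl : x₂ ∈ 𝒩((V ⊓ 𝒞(Q₂) : Subgroup G)) := e.nl ▸ mem_sup_right (mem_zpowers x₂)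
  have x3 : x₂ ^ 3 = 1 := d.h2.x3 ▸ pow_orderOf_eq_one x₂
  have nc : x₂ * z ≠ z * x₂ := fun c => d.h1.ne_M n (le_antisymm (d.h1.PM n) (d.gen ▸ sup_le le_rfl
    (sup_le le_sup_left (zpowers_le.2 (e.cz ▸ mem_centralizer_singleton_iff.2 c)))))
  have vl := LAE.conj_mem_of_mem_normalizer xl zl
  have v1 : x₂ * z * x₂⁻¹ ≠ 1 := fun c => d.z1 (by simpa using c)
  have v2 : x₂ * z * x₂⁻¹ ≠ z := fun c => nc (mul_inv_eq_iff_eq_mul.1 c)
  have k : x₂⁻¹ * z * x₂ = z * (x₂ * z * x₂⁻¹) := by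
    rcases Sect.four_cases d.l4.le zl vl zz d.z1 v1 v2 (conj_inv_mem_of_mem_normalizer xl zl)
      with c | c | c | c
    · exact absurd (by
        calc z = x₂ * (x₂⁻¹ * z * x₂) * x₂⁻¹ := by group
          _ = 1 := by rw [c]; group) d.z1
    · exact absurd (by
        calc x₂ * z = x₂ * (x₂⁻¹ * z * x₂) := by rw [c]
          _ = z * x₂ := by group) nc
    · refine absurd ?_ nc
      calc x₂ * z = x₂ * x₂ * (x₂⁻¹ * z * x₂) * x₂⁻¹ := by group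
        _ = x₂ ^ 3 * z * (x₂ ^ 3)⁻¹ * x₂ := by rw [c, pow_three]; group
        _ = z * x₂ := by rw [x3]; group
    · exact c
  rcases Sect.four_cases d.l4.le zl vl zz d.z1 v1 v2 hw with c | c | c | c
  · exact absurd c w1
  · exact ⟨1, one_mem _, by simp [c]⟩
  · exact ⟨x₂⁻¹, inv_mem (mem_zpowers _), by rw [c]; group⟩
  · exact ⟨x₂, mem_zpowers _, by rw [c, ← k]; group⟩

theorem T3.c3c (d : T3 M Q V T Q₁ Q₂ x₁ x₂ z) (n : NS M Q V T) (e : D3 M Q V T Q₂ x₁ x₂ z)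
    {N : Subgroup G} (hs : Group.IsSolvable N) (sc : Sc N) (hP : T ⊔ zpowers x₂ ≤ N) : N ≤ M := by
  have TN : T ≤ N := le_sup_left.trans hP
  have xN : x₂ ∈ N := hP (mem_sup_right (mem_zpowers _))
  set R := pCoreOf 2 N with hR
  have nR : N ≤ 𝒩(R) := le_normalizer_pCoreOf N
  have RT : R ≤ T := (e.syl.mono TN le_top).pCoreOf_le
  have RQ : R ≤ Q₂ := d.h2.core n (isPGroup_pCoreOf N) (RT.trans le_sup_left) (hP.trans nR)
  have Q2N : Q₂ ≤ N := d.h2.leT.trans TN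
  have i2 : R.relIndex Q₂ ≤ 2 := n.cl.ab hs sc xN d.h2.x3 RQ Q2N (n.two.to_le d.h2.leT) d.h2.xn
  have nU : N ≤ 𝒩(ZZ R) := le_normalizer_omegaZ_of_le nR
  have lU : ZZ Q₂ ≤ ZZ R := fun u hu => by
    rw [mem_omegaZ] at hu ⊢
    exact ⟨sc (centralizer_le RQ hu.2.1), centralizer_le RQ hu.2.1, hu.2.2⟩
  suffices h : ZZ R ≤ ZZ Q₂ by
    rw [le_antisymm h lU, e.zq, e.nl] at nU
    exact nU.trans (d.h2.PM n)
  by_cases c : Q₂ ≤ R
  · rw [le_antisymm RQ c]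
  have xc : ∀ g ∈ zpowers x₂, ∀ a ∈ Q₂, a ∉ R → g * a * g⁻¹ ∈ Q₂ ∧ g * a * g⁻¹ ∉ R :=
    fun g hg a ha aR => ⟨LAE.conj_mem_of_mem_normalizer (zpowers_le.2 d.h2.xn hg) ha, fun k => aR (by
      simpa [mul_assoc] using conj_inv_mem_of_mem_normalizer (nR (zpowers_le.2 xN hg)) k)⟩
  obtain ⟨q, hq, qR⟩ := SetLike.not_le_iff_exists.1 c
  have same : ∀ u ∈ ZZ R, ∀ a ∈ Q₂, a ∉ R → ∀ b ∈ Q₂, b ∉ R → ⁅u, a⁆ = ⁅u, b⁆ := by
    intro u hu a ha aR b hb bR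
    have h1 := (mem_omegaZ.1 hu).2.1 _
      (Sect.mul_mem_of_le_two i2 (inv_mem hb) ha (fun k => bR (inv_mem_iff.1 k)) aR)
    calc ⁅u, a⁆ = u * b * (b⁻¹ * a * u⁻¹) * a⁻¹ := by simp only [commutatorElement_def]; group
      _ = u * b * (u⁻¹ * (u * (b⁻¹ * a)) * u⁻¹) * a⁻¹ := by group
      _ = ⁅u, b⁆ := by rw [← h1]; simp only [commutatorElement_def]; group
  have triv : ∀ u ∈ ZZ R, ∀ a ∈ R, ⁅u, a⁆ = 1 := fun u hu a ha =>
    commutatorElement_eq_one_iff_mul_comm.2 ((mem_omegaZ.1 hu).2.1 a ha).symm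
  have cen : ∀ u ∈ ZZ R, u * q = q * u → u ∈ ZZ Q₂ := fun u hu k => by
    refine mem_omegaZ.2 ⟨RQ (mem_omegaZ.1 hu).1, fun a ha => ?_, (mem_omegaZ.1 hu).2.2⟩
    refine (commutatorElement_eq_one_iff_mul_comm.1 ?_).symm
    by_cases aR : a ∈ R
    · exact triv u hu a aR
    · rw [same u hu a ha aR q hq qR]
      exact commutatorElement_eq_one_iff_mul_comm.2 k
  intro u hu
  by_contra ul
  have w1 : ⁅u, q⁆ ≠ 1 := fun k => ul (cen u hu (commutatorElement_eq_one_iff_mul_comm.1 k))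
  have wU : ⁅u, q⁆ ∈ ZZ R := by
    rw [commutatorElement_def, mul_assoc, mul_assoc, ← mul_assoc q]
    exact mul_mem hu (LAE.conj_mem_of_mem_normalizer (nU (Q2N hq)) (inv_mem hu))
  have wl : ⁅u, q⁆ ∈ ZZ Q₂ := by
    refine cen _ wU ?_
    have h1 := (mem_omegaZ.1 hu).2.1 _ (Sect.mul_mem_of_le_two i2 hq hq qR qR)
    have h2 : ⁅u, q⁆ * ⁅u, q⁆ = 1 := by rw [← pow_two]; exact (mem_omegaZ.1 wU).2.2
    have h3 : q * ⁅u, q⁆ * q⁻¹ = ⁅u, q⁆⁻¹ := by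
      have u2 : u * u = 1 := by rw [← pow_two]; exact (mem_omegaZ.1 hu).2.2
      have ui : u⁻¹ = u := inv_eq_of_mul_eq_one_right u2
      have h4 := elemAb_comm (elemAb_omegaZ (p := 2) R) hu
        (LAE.conj_mem_of_mem_normalizer (nU (Q2N hq)) hu)
      simp only [commutatorElement_def, mul_inv_rev, inv_inv, ui]
      calc q * (u * q * u * q⁻¹) * q⁻¹ = q * (u * (q * u * q⁻¹)) * q⁻¹ := by group
        _ = q * q * u * q⁻¹ * u * q⁻¹ := by rw [h4]; group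
        _ = u * (q * u * q⁻¹) := by rw [h1]; group
        _ = q * (u * (q⁻¹ * u)) := by rw [h4]; group
    rw [inv_eq_of_mul_eq_one_right h2] at h3
    exact (mul_inv_eq_iff_eq_mul.1 h3).symm
  obtain ⟨g, hg, k⟩ := d.c3c_tr n e (e.zq ▸ wl) w1
  have u' := LAE.conj_mem_of_mem_normalizer (nU (zpowers_le.2 xN hg)) hu
  have q' := xc g hg q hq qR
  have k' : ⁅g * u * g⁻¹, g * q * g⁻¹⁆ = z := by
    rw [← k]; simp only [commutatorElement_def]; group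
  have all : ∀ a ∈ Q₂, ⁅g * u * g⁻¹, a⁆ ∈ zpowers z := fun a ha => by
    by_cases aR : a ∈ R
    · rw [triv _ u' a aR]; exact one_mem _
    · rw [same _ u' a ha aR _ q'.1 q'.2, k']; exact mem_zpowers z
  have uV := e.z2 _ (n.TM (RT (mem_omegaZ.1 u').1)) (by rw [← pow_two]; exact (mem_omegaZ.1 u').2.2)
    fun a ha => all a (d.h2.le ha)
  exact d.z1 (k' ▸ commutatorElement_eq_one_iff_mul_comm.2 (d.nl _ uV all _ q'.1).symm)


end CfsgLib.O8
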