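import Mathlib
import Cfsg.Agent.Lib.O8.Nsb
import Cfsg.Agent.Lib.O8.Cx

/-! Offenders. -/

set_option autoImplicit false
set_option linter.unusedSectionVars false

namespace CfsgLib.O8

open Cfsg Subgroup CfsgLib.LAE CfsgLib.PLocal CfsgLib.ZJ CfsgLib.Blocks
open scoped CfsgLib.BG MatrixGroups commutatorElement

universe u

variable {G : Type*} [Group G] [Finite G] {M Q V T : Subgroup G}

theorem nsc_rel {A : Type*} [AddCommGroup A] {v0 v1 v2 v3 v4 a2 a3 a4 : A} (d : ∀ x : A, x + x = 0)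
    (p : v0 + v1 + v2 + v3 + v4 = 0) (e : v1 + a2 + a3 + a4 = 0) (h2 : a2 = 0 ∨ a2 = v2) (h3 : a3 = 0 ∨ a3 = v3)
    (h4 : a4 = 0 ∨ a4 = v4) : v0 = 0 ∨ v1 = 0 ∨ v0 = v2 ∨ v0 = v3 ∨ v0 = v4 ∨ v1 = v2 ∨ v1 = v3 ∨ v1 = v4 := by
  have k : ∀ {x y : A}, x + y = 0 → x = y := fun {x y} h => by
    rw [← add_zero x, ← d y, ← add_assoc, h, zero_add]
  rcases h2 with rfl | rfl <;> rcases h3 with rfl | rfl <;> rcases h4 with rfl | rfl
  · exact .inr (.inl (by simpa using e))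
  · exact .inr (.inr (.inr (.inr (.inr (.inr (.inr (k (by simpa using e))))))))
  · exact .inr (.inr (.inr (.inr (.inr (.inr (.inl (k (by simpa using e))))))))
  · exact .inr (.inr (.inl (k (by rw [← sub_zero (0 : A)]; nth_rewrite 1 [← p]; rw [← e]; abel))))
  · exact .inr (.inr (.inr (.inr (.inr (.inl (k (by simpa using e)))))))
  · exact .inr (.inr (.inr (.inl (k (by rw [← sub_zero (0 : A)]; nth_rewrite 1 [← p]; rw [← e]; abel)))))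
  · exact .inr (.inr (.inr (.inr (.inl (k (by rw [← sub_zero (0 : A)]; nth_rewrite 1 [← p]; rw [← e]; abel))))))
  · exact .inl (by rw [← sub_zero (0 : A)]; nth_rewrite 1 [← p]; rw [← e]; abel)

theorem nsc_rel' (ea : IsElementaryAbelian 2 V) {v0 v1 v2 v3 v4 a2 a3 a4 : G} (m0 : v0 ∈ V) (m1 : v1 ∈ V)
    (m2 : v2 ∈ V) (m3 : v3 ∈ V) (m4 : v4 ∈ V)
    (p : v0 * v1 * v2 * v3 * v4 = 1) (e : v1 * a2 * a3 * a4 = 1) (h2 : a2 = 1 ∨ a2 = v2) (h3 : a3 = 1 ∨ a3 = v3)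
    (h4 : a4 = 1 ∨ a4 = v4) : v0 = 1 ∨ v1 = 1 ∨ v0 = v2 ∨ v0 = v3 ∨ v0 = v4 ∨ v1 = v2 ∨ v1 = v3 ∨ v1 = v4 := by
  have := ea.1
  let : CommGroup V := { mul_comm := fun a b => Subtype.ext (elemAb_comm ea a.2 b.2) }
  have n2 : a2 ∈ V := by rcases h2 with rfl | rfl; exacts [one_mem _, m2]
  have n3 : a3 ∈ V := by rcases h3 with rfl | rfl; exacts [one_mem _, m3]
  have n4 : a4 ∈ V := by rcases h4 with rfl | rfl; exacts [one_mem _, m4]
  have j : ∀ {x y : G} (hx : x ∈ V) (hy : y ∈ V),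
      Additive.ofMul (⟨x, hx⟩ : V) = Additive.ofMul (⟨y, hy⟩ : V) ↔ x = y := fun hx hy =>
    ⟨fun h => congrArg Subtype.val (Additive.ofMul.injective h), fun h => by subst h; rfl⟩
  have j0 : ∀ {x : G} (hx : x ∈ V), Additive.ofMul (⟨x, hx⟩ : V) = 0 ↔ x = 1 := fun hx => j hx (one_mem _)
  have := nsc_rel (A := Additive V) (v0 := .ofMul ⟨v0, m0⟩) (v1 := .ofMul ⟨v1, m1⟩) (v2 := .ofMul ⟨v2, m2⟩)
    (v3 := .ofMul ⟨v3, m3⟩) (v4 := .ofMul ⟨v4, m4⟩) (a2 := .ofMul ⟨a2, n2⟩) (a3 := .ofMul ⟨a3, n3⟩)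
    (a4 := .ofMul ⟨a4, n4⟩)
    (fun x => (j0 (mul_mem x.toMul.2 x.toMul.2)).2 (by rw [← sq]; exact ea.2 _ x.toMul.2))
    ((j0 (mul_mem (mul_mem (mul_mem (mul_mem m0 m1) m2) m3) m4)).2 p)
    ((j0 (mul_mem (mul_mem (mul_mem m1 n2) n3) n4)).2 e) (by rwa [j0, j]) (by rwa [j0, j]) (by rwa [j0, j])
  rwa [j0, j0, j, j, j, j, j, j] at this

theorem nsc_exists (hT : IsPGroup 2 T) (h : ¬ T ≤ Q) : ∃ t ∈ T, t ∉ Q ∧ t * t ∈ Q := by
  classical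
  obtain ⟨y, hy, hyQ⟩ := SetLike.not_le_iff_exists.1 h
  have hex : ∃ n : ℕ, y ^ 2 ^ n ∈ Q := by
    obtain ⟨n, hn⟩ := hT ⟨y, hy⟩
    refine ⟨n, ?_⟩
    rw [show y ^ 2 ^ n = 1 from congrArg Subtype.val hn]
    exact one_mem _
  have h0 : Nat.find hex ≠ 0 := fun h0 => by
    have := Nat.find_spec hex
    rw [h0] at this
    exact hyQ (by simpa using this)
  obtain ⟨n, hn⟩ := Nat.exists_eq_succ_of_ne_zero h0
  refine ⟨y ^ 2 ^ n, pow_mem hy _, Nat.find_min hex (by omega), ?_⟩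
  have := Nat.find_spec hex
  rwa [hn, pow_succ, pow_mul, pow_two] at this

theorem off_le {A W : Subgroup G} (hA : A ∈ maxElemIn 2 T) (hW : W ≤ T)
    (ea : IsElementaryAbelian 2 W) : 𝒞(A).relIndex W ≤ 𝒞(W).relIndex A := by
  have hB := hA.2.2 ((A ⊓ 𝒞(W)) ⊔ W) (sup_le (inf_le_left.trans hA.1) hW)
    (elemAb_sup (elemAb_mono hA.2.1 inf_le_left) ea inf_le_right)
  have e1 := card_sup_mul_card_inf (A := A ⊓ 𝒞(W)) (B := W) (le_normalizer_of_le_centralizer inf_le_right)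
  have e2 := card_eq_relIndex_mul 𝒞(W) A
  have e3 := card_eq_relIndex_mul 𝒞(A) W
  have e4 : Nat.card ↥(A ⊓ 𝒞(W) ⊓ W) ≤ Nat.card ↥(𝒞(A) ⊓ W) := card_le_card_of_le
    (inf_le_inf_right _ (inf_le_left.trans (elemAb_le_centralizer hA.2.1)))
  rw [inf_comm] at e2
  have p1 : 0 < Nat.card ↥(A ⊓ 𝒞(W)) := Nat.card_pos
  have p2 : 0 < Nat.card ↥(𝒞(A) ⊓ W) := Nat.card_pos
  have := Nat.mul_le_mul hB e4
  rw [e1, e2, e3] at this
  refine Nat.le_of_mul_le_mul_right ?_ (Nat.mul_pos p1 p2)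
  nlinarith

theorem NS.off_of (n : NS M Q V T) (hJ : ¬ JJ T ≤ Q) : Off Q V T := by
  obtain ⟨A, hA, hAQ⟩ : ∃ A ∈ maxElemIn 2 T, ¬ A ≤ Q := by
    by_contra h
    push Not at h
    exact hJ (thompsonSubgroupOf_le_iff.2 h)
  refine ⟨A, hA.1, hAQ, fun a ha => ?_, ?_⟩
  · rw [← sq, hA.2.1.2 a ha]
    exact one_mem _
  · rw [← n.cV]
    exact off_le hA (n.VQ.trans n.QT) n.eaV

theorem NS.wv (n : NS M Q V T) {A : Subgroup G} (hA : A ∈ maxElemIn 2 T) (hAQ : ¬ A ≤ Q)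
    (h : Q.relIndex A ≤ 𝒞(A).relIndex V) :
    (∃ B ∈ maxElemIn 2 T, B ≤ Q) ∧ zj 2 T = V ⊓ 𝒞(JJ T) := by
  have hc : A ⊓ Q ≤ 𝒞(V) := inf_le_right.trans n.cV.ge
  have BQ : (A ⊓ Q) ⊔ V ≤ Q := sup_le inf_le_right n.VQ
  have eB : IsElementaryAbelian 2 ((A ⊓ Q) ⊔ V : Subgroup G) :=
    elemAb_sup (elemAb_mono hA.2.1 inf_le_left) n.eaV hc
  have hB : (A ⊓ Q) ⊔ V ∈ maxElemIn 2 T := by
    refine mem_maxElemIn_of_card_le hA (BQ.trans n.QT) eB ?_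
    have e1 := card_sup_mul_card_inf (le_normalizer_of_le_centralizer hc)
    have e2 := card_eq_relIndex_mul Q A
    have e3 := card_eq_relIndex_mul 𝒞(A) V
    have e4 : Nat.card ↥(A ⊓ Q ⊓ V) ≤ Nat.card ↥(𝒞(A) ⊓ V) := card_le_card_of_le
      (inf_le_inf_right _ (inf_le_left.trans (elemAb_le_centralizer hA.2.1)))
    rw [inf_comm] at e2
    have p2 : 0 < Nat.card ↥(𝒞(A) ⊓ V) := Nat.card_pos
    have h1 := Nat.mul_le_mul_left (Nat.card ↥(A ⊓ Q ⊔ V)) e4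
    rw [e1, e3] at h1
    have h2 := Nat.mul_le_mul_right (Nat.card ↥(A ⊓ Q)) h
    refine Nat.le_of_mul_le_mul_right ?_ p2
    rw [e2]
    nlinarith
  refine ⟨⟨_, hB, BQ⟩, le_antisymm (le_inf ?_ ((zj_le_center T).trans inf_le_right)) fun u hu => ?_⟩
  · have hBQ : (A ⊓ Q) ⊔ V ∈ maxElemIn 2 Q := (mem_maxElemIn_iff_of_le n.QT hB BQ).2 ⟨hB, BQ⟩
    have h1 : zj 2 T ≤ zj 2 Q := by
      rw [← sInf_maxElemIn Q]
      exact le_sInf fun B hB' => zj_le_of_mem ((mem_maxElemIn_iff_of_le n.QT hB BQ).1 hB').1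
    refine h1.trans ?_
    set W := zj 2 Q with hW
    have VW : V ≤ W := n.hV ▸ omegaOne_center_le_zj Q
    have WQ : W ≤ Q := zj_le Q
    have eW : IsElementaryAbelian 2 W := elemAb_zj Q
    have h2 : 𝒞(W).relIndex A = Q.relIndex A := by
      rw [← inf_relIndex_right, ← inf_relIndex_right Q]
      congr 1
      refine le_antisymm (inf_le_inf_right _ ((centralizer_le VW).trans n.cV.le)) (le_inf ?_ inf_le_right)
      rw [inf_comm]
      exact le_sup_left.trans ((elemAb_le_centralizer eB).trans (centralizer_le (zj_le_of_mem hBQ)))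
    have h3 := off_le hA (WQ.trans n.QT) eW
    have h4 : V ⊔ (𝒞(A) ⊓ W) = W := by
      refine eq_of_le_of_card_ge (sup_le VW inf_le_right) ?_
      have e1 := card_sup_mul_card_inf (A := V) (B := 𝒞(A) ⊓ W) (le_normalizer_of_le_centralizer
        (VW.trans ((elemAb_le_centralizer eW).trans (centralizer_le inf_le_right))))
      have e2 := card_eq_relIndex_mul 𝒞(A) V
      have e3 := card_eq_relIndex_mul 𝒞(A) W
      rw [inf_comm 𝒞(A) W, ← inf_assoc, inf_eq_left.2 VW, inf_comm V, inf_comm W] at e1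
      have p2 : 0 < Nat.card ↥(𝒞(A) ⊓ V) := Nat.card_pos
      have h5 : 𝒞(A).relIndex W ≤ 𝒞(A).relIndex V := h3.trans (h2.le.trans h)
      have h6 := Nat.mul_le_mul_right (Nat.card ↥(𝒞(A) ⊓ W)) h5
      refine Nat.le_of_mul_le_mul_right ?_ p2
      rw [e1, e3, e2]
      nlinarith
    by_contra hne
    obtain ⟨a, ha, haQ⟩ := SetLike.not_le_iff_exists.1 hAQ
    have aM := n.TM (hA.1 ha)
    refine haQ (n.nt VW WQ (n.nQ.trans (normalizer_le_normalizer_zj Q)) n.nV.ge hne aM fun y hy => ?_)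
    rw [← h4] at hy
    obtain ⟨v, hv, c, hc', rfl⟩ := (mem_sup_of_le_normalizer (le_normalizer_of_le_centralizer
      (VW.trans ((elemAb_le_centralizer eW).trans (centralizer_le inf_le_right))))).1 hy
    have e : ⁅v * c, a⁆ = v * (a * v⁻¹ * a⁻¹) := by
      rw [commutatorElement_def, mul_assoc v c a, ← mem_centralizer_iff.1 hc'.1 a ha]
      group
    rw [e]
    exact mul_mem hv ((mem_normalizer_iff.1 (n.nV.ge aM) _).1 (inv_mem hv))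
  · refine mem_zj n.two (n.QT (n.VQ hu.1)) (by rw [← sq]; exact n.eaV.2 u hu.1) fun j hj => ?_
    exact mem_centralizer_singleton_iff.2 (mem_centralizer_iff.1 hu.2 j hj)

theorem NS.rk5 (n : NS M Q V T) {f u v : G} (hf : f ∈ M) (f5 : orderOf f = 5) (hu : u ∈ Q)
    (hv : v ∈ V) (h : ∀ q ∈ Q, ⁅u, q⁆ ∈ zpowers v) : u ∈ 𝒞(Q) := by
  have fQ : ∀ i : ℕ, ∀ q ∈ Q, f ^ i * q * (f ^ i)⁻¹ ∈ Q := fun i q hq =>
    (mem_normalizer_iff.1 (n.nQ (pow_mem hf i)) q).1 hq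
  have fQ' : ∀ i : ℕ, ∀ q ∈ Q, (f ^ i)⁻¹ * q * f ^ i ∈ Q := fun i q hq =>
    (mem_normalizer_iff''.1 (n.nQ (pow_mem hf i)) q).1 hq
  have fV : ∀ i : ℕ, ∀ q ∈ V, f ^ i * q * (f ^ i)⁻¹ ∈ V := fun i q hq =>
    (mem_normalizer_iff.1 (n.nV.ge (pow_mem hf i)) q).1 hq
  have VC : ∀ w ∈ V, ∀ q ∈ Q, q * w = w * q := fun w hw q hq =>
    (mem_centralizer_iff.1 (n.cV.ge hq) w hw).symm
  have v2 : v * v = 1 := by rw [← sq]; exact n.eaV.2 v hv
  have h' : ∀ q ∈ Q, ⁅u, q⁆ = 1 ∨ ⁅u, q⁆ = v := fun q hq => by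
    obtain ⟨k, hk⟩ := mem_zpowers_iff.1 (h q hq)
    rw [← hk]
    rcases Int.even_or_odd' k with ⟨j, rfl | rfl⟩
    · left; rw [zpow_mul, zpow_two, v2, one_zpow]
    · right; rw [zpow_add, zpow_mul, zpow_two, v2, one_zpow, one_mul, zpow_one]
  have f1 : f ^ 5 = 1 := f5 ▸ pow_orderOf_eq_one f
  by_cases v1 : v = 1
  · exact mem_centralizer_iff.2 fun q hq =>
      (commutatorElement_eq_one_iff_mul_comm.1 ((h' q hq).elim id fun e => e.trans v1)).symm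
  set U : ℕ → G := fun i => f ^ i * u * (f ^ i)⁻¹ with hU
  set w : ℕ → G := fun i => f ^ i * v * (f ^ i)⁻¹ with hw
  have U0 : U 0 = u := by simp [hU]
  have w0 : w 0 = v := by simp [hw]
  have UQ : ∀ i, U i ∈ Q := fun i => fQ i u hu
  have wV : ∀ i, w i ∈ V := fun i => fV i v hv
  have cU : ∀ i, ∀ q, ⁅U i, q⁆ = f ^ i * ⁅u, (f ^ i)⁻¹ * q * f ^ i⁆ * (f ^ i)⁻¹ := fun i q => by
    simp only [hU, commutatorElement_def]; group
  have hU' : ∀ i, ∀ q ∈ Q, ⁅U i, q⁆ = 1 ∨ ⁅U i, q⁆ = w i := fun i q hq => by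
    rw [cU]
    rcases h' _ (fQ' i q hq) with e | e <;> rw [e]
    · left; group
    · right; rfl
  have UV : ∀ i, ∀ q ∈ Q, ⁅U i, q⁆ ∈ V := fun i q hq => by
    rcases hU' i q hq with e | e <;> rw [e]
    exacts [one_mem _, wV i]
  have fp := n.cl.fpf' n.twoQ (.inl f5)
  have ne : ∀ i j : ℕ, i < j → j < 5 → w i ≠ w j := fun i j hij hj e => by
    have o5 : orderOf (f ^ (j - i)) = 5 := by
      rw [← f5]
      refine Nat.Coprime.orderOf_pow ?_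
      rw [f5]
      exact (Nat.coprime_of_lt_prime (by omega) (by omega) (by norm_num))
    refine v1 (n.cl.fpf' n.twoQ (.inl o5) v (n.VQ hv) ?_)
    obtain ⟨k, rfl⟩ := Nat.exists_eq_add_of_le hij.le
    rw [Nat.add_sub_cancel_left]
    simp only [hw, pow_add] at e
    calc f ^ k * v = (f ^ i)⁻¹ * (f ^ i * f ^ k * v * (f ^ i * f ^ k)⁻¹) * f ^ i * f ^ k := by group
      _ = v * f ^ k := by rw [← e]; group
  have ne1 : ∀ i, w i ≠ 1 := fun i e => v1 (by simpa [hw] using e)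
  have sh : ∀ x : G, f * (f ^ 0 * x * (f ^ 0)⁻¹ * (f ^ 1 * x * (f ^ 1)⁻¹) * (f ^ 2 * x * (f ^ 2)⁻¹) *
      (f ^ 3 * x * (f ^ 3)⁻¹) * (f ^ 4 * x * (f ^ 4)⁻¹)) * f⁻¹ = x⁻¹ * (f ^ 0 * x * (f ^ 0)⁻¹ *
      (f ^ 1 * x * (f ^ 1)⁻¹) * (f ^ 2 * x * (f ^ 2)⁻¹) * (f ^ 3 * x * (f ^ 3)⁻¹) * (f ^ 4 * x * (f ^ 4)⁻¹)) * x :=
    fun x => by
      have : x = f ^ 5 * x * (f ^ 5)⁻¹ := by rw [f1]; group
      nth_rewrite 12 [this]
      group
  have pw : w 0 * w 1 * w 2 * w 3 * w 4 = 1 := by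
    have m : w 0 * w 1 * w 2 * w 3 * w 4 ∈ V :=
      mul_mem (mul_mem (mul_mem (mul_mem (wV 0) (wV 1)) (wV 2)) (wV 3)) (wV 4)
    refine fp _ (n.VQ m) (mul_inv_eq_iff_eq_mul.1 ((sh v).trans ?_))
    change v⁻¹ * (w 0 * w 1 * w 2 * w 3 * w 4) * v = _
    rw [mul_assoc, ← VC _ m v (n.VQ hv), inv_mul_cancel_left]
  have pU : U 0 * U 1 * U 2 * U 3 * U 4 ∈ V := by
    have m : U 0 * U 1 * U 2 * U 3 * U 4 ∈ Q :=
      mul_mem (mul_mem (mul_mem (mul_mem (UQ 0) (UQ 1)) (UQ 2)) (UQ 3)) (UQ 4)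
    have e : f * (U 0 * U 1 * U 2 * U 3 * U 4) * f⁻¹ = u⁻¹ * (U 0 * U 1 * U 2 * U 3 * U 4) * u := sh u
    set π := U 0 * U 1 * U 2 * U 3 * U 4
    have zV : u⁻¹ * ⁅u, π⁻¹⁆ * u ∈ V := by
      have := UV 0 _ (inv_mem m)
      rw [U0] at this
      rw [mul_assoc, ← VC _ this u hu, inv_mul_cancel_left]
      exact this
    obtain ⟨z, hz, e2⟩ := Ord6.fpf_surj (f := f) (by simpa using fV 1) (fun q hq => fp q (n.VQ hq)) zV
    have := fp (π * z⁻¹) (mul_mem m (inv_mem (n.VQ hz))) (mul_inv_eq_iff_eq_mul.1 (by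
      calc f * (π * z⁻¹) * f⁻¹ = f * π * f⁻¹ * (z⁻¹ * (f * z * f⁻¹))⁻¹ * z⁻¹ := by group
        _ = π * z⁻¹ := by rw [e, ← e2, commutatorElement_def]; group))
    rw [mul_inv_eq_one.1 this]
    exact hz
  have mul : ∀ x ∈ Q, ∀ y q : G, ⁅y, q⁆ ∈ V → ⁅x, q⁆ ∈ Q → ⁅x * y, q⁆ = ⁅x, q⁆ * ⁅y, q⁆ := fun x hx y q hy hq => by
    have : ⁅x * y, q⁆ = x * ⁅y, q⁆ * x⁻¹ * ⁅x, q⁆ := by simp only [commutatorElement_def]; group
    rw [this, VC _ hy x hx, mul_inv_cancel_right, VC _ hy _ hq]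
  have cQ : ∀ x ∈ Q, ∀ q ∈ Q, ⁅x, q⁆ ∈ Q := fun x hx q hq =>
    mul_mem (mul_mem (mul_mem hx hq) (inv_mem hx)) (inv_mem hq)
  have rel : ∀ q ∈ Q, ⁅U 0, q⁆ * ⁅U 1, q⁆ * ⁅U 2, q⁆ * ⁅U 3, q⁆ * ⁅U 4, q⁆ = 1 := fun q hq => by
    have m1 := mul_mem (UQ 0) (UQ 1)
    have m2 := mul_mem m1 (UQ 2)
    have m3 := mul_mem m2 (UQ 3)
    rw [← mul _ (UQ 0) _ _ (UV 1 q hq) (cQ _ (UQ 0) q hq), ← mul _ m1 _ _ (UV 2 q hq) (cQ _ m1 q hq),
      ← mul _ m2 _ _ (UV 3 q hq) (cQ _ m2 q hq), ← mul _ m3 _ _ (UV 4 q hq) (cQ _ m3 q hq)]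
    exact commutatorElement_eq_one_iff_mul_comm.2 (VC _ pU q hq).symm
  have key : ∀ q ∈ Q, ⁅u, q⁆ = ⁅u, f⁻¹ * q * f⁆ := fun q hq => by
    have r := rel q hq
    have c1 := cU 1 q
    rw [pow_one] at c1
    rcases hU' 0 q hq with e0 | e0 <;> rcases hU' 1 q hq with e1 | e1
    · rw [← U0, e0, U0]
      rw [e1] at c1
      exact (conj_eq_one_iff.1 c1.symm).symm
    · exfalso
      rw [e0, e1, one_mul] at r
      rcases nsc_rel' n.eaV (wV 0) (wV 1) (wV 2) (wV 3) (wV 4) pw r (hU' 2 q hq) (hU' 3 q hq) (hU' 4 q hq)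
        with e | e | e | e | e | e | e | e
      exacts [ne1 _ e, ne1 _ e, ne _ _ (by omega) (by omega) e, ne _ _ (by omega) (by omega) e,
        ne _ _ (by omega) (by omega) e, ne _ _ (by omega) (by omega) e, ne _ _ (by omega) (by omega) e,
        ne _ _ (by omega) (by omega) e]
    · exfalso
      rw [e0, e1, mul_one] at r
      rcases nsc_rel' n.eaV (wV 1) (wV 0) (wV 2) (wV 3) (wV 4)
        (by rw [elemAb_comm n.eaV (wV 1) (wV 0), pw]) r (hU' 2 q hq) (hU' 3 q hq) (hU' 4 q hq)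
        with e | e | e | e | e | e | e | e
      exacts [ne1 _ e, ne1 _ e, ne _ _ (by omega) (by omega) e, ne _ _ (by omega) (by omega) e,
        ne _ _ (by omega) (by omega) e, ne _ _ (by omega) (by omega) e, ne _ _ (by omega) (by omega) e,
        ne _ _ (by omega) (by omega) e]
    · rw [← U0, e0, U0, w0]
      rw [e1] at c1
      simpa [hw] using c1
  have o5 : orderOf f⁻¹ = 5 := by rw [orderOf_inv, f5]
  refine mem_centralizer_iff.2 fun y hy => ?_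
  obtain ⟨q, hq, rfl⟩ := Ord6.fpf_surj (f := f⁻¹) (by simpa using fQ' 1) (n.cl.fpf' n.twoQ (.inl o5)) hy
  have k := key q hq
  rw [inv_inv]
  set q' := f⁻¹ * q * f
  calc q⁻¹ * q' * u = q⁻¹ * ⁅u, q'⁆⁻¹ * u * q' := by simp only [commutatorElement_def]; group
    _ = u * (q⁻¹ * q') := by rw [← k]; simp only [commutatorElement_def]; group

theorem NS.f2_16 (n : NS M Q V T) (f2 : F2 M Q V) (five : ∃ f ∈ M, orderOf f = 5) {t : G}
    (ht : t ∈ M) (hQ : t ∉ Q) (t2 : t * t ∈ Q) (h : (𝒞[t] : Subgroup G).relIndex V ≤ 8) :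
    Nat.card V = 16 := by
  obtain ⟨f, hf, f5⟩ := five
  have e1 := f2 t ht hQ t2
  have e2 := card_eq_relIndex_mul (𝒞[t] : Subgroup G) V
  rw [inf_comm] at e2
  have e3 := card_mod (X := V) (by norm_num) f5 (n.nV.ge hf) fun q hq => n.cl.fpf' n.twoQ (.inl f5) q (n.VQ hq)
  have := Fact.mk Nat.prime_two
  obtain ⟨k, hk⟩ := IsPGroup.iff_card.1 (elemAb_isPGroup n.eaV)
  have e4 : Nat.card V ≠ 1 := fun e => n.V1 (card_eq_one.1 e)
  have p : 0 < Nat.card ↥(V ⊓ 𝒞[t]) := Nat.card_pos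
  have e5 : Nat.card ↥(V ⊓ 𝒞[t]) = (𝒞[t] : Subgroup G).relIndex V := by
    rw [← e1, sq] at e2
    exact Nat.eq_of_mul_eq_mul_right p e2
  rw [← e5] at h
  generalize Nat.card ↥(V ⊓ 𝒞[t]) = c at *
  have e6 : ¬ 3 ∣ Nat.card V := fun h3 => by
    rw [hk] at h3
    exact absurd (Nat.Prime.dvd_of_dvd_pow (by norm_num) h3) (by norm_num)
  interval_cases c <;> omega

/-- small codimension or an offender force `|V| = 16` -/
theorem NS.c16 (n : NS M Q V T) (f2 : F2 M Q V) (five : ∃ f ∈ M, orderOf f = 5) (rk : Rk2 Q T)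
    (h : (ZZ T).relIndex V ≤ 8 ∨ Off Q V T) : Nat.card V = 16 := by
  rcases h with h | ⟨A, hA, hAQ, hsq, h⟩
  · obtain ⟨t, ht, tQ, t2⟩ := nsc_exists n.two n.ne
    refine n.f2_16 f2 five (n.TM ht) tQ t2 (le_trans (relIndex_le_of_le_left (fun z hz => ?_)
      index_ne_zero_of_finite) h)
    exact mem_centralizer_singleton_iff.2 (mem_centralizer_iff.1 (omegaZ_le_centralizer T hz) t ht).symm
  · obtain ⟨t, ht, tQ⟩ := SetLike.not_le_iff_exists.1 hAQ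
    refine n.f2_16 f2 five (n.TM (hA ht)) tQ (hsq t ht) (le_trans (relIndex_le_of_le_left (fun z hz => ?_)
      index_ne_zero_of_finite) (h.trans ((rk A hA hsq).trans (by norm_num))))
    exact mem_centralizer_singleton_iff.2 (mem_centralizer_iff.1 hz t ht).symm


end CfsgLib.O8
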