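import Mathlib
import Cfsg.Agent.Lib.O8.Hz
import Cfsg.Agent.Lib.O8.Nsc

/-! The case `T4`: first consequences. -/

set_option autoImplicit false
set_option linter.unusedSectionVars false

namespace CfsgLib.O8

open Cfsg Subgroup CfsgLib.LAE CfsgLib.PLocal CfsgLib.ZJ CfsgLib.Blocks
open scoped CfsgLib.BG MatrixGroups commutatorElement

universe u

variable {G : Type*} [Group G] [Finite G] {M Q V T Q₁ Q₂ : Subgroup G} {x x₁ x₂ z : G}

theorem c4a_eq {A B : Subgroup G} (h : A ≤ B) (hi : A.relIndex V ≤ B.relIndex V) : V ⊓ A = V ⊓ B := by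
  refine eq_of_le_of_card_ge (inf_le_inf_left _ h) ?_
  have h1 := card_eq_relIndex_mul A V
  have h2 := card_eq_relIndex_mul B V
  rw [inf_comm] at h1 h2
  have h3 : 0 < B.relIndex V := Nat.pos_of_ne_zero index_ne_zero_of_finite
  exact Nat.le_of_mul_le_mul_left (h2 ▸ h1 ▸ Nat.mul_le_mul_right _ hi) h3

theorem T4.c4a_off (d : T4 M Q V T Q₁ Q₂ x₁ x₂) (n : NS M Q V T) {A : Subgroup G} (hA : A ∈ maxElemIn 2 T)
    (h : ¬ A ≤ Q) : Q.relIndex A = 4 ∧ 𝒞(A).relIndex V = 4 := by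
  have sq : ∀ a ∈ A, a * a ∈ Q := fun a ha => by rw [← pow_two, hA.2.1.2 a ha]; exact one_mem _
  obtain ⟨t, ht, tQ⟩ := SetLike.not_le_iff_exists.1 h
  have h1 := d.big t (n.TM (hA.1 ht)) tQ (sq t ht)
  have h2 : (𝒞[t] : Subgroup G).relIndex V ≤ 𝒞(A).relIndex V :=
    relIndex_le_of_le_left (centralizer_le (Set.singleton_subset_iff.2 ht)) index_ne_zero_of_finite
  have h3 := off_le hA (n.VQ.trans n.QT) n.eaV
  have h4 := d.toTG.rk2 A hA.1 sq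
  rw [n.cV] at h3
  omega

theorem T4.d4 (d : T4 M Q V T Q₁ Q₂ x₁ x₂) (g : Gl G) (n : NS M Q V T) : D4 Q V T Q₁ Q₂ x₁ := by
  have QV : V ≤ 𝒞(Q) := le_centralizer_iff.1 n.cV.ge
  have cs : ∀ A : Subgroup G, V ⊓ 𝒞((A ⊔ Q : Subgroup G)) = V ⊓ 𝒞(A) := fun A => by
    rw [LAE.centralizer_sup, inf_comm 𝒞(A), ← inf_assoc, inf_eq_left.2 QV]
  have ri : ∀ {A B : Subgroup G}, V ⊓ A = V ⊓ B → A.relIndex V = B.relIndex V := fun e => by
    rw [← inf_relIndex_left V, e, inf_relIndex_left]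
  have hT := d.toTG.sup n
  have hi := d.toTG.inf n
  -- `C_V(Q₁) = Z`
  obtain ⟨c, hc, cQ⟩ : ∃ c ∈ Q₁ ⊓ Q₂, c ∉ Q := SetLike.not_le_iff_exists.1 fun e => by
    rw [relIndex_eq_one.2 e] at hi; omega
  have ct : V ⊓ 𝒞(Q₂) = V ⊓ 𝒞[c] :=
    c4a_eq (centralizer_le (Set.singleton_subset_iff.2 hc.2))
      (d.c4 ▸ d.big c (n.TM (d.h2.leT hc.2)) cQ (d.h2.sq c hc.2))
  have h1 : V ⊓ 𝒞(Q₁) ≤ 𝒞(T) := by
    rw [← hT, LAE.centralizer_sup]
    refine le_inf inf_le_right (le_trans ?_ (ct.ge.trans inf_le_right))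
    exact inf_le_inf_left _ (centralizer_le (Set.singleton_subset_iff.2 hc.1))
  have c1 : V ⊓ 𝒞(Q₁) = ZZ T := by
    rw [n.hZ]
    exact le_antisymm (le_inf inf_le_left h1) (inf_le_inf_left _ (centralizer_anti d.h1.leT))
  have x1 := d.h1.cz n h1
  have TZ : T ≤ 𝒞(ZZ T) := le_centralizer_omegaZ T
  -- `C_V(Q₂) ≠ Z`
  have h2 : ¬ V ⊓ 𝒞(Q₂) ≤ 𝒞(T) := fun e => n.Z1 (eq_bot_iff.2 fun z hz => by
    have hM : M ≤ 𝒞(ZZ T) := d.gen ▸ sup_le (sup_le TZ (zpowers_le.2 x1)) (sup_le TZ (zpowers_le.2 (d.h2.cz n e)))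
    exact n.ncent (n.VQ (n.hZ ▸ hz).1) (hM.trans (centralizer_le (Set.singleton_subset_iff.2 hz))))
  obtain ⟨A, hA, eA⟩ := d.off
  have AQ : ¬ A ≤ Q := fun e => by
    have := d.h2.i4
    rw [← eA, sup_eq_right.2 e, relIndex_self] at this
    omega
  obtain ⟨⟨B, hB, BQ⟩, hzj⟩ := n.wv hA AQ (by rw [(d.c4a_off n hA AQ).1, (d.c4a_off n hA AQ).2])
  have J2 : JJ T ≤ Q₂ := thompsonSubgroupOf_le_iff.2 fun A' hA' => by
    by_contra hn
    have a1 : A' ≤ Q₁ := (d.toTG.le_or hA'.1 fun a ha => by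
      rw [← pow_two, hA'.2.1.2 a ha]; exact one_mem _).resolve_right hn
    obtain ⟨a2, a3⟩ := d.c4a_off n hA' fun e => hn (e.trans d.h2.le)
    have a4 : A' ⊔ Q = Q₁ := by
      refine eq_of_le_of_card_ge (sup_le a1 d.h1.le) (le_of_eq ?_)
      rw [card_eq_relIndex_mul Q Q₁, card_eq_relIndex_mul Q (A' ⊔ Q), d.h1.i4,
        PLocal.relIndex_sup_of_le_normalizer (hA'.1.trans (n.TM.trans n.nQ)), a2, inf_eq_left.2 d.h1.le,
        inf_eq_left.2 le_sup_right]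
    have a5 : V ⊓ 𝒞(T) = V ⊓ 𝒞(A') := by rw [← n.hZ, ← c1, ← a4, cs]
    exact h2 ((c4a_eq (centralizer_anti d.h2.leT) (by rw [ri a5, a3, d.c4])).ge.trans inf_le_right)
  have J1 : ¬ JJ T ≤ Q₁ := fun e => by
    have := d.h1.i2
    rw [← hT, sup_eq_left.2 (eA ▸ sup_le ((le_thompsonSubgroupOf hA).trans e) d.h1.le), relIndex_self] at this
    omega
  have JQ : JJ Q₁ ≤ Q := thompsonSubgroupOf_le_iff.2 fun A' hA' => by
    obtain ⟨a1, a2⟩ := (mem_maxElemIn_iff_of_le d.h1.leT hB (BQ.trans d.h1.le)).1 hA'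
    by_contra hn
    have := relIndex_le_of_le_right (H := Q) (le_inf a2 ((le_thompsonSubgroupOf a1).trans J2)) (by omega)
    rw [(d.c4a_off n a1 hn).1] at this
    omega
  have hN : 𝒩(Q₁) ≤ M := by
    obtain ⟨E, hE⟩ := maxElemIn_nonempty (p := 2) Q
    have a1 : V ≤ JJ Q := n.hV ▸ (omegaOne_center_le_of_mem_maxElemIn hE).trans (le_thompsonSubgroupOf hE)
    rw [← n.max (JJ Q) (n.twoQ.to_le (thompsonSubgroupOf_le Q)) (fun e => n.V1 (eq_bot_iff.2 (e ▸ a1)))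
      (n.nQ.trans (normalizer_le_normalizer_thompsonSubgroupOf Q)), JJ, thompsonSubgroupOf_eq_of_le d.h1.le JQ]
    exact normalizer_le_normalizer_thompsonSubgroupOf Q₁
  obtain ⟨cZ, nZ, syl, nT⟩ := d.h1.hz g n x1 (inf_le_left.trans hN)
  refine ⟨cZ, nZ, syl, nT, c1, ?_, J2, J1, le_antisymm (d.toTG.core2 n ?_ ?_) (le_centralizer_iff.1 inf_le_right)⟩
  · rw [hzj]
    refine le_antisymm ?_ (inf_le_inf_left _ (centralizer_anti J2))
    rw [← eA, cs]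
    exact inf_le_inf_left _ (centralizer_anti (le_thompsonSubgroupOf hA))
  · rw [← cZ, n.hZ]
    exact centralizer_anti (inf_le_inf_left _ (centralizer_anti d.h2.leT))
  · exact le_normalizer_centralizer (le_normalizer_inf ((d.h2.PM n).trans n.nV.ge)
      (le_normalizer_centralizer (d.h2.nQ n)))


end CfsgLib.O8
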