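import Mathlib
import Cfsg.Agent.Lib.O8.Nsc

/-! The natural `SL₂(4)`-module. -/

set_option autoImplicit false
set_option linter.unusedSectionVars false

namespace CfsgLib.O8

open Cfsg Subgroup CfsgLib.LAE CfsgLib.PLocal CfsgLib.ZJ CfsgLib.Blocks
open scoped CfsgLib.BG MatrixGroups commutatorElement

universe u

variable {G : Type*} [Group G] [Finite G] {M Q V T : Subgroup G} {x : G}

theorem ca1_card (K V : Subgroup G) : Nat.card ↥(V ⊓ K) * K.relIndex V = Nat.card V := by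
  rw [← inf_relIndex_left, ← relIndex_bot_left, ← relIndex_bot_left,
    relIndex_mul_relIndex _ _ _ bot_le inf_le_left]

theorem ca1_le (H : Subgroup G) {K L : Subgroup G} (h : K ≤ L) : H.relIndex K ≤ H.relIndex L :=
  relIndex_le_of_le_right h index_ne_zero_of_finite

/-- an element of order three fixing an involution of a four-group centralizes it -/
theorem ca1_fix {Z : Subgroup G} (c4 : Nat.card Z = 4) (ea : ∀ z ∈ Z, z * z = 1) (x3 : orderOf x = 3)
    (hx : x ∈ 𝒩(Z)) {z : G} (hz : z ∈ Z) (z1 : z ≠ 1) (e : x * z = z * x) : Z ≤ 𝒞[x] := fun w hw => by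
  have := Fact.mk Nat.prime_two
  have le : zpowers z ≤ Z := zpowers_le.2 hz
  have cz : zpowers z ≤ 𝒞[x] := zpowers_le.2 (mem_centralizer_singleton_iff.2 e.symm)
  have i2 : ((zpowers z).subgroupOf Z).index = 2 := by
    have h := ca1_card (zpowers z) Z
    rw [inf_eq_right.2 le, Nat.card_zpowers, orderOf_eq_prime (p := 2) (by rw [pow_two, ea z hz]) z1, c4] at h
    exact Nat.eq_of_mul_eq_mul_left two_pos h
  by_cases h : w ∈ zpowers z
  · exact cz h
  have h1 : x * w * x⁻¹ * w ∈ zpowers z :=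
    (mul_mem_iff_of_index_two i2 (a := ⟨_, LAE.conj_mem_of_mem_normalizer hx hw⟩) (b := ⟨w, hw⟩)).2
      (iff_of_false (fun h' => h (by
        have h2 : x * w * x⁻¹ * x = x * (x * w * x⁻¹) := mem_centralizer_singleton_iff.1 (cz h')
        have h3 : x * w * x⁻¹ = w := by
          calc _ = x⁻¹ * (x * (x * w * x⁻¹)) := by group
            _ = w := by rw [← h2]; group
        exact h3 ▸ h')) h)
  obtain ⟨c, hc⟩ : ∃ c, c = x * w * x⁻¹ * w := ⟨_, rfl⟩
  rw [← hc] at h1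
  have e1 : x * w * x⁻¹ = c * w := by rw [hc, mul_assoc _ w w, ea w hw, mul_one]
  have e2 : x * c * x⁻¹ = c := by rw [← mem_centralizer_singleton_iff.1 (cz h1), mul_inv_cancel_right]
  have e3 : x * x * x = 1 := by rw [← pow_three', ← x3, pow_orderOf_eq_one]
  have e4 : x * w * x⁻¹ = w := by
    calc _ = x * (c * c * w) * x⁻¹ := by rw [ea c (le h1), one_mul]
      _ = x * (x * c * x⁻¹ * (x * w * x⁻¹)) * x⁻¹ := by rw [e1, e2, mul_assoc c]
      _ = x * (x * (c * w) * x⁻¹) * x⁻¹ := by group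
      _ = x * x * x * w * (x * x * x)⁻¹ := by rw [← e1]; group
      _ = w := by rw [e3]; group
  exact mem_centralizer_singleton_iff.2 (mul_inv_eq_iff_eq_mul.1 e4).symm

theorem TA.da (d : TA M Q V T x) (n : NS M Q V T) (hJ : ¬ JJ T ≤ Q) : DA Q V T x := by
  have := Fact.mk Nat.prime_two
  have rk : Rk2 Q T := fun A hA _ => d.idx ▸ ca1_le Q hA
  have c16 := n.c16 d.f2 d.five rk (.inr (n.off_of hJ))
  have c4 : ∀ t ∈ T, t ∉ Q → Nat.card ↥(V ⊓ 𝒞[t]) = 4 := fun t ht hQ =>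
    Nat.pow_left_injective two_ne_zero ((d.f2 t (n.TM ht) hQ (d.sq t ht)).trans c16)
  obtain ⟨A, hA, AQ⟩ : ∃ A ∈ maxElemIn 2 T, ¬ A ≤ Q := by
    simpa [thompsonSubgroupOf_le_iff] using hJ
  obtain ⟨a, ha, aQ⟩ := SetLike.not_le_iff_exists.1 AQ
  have h1 := off_le hA (n.VQ.trans n.QT) n.eaV
  rw [n.cV] at h1
  have h2 : Q.relIndex A ≤ 4 := d.idx ▸ ca1_le Q hA.1
  have h3 := ca1_card 𝒞(A) V
  have h4 : Nat.card ↥(V ⊓ 𝒞(A)) ≤ 4 := c4 a (hA.1 ha) aQ ▸
    card_le_of_le (inf_le_inf_left V (centralizer_le (Set.singleton_subset_iff.2 ha)))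
  rw [c16] at h3
  have h5 : 𝒞(A).relIndex V = 4 := by nlinarith
  have h6 : T ≤ A ⊔ Q := by
    have h7 := ca1_le Q (le_sup_left : A ≤ A ⊔ Q)
    have h8 := relIndex_mul_relIndex Q (A ⊔ Q) T le_sup_right (sup_le hA.1 n.QT)
    have h9 : (A ⊔ Q).relIndex T ≠ 0 := index_ne_zero_of_finite
    rw [d.idx] at h8
    exact relIndex_eq_one.1 (by nlinarith [Nat.pos_of_ne_zero h9])
  have eZ : V ⊓ 𝒞(A) = ZZ T := by
    rw [n.hZ]
    refine le_antisymm (le_inf inf_le_left ((le_trans ?_ (centralizer_anti h6)))) (inf_le_inf_left V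
      (centralizer_anti hA.1))
    rw [LAE.centralizer_sup, inf_comm]
    exact inf_le_inf_left _ (le_centralizer_iff.1 n.cV.ge)
  have z4 : Nat.card (ZZ T) = 4 := by
    rw [h5, eZ] at h3
    omega
  have ZV : ZZ T ≤ V := n.hZ ▸ inf_le_left
  refine ⟨c16, z4, fun t ht hQ => (eq_of_le_of_card_ge ?_ (by rw [z4, c4 t ht hQ])).symm, fun z hz e => ?_, ?_⟩
  · rw [n.hZ]
    exact inf_le_inf_left V (centralizer_le (Set.singleton_subset_iff.2 ht))
  · by_contra z1
    obtain ⟨m, hm, mx, mT⟩ := d.opp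
    have k1 : ZZ T ≤ 𝒞[x] := ca1_fix z4 (fun z hz => by rw [← pow_two]; exact (mem_omegaZ.1 hz).2.2) d.x3
      (le_normalizer_omegaZ_of_le le_rfl d.xT) hz z1 e
    have mV : conjS m (ZZ T) ≤ V := by
      rw [← mem_normalizer_iff_conjS.1 (n.nV.ge hm)]
      exact conjS_mono ZV
    have k2 : conjS m (ZZ T) ≤ 𝒞[x] := fun w hw => by
      obtain ⟨y, hy, rfl⟩ := exists_of_mem_conjS hw
      have e1 := mem_centralizer_singleton_iff.1 (k1 hy)
      have e2 := n.cV.ge mx _ (mV hw)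
      refine mem_centralizer_singleton_iff.2 (mul_left_cancel (a := m * x * m⁻¹) ?_)
      calc _ = m * (x * y) * m⁻¹ * x := by group
        _ = m * y * m⁻¹ * (m * x * m⁻¹ * x) := by rw [← e1]; group
        _ = _ := by rw [e2]; group
    have k3 : ZZ T ⊓ conjS m (ZZ T) = ⊥ := eq_bot_iff.2 fun w hw => n.ncent (n.VQ (ZV hw.1)) (by
      rw [← mT]
      refine sup_le (fun t ht => mem_centralizer_singleton_iff.2 ((mem_omegaZ.1 hw.1).2.1 t ht)) fun t ht => ?_
      have := conjS_mono (g := m) (le_centralizer_iff.1 (le_centralizer_omegaZ (p := 2) T)) hw.2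
      rw [conjS_centralizer] at this
      exact mem_centralizer_singleton_iff.2 (this t ht))
    have k4 := ca1_card (ZZ T) (conjS m (ZZ T))
    rw [inf_comm, k3, card_bot, one_mul, card_conjS, z4] at k4
    have k5 := ca1_le (ZZ T) (le_inf mV k2)
    have k6 := ca1_card (ZZ T) (V ⊓ 𝒞[x])
    rw [inf_eq_right.2 (le_inf ZV k1), z4] at k6
    have k7 : V ⊓ 𝒞[x] = V := eq_of_le_of_card_ge inf_le_left (by omega)
    have k8 : x ∈ Q := n.cV.le fun v hv => mem_centralizer_singleton_iff.1 (k7.ge hv).2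
    obtain ⟨k, hk⟩ := isPGroup_iff_forall_mem.1 n.twoQ x k8
    have := (Nat.Prime.dvd_of_dvd_pow Nat.prime_three (d.x3 ▸ orderOf_dvd_of_pow_eq_one hk))
    omega
  · rw [(n.wv hA AQ (by omega)).2]
    refine le_antisymm (eZ ▸ inf_le_inf_left V (centralizer_anti (le_thompsonSubgroupOf hA))) ?_
    rw [n.hZ]
    exact inf_le_inf_left V (centralizer_anti (thompsonSubgroupOf_le _))


end CfsgLib.O8
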