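import Mathlib
import Cfsg.Agent.Lib.O8.Nsc
import Cfsg.Agent.Lib.O8.H3

/-! The case `J(T) ≤ Q`. -/

set_option autoImplicit false
set_option linter.unusedSectionVars false

namespace CfsgLib.O8

open Cfsg Subgroup CfsgLib.LAE CfsgLib.PLocal CfsgLib.ZJ CfsgLib.Blocks
open scoped CfsgLib.BG MatrixGroups commutatorElement

universe u

variable {G : Type*} [Group G] [Finite G] {M Q V T : Subgroup G}

theorem cia_le {A B X : Subgroup G} (h : ∀ x ∈ X, x ∈ A → x ∈ B) :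
    B.relIndex X ≤ A.relIndex X := by
  rw [← inf_relIndex_right A X]
  exact relIndex_le_of_le_left (fun x hx => h x hx.2 hx.1) index_ne_zero_of_finite

theorem cia_mul (Z R X : Subgroup G) : Z.relIndex X ≤ Z.relIndex (R ⊓ X) * R.relIndex X := by
  rw [relIndex_inf_mul_relIndex]
  exact relIndex_le_of_le_left inf_le_left index_ne_zero_of_finite

theorem cia_three {R : Subgroup G} (hR : IsPGroup 2 R) {x : G} (x3 : orderOf x = 3)
    (h : x * x ∈ R) : False := by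
  have x33 : x ^ 3 = 1 := x3 ▸ pow_orderOf_eq_one x
  have : x ∈ R := by
    have := mul_mem h h
    rwa [show x * x * (x * x) = x ^ 3 * x by simp only [pow_succ, pow_zero]; group, x33,
      one_mul] at this
  have := ab_two_odd hR (F := zpowers x) (by rw [Nat.card_zpowers, x3]; decide) this
    (mem_zpowers x)
  simp [this] at x3

namespace S3

variable {H R : Subgroup G} {x : G} (d : S3 H R T x)
include d

theorem cia_xR : x ∈ 𝒩(R) := d.nR d.xH

theorem cia_cR : conjS x R = R := mem_normalizer_iff_conjS.1 d.cia_xR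

theorem cia_split {a t : G} (ha : a ∈ T) (aR : a ∉ R) (ht : t ∈ T) (tR : t ∉ R) : t * a⁻¹ ∈ R := by
  have := mul_mem_iff_of_index_two (H := R.subgroupOf T) d.i2 (a := ⟨t, ht⟩) (b := ⟨a, ha⟩⁻¹)
  simpa [mem_subgroupOf, aR, tR] using this

theorem cia_nK {A : Subgroup G} (nA : T ≤ 𝒩(A)) : R ≤ 𝒩((A ⊔ conjS x A : Subgroup G)) := by
  refine BG.normsY (d.RT.trans nA) ?_
  rw [← conjS_normalizer]
  exact d.cia_cR.ge.trans (conjS_mono (d.RT.trans nA))

theorem cia_kx {A : Subgroup G} (AT : A ≤ T) (nA : T ≤ 𝒩(A)) (AR : ¬ A ≤ R) :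
    x ∈ A ⊔ conjS x A := by
  obtain ⟨a, ha, aR⟩ := SetLike.not_le_iff_exists.1 AR
  have x33 : x ^ 3 = 1 := d.x3 ▸ pow_orderOf_eq_one x
  have r1 := d.inv a⁻¹ (inv_mem (AT ha)) (fun e => aR (inv_mem_iff.1 e))
  obtain ⟨r, hr, e⟩ : ∃ r ∈ R, x * r⁻¹ = a⁻¹ * (x * a * x⁻¹) := by
    refine ⟨x⁻¹ * (a⁻¹ * x * a⁻¹⁻¹ * x)⁻¹ * x, ?_, ?_⟩
    · have := (mem_normalizer_iff.1 (inv_mem d.cia_xR) _).1 (inv_mem r1)
      rwa [inv_inv x] at this
    · calc _ = a⁻¹ * x * a * x⁻¹ * (x * x * x) := by simp [mul_assoc]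
        _ = a⁻¹ * x * a * x⁻¹ * x ^ 3 := by rw [pow_succ, pow_two]
        _ = _ := by rw [x33]; group
  have k : x * r⁻¹ ∈ A ⊔ conjS x A :=
    e ▸ mul_mem (mem_sup_left (inv_mem ha)) (mem_sup_right (conj_mem_conjS.2 ha))
  have all : ∀ n : ℕ, x ^ n * (r ^ n)⁻¹ ∈ A ⊔ conjS x A := fun n => by
    induction n with
    | zero => simp
    | succ n ih =>
      have := mul_mem ih ((mem_normalizer_iff.1 (d.cia_nK nA (pow_mem hr n)) _).1 k)
      rwa [show x ^ n * (r ^ n)⁻¹ * (r ^ n * (x * r⁻¹) * (r ^ n)⁻¹) = x ^ (n + 1) * (r ^ (n + 1))⁻¹ by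
        rw [pow_succ x, pow_succ r]; group] at this
  obtain ⟨m, hm⟩ := d.two ⟨r, d.RT hr⟩
  have hm : r ^ 2 ^ m = 1 := congrArg Subtype.val hm
  have := all (2 ^ m)
  rw [hm, inv_one, mul_one] at this
  obtain ⟨j, hj⟩ := exists_pow_eq_self_of_coprime (x := x) (n := 2 ^ m)
    (by rw [d.x3]; exact Nat.Coprime.pow_left m (by norm_num))
  have := pow_mem this j
  rwa [hj] at this

theorem cia_c1 {A : Subgroup G} (nA : T ≤ 𝒩(A)) {s : G} (hs : s ∈ T) (sR : s ∉ R) :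
    conjS s (conjS x A) = conjS x⁻¹ A := by
  have m : x * (s * x * s⁻¹ * x) * x⁻¹ * s ∈ T :=
    mul_mem (d.RT ((mem_normalizer_iff.1 d.cia_xR _).1 (d.inv s hs sR))) hs
  rw [← conjS_mul, show s * x = x⁻¹ * (x * (s * x * s⁻¹ * x) * x⁻¹ * s) * (x⁻¹ * x) by group,
    inv_mul_cancel, mul_one, conjS_mul, mem_normalizer_iff_conjS.1 (nA m)]

theorem cia_c2 {A : Subgroup G} (nA : T ≤ 𝒩(A)) {s : G} (hs : s ∈ T) (sR : s ∉ R) :
    conjS s (conjS x⁻¹ A) = conjS x A := by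
  rw [← d.cia_c1 nA (inv_mem hs) (fun e => sR (inv_mem_iff.1 e)), conjS_conjS_inv]

theorem cia_c3 (A : Subgroup G) : conjS x (conjS x A) = conjS x⁻¹ A := by
  have x33 : x ^ 3 = 1 := d.x3 ▸ pow_orderOf_eq_one x
  rw [← conjS_mul, eq_inv_of_mul_eq_one_left (show x * x * x = 1 by
    rw [← x33, pow_succ, pow_two])]

end S3

theorem cia_ea {A : Subgroup G} (h : IsElementaryAbelian 2 A) {a : G} (ha : a ∈ A) (Q : Subgroup G) :
    a * a ∈ Q := by
  rw [← pow_two, h.2 a ha]; exact one_mem Q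

theorem cia_main (n : NS M Q V T) (rk : Rk2 Q T) (hJ : JJ T ≤ Q) {R : Subgroup G} {x : G}
    (d : S3 𝒞(ZZ T) R T x) (JR : ¬ JJ T ≤ R) : (ZZ T).relIndex V ≤ 8 ∨ Off Q V T := by
  have hR : IsPGroup 2 R := d.two.to_le d.RT
  have QR : ¬ Q ≤ R := fun e => JR (hJ.trans e)
  have nQ : T ≤ 𝒩(Q) := n.TM.trans n.nQ
  have nV : T ≤ 𝒩(V) := n.TM.trans n.nV.ge
  have VT : V ≤ T := n.VQ.trans n.QT
  have cV := n.cV
  have ea := n.eaV
  have eax : ∀ y, IsElementaryAbelian 2 (conjS y V) := fun y => elemAb_map ea _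
  have cVx : ∀ y, 𝒞(conjS y V) = conjS y Q := fun y => by rw [← conjS_centralizer, cV]
  have cZ : conjS x (ZZ T) = ZZ T := mem_normalizer_iff_conjS.1 (BG.cent_sub _ d.xH)
  have DZ : ∀ w ∈ V, w ∈ conjS x V → w ∈ ZZ T := fun w hw hw' => by
    have k : Q ⊔ conjS x Q ≤ 𝒞[w] := sup_le
      (fun q hq => BG.mem_cent1.2 (mem_centralizer_iff.1 (cV.ge hq) w hw).symm)
      fun q hq => BG.mem_cent1.2 (mem_centralizer_iff.1 ((cVx x).ge hq) w hw').symm
    have kx := d.cia_kx n.QT nQ QR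
    have cx : x * w = w * x := BG.mem_cent1.1 (k kx)
    have wR : w ∈ R := by_contra fun e => cia_three hR d.x3 (by
      have := d.inv w (VT hw) e
      rwa [← cx, mul_inv_cancel_right] at this)
    have cR := n.cl.cen_of hR d.x3 d.cia_xR wR cx fun r hr => (BG.mem_cent1.1 (k (by
      rw [commutatorElement_def, mul_assoc, mul_assoc, ← mul_assoc r]
      exact mul_mem kx ((mem_normalizer_iff.1 (d.cia_nK nQ hr) _).1 (inv_mem kx))))).symm
    rw [n.hZ]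
    refine ⟨hw, mem_centralizer_iff.2 fun t ht => ?_⟩
    by_cases tR : t ∈ R
    · exact mem_centralizer_iff.1 cR t tR
    · obtain ⟨a, ha, aR⟩ := SetLike.not_le_iff_exists.1 QR
      have c1 : t * a⁻¹ ∈ 𝒞[w] :=
        BG.mem_cent1.2 (mem_centralizer_iff.1 cR _ (d.cia_split (n.QT ha) aR ht tR))
      have := mul_mem c1 (k (mem_sup_left ha))
      rw [inv_mul_cancel_right] at this
      exact BG.mem_cent1.1 this
  have i2 : ∀ A : Subgroup G, A ≤ T → R.relIndex A ≤ 2 := fun A hA =>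
    d.i2 ▸ relIndex_le_of_le_right hA index_ne_zero_of_finite
  by_cases VR : V ≤ R
  swap
  · left
    have kx := d.cia_kx VT nV VR
    have l1 : conjS x (R ⊓ V) ≤ T := (conjS_mono inf_le_left).trans (d.cia_cR.le.trans d.RT)
    have l2 : conjS x (R ⊓ V) ≤ conjS x V := conjS_mono inf_le_right
    have a := rk _ l1 fun a ha => cia_ea (eax x) (l2 ha) Q
    have b : (ZZ T).relIndex (conjS x (R ⊓ V)) ≤ Q.relIndex (conjS x (R ⊓ V)) :=
      cia_le fun w hw wQ => by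
        have k : V ⊔ conjS x V ≤ 𝒞[w] := sup_le
          (fun v hv => BG.mem_cent1.2 (mem_centralizer_iff.1 (cV.ge wQ) v hv))
          fun v hv => BG.mem_cent1.2 (elemAb_comm (eax x) hv (l2 hw))
        have cx : x * w = w * x := BG.mem_cent1.1 (k kx)
        refine DZ w ?_ (l2 hw)
        have := mem_conjS.1 (l2 hw)
        rwa [mul_assoc, ← cx, inv_mul_cancel_left] at this
    rw [← cZ, relIndex_conjS] at b
    have c := cia_mul (ZZ T) R V
    have := Nat.mul_le_mul (b.trans a) (i2 V VT)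
    omega
  have cR : ∀ y ∈ 𝒩(R), conjS y V ≤ R := fun y hy =>
    (conjS_mono VR).trans (mem_normalizer_iff_conjS.1 hy).le
  by_cases V1 : conjS x V ≤ Q
  swap
  · right
    refine ⟨conjS x V, (cR x d.cia_xR).trans d.RT, V1, fun a ha => cia_ea (eax x) ha Q, ?_⟩
    obtain ⟨s, hs, sR⟩ := SetLike.not_le_iff_exists.1 QR
    have hs := n.QT hs
    rw [← relIndex_conjS (x * s), conjS_centralizer, conjS_mul, d.cia_c1 nV hs sR, conjS_conjS_inv,
      cV, conjS_mul, mem_normalizer_iff_conjS.1 (nV hs)]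
  left
  obtain ⟨A, hA, AR⟩ : ∃ A ∈ maxElemIn 2 T, ¬ A ≤ R := by
    by_contra! e; exact JR (thompsonSubgroupOf_le_iff.2 e)
  obtain ⟨a, ha, aR⟩ := SetLike.not_le_iff_exists.1 AR
  have s1 := d.cia_c1 nV (hA.1 ha) aR
  have s2 := d.cia_c2 nV (hA.1 ha) aR
  have c12 : conjS x⁻¹ V ≤ 𝒞(conjS x V) := by
    rw [cVx, ← d.cia_c3]; exact conjS_mono V1
  have o := off_le hA (W := conjS x⁻¹ V ⊔ conjS x V)
    (sup_le ((cR _ (inv_mem d.cia_xR)).trans d.RT) ((cR _ d.cia_xR).trans d.RT))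
    (elemAb_sup (eax _) (eax _) c12)
  have u1 : (𝒞((conjS x⁻¹ V ⊔ conjS x V : Subgroup G)) : Subgroup G).relIndex (R ⊓ A) ≤
      (conjS x Q).relIndex (R ⊓ A) := cia_le fun b hb bQ => by
    refine zpowers_le.1 (le_centralizer_iff.1 ?_)
    refine sup_le ?_ (le_centralizer_iff.1 (zpowers_le.2 ((cVx x).ge bQ)))
    refine le_centralizer_iff.1 (zpowers_le.2 ?_)
    rw [← s1, ← conjS_centralizer, cVx, mem_conjS, mul_assoc, elemAb_comm hA.2.1 hb.2 ha,
      inv_mul_cancel_left]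
    exact bQ
  have u2 : (conjS x Q).relIndex (R ⊓ A) ≤ 4 := by
    rw [← relIndex_conjS x⁻¹, conjS_inv_conjS]
    exact rk _ ((conjS_mono inf_le_left).trans
      ((mem_normalizer_iff_conjS.1 (inv_mem d.cia_xR)).le.trans d.RT))
      fun b hb => cia_ea (elemAb_map (elemAb_mono hA.2.1 inf_le_right) _) hb Q
  have u3 := cia_mul 𝒞((conjS x⁻¹ V ⊔ conjS x V : Subgroup G)) R A
  have u4 := Nat.mul_le_mul (u1.trans u2) (i2 A hA.1)
  have u5 : (𝒞(A) : Subgroup G).relIndex (conjS x V) ≤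
      (𝒞(A) : Subgroup G).relIndex (conjS x⁻¹ V ⊔ conjS x V) :=
    relIndex_le_of_le_right le_sup_right index_ne_zero_of_finite
  have u6 : (ZZ T).relIndex (conjS x V) ≤ (𝒞(A) : Subgroup G).relIndex (conjS x V) :=
    cia_le fun w hw wc => by
      have m : w ∈ conjS x (conjS x V) := by
        rw [d.cia_c3, ← s1, mem_conjS, mul_assoc, ← mem_centralizer_iff.1 wc a ha,
          inv_mul_cancel_left]
        exact hw
      rw [← cZ]
      exact mem_conjS.2 (DZ _ (mem_conjS.1 hw) (mem_conjS.1 m))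
  rw [← cZ, relIndex_conjS] at u6
  omega

theorem Gl.cia (g : Gl G) (n : NS M Q V T) (rk : Rk2 Q T) (hJ : JJ T ≤ Q) :
    𝒩(T) ≤ M ∧ M ⊓ 𝒞(ZZ T) ≤ T ∧ ¬ 𝒞(ZZ T) ≤ T ∧ ((ZZ T).relIndex V ≤ 8 ∨ Off Q V T) := by
  have := Fact.mk Nat.prime_two
  have eJ : JJ Q = JJ T := thompsonSubgroupOf_eq_of_le n.QT hJ
  have T1 : T ≠ ⊥ := fun e => n.Q1 (le_bot_iff.1 (e ▸ n.QT))
  have J1 : JJ T ≠ ⊥ := thompsonSubgroupOf_ne_bot (Core.dvd_card_of_isPGroup_of_ne_bot n.two T1)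
  have nJ : 𝒩(JJ T) = M := n.max _ (n.two.to_le (thompsonSubgroupOf_le T)) J1
    (eJ ▸ n.nQ.trans (normalizer_le_normalizer_thompsonSubgroupOf Q))
  have nT : 𝒩(T) ≤ M := nJ ▸ normalizer_le_normalizer_thompsonSubgroupOf T
  have syl := n.syl_of nT
  have bQ : bau 2 T ≤ Q := by
    refine (bau_le_centralizer T).trans (le_trans (centralizer_le ?_) n.cV.le)
    rw [← zj_eq_of_J_eq eJ, n.hV]
    exact omegaZ_le_zj Q
  have nB : M ≤ 𝒩(bau 2 T) := bau_eq_of_le bQ n.QT ▸ n.nQ.trans (normalizer_le_normalizer_bau Q)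
  have HM : ¬ 𝒞(ZZ T) ≤ M := fun e => by
    obtain ⟨C, c1, c2, c3, c4⟩ := g.cs T M syl (n.nQ' ▸ g.o2 Q n.twoQ n.Q1) e
    exact c4 (n.max C (n.two.to_le (c1.trans (bau_le T))) c2 (nB.trans c3)).le
  have TH : T ≤ 𝒞(ZZ T) := le_centralizer_omegaZ T
  obtain ⟨-, a | ⟨x, d⟩⟩ := g.cl.h3 (g.scC _ (elemAb_omegaZ T) n.Z1) (syl.mono TH le_top) T1 le_rfl
  · exact absurd (a.trans nT) HM
  refine ⟨nT, ?_, fun e => HM (e.trans n.TM), cia_main n rk hJ d fun e => HM ?_⟩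
  · have := relIndex_mul_relIndex T (M ⊓ 𝒞(ZZ T)) 𝒞(ZZ T) (le_inf n.TM TH) inf_le_right
    rw [d.i3] at this
    rcases (Nat.dvd_prime Nat.prime_three).1 (Dvd.intro _ this) with e | e
    · exact relIndex_eq_one.1 e
    · rw [e] at this
      have e1 : (M ⊓ 𝒞(ZZ T)).relIndex 𝒞(ZZ T) = 1 := by omega
      exact absurd ((relIndex_eq_one.1 e1).trans inf_le_left) HM
  · have := d.nR.trans (normalizer_le_normalizer_thompsonSubgroupOf (p := 2) _)
    rwa [thompsonSubgroupOf_eq_of_le d.RT e, nJ] at this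

end CfsgLib.O8
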