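import Mathlib
import Cfsg.Agent.Lib.O8.Defs

/-! The sectional rank of the Sylow 2-subgroup of `N(E₁₆)`. -/

set_option autoImplicit false
set_option linter.unusedSectionVars false

namespace CfsgLib.O8

open Cfsg Subgroup CfsgLib.LAE CfsgLib.PLocal CfsgLib.ZJ CfsgLib.Blocks
open scoped CfsgLib.BG MatrixGroups commutatorElement

universe u

variable {G : Type*} [Group G] [Finite G] {V T : Subgroup G}

theorem sma_inv {H : Subgroup G} (hH : IsPGroup 2 H) (h : ¬ H ≤ V) : ∃ t ∈ H, t ∉ V ∧ t * t ∈ V := by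
  obtain ⟨g, hg, hV⟩ := SetLike.not_le_iff_exists.1 h
  obtain ⟨k, hk⟩ := hH ⟨g, hg⟩
  have hk' : g ^ 2 ^ k ∈ V := by rw [show g ^ 2 ^ k = 1 from congrArg Subtype.val hk]; exact one_mem _
  clear hk
  induction k with
  | zero => exact absurd (by simpa using hk') hV
  | succ k ih =>
    by_cases c : g ^ 2 ^ k ∈ V
    · exact ih c
    · exact ⟨_, pow_mem hg _, c, by rwa [← pow_two, ← pow_mul, ← pow_succ]⟩

theorem Sm16.sr (d : Sm16 V T) : Sect.SR 16 T := by
  have nV : ∀ g ∈ T, ∀ x ∈ V, g * x * g⁻¹ ∈ V := fun g hg x hx => (mem_normalizer_iff.1 (d.syl.le hg) x).1 hx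
  refine Sect.sr_of_le fun H hH K hK sq => ?_
  by_cases c : H ≤ V
  · exact (Sect.relIndex_le_card K H).trans (d.c16 ▸ card_le_of_le c)
  have h2 : IsPGroup 2 H := d.syl.isPGroup.to_le hH
  obtain ⟨t, t1, t2, t3⟩ := sma_inv h2 c
  have a1 : K.relIndex (H ⊓ V) ≤ 4 := by
    refine (Sect.comm_bound (A := H ⊓ V) (h := t) (fun a ha => 
      ⟨H.mul_mem (H.mul_mem t1 ha.1) (H.inv_mem t1), nV t (hH t1) a ha.2⟩)
      fun a ha => Sect.comm_mem sq ha.1 t1).trans ?_
    rw [← d.fr t (hH t1) t2 t3]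
    exact card_le_of_le fun x hx => ⟨hx.2.2, hx.1⟩
  have a0 : V.relIndex T ≠ 0 := index_ne_zero_of_finite
  have a2 : V.relIndex H ≤ V.relIndex T := relIndex_le_of_le_right hH a0
  have a3 : (K ⊔ V).relIndex H ≤ V.relIndex H := relIndex_le_of_le_left le_sup_right index_ne_zero_of_finite
  have a4 : (K ⊔ V).relIndex H ≤ 4 := by
    rcases d.sh with ⟨e, -⟩ | ⟨e, a, ha, b, hb, hab⟩
    · omega
    · refine Sect.relIndex_le_pow h2 2 (lt_of_not_ge fun c => hab ?_)
      have e1 := relIndex_inf_mul_relIndex V (K ⊔ V) H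
      rw [(inf_eq_left.2 le_sup_right : V ⊓ (K ⊔ V) = V)] at e1
      have e2 : V.relIndex ((K ⊔ V) ⊓ H) = 1 := by
        have : V.relIndex ((K ⊔ V) ⊓ H) ≠ 0 := index_ne_zero_of_finite
        have : V.relIndex ((K ⊔ V) ⊓ H) * 8 ≤ 8 :=
          (Nat.mul_le_mul_left _ c).trans (by rw [e1]; omega)
        omega
      have KV : K ≤ V := (le_inf le_sup_left hK).trans (relIndex_eq_one.1 e2)
      obtain ⟨y, hy, v1⟩ := Sect.cover_of_le hH (K := V) (by omega) ha
      obtain ⟨y', hy', v2⟩ := Sect.cover_of_le hH (K := V) (by omega) hb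
      have m1 := nV y (hH hy) _ v1
      have m2 := nV _ (hH (mul_mem hy hy')) _ (mul_mem v2 (inv_mem v1))
      have m3 := nV _ (hH (mul_mem (mul_mem hy hy') (inv_mem hy))) _ (inv_mem v2)
      have := mul_mem (mul_mem (mul_mem m1 m2) m3) (KV (Sect.comm_mem sq hy hy'))
      convert this using 1
      rw [commutatorElement_def]
      group
  exact (Sect.split hK fun g hg => nV g (hH (hK hg))).trans (Nat.mul_le_mul a1 a4)


end CfsgLib.O8
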