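import Mathlib
import Cfsg.Agent.Lib.O8.Defs
import Cfsg.Agent.Lib.Tech.SylowIn

/-! A Sylow 2-subgroup interchanging two `E₁₆`. -/

set_option autoImplicit false
set_option linter.unusedSectionVars false

namespace CfsgLib.O8

open Cfsg Subgroup CfsgLib.LAE CfsgLib.PLocal CfsgLib.ZJ CfsgLib.Blocks
open scoped CfsgLib.BG MatrixGroups commutatorElement

universe u

variable {G : Type*} [Group G] [Finite G] {V T : Subgroup G}

/-- the stability group of `V > l > 1` -/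
def smbSt (V l : Subgroup G) : Subgroup G where
  carrier := {s | (∀ x ∈ l, s * x = x * s) ∧ ∀ v ∈ V, ⁅s, v⁆ ∈ l}
  one_mem' := ⟨by simp, fun v _ => by simp⟩
  mul_mem' := by
    rintro a b ⟨a1, a2⟩ ⟨b1, b2⟩
    refine ⟨fun x hx => by rw [mul_assoc, b1 x hx, ← mul_assoc, a1 x hx, mul_assoc], fun v hv => ?_⟩
    rw [show ⁅a * b, v⁆ = a * ⁅b, v⁆ * a⁻¹ * ⁅a, v⁆ by simp only [commutatorElement_def]; group,
      a1 _ (b2 v hv), mul_inv_cancel_right]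
    exact mul_mem (b2 v hv) (a2 v hv)
  inv_mem' := by
    rintro a ⟨a1, a2⟩
    refine ⟨fun x hx => (Commute.inv_left (a1 x hx)).eq, fun v hv => ?_⟩
    rw [show ⁅a⁻¹, v⁆ = a⁻¹ * (⁅a, v⁆⁻¹ * a) by simp only [commutatorElement_def]; group,
      ← a1 _ (inv_mem (a2 v hv)), inv_mul_cancel_left]
    exact inv_mem (a2 v hv)

theorem smb_comm {l : Subgroup G} (hl : ∀ x ∈ l, ∀ y ∈ l, x * y = y * x) {a b : G}
    (ha : a ∈ smbSt V l) (hb : b ∈ smbSt V l) : ⁅a, b⁆ ∈ 𝒞(V) := by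
  have k : ∀ {a b v : G}, a ∈ smbSt V l → b ∈ smbSt V l → v ∈ V →
      a * b * v * (a * b)⁻¹ = ⁅b, v⁆ * ⁅a, v⁆ * v := fun {a b v} ha hb hv => by
    calc a * b * v * (a * b)⁻¹ = a * ⁅b, v⁆ * a⁻¹ * ⁅a, v⁆ * v := by
          simp only [commutatorElement_def]; group
      _ = _ := by rw [ha.1 _ (hb.2 v hv), mul_inv_cancel_right]
  intro v hv
  have h1 := k (inv_mem ha) (inv_mem hb) hv
  rw [hl _ ((inv_mem hb).2 v hv) _ ((inv_mem ha).2 v hv), ← k (inv_mem hb) (inv_mem ha) hv] at h1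
  calc v * ⁅a, b⁆ = a * b * (b⁻¹ * a⁻¹ * v * (b⁻¹ * a⁻¹)⁻¹) * (a⁻¹ * b⁻¹) := by
        simp only [commutatorElement_def]; group
    _ = ⁅a, b⁆ * v := by rw [← h1]; simp only [commutatorElement_def]; group

theorem smb_two {H K : Subgroup G} (h : H.relIndex K = 2) {a b : G} (ha : a ∈ K) (hb : b ∈ K)
    (h1 : a ∉ H) (h2 : b ∉ H) : a * b ∈ H :=
  (mul_mem_iff_of_index_two (H := H.subgroupOf K) h (a := ⟨a, ha⟩) (b := ⟨b, hb⟩)).2
    (iff_of_false h1 h2)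

theorem smb_sq {A : Subgroup G} (hA : IsElementaryAbelian 2 A) {a : G} (ha : a ∈ A) : a * a = 1 := by
  rw [← pow_two]; exact hA.2 a ha

/-- the group `[t, V]` -/
theorem smb_rng (hV : IsElementaryAbelian 2 V) {t : G} (ht : t ∈ 𝒩(V)) : ∃ R : Subgroup G,
    (∀ x ∈ R, ∃ v ∈ V, x = ⁅t, v⁆) ∧ Nat.card ↥(V ⊓ 𝒞[t]) * Nat.card R = Nat.card V := by
  let f : V →* G := MonoidHom.mk' (fun v => ⁅t, (v : G)⁆) fun v w => by
    have h1 := elemAb_comm hV (inv_mem v.2)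
      (mul_mem (LAE.conj_mem_of_mem_normalizer ht w.2) (inv_mem w.2))
    calc ⁅t, ((v * w : V) : G)⁆ = t * v * t⁻¹ * (t * w * t⁻¹ * (w : G)⁻¹ * (v : G)⁻¹) := by
          simp only [commutatorElement_def, Subgroup.coe_mul]; group
      _ = _ := by rw [← h1]; simp only [commutatorElement_def]; group
  refine ⟨f.range, ?_, ?_⟩
  · rintro _ ⟨v, rfl⟩
    exact ⟨v, v.2, rfl⟩
  · have h2 : (𝒞[t] : Subgroup G).subgroupOf V = f.ker := by
      ext v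
      rw [mem_subgroupOf, mem_centralizer_singleton_iff, MonoidHom.mem_ker, eq_comm]
      exact commutatorElement_eq_one_iff_mul_comm.symm
    rw [← index_ker, ← h2, inf_comm]
    exact card_inf_mul_relIndex _ _

namespace Sm16

variable (d : Sm16 V T) {A B : Subgroup G}
include d

theorem smb_cj {t v : G} (ht : t ∈ T) (hv : v ∈ V) : t * v * t⁻¹ ∈ V :=
  LAE.conj_mem_of_mem_normalizer (d.syl.le ht) hv

theorem smb_cv {t v : G} (ht : t ∈ T) (h2 : t * t ∈ V) (hv : v ∈ V) : ⁅t, v⁆ ∈ V ⊓ 𝒞[t] := by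
  have h1 := d.smb_cj ht hv
  refine mem_inf.2 ⟨mul_mem h1 (inv_mem hv), mem_centralizer_singleton_iff.2 ?_⟩
  have h3 := elemAb_comm d.ea h2 hv
  have h4 : v⁻¹ = v := inv_eq_of_mul_eq_one_right (smb_sq d.ea hv)
  have h5 := elemAb_comm d.ea h1 hv
  calc ⁅t, v⁆ * t = t * v * t⁻¹ * v * t := by rw [commutatorElement_def, h4]
    _ = v * (t * t) * t⁻¹ * v := by rw [h5]; group
    _ = t * ⁅t, v⁆ := by rw [← h3, commutatorElement_def, h4]; group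

theorem smb_idx (hA : IsElementaryAbelian 2 A) (hT : A ≤ T) : V.relIndex A ≤ 4 := by
  rcases d.sh with ⟨h, -⟩ | ⟨h, a, ha, b, hb, hab⟩
  · exact h ▸ relIndex_le_of_le_right hT (by omega)
  have h1 := relIndex_mul_relIndex V (A ⊔ V) T le_sup_right (sup_le hT d.VT)
  rw [PLocal.relIndex_sup_of_le_normalizer (hT.trans d.syl.le), h] at h1
  have h2 : (A ⊔ V).relIndex T ≠ 1 := fun e => hab (by
    obtain ⟨a1, a2, v1, a3, rfl⟩ :=
      (mem_sup_iff_of_left_le_normalizer (hT.trans d.syl.le)).1 (relIndex_eq_one.1 e ha)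
    obtain ⟨b1, b2, v2, b3, rfl⟩ :=
      (mem_sup_iff_of_left_le_normalizer (hT.trans d.syl.le)).1 (relIndex_eq_one.1 e hb)
    rw [show ⁅a1 * v1, b1 * v2⁆ = a1 * v1 * a1⁻¹ * (a1 * b1 * (v2 * v1⁻¹) * (a1 * b1)⁻¹) *
      (a1 * b1 * (b1 * a1)⁻¹) * (b1 * v2⁻¹ * b1⁻¹) by simp only [commutatorElement_def]; group,
      elemAb_comm hA a2 b2, mul_inv_cancel, mul_one]
    exact mul_mem (mul_mem (d.smb_cj (hT a2) a3) (d.smb_cj (mul_mem (hT b2) (hT a2))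
      (mul_mem b3 (inv_mem a3)))) (d.smb_cj (hT b2) (inv_mem b3)))
  have h3 : (A ⊔ V).relIndex T ≠ 0 := fun e => by rw [e] at h1; omega
  have h4 : 2 ≤ (A ⊔ V).relIndex T := by omega
  nlinarith

theorem smb_inf (hA : IsElementaryAbelian 2 A) (hc : Nat.card A = 16) (hT : A ≤ T) {a : G}
    (ha : a ∈ A) (h1 : a ∉ V) : V ⊓ A = V ⊓ 𝒞[a] ∧ Nat.card ↥(V ⊓ A) = 4 := by
  have h2 := d.fr a (hT ha) h1 (by rw [smb_sq hA ha]; exact one_mem _)
  have h3 := card_inf_mul_relIndex V A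
  have h4 := d.smb_idx hA hT
  have h5 : V ⊓ A = V ⊓ 𝒞[a] := eq_of_le_of_card_ge
    (fun x hx => ⟨hx.1, mem_centralizer_singleton_iff.2 (elemAb_comm hA hx.2 ha)⟩) (by
      rw [h2]; nlinarith)
  exact ⟨h5, h5 ▸ h2⟩

theorem smb_ex (hc : Nat.card A = 16) (h : A ≠ V) : ∃ a ∈ A, a ∉ V := by
  by_contra H
  push Not at H
  exact h (eq_of_le_of_card_ge H (by rw [hc, d.c16]))

/-- the involutions of `A V` -/
theorem smb_inv (hA : IsElementaryAbelian 2 A) (hc : Nat.card A = 16) (hT : A ≤ T) {u : G}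
    (hu : u ∈ A ⊔ V) (h1 : u ∉ V) (h2 : u * u = 1) : u ∈ A := by
  obtain ⟨a, ha, v, hv, rfl⟩ := (mem_sup_iff_of_left_le_normalizer (hT.trans d.syl.le)).1 hu
  have h3 : a ∉ V := fun e => h1 (mul_mem e hv)
  have h4 : v ∈ V ⊓ A := (d.smb_inf hA hc hT ha h3).1 ▸ ⟨hv, mem_centralizer_singleton_iff.2 (by
    rw [eq_inv_of_mul_eq_one_left h2, mul_inv_rev, inv_eq_of_mul_eq_one_right (smb_sq hA ha),
      inv_eq_of_mul_eq_one_right (smb_sq d.ea hv)])⟩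
  exact mul_mem ha h4.2

theorem smb_card (hA : IsElementaryAbelian 2 A) (hc : Nat.card A = 16) (hT : A ≤ T) (h : A ≠ V) :
    ((A ⊔ V).relIndex T = 1 ∧ V.relIndex T = 4) ∨
      ((A ⊔ V).relIndex T = 2 ∧ ∃ a ∈ T, ∃ b ∈ T, ⁅a, b⁆ ∉ V) := by
  obtain ⟨a, ha, h1⟩ := d.smb_ex hc h
  have h2 := card_inf_mul_relIndex V A
  rw [(d.smb_inf hA hc hT ha h1).2, hc] at h2
  have h3 := relIndex_mul_relIndex V (A ⊔ V) T le_sup_right (sup_le hT d.VT)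
  rw [PLocal.relIndex_sup_of_le_normalizer (hT.trans d.syl.le),
    show V.relIndex A = 4 by omega] at h3
  exact d.sh.imp (fun e => ⟨by have := e.1; omega, e.1⟩) fun e => ⟨by have := e.1; omega, e.2⟩

theorem smb_st (hA : IsElementaryAbelian 2 A) (hc : Nat.card A = 16) (hT : A ≤ T) :
    A ⊔ V ≤ smbSt V (V ⊓ A) := by
  have k : ∀ s ∈ V, ∀ v ∈ V, ⁅s, v⁆ ∈ V ⊓ A := fun s hs v hv => by
    rw [commutatorElement_eq_one_iff_mul_comm.2 (elemAb_comm d.ea hs hv)]; exact one_mem _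
  refine sup_le (fun a ha => ⟨fun x hx => elemAb_comm hA ha hx.2, fun v hv => ?_⟩)
    fun s hs => ⟨fun x hx => elemAb_comm d.ea hs hx.1, k s hs⟩
  by_cases h1 : a ∈ V
  · exact k a h1 v hv
  · rw [(d.smb_inf hA hc hT ha h1).1]
    exact d.smb_cv (hT ha) (by rw [smb_sq hA ha]; exact one_mem _) hv

theorem smb_not (hA : IsElementaryAbelian 2 A) (hc : Nat.card A = 16) (hT : A ≤ T) (h : A ≠ V) {t : G}
    (ht : t ∈ T) (h1 : t ∉ A ⊔ V) : t ∉ smbSt V (V ⊓ A) := by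
  intro h2
  rcases d.smb_card hA hc hT h with ⟨e, -⟩ | ⟨e, a, ha, b, hb, hab⟩
  · exact h1 (relIndex_eq_one.1 e ht)
  have k : T ≤ smbSt V (V ⊓ A) := fun s hs => by
    by_cases h3 : s ∈ A ⊔ V
    · exact d.smb_st hA hc hT h3
    · exact (mul_mem_cancel_right h2).1 (d.smb_st hA hc hT (smb_two e hs ht h3 h1))
  exact hab (d.cV (smb_comm (l := V ⊓ A) (fun x hx y hy => elemAb_comm d.ea hx.1 hy.1) (k ha) (k hb)))

/-- `T` contains at most two `E₁₆` -/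
theorem smb_uniq (hA : IsElementaryAbelian 2 A) (hc : Nat.card A = 16) (hT : A ≤ T) (h : A ≠ V)
    (hB : IsElementaryAbelian 2 B) (hc' : Nat.card B = 16) (hT' : B ≤ T) (h' : B ≠ V) : B = A := by
  by_cases hle : B ≤ A ⊔ V
  · refine eq_of_le_of_card_ge (fun b hb => ?_) (by rw [hc, hc'])
    by_cases h1 : b ∈ V
    · obtain ⟨t, ht, h2⟩ := d.smb_ex hc' h'
      have h3 := d.smb_inv hA hc hT (hle (mul_mem ht hb))
        (fun e => h2 ((mul_mem_cancel_right h1).1 e)) (smb_sq hB (mul_mem ht hb))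
      exact (mul_mem_cancel_left (d.smb_inv hA hc hT (hle ht) h2 (smb_sq hB ht))).1 h3
    · exact d.smb_inv hA hc hT (hle hb) h1 (smb_sq hB hb)
  exfalso
  obtain ⟨b, hb, h1⟩ := SetLike.not_le_iff_exists.1 hle
  have h2 : (A ⊔ V).relIndex B ≤ 2 := by
    rcases d.smb_card hA hc hT h with ⟨e, -⟩ | ⟨e, -⟩ <;>
      have := relIndex_le_of_le_right (H := A ⊔ V) hT' (by omega) <;> omega
  have h3 := card_inf_mul_relIndex (A ⊔ V) B
  obtain ⟨t, ht, h4⟩ : ∃ t ∈ (A ⊔ V) ⊓ B, t ∉ V := by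
    by_contra H
    push Not at H
    have h5 := card_le_of_le (show (A ⊔ V) ⊓ B ≤ V ⊓ B from fun x hx => ⟨H x hx, hx.2⟩)
    rw [(d.smb_inf hB hc' hT' hb fun e => h1 (mem_sup_right e)).2] at h5
    nlinarith
  have h5 := d.smb_inv hA hc hT ht.1 h4 (smb_sq hB ht.2)
  refine d.smb_not hA hc hT h (hT' hb) h1 ?_
  rw [(d.smb_inf hA hc hT h5 h4).1, ← (d.smb_inf hB hc' hT' ht.2 h4).1]
  exact d.smb_st hB hc' hT' (mem_sup_left hb)

theorem smb_act (hA : IsElementaryAbelian 2 A) (hc : Nat.card A = 16) (hT : A ≤ T) (h : A ≠ V) {t : G}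
    (ht : t ∈ T) (h1 : t ∉ A ⊔ V) : ∃ v ∈ V, ⁅t, v⁆ ∉ A := by
  by_contra H
  push Not at H
  have h2 : ∀ v ∈ V, ⁅t, v⁆ ∈ V ⊓ A := fun v hv =>
    mem_inf.2 ⟨mul_mem (d.smb_cj ht hv) (inv_mem hv), H v hv⟩
  refine d.smb_not hA hc hT h ht h1 ⟨fun x hx => ?_, h2⟩
  suffices k : V ⊓ A ≤ 𝒞[t] from (mem_centralizer_singleton_iff.1 (k hx)).symm
  obtain ⟨a, ha, a1⟩ := d.smb_ex hc h
  have l4 := (d.smb_inf hA hc hT ha a1).2
  obtain ⟨R, r1, r2⟩ := smb_rng d.ea (d.syl.le ht)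
  have r3 : R ≤ V ⊓ A := fun x hx => by obtain ⟨v, hv, rfl⟩ := r1 x hx; exact h2 v hv
  have r4 := card_le_of_le r3
  rw [d.c16] at r2
  by_cases h3 : t * t ∈ V
  · rw [d.fr t ht (fun e => h1 (mem_sup_right e)) h3] at r2
    rw [← eq_of_le_of_card_ge r3 (by omega)]
    intro x hx
    obtain ⟨v, hv, rfl⟩ := r1 x hx
    exact (d.smb_cv ht h3 hv).2
  · have h4 : t * t ∈ A ⊔ V := by
      rcases d.smb_card hA hc hT h with ⟨e, -⟩ | ⟨e, -⟩
      · exact relIndex_eq_one.1 e (mul_mem ht ht)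
      · exact smb_two e ht ht h1 h1
    obtain ⟨w, hw, v, hv, e⟩ := (mem_sup_iff_of_left_le_normalizer (hT.trans d.syl.le)).1 h4
    have h5 : V ⊓ 𝒞[t] ≤ V ⊓ A := fun x hx => by
      rw [(d.smb_inf hA hc hT hw fun k => h3 (e ▸ mul_mem k hv)).1]
      refine ⟨hx.1, mem_centralizer_singleton_iff.2 (mul_right_cancel (b := v) ?_)⟩
      have h6 := mem_centralizer_singleton_iff.1 hx.2
      rw [mul_assoc, ← e, ← mul_assoc, h6, mul_assoc, h6, ← mul_assoc, e, mul_assoc, mul_assoc,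
        elemAb_comm d.ea hv hx.1]
    rw [← eq_of_le_of_card_ge h5 (by nlinarith)]
    exact inf_le_right

end Sm16

/-- every `E₁₆` of `S` lies in `T` -/
theorem smb_le {S V' A : Subgroup G} (d : Sm16 V T) (s : Sw16 S T V V') (hne : V' ≠ V)
    (hA : IsElementaryAbelian 2 A) (hc : Nat.card A = 16) (hS : A ≤ S) : A ≤ T := by
  by_contra hle
  obtain ⟨k, hk, k1⟩ := SetLike.not_le_iff_exists.1 hle
  obtain ⟨k2, k3⟩ := s.sw k (hS hk) k1
  have fx : ∀ {u : G} {X : Subgroup G}, u ∈ A → u ∈ X → u ∈ conjS k X := fun {u X} hu h => by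
    rw [mem_conjS, mul_assoc, elemAb_comm hA hu hk, inv_mul_cancel_left]; exact h
  have h1 : (V' ⊔ V) ⊓ (T ⊓ A) ≤ V ⊓ V' := fun u hu => by
    by_cases h : u ∈ V
    · exact ⟨h, k2 ▸ fx hu.2.2 h⟩
    · exact absurd (k3 ▸ fx hu.2.2 (d.smb_inv s.ea' s.c16' s.VT' hu.1 h (smb_sq hA hu.2.2))) h
  have h2 := card_inf_mul_relIndex T A
  have h3 : T.relIndex A ≤ 2 := s.i2 ▸ relIndex_le_of_le_right hS (by rw [s.i2]; omega)
  have h4 := card_inf_mul_relIndex (V' ⊔ V) (T ⊓ A)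
  have h5 : (V' ⊔ V).relIndex (T ⊓ A) ≤ 2 := by
    rcases d.smb_card s.ea' s.c16' s.VT' hne with ⟨e, -⟩ | ⟨e, -⟩ <;>
      have := relIndex_le_of_le_right (H := V' ⊔ V) (inf_le_left : T ⊓ A ≤ T) (by omega) <;> omega
  have h6 := card_le_of_le h1
  have l4 := s.l4
  have h7 : 8 ≤ Nat.card ↥(T ⊓ A) := by nlinarith
  have h8 : (V' ⊔ V) ⊓ (T ⊓ A) = V ⊓ V' := eq_of_le_of_card_ge h1 (by nlinarith)
  obtain ⟨t, ht, t1⟩ : ∃ t ∈ T ⊓ A, t ∉ V' ⊔ V := by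
    by_contra H
    push Not at H
    have := card_le_of_le (show T ⊓ A ≤ V ⊓ V' from fun x hx => h1 ⟨H x hx, hx⟩)
    omega
  obtain ⟨v, hv, h9⟩ := s.act t ht.1 (by rwa [sup_comm])
  have t2 : t * t ∈ V := by rw [smb_sq hA ht.2]; exact one_mem _
  have h10 : V ⊓ V' = V ⊓ 𝒞[t] := eq_of_le_of_card_ge
    (fun x hx => ⟨hx.1, mem_centralizer_singleton_iff.2 (elemAb_comm hA (h8 ▸ hx :
      x ∈ (V' ⊔ V) ⊓ (T ⊓ A)).2.2 ht.2)⟩)
    (by rw [d.fr t ht.1 (fun e => t1 (mem_sup_right e)) t2, l4])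
  exact h9 (h10 ▸ d.smb_cv ht.1 t2 hv : ⁅t, v⁆ ∈ V ⊓ V').2

theorem Sm16.sw (d : Sm16 V T) (h : ¬ IsSylowIn 2 T ⊤) :
    ∃ S V' : Subgroup G, IsSylowIn 2 S ⊤ ∧ Sw16 S T V V' := by
  obtain ⟨S₁, hS, hTS⟩ := exists_isSylowIn_ge d.syl.isPGroup (le_top : T ≤ ⊤)
  have nv : ∀ k ∈ S₁, conjS k V = V → k ∈ T := fun k hk e =>
    d.syl.eq_of_le _ (hS.isPGroup.to_le (inf_le_left : S₁ ⊓ 𝒩(V) ≤ S₁)) (le_inf hTS d.syl.le)
      inf_le_right ▸ (⟨hk, mem_normalizer_iff_conjS.2 e⟩ : k ∈ S₁ ⊓ 𝒩(V))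
  obtain ⟨k, k1, k2, k3⟩ := Tech.exists_mem_normalizer_of_lt hS.isPGroup
    (lt_of_le_of_ne hTS fun e => h (e ▸ hS))
  have ea : ∀ {X : Subgroup G} (g : G), IsElementaryAbelian 2 X →
      IsElementaryAbelian 2 (conjS g X) := fun g hX => elemAb_map hX _
  have le : ∀ {X : Subgroup G} {g : G}, g ∈ 𝒩(T) → X ≤ T → conjS g X ≤ T := fun hg hX =>
    (conjS_mono hX).trans (mem_normalizer_iff_conjS.1 hg).le
  obtain ⟨V', hV'⟩ : ∃ V', V' = conjS k V := ⟨_, rfl⟩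
  have a1 : IsElementaryAbelian 2 V' := hV' ▸ ea k d.ea
  have a2 : Nat.card V' = 16 := by rw [hV', card_conjS, d.c16]
  have a3 : V' ≤ T := hV' ▸ le k3 d.VT
  have a4 : V' ≠ V := fun e => k2 (nv k k1 (hV' ▸ e))
  have b1 : ∀ g ∈ S₁ ⊓ 𝒩(T), g ∉ T → conjS g V = V' := fun g hg g1 =>
    d.smb_uniq a1 a2 a3 a4 (ea g d.ea) (by rw [card_conjS, d.c16]) (le hg.2 d.VT)
      fun e => g1 (nv g hg.1 e)
  have b2 : ∀ g ∈ S₁ ⊓ 𝒩(T), g ∉ T → conjS g V' = V := fun g hg g1 => by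
    rw [← b1 g⁻¹ (inv_mem hg) (fun e => g1 (inv_mem_iff.1 e)), conjS_conjS_inv]
  have b3 : T ≤ S₁ ⊓ 𝒩(T) := le_inf hTS le_normalizer
  obtain ⟨w, hw, w1⟩ := d.smb_ex a2 a4
  have sw : Sw16 (S₁ ⊓ 𝒩(T)) T V V' :=
    { two := hS.isPGroup.to_le inf_le_left
      TS := b3
      i2 := relIndex_eq_two_iff.2 ⟨k, ⟨k1, k3⟩, fun g hg => by
        by_cases g1 : g ∈ T
        · exact .inr ⟨g1, fun e => k2 ((mul_mem_cancel_left g1).1 e)⟩
        · exact .inl ⟨nv _ (mul_mem hg.1 k1) (by rw [conjS_mul, ← hV', b2 g hg g1]), g1⟩⟩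
      ea := d.ea
      ea' := a1
      c16 := d.c16
      c16' := a2
      VT := d.VT
      VT' := a3
      nV := d.syl.le
      nV' := fun g hg => mem_normalizer_iff_conjS.2 (d.smb_uniq a1 a2 a3 a4 (ea g a1)
        (by rw [card_conjS, a2]) (le (le_normalizer hg) a3) fun e => a4 (by
          rw [← conjS_inv_conjS g V', e]
          exact mem_normalizer_iff_conjS.1 (d.syl.le (inv_mem hg))))
      sw := fun g hg g1 => ⟨b1 g hg g1, b2 g hg g1⟩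
      l4 := (d.smb_inf a1 a2 a3 hw w1).2
      nd := fun v hv v1 u hu u1 e => v1 ((d.smb_inf a1 a2 a3 hu u1).1 ▸
        (⟨hv, mem_centralizer_singleton_iff.2 e⟩ : v ∈ V ⊓ 𝒞[u]) : v ∈ V ⊓ V').2
      i0 := by
        rw [sup_comm]
        rcases d.smb_card a1 a2 a3 a4 with ⟨e, -⟩ | ⟨e, -⟩ <;> omega
      act := fun t ht t1 => d.smb_act a1 a2 a3 a4 ht (by rwa [sup_comm]) }
  refine ⟨_, V', ?_, sw⟩
  by_contra hn
  obtain ⟨g, g1, g2, g3⟩ := Tech.exists_mem_normalizer_of_lt hS.isPGroup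
    (lt_of_le_of_ne (inf_le_left : S₁ ⊓ 𝒩(T) ≤ S₁) fun e => hn (by rw [e]; exact hS))
  have c1 : conjS g V ≤ T := smb_le d sw a4 (ea g d.ea) (by rw [card_conjS, d.c16])
    ((conjS_mono (d.VT.trans b3)).trans (mem_normalizer_iff_conjS.1 g3).le)
  by_cases c2 : conjS g V = V
  · exact g2 (b3 (nv g g1 c2))
  · have c3 := d.smb_uniq a1 a2 a3 a4 (ea g d.ea) (by rw [card_conjS, d.c16]) c1 c2
    have c4 := b3 (nv (k * g) (mul_mem k1 g1) (by rw [conjS_mul, c3, b2 k ⟨k1, k3⟩ k2]))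
    exact g2 ((mul_mem_cancel_left (⟨k1, k3⟩ : k ∈ S₁ ⊓ 𝒩(T))).1 c4)

end CfsgLib.O8
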