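import Mathlib
import Cfsg.Agent.Lib.O8.Defs

/-! The sectional rank of a 2-group interchanging two `E₁₆`. -/

set_option autoImplicit false
set_option linter.unusedSectionVars false

namespace CfsgLib.O8

open Cfsg Subgroup CfsgLib.LAE CfsgLib.PLocal CfsgLib.ZJ CfsgLib.Blocks
open scoped CfsgLib.BG MatrixGroups commutatorElement

universe u

variable {G : Type*} [Group G] [Finite G] {S T V V' : Subgroup G}

namespace SMc

variable {A B M X l : Subgroup G}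

theorem idx4 (c16 : Nat.card A = 16) (l4 : Nat.card ↥(B ⊓ A) = 4) : B.relIndex A = 4 := by
  have := Sect.card_eq_relIndex B A
  rw [c16, l4] at this
  omega

theorem idx_sup (hn : ∀ a ∈ A, ∀ b ∈ B, a * b * a⁻¹ ∈ B) (h4 : B.relIndex A = 4) :
    B.relIndex (A ⊔ B) ≤ 4 := by
  refine (Sect.relIndex_le_of_cover le_sup_left fun x hx => ?_).trans h4.le
  obtain ⟨a, ha, b, hb, rfl⟩ := (Sect.mem_sup_of_norm hn).1 hx
  exact ⟨a, ha, by simpa using hb⟩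

theorem onto (hM : IsPGroup 2 M) (hle : M ≤ A ⊔ B) (h4 : B.relIndex (A ⊔ B) ≤ 4)
    (h : ¬ B.relIndex M ≤ 2) {a : G} (ha : a ∈ A) : ∃ y ∈ M, y⁻¹ * a ∈ B := by
  refine Sect.cover_of_le hle (h4.trans ?_) (mem_sup_left ha)
  by_contra h'
  exact h (Sect.relIndex_le_pow hM 1 (by omega))

theorem half (hl : l ≤ X) {x : G} (hx : x ∈ X) (hM : x ∈ M) (h : x ∉ l) :
    2 * X.relIndex M ≤ l.relIndex M := by
  have h1 := relIndex_inf_mul_relIndex l X M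
  rw [inf_eq_left.2 hl] at h1
  rw [← h1]
  exact Nat.mul_le_mul_right _ (Sect.two_le_relIndex fun e => h (e ⟨hx, hM⟩))

end SMc

open SMc

theorem Sw16.sr (d : Sw16 S T V V') (h : Sect.SR 16 T) : Sect.SR 16 S := by
  refine Sect.sr_of_le fun H hH K hKH hK => ?_
  by_cases hT : H ≤ T
  · exact h H hT K hK
  obtain ⟨k, kH, kT⟩ := SetLike.not_le_iff_exists.1 hT
  have sV : ∀ v ∈ V, v * v = 1 := fun v hv => by rw [← pow_two]; exact d.ea.2 v hv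
  have sV' : ∀ v ∈ V', v * v = 1 := fun v hv => by rw [← pow_two]; exact d.ea'.2 v hv
  have nV : ∀ t ∈ T, ∀ v, v ∈ V ↔ t * v * t⁻¹ ∈ V := fun t ht => mem_normalizer_iff.1 (d.nV ht)
  have nV' : ∀ t ∈ T, ∀ v, v ∈ V' ↔ t * v * t⁻¹ ∈ V' := fun t ht => mem_normalizer_iff.1 (d.nV' ht)
  have sw : ∀ g ∈ S, g ∉ T → ∀ v, v ∈ V ↔ g * v * g⁻¹ ∈ V' := fun g hg gT v => by
    rw [← (d.sw g hg gT).1, mem_conjS]; simp [mul_assoc]
  have sw' : ∀ g ∈ S, g ∉ T → ∀ v, v ∈ V' ↔ g * v * g⁻¹ ∈ V := fun g hg gT v => by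
    rw [← (d.sw g hg gT).2, mem_conjS]; simp [mul_assoc]
  have kV := sw k (hH kH) kT
  have kV' := sw' k (hH kH) kT
  have n1 : ∀ a ∈ V, ∀ b ∈ V', a * b * a⁻¹ ∈ V' := fun a ha b hb => (nV' a (d.VT ha) b).1 hb
  have n2 : ∀ a ∈ V', ∀ b ∈ V, a * b * a⁻¹ ∈ V := fun a ha b hb => (nV a (d.VT' ha) b).1 hb
  have dec : ∀ x ∈ V ⊔ V', ∃ a ∈ V, ∃ b ∈ V', x = a * b := fun x hx => (Sect.mem_sup_of_norm n1).1 hx
  have i1 : V'.relIndex V = 4 := idx4 d.c16 (by rw [inf_comm]; exact d.l4)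
  have i2 : V.relIndex V' = 4 := idx4 d.c16' d.l4
  have j1 := idx_sup n1 i1
  have j2 := idx_sup n2 i2
  have cH : ∀ {x}, x ∈ H → k * x * k⁻¹ ∈ H := fun hx => mul_mem (mul_mem kH hx) (inv_mem kH)
  have kT0 : ∀ x ∈ V ⊔ V', k * x * k⁻¹ ∈ V ⊔ V' := fun x hx => by
    obtain ⟨a, ha, b, hb, rfl⟩ := dec x hx
    have : k * (a * b) * k⁻¹ = k * a * k⁻¹ * (k * b * k⁻¹) := by group
    rw [this]
    exact mul_mem (mem_sup_right ((kV a).1 ha)) (mem_sup_left ((kV' b).1 hb))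
  have tH : T.relIndex H ≤ 2 := (Sect.relIndex_mono_right T hH).trans d.i2.le
  have c4 : (V ⊔ V').relIndex H ≤ 4 := by
    refine (Sect.relIndex_le_mul _ H T).trans ?_
    have := (Sect.relIndex_mono_right (V ⊔ V') (inf_le_right : H ⊓ T ≤ T)).trans d.i0
    exact Nat.mul_le_mul this tH
  have p0 : IsPGroup 2 ↥(H ⊓ (V ⊔ V')) := d.two.to_le (inf_le_left.trans hH)
  have main : K.relIndex H ≤ K.relIndex (H ⊓ (V ⊓ V')) *
      ((K ⊔ V ⊓ V').relIndex (H ⊓ (V ⊔ V')) * (V ⊔ V').relIndex H) := by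
    refine (Sect.split hKH fun g hg x hx => ?_).trans
      (Nat.mul_le_mul_left _ (Sect.relIndex_le_mul _ _ _))
    by_cases gT : g ∈ T
    · exact ⟨(nV g gT x).1 hx.1, (nV' g gT x).1 hx.2⟩
    · exact ⟨(sw' g (hH (hKH hg)) gT x).1 hx.2, (sw g (hH (hKH hg)) gT x).1 hx.1⟩
  have l4 : Nat.card ↥(H ⊓ (V ⊓ V')) ≤ 4 := (card_le_of_le inf_le_right).trans d.l4.le
  by_cases h0 : H ⊓ (V ⊔ V') ≤ V ⊓ V'
  · rw [relIndex_eq_one.2 (h0.trans le_sup_right), one_mul] at main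
    exact main.trans (Nat.mul_le_mul ((Sect.relIndex_le_card _ _).trans l4) c4)
  -- an element of `H ⊓ V` outside `V'` gives an element of `K` outside `V ⊓ V'`
  have mix : ∀ x ∈ H, x ∈ V → x ∉ V' → x * (k * x * k⁻¹) ∈ K ∧ x * (k * x * k⁻¹) ∈ V ⊔ V' ∧
      x * (k * x * k⁻¹) ∉ V ∧ x * (k * x * k⁻¹) ∉ V' := fun x hx xV xV' => by
    refine ⟨?_, mul_mem (mem_sup_left xV) (mem_sup_right ((kV x).1 xV)),
      fun e => xV' ((kV' x).2 ((mul_mem_cancel_left xV).1 e)),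
      fun e => xV' ((mul_mem_cancel_right ((kV x).1 xV)).1 e)⟩
    have := Sect.comm_mem hK hx kH
    rw [inv_eq_of_mul_eq_one_right (sV x xV)] at this
    simpa only [mul_assoc] using this
  have hk2 : ∀ x, k * x * k⁻¹ ∈ V' → x ∈ V := fun x => (kV x).2
  have a2 : K.relIndex (H ⊓ (V ⊓ V')) ≤ 2 := by
    obtain ⟨c, cH', c0, c1, c2⟩ : ∃ c ∈ H, c ∈ V ⊔ V' ∧ c ∉ V ∧ c ∉ V' := by
      obtain ⟨x, hx, xl⟩ := SetLike.not_le_iff_exists.1 h0
      by_cases xV : x ∈ V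
      · obtain ⟨e1, e2⟩ := mix x hx.1 xV fun e => xl ⟨xV, e⟩
        exact ⟨_, hKH e1, e2⟩
      by_cases xV' : x ∈ V'
      · obtain ⟨e1, e2⟩ := mix _ (cH hx.1) ((kV' x).1 xV') fun e => xV (hk2 x e)
        exact ⟨_, hKH e1, e2⟩
      exact ⟨x, hx.1, hx.2, xV, xV'⟩
    obtain ⟨v, hv, w, hw, rfl⟩ := dec c c0
    have e1 : v * w * (v * w) ≠ 1 := fun e => by
      refine d.nd v hv (fun e => c2 (mul_mem e hw)) w hw (fun e => c1 (mul_mem hv e)) ?_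
      rw [eq_inv_of_mul_eq_one_left e, mul_inv_rev, inv_eq_of_mul_eq_one_right (sV v hv),
        inv_eq_of_mul_eq_one_right (sV' w hw)]
    have e2 : v * w * (v * w) ∈ V := by
      have := mul_mem hv (n2 w hw v hv)
      rw [inv_eq_of_mul_eq_one_right (sV' w hw)] at this
      simpa only [mul_assoc] using this
    have e3 : v * w * (v * w) ∈ V' := by
      have := mul_mem (n1 v hv w hw) hw
      rw [inv_eq_of_mul_eq_one_right (sV v hv)] at this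
      simpa only [mul_assoc] using this
    have e4 := Sect.two_le_card (K := K ⊓ (H ⊓ (V ⊓ V')))
      ⟨hK _ cH', mul_mem cH' cH', e2, e3⟩ e1
    have e5 := Sect.card_eq_relIndex K (H ⊓ (V ⊓ V'))
    nlinarith
  -- it suffices to bound the middle factor
  have fin : (K ⊔ V ⊓ V').relIndex (H ⊓ (V ⊔ V')) * (V ⊔ V').relIndex H ≤ 8 →
      K.relIndex H ≤ 16 := fun e => main.trans (Nat.mul_le_mul a2 e)
  have fin2 : (K ⊔ V ⊓ V').relIndex (H ⊓ (V ⊔ V')) ≤ 2 → K.relIndex H ≤ 16 := fun e =>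
    fin (Nat.mul_le_mul e c4)
  have hf : ∀ x ∈ K, x ∈ V ⊔ V' → x ∉ V' → 2 * (K ⊔ V ⊓ V').relIndex (H ⊓ (V ⊔ V')) ≤
      (V ⊓ V').relIndex (H ⊓ (V ⊔ V')) := fun x hx x0 x1 =>
    half le_sup_right (mem_sup_left hx) ⟨hKH hx, x0⟩ fun e => x1 e.2
  have hb : (K ⊔ V ⊓ V').relIndex (H ⊓ (V ⊔ V')) ≤ (V ⊓ V').relIndex (H ⊓ (V ⊔ V')) :=
    Sect.relIndex_anti_left le_sup_right _
  have q1 : V'.relIndex (H ⊓ (V ⊔ V')) ≤ 4 := (Sect.relIndex_mono_right _ inf_le_right).trans j1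
  have q2 : V.relIndex (H ⊓ (V ⊔ V')) ≤ 4 := by
    refine (Sect.relIndex_mono_right _ inf_le_right).trans ?_
    rwa [sup_comm]
  have hc : H ⊓ V ≤ V' → (V ⊓ V').relIndex (H ⊓ (V ⊔ V')) = V.relIndex (H ⊓ (V ⊔ V')) := fun e =>
    Sect.relIndex_congr fun x hx => ⟨fun e => e.1, fun xV => ⟨xV, e ⟨hx.1, xV⟩⟩⟩
  have on : (∀ w ∈ V', ∃ y ∈ H ⊓ (V ⊔ V'), y⁻¹ * w ∈ V) → ∀ v ∈ V, ∃ y ∈ H ⊓ (V ⊔ V'),
      y⁻¹ * v ∈ V' := fun e v hv => by
    obtain ⟨y, hy, e1⟩ := e (k⁻¹ * v * k) ((kV' _).2 (by simpa [mul_assoc] using hv))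
    refine ⟨k * y * k⁻¹, ⟨cH hy.1, kT0 y hy.2⟩, ?_⟩
    have := (kV _).1 e1
    convert this using 1
    group
  have on' : (∀ v ∈ V, ∃ y ∈ H ⊓ (V ⊔ V'), y⁻¹ * v ∈ V') → ∀ w ∈ V', ∃ y ∈ H ⊓ (V ⊔ V'),
      y⁻¹ * w ∈ V := fun e v hv => by
    obtain ⟨y, hy, e1⟩ := e (k⁻¹ * v * k) ((kV _).2 (by simpa [mul_assoc] using hv))
    refine ⟨k * y * k⁻¹, ⟨cH hy.1, kT0 y hy.2⟩, ?_⟩
    have := (kV' _).1 e1
    convert this using 1
    group
  by_cases ho : ∀ v ∈ V, ∃ y ∈ H ⊓ (V ⊔ V'), y⁻¹ * v ∈ V'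
  swap
  · have r1 : V'.relIndex (H ⊓ (V ⊔ V')) ≤ 2 := by
      by_contra e
      exact ho fun v hv => onto p0 inf_le_right j1 e hv
    have r2 : V.relIndex (H ⊓ (V ⊔ V')) ≤ 2 := by
      by_contra e
      exact ho (on fun w hw => onto p0 (inf_le_right.trans (sup_comm V V').le) j2 e hw)
    by_cases hV : H ⊓ V ≤ V'
    · exact fin2 (hb.trans ((hc hV).le.trans r2))
    obtain ⟨x, hx, x1⟩ := SetLike.not_le_iff_exists.1 hV
    obtain ⟨e1, e2, -, e3⟩ := mix x hx.1 hx.2 x1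
    have e4 := hf _ e1 e2 e3
    have e5 := (relIndex_inf_le (H := V) (K := V') (L := H ⊓ (V ⊔ V'))).trans (Nat.mul_le_mul r2 r1)
    exact fin2 (by omega)
  by_cases hV : H ⊓ V ≤ V'
  · have n4 := (hc hV).le.trans q2
    by_cases ht : H ⊓ T ≤ V ⊔ V'
    · refine fin (Nat.mul_le_mul (hb.trans n4) (le_trans ?_ tH))
      rw [← inf_relIndex_left H T]
      exact Sect.relIndex_anti_left ht _
    obtain ⟨t, ht, t0⟩ := SetLike.not_le_iff_exists.1 ht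
    obtain ⟨v, hv, e1⟩ := d.act t ht.2 t0
    obtain ⟨y, hy, e2⟩ := ho v hv
    have e3 : t * y * t⁻¹ * y⁻¹ = ⁅t, v⁆ * (v * (t * (y⁻¹ * v)⁻¹ * t⁻¹ * (y⁻¹ * v)) * v⁻¹) := by
      rw [commutatorElement_def]; group
    have e4 : v * (t * (y⁻¹ * v)⁻¹ * t⁻¹ * (y⁻¹ * v)) * v⁻¹ ∈ V' :=
      n1 v hv _ (mul_mem ((nV' t ht.2 _).1 (inv_mem e2)) e2)
    have e5 : ⁅t, v⁆ ∈ V := mul_mem ((nV t ht.2 v).1 hv) (inv_mem hv)
    have e6 := hf _ (Sect.comm_mem hK ht.1 hy.1)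
      (e3 ▸ mul_mem (mem_sup_left e5) (mem_sup_right e4))
      (e3 ▸ fun e => e1 ((mul_mem_cancel_right e4).1 e))
    exact fin2 (by omega)
  obtain ⟨x, hx, x1⟩ := SetLike.not_le_iff_exists.1 hV
  have lK : V ⊓ V' ≤ K := fun z hz => by
    obtain ⟨w, hw, rfl⟩ := Sect.exists_of_index V' V (fun w => w * x * w⁻¹ * x⁻¹)
      ((V ⊓ V' : Subgroup G) : Set G) (fun a ha => by
        have e1 : a * x * a⁻¹ * x⁻¹ ∈ V := mul_mem (n2 a ha _ hx.2) (inv_mem hx.2)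
        have e2 : a * x * a⁻¹ * x⁻¹ ∈ V' := by
          simpa only [mul_assoc] using mul_mem ha (n1 x hx.2 _ (inv_mem ha))
        exact ⟨e1, e2⟩)
      (fun a ha b hb e => by
        by_contra e1
        exact d.nd x hx.2 x1 _ (mul_mem (inv_mem ha) hb) e1 (Sect.comm_fib' e).symm)
      (by rw [i2]; exact d.l4.le) hz
    obtain ⟨y, hy, e⟩ := on' ho w hw
    have e1 := Sect.comm_mem hK hy.1 hx.1
    have e2 : x * (y⁻¹ * w) = y⁻¹ * w * x := Sect.comm_of_sq sV hx.2 e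
    convert e1 using 1
    calc w * x * w⁻¹ * x⁻¹ = y * (y⁻¹ * w * x) * w⁻¹ * x⁻¹ := by group
      _ = _ := by rw [← e2]; group
  refine (Sect.relIndex_le_mul K H (V ⊔ V')).trans (Nat.mul_le_mul (?_ : _ ≤ 4) c4)
  by_cases hV' : V' ≤ H
  · refine (Sect.relIndex_le_of_cover (M := H ⊓ V) (inf_le_inf_left H le_sup_left)
      fun y hy => ?_).trans ?_
    · obtain ⟨v, hv, w, hw, rfl⟩ := dec y hy.2
      refine ⟨v * (k * w * k⁻¹), ⟨mul_mem ((mul_mem_cancel_right (hV' hw)).1 hy.1) (cH (hV' hw)),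
        mul_mem hv ((kV' w).1 hw)⟩, ?_⟩
      have := Sect.comm_mem hK kH (inv_mem (hV' hw))
      convert this using 1
      group
    · refine (Sect.relIndex_anti_left lK _).trans
        ((Sect.relIndex_mono_right _ inf_le_right).trans ?_)
      rw [inf_relIndex_left, i1]
  · obtain ⟨e1, e2, -, e3⟩ := mix x hx.1 hx.2 x1
    have e4 := hf _ e1 e2 e3
    rw [sup_eq_left.2 lK] at e4
    have e5 := Sect.relIndex_le_mul (V ⊓ V') (H ⊓ (V ⊔ V')) V'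
    have e6 : (V ⊓ V').relIndex (H ⊓ (V ⊔ V') ⊓ V') ≤ 2 := by
      have f1 := Sect.card_eq_relIndex' (K := V ⊓ V') (H := H ⊓ (V ⊔ V') ⊓ V')
        (le_inf (le_inf (lK.trans hKH) (inf_le_left.trans le_sup_left)) inf_le_right)
      have f2 := Sect.two_mul_card_le (K := H ⊓ (V ⊔ V') ⊓ V') (H := V') inf_le_right
        fun e => hV' (e.trans (inf_le_left.trans inf_le_left))
      rw [d.l4] at f1
      rw [d.c16'] at f2
      omega
    have e7 := e5.trans (Nat.mul_le_mul e6 q1)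
    omega


end CfsgLib.O8
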