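import Mathlib
import Cfsg.Agent.Lib.O8.SMa
import Cfsg.Agent.Lib.O8.SMb
import Cfsg.Agent.Lib.O8.SMc
import Cfsg.Agent.Lib.O8.Nsc

/-! Self-centralizing `E₁₆`. -/

set_option autoImplicit false
set_option linter.unusedSectionVars false

namespace CfsgLib.O8

open Cfsg Subgroup CfsgLib.LAE CfsgLib.PLocal CfsgLib.ZJ CfsgLib.Blocks
open scoped CfsgLib.BG MatrixGroups commutatorElement

universe u

variable {G : Type*} [Group G] [Finite G] {M Q V T : Subgroup G} {x : G}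

theorem Gl.sm16 (g : Gl G) (d : Sm16 V T) : False := by
  by_cases h : IsSylowIn 2 T ⊤
  · exact g.rk T h d.sr
  · obtain ⟨S, V', hS, s⟩ := d.sw h
    exact g.rk S hS (s.sr d.sr)

theorem TA.rk2 (d : TA M Q V T x) : Rk2 Q T := by
  intro A hA _
  rw [← d.idx]
  exact relIndex_le_of_le_right hA (by rw [d.idx]; norm_num)

theorem TS.rk2 (d : TS M Q V T) (n : NS M Q V T) : Rk2 Q T := by
  intro A hA h2
  by_contra hlt
  have h8 : 8 ≤ Q.relIndex A := by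
    by_contra h
    have := Sect.relIndex_le_pow (K := Q) (n.two.to_le hA) 2 (by omega)
    omega
  have sq : ∀ t ∈ T, t * t ∈ Q := fun t ht => by
    obtain ⟨y, hy, e⟩ := Sect.cover_of_le (K := Q) hA (by rw [d.idx]; exact h8) ht
    have e1 : y⁻¹ * (y⁻¹ * t) * y⁻¹⁻¹ ∈ Q :=
      (mem_normalizer_iff.1 (inv_mem (n.nQ (n.TM (hA hy)))) _).1 e
    rw [show t * t = y * y * (y⁻¹ * (y⁻¹ * t) * y⁻¹⁻¹) * (y⁻¹ * t) by group]
    exact mul_mem (mul_mem (h2 y hy) e1) e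
  obtain ⟨a, ha, b, hb, e⟩ := d.nab
  refine e ?_
  rw [show ⁅a, b⁆ = (a * b) * (a * b) * (b⁻¹ * a⁻¹ * b * (b⁻¹ * a⁻¹ * b)) * (b⁻¹ * b⁻¹) by
    simp only [commutatorElement_def]; group]
  exact mul_mem (mul_mem (sq _ (mul_mem ha hb))
    (sq _ (mul_mem (mul_mem (inv_mem hb) (inv_mem ha)) hb))) (sq _ (inv_mem hb))

theorem NS.sm_sm16 (n : NS M Q V T) (f2 : F2 M Q V) (c : Nat.card V = 16) (e : V = Q)
    (sh : (Q.relIndex T = 4 ∧ ∀ t ∈ T, t * t ∈ Q) ∨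
      (Q.relIndex T = 8 ∧ ∃ a ∈ T, ∃ b ∈ T, ⁅a, b⁆ ∉ Q)) : Sm16 V T := by
  refine ⟨n.eaV, c, by rw [n.cV, e], by rw [n.nV]; exact n.syl, n.VQ.trans n.QT,
    fun t ht h1 h2 => ?_, by rw [e]; exact sh⟩
  have h := f2 t (n.TM ht) (e ▸ h1) (e ▸ h2)
  rw [c] at h
  exact Nat.pow_left_injective (n := 2) (by norm_num) (by simpa using h)

theorem TA.fin (d : TA M Q V T x) (g : Gl G) (n : NS M Q V T) (c : Nat.card V = 16) : V ≠ Q := by
  intro e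
  exact g.sm16 (n.sm_sm16 d.f2 c e (.inl ⟨d.idx, d.sq⟩))

theorem TS.fin (d : TS M Q V T) (g : Gl G) (n : NS M Q V T) : Nat.card V ≠ 16 := by
  intro c
  exact g.sm16 (n.sm_sm16 d.f2 c d.eq (.inr ⟨d.idx, d.nab⟩))


end CfsgLib.O8
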