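import Mathlib
import Cfsg.Agent.Lib.O8.Tdb

/-! The module `V` when neither parabolic centralizes `Z`. -/

set_option autoImplicit false
set_option linter.unusedSectionVars false

namespace CfsgLib.O8

open Cfsg Subgroup CfsgLib.LAE CfsgLib.PLocal CfsgLib.ZJ CfsgLib.Blocks
open scoped CfsgLib.BG MatrixGroups commutatorElement

universe u

variable {G : Type*} [Group G] [Finite G] {M Q V T Q₁ Q₂ : Subgroup G} {x x₁ x₂ z : G}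

theorem tdm_cent {A : Subgroup G} {a : G} (ha : a ∈ A) : 𝒞(A) ≤ 𝒞[a] :=
  centralizer_le (Set.singleton_subset_iff.2 ha)

theorem tdm_le {A : Subgroup G} {a : G} (ha : a ∈ A) :
    (𝒞[a] : Subgroup G).relIndex V ≤ 𝒞(A).relIndex V :=
  relIndex_le_of_le_left (tdm_cent ha) index_ne_zero_of_finite

theorem NS.tdm_cA (n : NS M Q V T) {A : Subgroup G} (h : A ⊔ Q = Q₁) :
    𝒞(Q₁).relIndex V = 𝒞(A).relIndex V := by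
  have : V ≤ 𝒞(Q) := le_centralizer_iff.1 n.cV.ge
  rw [← h, centralizer_sup, ← inf_relIndex_right, inf_assoc, inf_eq_right.2 this, inf_relIndex_right]

theorem NS.tdm_nc (n : NS M Q V T) {c : G} (hc : c ∉ Q) : ¬ V ≤ 𝒞[c] := fun e =>
  hc (n.cV.le fun _ hv => mem_centralizer_singleton_iff.1 (e hv))

theorem TG.tdm_ex (d : TG M Q T Q₁ Q₂ x₁ x₂) (n : NS M Q V T) : ∃ c, c ∈ Q₁ ∧ c ∈ Q₂ ∧ c ∉ Q := by
  obtain ⟨c, h1, h2⟩ : ∃ c ∈ Q₁ ⊓ Q₂, c ∉ Q := SetLike.not_le_iff_exists.1 fun e => by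
    have := d.inf n
    rw [relIndex_eq_one.2 e] at this
    omega
  exact ⟨c, h1.1, h1.2, h2⟩

theorem TG.tdm_Z (d : TG M Q T Q₁ Q₂ x₁ x₂) (n : NS M Q V T) :
    ZZ T = V ⊓ 𝒞(Q₁) ⊓ (V ⊓ 𝒞(Q₂)) := by
  rw [n.hZ, ← inf_inf_distrib_left, ← centralizer_sup, d.sup n]

theorem tdm_two {A B : Subgroup G} (h : ¬ B ≤ A) : 2 ≤ A.relIndex B := by
  have h0 : A.relIndex B ≠ 0 := index_ne_zero_of_finite
  have h1 : A.relIndex B ≠ 1 := fun e => h (relIndex_eq_one.1 e)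
  omega

theorem TD.tdm_aux (d : TD M Q V T Q₁ Q₂ x₁ x₂) (n : NS M Q V T) (h1 : x₁ ∉ 𝒞(ZZ T))
    (h2 : x₂ ∉ 𝒞(ZZ T)) : 2 * 𝒞(Q₁).relIndex V ≤ (ZZ T).relIndex V ∧ 4 < 𝒞(Q₁).relIndex V ∧
      ∀ t ∈ M, t ∉ Q → t * t ∈ Q → 2 < (𝒞[t] : Subgroup G).relIndex V := by
  obtain ⟨c, c1, c2, c3⟩ := d.toTG.tdm_ex n
  have hZ := d.toTG.tdm_Z n
  have l1 : ZZ T ≤ V ⊓ 𝒞(Q₁) := hZ.le.trans inf_le_left
  have l2 : V ⊓ 𝒞(Q₁) ≤ V ⊓ 𝒞[c] := inf_le_inf_left V (tdm_cent c1)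
  have k1 : 2 ≤ (ZZ T).relIndex (V ⊓ 𝒞(Q₁)) :=
    tdm_two fun e => h1 (d.h1.cz n (e.trans (omegaZ_le_centralizer T)))
  have k2 : 2 ≤ (V ⊓ 𝒞(Q₁)).relIndex (V ⊓ 𝒞[c]) := tdm_two fun e => h2 (d.h2.cz n
    (((le_inf ((inf_le_inf_left V (tdm_cent c2)).trans e) le_rfl).trans hZ.ge).trans
      (omegaZ_le_centralizer T)))
  have k3 : 2 ≤ (𝒞[c] : Subgroup G).relIndex V := tdm_two (n.tdm_nc c3)
  have k4 : 2 ≤ Nat.card (ZZ T) := (ZZ T).one_lt_card_iff_ne_bot.2 n.Z1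
  have e1 := relIndex_mul_relIndex _ _ V l1 inf_le_left
  have e2 := relIndex_mul_relIndex _ _ V l2 inf_le_left
  have e3 := tdb_card (l1.trans inf_le_left)
  rw [inf_relIndex_left] at e1
  rw [inf_relIndex_left V, inf_relIndex_left V] at e2
  have b1 : 4 ≤ 𝒞(Q₁).relIndex V := e2 ▸ Nat.mul_le_mul k2 k3
  have b2 : 2 * 𝒞(Q₁).relIndex V ≤ (ZZ T).relIndex V := e1 ▸ Nat.mul_le_mul_right _ k1
  have b3 : 2 * (ZZ T).relIndex V ≤ Nat.card V := e3 ▸ Nat.mul_le_mul_right _ k4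
  have key : ∀ t ∈ M, t ∉ Q → t * t ∈ Q → 2 < (𝒞[t] : Subgroup G).relIndex V := fun t t1 t2 t3 => by
    by_contra e
    have := (d.cod t t1 t2 t3).trans (Nat.pow_le_pow_left (not_lt.1 e) 3)
    omega
  have := key c (n.TM (d.h1.leT c1)) c3 (d.h1.sq c c1)
  exact ⟨b2, by nlinarith, key⟩

theorem TD.tdm_off (d : TD M Q V T Q₁ Q₂ x₁ x₂) (n : NS M Q V T) (h1 : x₁ ∉ 𝒞(ZZ T))
    (h2 : x₂ ∉ 𝒞(ZZ T)) {A : Subgroup G} (a1 : A ≤ Q₁) (a2 : ¬ A ≤ Q) :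
    ¬ 𝒞(A).relIndex V ≤ Q.relIndex A := by
  intro e
  obtain ⟨-, k1, k2⟩ := d.tdm_aux n h1 h2
  obtain ⟨a, b1, b2⟩ := SetLike.not_le_iff_exists.1 a2
  have k3 := ((k2 a (n.TM (d.h1.leT (a1 b1))) b2 (d.h1.sq a (a1 b1))).trans_le (tdm_le b1)).trans_le e
  have k4 : Q.relIndex A ≤ 4 := d.h1.i4 ▸ relIndex_le_of_le_right a1 index_ne_zero_of_finite
  rw [n.tdm_cA (d.h1.tdb_cover a1 k3)] at k1
  omega

theorem TD.mod (d : TD M Q V T Q₁ Q₂ x₁ x₂) (n : NS M Q V T) (h1 : x₁ ∉ 𝒞(ZZ T))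
    (h2 : x₂ ∉ 𝒞(ZZ T)) : ¬ (ZZ T).relIndex V ≤ 8 ∧ ¬ Off Q V T := by
  obtain ⟨k1, k2, -⟩ := d.tdm_aux n h1 h2
  refine ⟨by omega, ?_⟩
  rintro ⟨A, a1, a2, a3, a4⟩
  rcases d.toTG.le_or a1 a3 with e | e
  exacts [d.tdm_off n h1 h2 e a2 a4, d.symm.tdm_off n h2 h1 e a2 a4]


end CfsgLib.O8
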