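import Mathlib
import Cfsg.Agent.Lib.O8.CIa
import Cfsg.Agent.Lib.O8.SM
import Cfsg.Agent.Lib.O8.A5z
import Cfsg.Agent.Lib.O8.Tdm
import Cfsg.Agent.Lib.O8.CA1

/-! The cases `J(T) ≤ Q` and `M / Q ≅ S₅`. -/

set_option autoImplicit false
set_option linter.unusedSectionVars false

namespace CfsgLib.O8

open Cfsg Subgroup CfsgLib.LAE CfsgLib.PLocal CfsgLib.ZJ CfsgLib.Blocks
open scoped CfsgLib.BG MatrixGroups commutatorElement

universe u

variable {G : Type*} [Group G] [Finite G] {M Q V T : Subgroup G}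

theorem Gl.ci (g : Gl G) (n : NS M Q V T) (d : Typ M Q V T) : ¬ JJ T ≤ Q := fun hJ => by
  have := Fact.mk Nat.prime_two
  rcases d with ⟨x, d⟩ | d | ⟨Q₁, Q₂, x₁, x₂, d⟩
  · obtain ⟨hN, h2, h3, h4⟩ := g.cia n d.rk2 hJ
    have c16 := n.c16 d.f2 d.five d.rk2 h4
    refine h3 (g.a5z n d hN fun z hz e => by_contra fun z1 => ?_)
    obtain ⟨t, ht, tQ⟩ := SetLike.not_le_iff_exists.1 n.ne
    have c4 : Nat.card ↥(V ⊓ 𝒞[t]) = 2 ^ 2 :=
      Nat.pow_left_injective two_ne_zero ((d.f2 t (n.TM ht) tQ (d.sq t ht)).trans c16)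
    have zz : ∀ z ∈ ZZ T, z * z = 1 := fun z hz => by rw [← pow_two]; exact (mem_omegaZ.1 hz).2.2
    have le : zpowers z ≤ ZZ T := zpowers_le.2 hz
    have c2 : Nat.card (zpowers z) = 2 := by
      rw [Nat.card_zpowers, orderOf_eq_prime (p := 2) (by rw [pow_two, zz z hz]) z1]
    have k : ZZ T ≤ 𝒞[x] := by
      obtain ⟨i, hi, e1⟩ := (Nat.dvd_prime_pow Nat.prime_two).1 (c4 ▸ card_dvd_of_le (show ZZ T ≤ V ⊓ 𝒞[t] from
        n.hZ ▸ inf_le_inf_left V (centralizer_le (Set.singleton_subset_iff.2 ht))))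
      rcases hi.eq_or_lt with rfl | hi
      · exact ca1_fix e1 zz d.x3 (le_normalizer_omegaZ_of_le le_rfl d.xT) hz z1 e
      · rw [← eq_of_le_of_card_ge le (by rw [e1, c2]; interval_cases i <;> norm_num)]
        exact zpowers_le.2 (mem_centralizer_singleton_iff.2 e.symm)
    have xT := h2 ⟨d.xM, mem_centralizer_iff.2 fun w hw => mem_centralizer_singleton_iff.1 (k hw)⟩
    exact cia_three n.two d.x3 (mul_mem xT xT)
  · exact d.fin g n (n.c16 d.f2 d.five (d.rk2 n) (g.cia n (d.rk2 n) hJ).2.2.2)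
  · obtain ⟨-, h2, -, h4⟩ := g.cia n d.toTG.rk2 hJ
    have := d.mod n (fun e => d.h1.xT n (h2 ⟨d.h1.xM, e⟩)) fun e => d.h2.xT n (h2 ⟨d.h2.xM, e⟩)
    exact h4.elim this.1 this.2

theorem Gl.not_ts (g : Gl G) (n : NS M Q V T) : ¬ TS M Q V T := fun d =>
  d.fin g n (n.c16 d.f2 d.five (d.rk2 n) (.inr (n.off_of (g.ci n (.inr (.inl d))))))


end CfsgLib.O8
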