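import Mathlib
import Cfsg.Agent.Lib.O8.Defs
import Cfsg.Agent.Lib.Classical.SLBasic
import Cfsg.Agent.Lib.Classical.SLCard

/-! The simple groups of the list. -/

set_option autoImplicit false
set_option linter.unusedSectionVars false

namespace CfsgLib.O8

open Cfsg Subgroup CfsgLib.LAE CfsgLib.PLocal CfsgLib.ZJ CfsgLib.Blocks
open scoped CfsgLib.BG MatrixGroups commutatorElement

universe u

variable {G : Type*} [Group G] [Finite G]

theorem smf_alt (n : ℕ) :
    Nat.card (alternatingGroup (Fin (n + 2))) = (n + 2).factorial / 2 := by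
  rw [nat_card_alternatingGroup, Nat.card_eq_fintype_card, Fintype.card_fin]

theorem card_L32 : Nat.card L32 = 168 := by
  rw [Classical.sl3_card, ZMod.card]; rfl

theorem card_A7 : Nat.card A7 = 2520 := smf_alt 5

theorem smf_center : center L32 = ⊥ := by
  rw [← card_eq_one, Classical.sl_card_center, ZMod.card]; rfl

theorem smf_simple : IsSimpleGroup L32 := by
  have := Classical.psl_isSimpleGroup (ι := Fin 3) (F := ZMod 2) (by simp)
  exact ((QuotientGroup.quotientMulEquivOfEq smf_center).trans QuotientGroup.quotientBot).symm.isSimpleGroup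

theorem smf_frL : Ord6.Fr L32 2 2 :=
  (Ord6.fr_of_list (⊤ : Subgroup L32) 2 2
    [1, ⟨!![1, 0, 1; 0, 1, 0; 0, 0, 1], by decide +kernel⟩,
      ⟨!![1, 0, 0; 0, 1, 1; 0, 0, 1], by decide +kernel⟩,
      ⟨!![1, 0, 1; 0, 1, 1; 0, 0, 1], by decide +kernel⟩]
    ⟨!![0, 1, 0; 1, 1, 0; 0, 0, 1], by decide +kernel⟩
    (fun _ _ => trivial) (by refine ⟨?_, ?_, ?_, ?_, ?_, ?_, ?_, ?_⟩ <;> decide +kernel)).map _
    (subtype_injective _)

theorem smf_frA7 : Ord6.Fr A7 2 2 := by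
  let e := (Fin.castLEEmb (show 5 ≤ 7 by norm_num)).toEquivRange
  refine Ord6.fr_A5.map (((Equiv.Perm.extendDomainHom e).comp (Subgroup.subtype _)).codRestrict _
    fun a => ?_) fun a b h => Subtype.ext (Equiv.Perm.extendDomainHom_injective e (congrArg Subtype.val h))
  rw [Equiv.Perm.mem_alternatingGroup]
  exact (Equiv.Perm.sign_extendDomain _ e).trans a.2

theorem smf_char {F : Type} [Field F] [Fintype F] (hF : Fintype.card F = 4) : CharP F 2 :=
  have := Fact.mk Nat.prime_two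
  charP_of_card_eq_prime_pow (p := 2) (f := 2) hF

theorem smf_emb {F : Type} [Field F] [Fintype F] (hF : Fintype.card F = 4) :
    ∃ ι : L32 →* PSL(3, F), Function.Injective ι := by
  have := smf_char hF
  let φ : ZMod 2 →+* F := ZMod.castHom (dvd_refl 2) F
  have hφ : Function.Injective (Matrix.SpecialLinearGroup.map (n := Fin 3) φ) := fun a b e =>
    Matrix.SpecialLinearGroup.ext _ _ fun i j => φ.injective (congrArg (fun A : SL(3, F) => A.1 i j) e)
  refine ⟨(QuotientGroup.mk' _).comp (Matrix.SpecialLinearGroup.map φ), ?_⟩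
  rw [injective_iff_map_eq_one]
  intro g hg
  rw [MonoidHom.comp_apply, QuotientGroup.mk'_apply, QuotientGroup.eq_one_iff] at hg
  rw [← mem_bot, ← smf_center, mem_center_iff]
  intro a
  apply hφ
  rw [map_mul, map_mul]
  exact mem_center_iff.1 hg _

theorem Sm.of_equiv {H : Type*} [Group H] (h : Sm G) (e : G ≃* H) : Sm H := by
  rcases h with ⟨⟨f⟩⟩ | ⟨⟨f⟩⟩ | ⟨⟨f⟩⟩ | ⟨⟨f⟩⟩ | ⟨F, i1, i2, hF, ⟨f⟩⟩
  · exact .inl ⟨e.symm.trans f⟩
  · exact .inr (.inl ⟨e.symm.trans f⟩)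
  · exact .inr (.inr (.inl ⟨e.symm.trans f⟩))
  · exact .inr (.inr (.inr (.inl ⟨e.symm.trans f⟩)))
  · exact .inr (.inr (.inr (.inr ⟨F, i1, i2, hF, ⟨e.symm.trans f⟩⟩)))

theorem Sm.simple (h : Sm G) : IsSimpleGroup G := by
  rcases h with ⟨⟨f⟩⟩ | ⟨⟨f⟩⟩ | ⟨⟨f⟩⟩ | ⟨⟨f⟩⟩ | ⟨F, i1, i2, hF, ⟨f⟩⟩
  · have := Ord6.simple_A5
    exact f.isSimpleGroup
  · have := smf_simple
    exact f.isSimpleGroup
  · have := Ord6.simple_A6
    exact f.isSimpleGroup
  · have : IsSimpleGroup A7 := alternatingGroup.isSimpleGroup (by simp)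
    exact f.isSimpleGroup
  · have := Classical.psl_isSimpleGroup (ι := Fin 3) (F := F) (by simp)
    exact f.isSimpleGroup

theorem IsL34.card (h : IsL34 G) : Nat.card G = 20160 := by
  obtain ⟨F, i1, i2, hF, ⟨f⟩⟩ := h
  have h := Classical.psl_card_mul (ι := Fin 3) (F := F)
  rw [Classical.sl3_card, hF, Fintype.card_fin] at h
  rw [Nat.card_congr f.toEquiv]
  norm_num at h
  omega

theorem Sm.card (h : Sm G) : Nat.card G = 60 ∨ Nat.card G = 168 ∨ Nat.card G = 360 ∨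
    Nat.card G = 2520 ∨ Nat.card G = 20160 := by
  rcases h with ⟨⟨f⟩⟩ | ⟨⟨f⟩⟩ | ⟨⟨f⟩⟩ | ⟨⟨f⟩⟩ | h
  · exact .inl ((Nat.card_congr f.toEquiv).trans (smf_alt 3))
  · exact .inr (.inl ((Nat.card_congr f.toEquiv).trans card_L32))
  · exact .inr (.inr (.inl ((Nat.card_congr f.toEquiv).trans (smf_alt 4))))
  · exact .inr (.inr (.inr (.inl ((Nat.card_congr f.toEquiv).trans card_A7))))
  · exact .inr (.inr (.inr (.inr h.card)))

theorem Sm.ncomm (h : Sm G) : ¬ IsMulCommutative G := by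
  intro hc
  have := h.simple
  have h1 : (Nat.card G).Prime := by
    let : CommGroup G := { mul_comm := fun a b => hc.is_comm.comm a b }
    exact IsSimpleGroup.prime_card
  rcases h.card with e | e | e | e | e <;> rw [e] at h1 <;> norm_num at h1

theorem Sm.fr (h : Sm G) : Ord6.Fr G 2 2 := by
  rcases h with ⟨⟨f⟩⟩ | ⟨⟨f⟩⟩ | ⟨⟨f⟩⟩ | ⟨⟨f⟩⟩ | ⟨F, i1, i2, hF, ⟨f⟩⟩
  · exact Ord6.fr_A5.map f.symm.toMonoidHom f.symm.injective
  · exact smf_frL.map f.symm.toMonoidHom f.symm.injective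
  · exact Ord6.fr_A6.map f.symm.toMonoidHom f.symm.injective
  · exact smf_frA7.map f.symm.toMonoidHom f.symm.injective
  · obtain ⟨ι, hι⟩ := smf_emb hF
    exact (smf_frL.map ι hι).map f.symm.toMonoidHom f.symm.injective

theorem smf_unip {F : Type} [Field F] [CharP F 2] (B : Matrix (Fin 3) (Fin 3) F) (h : B ^ 8 = 1) :
    B ^ 4 = 1 := by
  have := Fact.mk Nat.prime_two
  have h1 : IsNilpotent (B - 1) := ⟨2 ^ 3, by
    rw [sub_pow_char_pow_of_commute 2 3 (Commute.one_right B), one_pow]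
    exact sub_eq_zero.2 h⟩
  have h2 := (Matrix.isNilpotent_charpoly_sub_pow_of_isNilpotent h1).eq_zero
  have h3 := Matrix.aeval_self_charpoly (B - 1)
  rw [sub_eq_zero.1 h2, Fintype.card_fin, map_pow, Polynomial.aeval_X] at h3
  have h4 : (B - 1) ^ 2 ^ 2 = 0 := by rw [show 2 ^ 2 = 3 + 1 from rfl, pow_succ, h3, zero_mul]
  rw [sub_pow_char_pow_of_commute 2 2 (Commute.one_right B), one_pow] at h4
  exact sub_eq_zero.1 h4

theorem IsL34.not8 (h : IsL34 G) (g : G) : orderOf g ≠ 8 := by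
  obtain ⟨F, i1, i2, hF, ⟨f⟩⟩ := h
  have := smf_char hF
  intro ho
  obtain ⟨A, hA⟩ := QuotientGroup.mk_surjective (f g)
  have h1 : ∀ n : ℕ, g ^ n = 1 ↔ A ^ n ∈ center SL(3, F) := fun n => by
    rw [← QuotientGroup.eq_one_iff, QuotientGroup.mk_pow, hA, ← map_pow, f.map_eq_one_iff]
  obtain ⟨c, c3, hc⟩ := Matrix.SpecialLinearGroup.mem_center_iff.1 ((h1 8).1 (ho ▸ pow_orderOf_eq_one g))
  rw [Fintype.card_fin] at c3
  have h2 : (c • A.1) ^ 4 = 1 := smf_unip _ (by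
    rw [smul_pow, ← Matrix.SpecialLinearGroup.coe_pow, ← hc, Matrix.scalar_apply,
      ← Matrix.smul_one_eq_diagonal, smul_smul, ← pow_succ, show 8 + 1 = 3 * 3 from rfl, pow_mul, c3,
      one_pow, one_smul])
  have h3 : g ^ 4 = 1 := (h1 4).2 (Matrix.SpecialLinearGroup.mem_center_iff.2 ⟨c ^ 2, by
    rw [Fintype.card_fin, ← pow_mul, mul_comm, pow_mul, c3, one_pow], by
    rw [Matrix.scalar_apply, ← Matrix.smul_one_eq_diagonal, ← h2, smul_pow, smul_smul, ← pow_add,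
      show 2 + 4 = 3 * 2 from rfl, pow_mul, c3, one_pow, one_smul, Matrix.SpecialLinearGroup.coe_pow]⟩)
  have := Nat.le_of_dvd (by norm_num) (orderOf_dvd_of_pow_eq_one h3)
  omega

end CfsgLib.O8
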