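import Mathlib
import Cfsg.Agent.Lib.O8.Smf
import Cfsg.Agent.S4002

/-! The groups with spectrum `{1, …, 8}`. -/

set_option autoImplicit false
set_option linter.unusedSectionVars false

namespace CfsgLib.O8

open Cfsg Subgroup CfsgLib.LAE CfsgLib.PLocal CfsgLib.ZJ CfsgLib.Blocks
open scoped CfsgLib.BG MatrixGroups commutatorElement

universe u

variable {G : Type*} [Group G] [Finite G]

theorem fin_ext {L : Type*} [Group L] (e : Ext G L) {p : ℕ} (hp : p.Prime) (h2 : p ≠ 2)
    (hd : p ∣ Nat.card G) : p ∣ Nat.card L := by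
  have := Fact.mk Nat.prime_two
  obtain ⟨π, h1, h3⟩ := e
  obtain ⟨k, hk⟩ := IsPGroup.iff_card.1 h3
  rw [← π.ker.card_mul_index, index_ker, MonoidHom.range_eq_top.2 h1, card_top, hk] at hd
  exact ((Nat.coprime_primes hp Nat.prime_two).2 h2 |>.pow_right k).dvd_of_dvd_mul_left hd

theorem fin_perm7 (σ : Equiv.Perm (Fin 7)) : orderOf σ ≠ 8 := fun e => by
  have : orderOf σ ∣ 420 := by
    rw [← Equiv.Perm.lcm_cycleType, Multiset.lcm_dvd]
    intro n hn
    have h1 := Equiv.Perm.two_le_of_mem_cycleType hn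
    have h2 := (Equiv.Perm.le_card_support_of_mem_cycleType hn).trans (Finset.card_le_univ _)
    rw [Fintype.card_fin] at h2
    interval_cases n <;> norm_num
  rw [e] at this
  norm_num at this

theorem fin (h : Set.range (orderOf : G → ℕ) = {k : ℕ | 1 ≤ k ∧ k ≤ 8}) (hS : ST G) :
    ∃ (N : Subgroup G) (F : Type) (_ : Field F) (_ : Fintype F), N.Normal ∧ N.index = 2 ∧
      Fintype.card F = 4 ∧ Nonempty (N ≃* PSL(3, F)) := by
  have ex : ∀ k, 1 ≤ k → k ≤ 8 → ∃ g : G, orderOf g = k := fun k h1 h2 =>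
    (h ▸ ⟨h1, h2⟩ : k ∈ Set.range (orderOf : G → ℕ))
  have d : ∀ k, 1 ≤ k → k ≤ 8 → k ∣ Nat.card G := fun k h1 h2 => by
    obtain ⟨g, rfl⟩ := ex k h1 h2
    exact orderOf_dvd_natCard g
  have d5 := d 5 (by norm_num) (by norm_num)
  have d7 := d 7 (by norm_num) (by norm_num)
  obtain ⟨g, g8⟩ := ex 8 (by norm_num) le_rfl
  have p7 : Nat.Prime 7 := by norm_num
  rcases hS with s | (e | e | e | e) | ⟨N, hN, s, i2, c⟩
  · exact absurd s (Agent.S4002.result 8 (by norm_num) h)
  · have := fin_ext e p7 (by norm_num) d7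
    rw [Ord6.card_A5] at this
    norm_num at this
  · have := fin_ext e p7 (by norm_num) d7
    rw [Nat.card_perm, Nat.card_fin, show (5 : ℕ).factorial = 120 from rfl] at this
    norm_num at this
  · have := fin_ext e Nat.prime_five (by norm_num) d5
    rw [card_L32] at this
    norm_num at this
  · have := fin_ext e p7 (by norm_num) d7
    rw [Ord6.card_A6] at this
    norm_num at this
  have i : N.index = 1 ∨ N.index = 2 := (Nat.dvd_prime Nat.prime_two).1 i2
  rw [← N.card_mul_index] at d5 d7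
  rcases s with ⟨⟨e⟩⟩ | ⟨⟨e⟩⟩ | ⟨⟨e⟩⟩ | ⟨⟨e⟩⟩ | e
  · rw [Nat.card_congr e.toEquiv, Ord6.card_A5] at d7
    omega
  · rw [Nat.card_congr e.toEquiv, card_L32] at d5
    omega
  · rw [Nat.card_congr e.toEquiv, Ord6.card_A6] at d7
    omega
  · obtain ⟨f, h1, -⟩ := AltAut.exists_hom_perm_of_ne_six (by simp) (by simp) e c
    exact absurd ((orderOf_injective f h1 g).trans g8) (fin_perm7 _)
  · rcases i with i | i
    · have hg : g ∈ N := index_eq_one.1 i ▸ mem_top g
      exact absurd (by rw [← orderOf_coe, g8]) (e.not8 ⟨g, hg⟩)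
    · obtain ⟨F, _, _, c4, e⟩ := e
      exact ⟨N, F, _, _, hN, i, c4, e⟩


end CfsgLib.O8
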