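import Mathlib
import Cfsg.Agent.Lib.O8.Smf

/-! Extensions of the simple groups of the list. -/

set_option autoImplicit false
set_option linter.unusedSectionVars false

namespace CfsgLib.O8

open Cfsg Subgroup CfsgLib.LAE CfsgLib.PLocal CfsgLib.ZJ CfsgLib.Blocks
open scoped CfsgLib.BG MatrixGroups commutatorElement

universe u

variable {G : Type*} [Group G] [Finite G]

theorem idx_mod {D : Subgroup G} {p : ℕ} [Fact p.Prime] (f : 𝒩(D)) (ho : f ^ p = 1)
    (fp : ∀ q ∈ D, f * q = q * f → q = 1) : 1 ≡ Nat.card D [MOD p] := by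
  classical
  have := Fintype.ofFinite D
  have e := Equiv.Perm.card_compl_support_modEq (p := p) (n := 1)
    (σ := MulAut.toPerm D (D.normalizerMonoidHom f))
    (by rw [pow_one, ← map_pow, ← map_pow, ho, map_one, map_one])
  rw [Nat.card_eq_fintype_card]
  convert e
  symm
  rw [Finset.card_eq_one]
  refine ⟨1, Finset.ext fun q => ?_⟩
  rw [Finset.mem_compl, Equiv.Perm.mem_support, not_not, Finset.mem_singleton]
  constructor
  · intro e
    have e' : (f : G) * q * (f : G)⁻¹ = q := congrArg Subtype.val e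
    exact Subtype.ext (fp q q.2 (by rw [← mul_inv_eq_iff_eq_mul, e']))
  · rintro rfl
    exact map_one (D.normalizerMonoidHom f)

theorem idx_frat {N : Subgroup G} [N.Normal] {p : ℕ} [Fact p.Prime] (P : Sylow p N) :
    N.index = N.relIndex 𝒩((P : Subgroup N).map N.subtype) := by
  rw [← relIndex_top_right, ← P.normalizer_sup_eq_top, relIndex_sup_right]

/-- five and seven do not divide the index -/
theorem Cl.idx_nd (h : Cl G) {N : Subgroup G} [N.Normal] (h3 : 3 ∣ Nat.card N)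
    (h27 : ¬ 27 ∣ Nat.card N) {r : ℕ} (hr : r = 5 ∨ r = 7) : ¬ r ∣ N.index := fun hd => by
  have := Fact.mk Nat.prime_three
  have : Fact r.Prime := ⟨by rcases hr with rfl | rfl <;> norm_num⟩
  obtain ⟨D⟩ : Nonempty (Sylow 3 N) := inferInstance
  rw [idx_frat D] at hd
  obtain ⟨f, hf⟩ := exists_prime_orderOf_dvd_card' r (hd.trans (relIndex_dvd_card _ _))
  have hD : IsPGroup 3 ((D : Subgroup N).map N.subtype) := D.2.map _
  have e := idx_mod f (p := r) (hf ▸ pow_orderOf_eq_one f) fun q hq c => by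
    obtain ⟨k, hk⟩ := hD ⟨q, hq⟩
    exact h.big_cop hr (by rw [orderOf_coe, hf]) c (congrArg Subtype.val hk)
      (Nat.Coprime.pow_right k (by rcases hr with rfl | rfl <;> norm_num))
  rw [card_map_of_injective N.subtype_injective] at e
  obtain ⟨k, hk⟩ := D.2.exists_card_eq
  have d1 := D.dvd_card_of_dvd_card h3
  have d2 := card_subgroup_dvd_card (D : Subgroup N)
  rw [hk] at e d1 d2
  rcases k with _ | _ | _ | k
  · simp at d1
  · rcases hr with rfl | rfl <;> exact absurd e (by decide)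
  · rcases hr with rfl | rfl <;> exact absurd e (by decide)
  · exact h27 (Dvd.dvd.trans ⟨3 ^ k, by ring⟩ d2)

theorem Cl.idx_cnt (h : Cl G) {N : Subgroup G} [N.Normal] {r : ℕ} (hr : r = 5 ∨ r = 7)
    (hi : ¬ r ∣ N.index) (h1 : r ∣ Nat.card N) (h2 : ¬ r * r ∣ Nat.card N) :
    ∃ b n, b * N.index ∣ r - 1 ∧ n * (r * b) = Nat.card N ∧ n ≡ 1 [MOD r] := by
  have hp : r.Prime := by rcases hr with rfl | rfl <;> norm_num
  have := Fact.mk hp
  have one : ∀ {k : ℕ}, r ∣ r ^ k → r ^ k ∣ Nat.card N → r ^ k = r := fun {k} d1 d2 => by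
    rcases k with _ | _ | k
    · exact absurd (Nat.dvd_one.1 d1) hp.one_lt.ne'
    · simp
    · exact absurd (Dvd.dvd.trans ⟨r ^ k, by ring⟩ d2) h2
  obtain ⟨P⟩ : Nonempty (Sylow r N) := inferInstance
  obtain ⟨Q, hQ⟩ : ∃ Q, Q = (P : Subgroup N).map N.subtype := ⟨_, rfl⟩
  have QN : Q ≤ N := hQ ▸ map_subtype_le _
  have cQ : Nat.card Q = r := by
    obtain ⟨k, hk⟩ := P.2.exists_card_eq
    rw [hQ, card_map_of_injective N.subtype_injective, hk]
    exact one (hk ▸ P.dvd_card_of_dvd_card h1) (hk ▸ card_subgroup_dvd_card _)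
  have cyc : IsCyclic Q := isCyclic_of_prime_card cQ
  obtain ⟨f, hf⟩ := exists_prime_orderOf_dvd_card' (G := Q) r cQ.symm.dvd
  have hC : ∀ c ∈ 𝒞(Q), c ^ r = 1 := fun c hc =>
    h.big hr (x := (f : G)) (by rw [orderOf_coe, hf]) (hc f f.2)
  have CN : 𝒞(Q) ≤ N := fun c hc => by
    rw [← QuotientGroup.eq_one_iff, ← orderOf_eq_one_iff]
    refine Nat.eq_one_of_dvd_coprimes ((Nat.Prime.coprime_iff_not_dvd hp).2 hi)
      (orderOf_dvd_of_pow_eq_one ?_) (orderOf_dvd_natCard _)
    rw [← QuotientGroup.mk_pow, hC c hc, QuotientGroup.mk_one]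
  have cC : Nat.card 𝒞(Q) = r := by
    have pC : IsPGroup r 𝒞(Q) := fun c => ⟨1, Subtype.ext (by simpa using hC c c.2)⟩
    obtain ⟨k, hk⟩ := pC.exists_card_eq
    rw [hk]
    exact one (hk ▸ cQ ▸ card_dvd_of_le (le_centralizer Q)) (hk ▸ card_dvd_of_le CN)
  have key := card_dvd_of_injective _ (QuotientGroup.kerLift_injective Q.normalizerMonoidHom)
  rw [normalizerMonoidHom_ker, ← index, ← relIndex, cyc.card_mulAut, cQ, Nat.totient_prime hp] at key
  have CK : 𝒞(Q) ≤ N ⊓ 𝒩(Q) := le_inf CN (centralizer_le_normalizer _)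
  refine ⟨𝒞(Q).relIndex (N ⊓ 𝒩(Q)), Nat.card (Sylow r N), ?_, ?_, card_sylow_modEq_one r N⟩
  · rwa [idx_frat P, ← hQ, ← inf_relIndex_right N, relIndex_mul_relIndex _ _ _ CK inf_le_right]
  · have e1 : 𝒩((P : Subgroup N)) = 𝒩(Q).subgroupOf N := by
      rw [subgroupOf_normalizer_eq QN, hQ, subgroupOf, comap_map_eq_self_of_injective N.subtype_injective]
    have e2 : Nat.card ↥(N ⊓ 𝒩(Q)) = r * 𝒞(Q).relIndex (N ⊓ 𝒩(Q)) := by
      rw [← (𝒞(Q).subgroupOf (N ⊓ 𝒩(Q))).card_mul_index,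
        Nat.card_congr (subgroupOfEquivOfLe CK).toEquiv, cC, relIndex]
    rw [P.card_eq_index_normalizer, ← e2, ← P.coe_coe, e1, ← (𝒩(Q).subgroupOf N).index_mul_card,
      ← inf_subgroupOf_left, Nat.card_congr (subgroupOfEquivOfLe inf_le_left).toEquiv]

theorem Cl.idx (h : Cl G) {N : Subgroup G} [N.Normal] (hN : Sm N) : N.index ∣ 2 ∧ 𝒞(N) = ⊥ := by
  have hc := hN.card
  have big : ∃ r, (r = 5 ∨ r = 7) ∧ r ∣ Nat.card N := by
    rcases hc with e | e | e | e | e <;> rw [e]
    · exact ⟨5, .inl rfl, by norm_num⟩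
    · exact ⟨7, .inr rfl, by norm_num⟩
    all_goals exact ⟨5, .inl rfl, by norm_num⟩
  have nd : ∀ {r : ℕ}, r = 5 ∨ r = 7 → ¬ r ∣ N.index := fun hr =>
    h.idx_nd (by omega) (by omega) hr
  refine ⟨?_, eq_bot_iff.2 fun c hcN => ?_⟩
  · by_cases e : Nat.card N = 168
    · obtain ⟨b, n, h1, h2, h3⟩ := h.idx_cnt (.inr rfl) (nd (.inr rfl)) (by omega) (by omega)
      have hb := Nat.le_of_dvd (by norm_num) ((dvd_mul_right _ _).trans h1)
      rw [e] at h2
      unfold Nat.ModEq at h3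
      have : b = 3 := by
        have hd := (dvd_mul_right _ _).trans h1
        interval_cases b <;> omega
      subst this
      exact Nat.dvd_of_mul_dvd_mul_left (by norm_num) (h1 : _ ∣ 3 * 2)
    · obtain ⟨b, n, h1, h2, h3⟩ := h.idx_cnt (.inl rfl) (nd (.inl rfl)) (by omega) (by omega)
      have hb := Nat.le_of_dvd (by norm_num) ((dvd_mul_right _ _).trans h1)
      unfold Nat.ModEq at h3
      have : 2 ∣ b := by
        have hd := (dvd_mul_right _ _).trans h1
        interval_cases b <;> omega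
      exact Nat.dvd_of_mul_dvd_mul_left (by norm_num)
        ((mul_dvd_mul_right this _).trans (h1 : _ ∣ 2 * 2))
  · obtain ⟨r, hr, hd⟩ := big
    have hp : r.Prime := by rcases hr with rfl | rfl <;> norm_num
    have := Fact.mk hp
    obtain ⟨f, hf⟩ := exists_prime_orderOf_dvd_card' r hd
    obtain ⟨t, ht⟩ := exists_prime_orderOf_dvd_card' (G := N) 2 (by omega)
    have c1 := h.big hr (x := (f : G)) (by rw [orderOf_coe, hf]) (hcN f f.2)
    by_contra c0
    have := h.comm (hcN t t.2) (r := 2) (s := r) (by rw [orderOf_coe, ht])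
      (by rw [orderOf_eq_prime c1 c0]) (by rcases hr with rfl | rfl <;> norm_num)
    omega


end CfsgLib.O8
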