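import Mathlib
import Cfsg.Agent.Lib.O8.Defs

/-! Modules over `𝔽₂`: Frobenius subgroups. -/

set_option autoImplicit false
set_option linter.unusedSectionVars false

namespace CfsgLib.O8

open Cfsg Subgroup CfsgLib.LAE CfsgLib.PLocal CfsgLib.ZJ CfsgLib.Blocks
open scoped CfsgLib.BG MatrixGroups commutatorElement

universe u

section Ring
variable {R M : Type*} [CommRing R] [AddCommGroup M] [Module R M] (x : R) (two : ∀ a : M, a + a = 0)
include two

theorem md_vdm (N : ∀ a : M, (1 + x + x ^ 2 + x ^ 3 + x ^ 4 + x ^ 5 + x ^ 6) • a = 0) {p q r : M}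
    (e1 : p + q + r = 0) (e2 : x • p + x ^ 2 • q + x ^ 4 • r = 0)
    (e3 : x ^ 2 • p + x ^ 4 • q + x • r = 0) : p = 0 := by
  linear_combination (norm := module) (x ^ 1 + x ^ 3 : R) • e1
      + (x ^ 1 + x ^ 4 : R) • e2
      + (x ^ 2 + x ^ 4 : R) • e3
      - (1 : R) • N p
      - (-1 : R) • two p
      - (x ^ 1 + x ^ 2 : R) • N q
      - (-1 * x ^ 2 + -1 * x ^ 4 + -1 * x ^ 5 + -1 * x ^ 7 : R) • two q
      - (x ^ 1 + x ^ 2 : R) • N r
      - (-1 * x ^ 2 + -1 * x ^ 4 + -1 * x ^ 6 + -1 * x ^ 7 : R) • two r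

theorem md_vdm' (N : ∀ a : M, (1 + x + x ^ 2 + x ^ 3 + x ^ 4 + x ^ 5 + x ^ 6) • a = 0) {a b c : M}
    (e1 : a + x • b + x ^ 2 • c = 0) (e2 : a + x ^ 2 • b + x ^ 4 • c = 0)
    (e3 : a + x ^ 4 • b + x • c = 0) : a = 0 ∧ b = 0 ∧ c = 0 := by
  have hb : b = 0 := by
    linear_combination (norm := module) (x ^ 1 + x ^ 4 : R) • e1
      + (x ^ 1 + x ^ 2 : R) • e2
      + (x ^ 2 + x ^ 4 : R) • e3
      - (x ^ 1 + x ^ 2 + x ^ 4 : R) • two a
      - (1 + x ^ 1 + x ^ 2 : R) • N b
      - (-1 + -1 * x ^ 1 + -1 * x ^ 2 + -1 * x ^ 3 + -1 * x ^ 4 + -1 * x ^ 5 + -1 * x ^ 6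
        + -1 * x ^ 7 : R) • two b
      - (x ^ 3 + x ^ 5 + x ^ 6 : R) • two c
  have hc : c = 0 := by
    linear_combination (norm := module) (x ^ 2 + x ^ 4 : R) • e1
      + (x ^ 1 + x ^ 4 : R) • e2
      + (x ^ 1 + x ^ 2 : R) • e3
      - (x ^ 1 + x ^ 2 + x ^ 4 : R) • two a
      - (x ^ 3 + x ^ 5 + x ^ 6 : R) • two b
      - (1 + x ^ 1 + x ^ 2 : R) • N c
      - (-1 + -1 * x ^ 1 + -1 * x ^ 2 + -1 * x ^ 3 + -1 * x ^ 4 + -1 * x ^ 5 + -1 * x ^ 6
        + -1 * x ^ 7 : R) • two c
  refine ⟨?_, hb, hc⟩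
  simpa [hb, hc] using e1

theorem md_nil (o8 : ∀ a : M, (1 + x + x ^ 2 + x ^ 3 + x ^ 4 + x ^ 5 + x ^ 6 + x ^ 7) • a = 0)
    (hA : ∀ a : M, x ^ 4 • a = a → ∃ b, a = x ^ 4 • b + b) (a : M) : a = 0 := by
  have h7 : ∀ a : M, (1 + x) ^ 7 • a = 0 := fun a => by
    linear_combination (norm := module) o8 a
      + (3 * x + 10 * x ^ 2 + 17 * x ^ 3 + 17 * x ^ 4 + 10 * x ^ 5 + 3 * x ^ 6 : R) • two a
  have h4 : ∀ a : M, (1 + x) ^ 4 • a = x ^ 4 • a + a := fun a => by
    linear_combination (norm := module) (2 * x + 3 * x ^ 2 + 2 * x ^ 3 : R) • two a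
  have hk : ∀ a : M, (1 + x) ^ 4 • a = 0 → ∃ b, a = (1 + x) ^ 4 • b := fun a ha => by
    rw [h4] at ha
    obtain ⟨b, hb⟩ := hA a (by linear_combination (norm := module) ha - two a)
    exact ⟨b, by rw [h4]; exact hb⟩
  have it : ∀ (n : ℕ) (a : M), ∃ b, (1 + x) ^ 3 • a = (1 + x) ^ (n + 3) • b := by
    intro n
    induction n with
    | zero => exact fun a => ⟨a, rfl⟩
    | succ n ih =>
      intro a
      obtain ⟨b, hb⟩ := ih a
      obtain ⟨c, hc⟩ := hk ((1 + x) ^ 3 • b) (by rw [smul_smul, ← pow_add, h7])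
      exact ⟨c, by rw [hb, pow_add, mul_smul, hc, smul_smul, ← pow_add]⟩
  have h3 : ∀ a : M, (1 + x) ^ 4 • a = 0 := fun a => by
    obtain ⟨b, hb⟩ := it 4 a
    rw [pow_succ', mul_smul, hb, h7, smul_zero]
  obtain ⟨b, hb⟩ := hk a (h3 a)
  rw [hb, h3]

end Ring

variable {L A : Type*} [Group L] [Finite L] [AddCommGroup A] [Finite A] [DistribMulAction L A]

/-- `A` as a module over the polynomial ring, `X` acting as `f` -/
@[reducible] noncomputable def mdMod (A : Type*) [AddCommGroup A] [DistribMulAction L A] (f : L) :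
    Module (Polynomial ℤ) A :=
  Module.compHom A (Polynomial.aeval (DistribMulAction.toModuleEnd ℤ A f)).toRingHom

theorem md_X (f : L) (k : ℕ) (a : A) :
    letI := mdMod A f
    (Polynomial.X ^ k : Polynomial ℤ) • a = f ^ k • a := by
  show Polynomial.aeval (DistribMulAction.toModuleEnd ℤ A f) (Polynomial.X ^ k : Polynomial ℤ) a = _
  rw [map_pow, Polynomial.aeval_X, ← map_pow]
  rfl

theorem md_X1 (f : L) (a : A) :
    letI := mdMod A f
    (Polynomial.X : Polynomial ℤ) • a = f • a := by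
  have := md_X f 1 a
  rwa [pow_one, pow_one] at this

/-- fixed points -/
def mdFix (A : Type*) [AddCommGroup A] [DistribMulAction L A] (g : L) : AddSubgroup A where
  carrier := {a | g • a = a}
  zero_mem' := smul_zero g
  add_mem' := fun {a b} ha hb => by
    show g • (a + b) = a + b
    rw [smul_add, show g • a = a from ha, show g • b = b from hb]
  neg_mem' := fun {a} ha => by
    show g • (-a) = -a
    rw [smul_neg, show g • a = a from ha]

theorem md_card (g : L) : Nat.card (mdFix A g) = nfix A g := rfl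

theorem md_conj (c g : L) : nfix A (c * g * c⁻¹) = nfix A g :=
  Nat.card_congr
    { toFun := fun a => ⟨c⁻¹ • a.1, by
        have := a.2
        rw [mul_smul, mul_smul, smul_eq_iff_eq_inv_smul] at this
        exact this⟩
      invFun := fun a => ⟨c • a.1, by rw [mul_smul, mul_smul, inv_smul_smul, a.2]⟩
      left_inv := fun a => Subtype.ext (smul_inv_smul c a.1)
      right_inv := fun a => Subtype.ext (inv_smul_smul c a.1) }

theorem md_eq (two : ∀ a : A, a + a = 0) {a b : A} : a + b = 0 ↔ a = b := by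
  rw [add_eq_zero_iff_eq_neg, neg_eq_of_add_eq_zero_right (two b)]

theorem md_inj (two : ∀ a : A, a + a = 0) {f : L} (fp : ∀ a : A, f • a = a → a = 0) :
    Function.Injective fun a : A => f • a + a := by
  intro a b h
  have h' : f • a + a = f • b + b := h
  refine (md_eq two).1 (fp _ ((md_eq two).1 ?_))
  rw [smul_add, add_add_add_comm, h', two]

theorem Mod.comp {L' : Type*} [Group L'] (h : Mod L A) (ι : L' →* L) (hι : Function.Injective ι) :
    letI := DistribMulAction.compHom A ι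
    Mod L' A := by
  letI := DistribMulAction.compHom A ι
  refine ⟨h.cl.of_inj ι hι, h.two, fun f hf a ha => h.fpf (ι f) (by rwa [orderOf_injective ι hι]) a ha,
    fun x t x3 t2 xt a ha => h.cx (ι x) (ι t) (by rwa [orderOf_injective ι hι])
      (by rw [← map_mul, t2, map_one]) (by rw [← map_mul, xt, map_mul]) a ha, fun g hg a => ?_⟩
  rw [← h.o8 (ι g) (by rwa [orderOf_injective ι hι]) a]
  refine Finset.sum_congr rfl fun i _ => ?_
  rw [← map_pow]
  rfl

/-- an involution inverting a fixed-point-free element of odd order acts freely -/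
theorem mdA (two : ∀ a : A, a + a = 0) {t f : L} (t2 : t * t = 1) (tf : t * f * t⁻¹ = f⁻¹)
    (ho : Odd (orderOf f)) (fp : ∀ a : A, f • a = a → a = 0) :
    nfix A t ^ 2 = Nat.card A ∧ ∀ a : A, t • a = a → ∃ b : A, a = t • b + b := by
  have key : ∀ a : A, t • a = a → ∃ b : A, a = t • b + b := by
    intro a ha
    obtain ⟨c, hc⟩ := Finite.surjective_of_injective (md_inj two fp) a
    have hc' : f • c + c = a := hc
    have fp' : ∀ a : A, f⁻¹ • a = a → a = 0 := fun a h => fp a (inv_smul_eq_iff.1 h).symm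
    have e : t • c = f • c := by
      refine md_inj two fp' ?_
      show f⁻¹ • t • c + t • c = f⁻¹ • f • c + f • c
      rw [inv_smul_smul, ← tf, smul_smul, inv_mul_cancel_right, mul_smul, ← smul_add, hc', ha,
        add_comm, hc']
    exact ⟨c, by rw [e, hc']⟩
  refine ⟨?_, key⟩
  let φ : A →+ A := DistribSMul.toAddMonoidHom A t + AddMonoidHom.id A
  have hφ : ∀ a, φ a = t • a + a := fun a => rfl
  have hk : φ.ker = mdFix A t := by
    ext a
    rw [AddMonoidHom.mem_ker, hφ, md_eq two]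
    rfl
  have hr : φ.range = mdFix A t := by
    ext a
    constructor
    · rintro ⟨b, rfl⟩
      show t • φ b = φ b
      rw [hφ, smul_add, smul_smul, t2, one_smul, add_comm]
    · intro ha
      obtain ⟨b, hb⟩ := key a ha
      exact ⟨b, hb.symm⟩
  rw [← φ.ker.card_mul_index, AddSubgroup.index_ker, hk, hr, md_card, pow_two]

/-- the Frobenius group of order 21 -/
theorem mdB (two : ∀ a : A, a + a = 0) {y f : L} (y3 : y ^ 3 = 1) (f7 : f ^ 7 = 1)
    (yf : y * f * y⁻¹ = f ^ 2) (fp : ∀ a : A, f • a = a → a = 0) : nfix A y ^ 3 = Nat.card A := by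
  letI := mdMod A f
  have N : ∀ a : A, (1 + Polynomial.X + Polynomial.X ^ 2 + Polynomial.X ^ 3 + Polynomial.X ^ 4 +
      Polynomial.X ^ 5 + Polynomial.X ^ 6 : Polynomial ℤ) • a = 0 := fun a => by
    simp only [add_smul, md_X, md_X1, one_smul]
    refine fp _ ?_
    simp only [smul_add, smul_smul, ← pow_succ', ← pow_two, Nat.reduceAdd, f7, one_smul]
    abel
  have y1 : ∀ v : A, y • f • v = f ^ 2 • y • v := fun v => by
    rw [← yf, smul_smul, smul_smul, inv_mul_cancel_right]
  have yk : ∀ (k : ℕ) (v : A), y • f ^ k • v = f ^ (2 * k) • y • v := fun k v => by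
    rw [pow_mul, ← yf, conj_pow, smul_smul, smul_smul, inv_mul_cancel_right]
  have f8 : f ^ 8 = f := by rw [pow_succ, f7, one_mul]
  have yy : ∀ v : A, y • y • y • v = v := fun v => by
    rw [smul_smul, smul_smul, ← pow_three', y3, one_smul]
  have hc : Nat.card (mdFix A y × mdFix A y × mdFix A y) = nfix A y ^ 3 := by
    rw [Nat.card_prod, Nat.card_prod, md_card, pow_three]
  rw [← hc]
  refine le_antisymm ?_ ?_
  · let φ : mdFix A y × mdFix A y × mdFix A y →+ A := AddMonoidHom.mk'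
      (fun v => v.1.1 + f • v.2.1.1 + f ^ 2 • v.2.2.1) fun v w => by
        simp only [Prod.fst_add, Prod.snd_add, AddSubgroup.coe_add, smul_add]
        abel
    refine Nat.card_le_card_of_injective φ ((injective_iff_map_eq_zero φ).2 ?_)
    rintro ⟨⟨a, ha⟩, ⟨b, hb⟩, ⟨c, hc⟩⟩ e
    have ha' : y • a = a := ha
    have hb' : y • b = b := hb
    have hc' : y • c = c := hc
    have e1 : a + f • b + f ^ 2 • c = 0 := e
    have e2 : a + f ^ 2 • b + f ^ 4 • c = 0 := by
      have := congrArg (y • ·) e1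
      simpa only [smul_add, smul_zero, y1, yk, ha', hb', hc'] using this
    have e3 : a + f ^ 4 • b + f • c = 0 := by
      have := congrArg (y • ·) e2
      simpa only [smul_add, smul_zero, y1, yk, ha', hb', hc', Nat.reduceMul, f8] using this
    obtain ⟨rfl, rfl, rfl⟩ := md_vdm' (Polynomial.X : Polynomial ℤ) two N (a := a) (b := b) (c := c)
      (by rwa [md_X, md_X1]) (by rwa [md_X, md_X]) (by rwa [md_X, md_X1])
    rfl
  · let η : A →+ mdFix A y := AddMonoidHom.mk'
      (fun v => ⟨v + y • v + y • y • v, by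
        show y • _ = _
        rw [smul_add, smul_add, yy]; abel⟩) fun v w => Subtype.ext (by
        simp only [AddSubgroup.coe_add, smul_add]
        abel)
    let φ : A →+ mdFix A y × mdFix A y × mdFix A y :=
      η.prod ((η.comp (DistribSMul.toAddMonoidHom A f)).prod
        (η.comp (DistribSMul.toAddMonoidHom A (f ^ 2))))
    refine Nat.card_le_card_of_injective φ ((injective_iff_map_eq_zero φ).2 fun v e => ?_)
    have e1 : v + y • v + y • y • v = 0 := congrArg (fun w => w.1.1) e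
    have e2 : f • v + y • f • v + y • y • f • v = 0 := congrArg (fun w => w.2.1.1) e
    have e3 : f ^ 2 • v + y • f ^ 2 • v + y • y • f ^ 2 • v = 0 := congrArg (fun w => w.2.2.1) e
    simp only [y1, yk, Nat.reduceMul, f8] at e2 e3
    exact md_vdm (Polynomial.X : Polynomial ℤ) two N e1 (by rwa [md_X, md_X, md_X1])
      (by rwa [md_X, md_X, md_X1])

theorem Mod.mdC (h : Mod L A) {g f : L} (g8 : orderOf g = 8) (hf : orderOf f = 5 ∨ orderOf f = 7)
    (gf : g ^ 4 * f * (g ^ 4)⁻¹ = f⁻¹) : Subsingleton A := by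
  letI := mdMod A g
  have t2 : g ^ 4 * g ^ 4 = 1 := by rw [← pow_add]; exact orderOf_dvd_iff_pow_eq_one.1 (by rw [g8])
  have hA := (mdA h.two t2 gf (by rcases hf with e | e <;> rw [e] <;> decide) (h.fpf f hf)).2
  have z := md_nil (M := A) (Polynomial.X : Polynomial ℤ) h.two (fun a => by
    have := h.o8 g g8 a
    simp only [Finset.sum_range_succ, Finset.range_zero, Finset.sum_empty, zero_add, pow_zero,
      one_smul, pow_one] at this
    simpa only [add_smul, md_X, md_X1, one_smul] using this) (fun a ha => by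
    rw [md_X] at ha
    obtain ⟨b, hb⟩ := hA a ha
    exact ⟨b, by rwa [md_X]⟩)
  exact ⟨fun a b => (z a).trans (z b).symm⟩

theorem Mod.free3 (h : Mod L A) {x t f : L} (x3 : orderOf x = 3) (t2 : t * t = 1)
    (xt : x * t = t * x) (hf : orderOf f = 5 ∨ orderOf f = 7) (tf : t * f * t⁻¹ = f⁻¹) :
    ∀ a : A, x • a = a → a = 0 := by
  intro a ha
  obtain ⟨b, hb⟩ := (mdA h.two t2 tf (by rcases hf with e | e <;> rw [e] <;> decide) (h.fpf f hf)).2 a
    (h.cx x t x3 t2 xt a ha)
  have xx : ∀ v : A, x • x • x • v = v := fun v => by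
    rw [smul_smul, smul_smul, ← pow_three', ← x3, pow_orderOf_eq_one, one_smul]
  have c : ∀ v : A, x • t • v = t • x • v := fun v => by rw [smul_smul, xt, mul_smul]
  have h1 := h.cx x t x3 t2 xt (b + x • b + x • x • b) (by rw [smul_add, smul_add, xx]; abel)
  have h2 : a + x • a + x • x • a = t • (b + x • b + x • x • b) + (b + x • b + x • x • b) := by
    rw [hb]
    simp only [smul_add, c]
    abel
  rwa [h1, h.two, ha, ha, h.two, zero_add] at h2

theorem Mod.cod3 (h : Mod L A) (hL : Inv57 L) {t : L} (t2 : t * t = 1) (t1 : t ≠ 1) :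
    nfix A t ^ 3 ≤ Nat.card A ^ 2 := by
  obtain ⟨a, b, hab⟩ := hL t t2 t1
  have hb : mdFix A t ⊓ mdFix A (a * t * a⁻¹) ⊓ mdFix A (b * t * b⁻¹) = ⊥ := by
    rw [eq_bot_iff]
    rintro v ⟨⟨h1, h2⟩, h3⟩
    refine h.fpf _ hab v ?_
    rw [mul_smul, mul_smul, show (b * t * b⁻¹) • v = v from h3, show (a * t * a⁻¹) • v = v from h2]
    exact h1
  have i1 := (mdFix A t).card_mul_index
  have i2 := (mdFix A (a * t * a⁻¹)).card_mul_index
  have i3 := (mdFix A (b * t * b⁻¹)).card_mul_index
  rw [md_card] at i1 i2 i3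
  rw [md_conj] at i2 i3
  have k : Nat.card A ≤ (mdFix A t).index * (mdFix A (a * t * a⁻¹)).index *
      (mdFix A (b * t * b⁻¹)).index := by
    rw [← AddSubgroup.index_bot, ← hb]
    exact AddSubgroup.index_inf_le.trans (Nat.mul_le_mul_right _ AddSubgroup.index_inf_le)
  refine Nat.le_of_mul_le_mul_right (c := Nat.card A) ?_ Nat.card_pos
  calc nfix A t ^ 3 * Nat.card A ≤ nfix A t ^ 3 * _ := Nat.mul_le_mul_left _ k
    _ = nfix A t * (mdFix A t).index * (nfix A t * (mdFix A (a * t * a⁻¹)).index) *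
        (nfix A t * (mdFix A (b * t * b⁻¹)).index) := by ring
    _ = _ := by rw [i1, i2, i3]; ring

/-- an involution centralizing `y` and inverting `d` -/
theorem Mod.ylem (h : Mod L A) {y d t : L} (y3 : orderOf y = 3) (d3 : d ^ 3 = 1) (yd : y * d = d * y)
    (t2 : t * t = 1) (yt : y * t = t * y) (td : t * d * t⁻¹ = d⁻¹) : ∀ a : A, y • a = a → d • a = a := by
  intro a ha
  have h1 := h.cx y t y3 t2 yt a ha
  have h2 := h.cx y t y3 t2 yt (d • a) (by rw [smul_smul, yd, mul_smul, ha])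
  have h3 : d⁻¹ • a = d • a := by
    rw [← td, mul_smul, mul_smul, inv_smul_eq_iff.2 h1.symm, h2]
  have h4 : d • d • a = a := by rw [← h3, smul_inv_smul]
  calc d • a = d • d • d • a := by rw [h4]
    _ = a := by rw [smul_smul, smul_smul, ← pow_three', d3, one_smul]

/-- `A` is the sum of the fixed points of the four subgroups of order three of `⟨x, y⟩` -/
theorem sum9 (two : ∀ a : A, a + a = 0) {x y : L} (x3 : x ^ 3 = 1) (y3 : y ^ 3 = 1)
    (xy : x * y = y * x) (a : A) : ∃ b c d e : A, x • b = b ∧ y • c = c ∧ (x * y) • d = d ∧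
      (x * y⁻¹) • e = e ∧ a = b + c + d + e := by
  have xx : ∀ v : A, x • x • x • v = v := fun v => by
    rw [smul_smul, smul_smul, ← pow_three', x3, one_smul]
  have yy : ∀ v : A, y • y • y • v = v := fun v => by
    rw [smul_smul, smul_smul, ← pow_three', y3, one_smul]
  have c : ∀ v : A, y • x • v = x • y • v := fun v => by rw [smul_smul, ← xy, mul_smul]
  have yi : y⁻¹ = y * y := inv_eq_of_mul_eq_one_right (by rw [← pow_three, y3])
  refine ⟨y • a + y • y • a + x • (y • a + y • y • a) + x • x • (y • a + y • y • a),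
    a + y • a + y • y • a, a + x • y • a + x • x • y • y • a, a + x • y • y • a + x • x • y • a,
    ?_, ?_, ?_, ?_, ?_⟩
  · simp only [smul_add, xx]; abel
  · simp only [smul_add, yy]; abel
  · simp only [smul_add, mul_smul, c, xx, yy]; abel
  · simp only [yi, smul_add, mul_smul, c, xx, yy]; abel
  · simp only [smul_add]
    linear_combination (norm := abel) - two a - two (y • a) - two (y • y • a) - two (x • y • a)
      - two (x • y • y • a) - two (x • x • y • a) - two (x • x • y • y • a)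


end CfsgLib.O8
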