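import Mathlib
import Cfsg.Agent.Lib.O8.Md

/-! `A₇` and `S₆` have no module; 3-elements of `S₅` act freely. -/

set_option autoImplicit false
set_option linter.unusedSectionVars false

namespace CfsgLib.O8

open Cfsg Subgroup CfsgLib.LAE CfsgLib.PLocal CfsgLib.ZJ CfsgLib.Blocks
open scoped CfsgLib.BG MatrixGroups commutatorElement

universe u

variable {A : Type*} [AddCommGroup A] [Finite A]

open Equiv Equiv.Perm

theorem ka_ord {L : Type*} [Group L] {p : ℕ} (hp : p.Prime) {x : L} (h1 : x ^ p = 1) (h2 : x ≠ 1) :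
    orderOf x = p :=
  haveI := Fact.mk hp
  orderOf_eq_prime h1 h2

/-- an element of `A₇` -/
def ka_f : A7 := ⟨swap 0 1 * swap 1 2 * swap 2 3 * swap 3 4 * swap 4 5 * swap 5 6, by simp [mem_alternatingGroup]⟩

/-- an element of `A₇` -/
def ka_x : A7 := ⟨swap 1 2 * swap 2 4, by simp [mem_alternatingGroup]⟩

/-- an element of `A₇` -/
def ka_x' : A7 := ⟨swap 3 6 * swap 6 5, by simp [mem_alternatingGroup]⟩

/-- an element of `A₇` -/
def ka_t : A7 := ⟨swap 0 3 * swap 5 6, by simp [mem_alternatingGroup]⟩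

/-- an element of `A₇` -/
def ka_g : A7 := ⟨swap 0 5 * swap 5 6 * swap 6 3 * swap 3 1, by simp [mem_alternatingGroup]⟩

/-- an element of `A₇` -/
def ka_t' : A7 := ⟨swap 0 4 * swap 1 2, by simp [mem_alternatingGroup]⟩

/-- an element of `A₇` -/
def ka_g' : A7 := ⟨swap 0 1 * swap 1 2 * swap 2 4 * swap 4 3, by simp [mem_alternatingGroup]⟩

/-- an element of `A₇` -/
def ka_c : A7 := ⟨swap 1 3 * swap 2 5 * swap 5 4 * swap 4 6, by simp [mem_alternatingGroup]⟩

theorem Mod.kA7 [DistribMulAction A7 A] (h : Mod A7 A) : Subsingleton A := by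
  have o3 : ∀ x : A7, x ^ 3 = 1 → x ≠ 1 → orderOf x = 3 := fun x => ka_ord Nat.prime_three
  have o5 : ∀ x : A7, x ^ 5 = 1 → x ≠ 1 → orderOf x = 5 ∨ orderOf x = 7 := fun x h1 h2 =>
    .inl (ka_ord Nat.prime_five h1 h2)
  have f1 := h.free3 (x := ka_x) (t := ka_t) (f := ka_g) (o3 _ (by decide +kernel) (by decide +kernel))
    (by decide +kernel) (by decide +kernel) (o5 _ (by decide +kernel) (by decide +kernel))
    (by decide +kernel)
  have f2 := h.free3 (x := ka_x') (t := ka_t') (f := ka_g')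
    (o3 _ (by decide +kernel) (by decide +kernel))
    (by decide +kernel) (by decide +kernel) (o5 _ (by decide +kernel) (by decide +kernel))
    (by decide +kernel)
  have hB := mdB (A := A) h.two (y := ka_x * ka_x') (f := ka_f) (by decide +kernel) (by decide +kernel)
    (by decide +kernel)
    (h.fpf _ (.inr (ka_ord (by norm_num) (by decide +kernel) (by decide +kernel))))
  have hc : nfix A (ka_x * ka_x'⁻¹) = nfix A (ka_x * ka_x') := by
    rw [← md_conj ka_c (ka_x * ka_x'),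
      show ka_c * (ka_x * ka_x') * ka_c⁻¹ = ka_x * ka_x'⁻¹ by decide +kernel]
  have hs : Function.Surjective
      fun p : {a : A // (ka_x * ka_x') • a = a} × {a : A // (ka_x * ka_x'⁻¹) • a = a} =>
        (p.1 : A) + p.2 := by
    intro a
    obtain ⟨b, c, d, e, h1, h2, h3, h4, rfl⟩ := sum9 h.two (x := ka_x) (y := ka_x')
      (by decide +kernel) (by decide +kernel) (by decide +kernel) a
    exact ⟨(⟨d, h3⟩, ⟨e, h4⟩), by simp [f1 b h1, f2 c h2]⟩
  have hle := Nat.card_le_card_of_surjective _ hs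
  rw [Nat.card_prod] at hle
  change Nat.card A ≤ nfix A (ka_x * ka_x') * nfix A (ka_x * ka_x'⁻¹) at hle
  rw [hc, ← hB] at hle
  have hn : nfix A (ka_x * ka_x') ≤ 1 := by
    by_contra hn
    push Not at hn
    nlinarith [Nat.mul_pos (Nat.zero_lt_of_lt hn) (Nat.zero_lt_of_lt hn)]
  rw [← Finite.card_le_one_iff_subsingleton, ← hB]
  exact pow_le_one₀ (Nat.zero_le _) hn

theorem Mod.kS6 [DistribMulAction (Equiv.Perm (Fin 6)) A] (h : Mod (Equiv.Perm (Fin 6)) A) :
    Subsingleton A := by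
  have o3 : ∀ x : Perm (Fin 6), x ^ 3 = 1 → x ≠ 1 → orderOf x = 3 := fun x => ka_ord Nat.prime_three
  obtain ⟨x, hx⟩ : ∃ x : Perm (Fin 6), x = swap 0 1 * swap 1 2 := ⟨_, rfl⟩
  obtain ⟨y, hy⟩ : ∃ y : Perm (Fin 6), y = swap 3 4 * swap 4 5 := ⟨_, rfl⟩
  have f1 := h.ylem (y := y) (d := x) (t := swap 0 1) (o3 _ (by subst hy; decide +kernel) (by subst hy; decide +kernel))
    (by subst hx; decide +kernel) (by subst hx hy; decide +kernel) (by decide +kernel)
    (by subst hy; decide +kernel) (by subst hx; decide +kernel)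
  have f2 := h.ylem (y := x * y) (d := x * y⁻¹) (t := swap 0 3 * swap 1 4 * swap 2 5)
    (o3 _ (by subst hx hy; decide +kernel) (by subst hx hy; decide +kernel))
    (by subst hx hy; decide +kernel) (by subst hx hy; decide +kernel) (by decide +kernel)
    (by subst hx hy; decide +kernel) (by subst hx hy; decide +kernel)
  have f3 := h.ylem (y := x * y⁻¹) (d := x * y) (t := swap 0 3 * swap 1 5 * swap 2 4)
    (o3 _ (by subst hx hy; decide +kernel) (by subst hx hy; decide +kernel))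
    (by subst hx hy; decide +kernel) (by subst hx hy; decide +kernel) (by decide +kernel)
    (by subst hx hy; decide +kernel) (by subst hx hy; decide +kernel)
  have f4 : ∀ a : A, (x * y) • a = a → (x * y⁻¹) • a = a → x • a = a := fun a h1 h2 => by
    rw [show x = x * y * (x * y⁻¹) * (x * y * (x * y⁻¹)) by subst hx hy; decide +kernel]
    simp only [mul_smul (x * y * (x * y⁻¹)), mul_smul (x * y), h1, h2]
  have f5 : ∀ a : A, x • a = a := fun a => by
    obtain ⟨b, c, d, e, h1, h2, h3, h4, rfl⟩ := sum9 h.two (x := x) (y := y)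
      (by subst hx; decide +kernel) (by subst hy; decide +kernel) (by subst hx hy; decide +kernel) a
    rw [smul_add, smul_add, smul_add, h1, f1 c h2, f4 d h3 (f2 d h3), f4 e (f3 e h4) h4]
  obtain ⟨g, hg⟩ : ∃ g : Perm (Fin 6), g = swap 1 3 * swap 2 4 := ⟨_, rfl⟩
  refine subsingleton_of_forall_eq 0 fun a => h.fpf (x * (g * x * g⁻¹))
    (.inl (ka_ord Nat.prime_five (by subst hx hg; decide +kernel) (by subst hx hg; decide +kernel))) a ?_
  rw [mul_smul, f5, mul_smul, mul_smul, f5, smul_inv_smul]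

/-- a three-cycle -/
def ka_x5 : S5 := swap 0 1 * swap 1 2

/-- a transposition -/
def ka_t5 : S5 := swap 3 4

theorem Mod.ka_s5 [DistribMulAction S5 A] (h : Mod S5 A) (a : A) (ha : ka_x5 • a = a) : a = 0 := by
  have cx := h.cx ka_x5 ka_t5 (ka_ord Nat.prime_three (by decide +kernel) (by decide +kernel))
    (by decide +kernel) (by decide +kernel)
  have ht := cx a ha
  have key : ∀ g r : S5, g ∈ [r, r * ka_x5, r * ka_x5 * ka_x5, r * ka_t5, r * ka_x5 * ka_t5,
      r * ka_x5 * ka_x5 * ka_t5] → g • a = r • a := by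
    intro g r hg
    simp only [List.mem_cons, List.not_mem_nil, or_false] at hg
    rcases hg with rfl | rfl | rfl | rfl | rfl | rfl <;> simp only [mul_smul, ha, ht]
  have five : ∀ f : S5, f ^ 5 = 1 → f ≠ 1 →
      a + f ^ 1 • a + f ^ 2 • a + f ^ 3 • a + f ^ 4 • a = 0 := fun f h1 h2 => by
    refine h.fpf f (.inl (ka_ord Nat.prime_five h1 h2)) _ ?_
    simp only [smul_add, ← mul_smul, ← pow_succ', Nat.reduceAdd, h1, one_smul]
    rw [pow_one]
    abel
  have three : ∀ m : S5, (ka_t5 * m) • a + (ka_t5 * (ka_x5 * m)) • a + (ka_t5 * (ka_x5 * ka_x5 * m)) • a =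
      m • a + (ka_x5 * m) • a + (ka_x5 * ka_x5 * m) • a := fun m => by
    have := cx (m • a + (ka_x5 * m) • a + (ka_x5 * ka_x5 * m) • a) (by
      have e : ka_x5 * (ka_x5 * ka_x5 * m) = m := by
        rw [← mul_assoc, show ka_x5 * (ka_x5 * ka_x5) = 1 by decide +kernel, one_mul]
      simp only [smul_add, ← mul_smul, e, ← mul_assoc ka_x5 ka_x5 m]
      abel)
    simpa only [smul_add, ← mul_smul] using this
  have e0 := five (swap 0 2 * swap 2 4 * swap 4 3 * swap 3 1) (by decide +kernel) (by decide +kernel)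
  rw [key ((swap 0 2 * swap 2 4 * swap 4 3 * swap 3 1) ^ 1) (swap 1 4 * swap 4 3) (by decide +kernel),
    key ((swap 0 2 * swap 2 4 * swap 4 3 * swap 3 1) ^ 2) (swap 0 2 * swap 2 4 * swap 4 1 * swap 1 3) (by decide +kernel),
    key ((swap 0 2 * swap 2 4 * swap 4 3 * swap 3 1) ^ 3) (swap 0 1 * swap 1 3 * swap 2 4) (by decide +kernel),
    key ((swap 0 2 * swap 2 4 * swap 4 3 * swap 3 1) ^ 4) (swap 2 3) (by decide +kernel)] at e0
  have e1 := five (swap 0 1 * swap 1 2 * swap 2 3 * swap 3 4) (by decide +kernel) (by decide +kernel)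
  rw [key ((swap 0 1 * swap 1 2 * swap 2 3 * swap 3 4) ^ 1) (swap 0 1 * swap 1 2 * swap 2 3) (by decide +kernel),
    key ((swap 0 1 * swap 1 2 * swap 2 3 * swap 3 4) ^ 2) (swap 0 2 * swap 2 4 * swap 4 1 * swap 1 3) (by decide +kernel),
    key ((swap 0 1 * swap 1 2 * swap 2 3 * swap 3 4) ^ 3) (swap 1 3 * swap 2 4) (by decide +kernel),
    key ((swap 0 1 * swap 1 2 * swap 2 3 * swap 3 4) ^ 4) (swap 2 4 * swap 4 3) (by decide +kernel)] at e1
  have e2 := five (swap 0 3 * swap 3 4 * swap 4 1 * swap 1 2) (by decide +kernel) (by decide +kernel)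
  rw [key ((swap 0 3 * swap 3 4 * swap 4 1 * swap 1 2) ^ 1) (swap 1 3) (by decide +kernel),
    key ((swap 0 3 * swap 3 4 * swap 4 1 * swap 1 2) ^ 2) (swap 1 3 * swap 2 4) (by decide +kernel),
    key ((swap 0 3 * swap 3 4 * swap 4 1 * swap 1 2) ^ 3) (swap 0 1 * swap 1 3 * swap 2 4) (by decide +kernel),
    key ((swap 0 3 * swap 3 4 * swap 4 1 * swap 1 2) ^ 4) (swap 0 1 * swap 1 2 * swap 2 4 * swap 4 3) (by decide +kernel)] at e2
  have e3 := three (swap 2 3)
  rw [key (ka_t5 * (swap 2 3)) (swap 2 4 * swap 4 3) (by decide +kernel),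
    key (ka_t5 * (ka_x5 * (swap 2 3))) (swap 0 1 * swap 1 2 * swap 2 4 * swap 4 3) (by decide +kernel),
    key (ka_t5 * (ka_x5 * ka_x5 * (swap 2 3))) (swap 1 4 * swap 4 3) (by decide +kernel),
    key (ka_x5 * ka_x5 * (swap 2 3)) (swap 1 3) (by decide +kernel),
    key (ka_x5 * (swap 2 3)) (swap 0 1 * swap 1 2 * swap 2 3) (by decide +kernel)] at e3
  linear_combination (norm := abel) e0 + e1 + e2 + e3
    - h.two (a)
    - h.two ((swap 1 4 * swap 4 3 : S5) • a)
    - h.two ((swap 0 2 * swap 2 4 * swap 4 1 * swap 1 3 : S5) • a)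
    - h.two ((swap 0 1 * swap 1 3 * swap 2 4 : S5) • a)
    - h.two ((swap 1 3 * swap 2 4 : S5) • a)
    - h.two ((swap 2 4 * swap 4 3 : S5) • a)
    - h.two ((swap 0 1 * swap 1 2 * swap 2 4 * swap 4 3 : S5) • a)

theorem Mod.s5 [DistribMulAction S5 A] (h : Mod S5 A) {x : S5} (x3 : orderOf x = 3) :
    ∀ a : A, x • a = a → a = 0 := by
  intro a ha
  have : ∀ x : Perm (Fin 5), x ^ 3 = 1 → x ≠ 1 → ∃ g : Perm (Fin 5), g⁻¹ * x * g = ka_x5 := by
    decide +kernel
  obtain ⟨g, hg⟩ := this x (x3 ▸ pow_orderOf_eq_one x) (fun e => by simp [e] at x3)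
  have := h.ka_s5 (g⁻¹ • a) (by rw [← hg, mul_smul, smul_inv_smul, mul_smul, ha])
  rw [← smul_inv_smul g a, this, smul_zero]


end CfsgLib.O8
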