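import Mathlib
import Cfsg.Agent.Lib.O8.KA7

/-! `A₆.2` has no module. -/

set_option autoImplicit false
set_option linter.unusedSectionVars false

namespace CfsgLib.O8

open Cfsg Subgroup CfsgLib.LAE CfsgLib.PLocal CfsgLib.ZJ CfsgLib.Blocks
open scoped CfsgLib.BG MatrixGroups commutatorElement

universe u

variable {L A : Type*} [Group L] [Finite L] [AddCommGroup A] [Finite A] [DistribMulAction L A]

open Equiv Equiv.Perm CfsgLib.Ord6 in
theorem k6_sw (τ : MulAut A6) :
    (∀ c : A6, (c : Perm (Fin 6)).IsThreeCycle → (τ c : Perm (Fin 6)).IsThreeCycle) ∨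
      ∃ n : A6, Sw (MulAut.conj n * τ) := by
  have o2 : ∀ y : A6, y * y = 1 → y ≠ 1 → orderOf y = 2 := fun y h1 h2 =>
    orderOf_eq_prime (by rwa [pow_two]) h2
  obtain ⟨n, hn⟩ := isConj_iff.1 (conj_z6 ((τ.orderOf_eq z6).trans (o2 z6 z6_sq (by decide +kernel))))
  obtain ⟨σ, hσ⟩ : ∃ σ, σ = MulAut.conj n * τ := ⟨_, rfl⟩
  have hz : σ z6 = z6 := by rw [hσ]; exact hn
  by_contra hcon
  rw [not_or] at hcon
  refine hcon.1 fun c hc => ?_
  suffices hh : (σ c : Perm (Fin 6)).IsThreeCycle by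
    rw [hσ] at hh
    exact (cycleType_conj (σ := (τ c : Perm (Fin 6))) (τ := n)).symm.trans hh
  have key : ∀ y : A6, y * z6 = z6 * y → y * y = 1 → y ≠ 1 → y ≠ z6 →
      σ y = a6 ∨ σ y = a6 * z6 ∨ σ y = b6 ∨ σ y = b6 * z6 := fun y h1 h2 h3 h4 =>
    cent_z6 _ (by rw [← hz, ← map_mul, ← map_mul, h1]) (by rw [← map_mul, h2, map_one])
      (by simpa using h3) (by rw [← hz]; exact σ.injective.ne h4)
  by_cases ha : σ a6 = a6 ∨ σ a6 = a6 * z6
  · have e : c6 * z6 * c6⁻¹ = a6 * z6 := by decide +kernel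
    have e' : σ c6 * z6 * (σ c6)⁻¹ = σ a6 * z6 := by
      rw [← hz, ← map_inv, ← map_mul, ← map_mul, e, map_mul]
    have c3 : c6 ^ 3 = 1 := by decide +kernel
    have c1 : c6 ≠ 1 := by decide +kernel
    have := Fact.mk Nat.prime_three
    refine AltAut.isThreeCycle_map_six σ (y := c6) (orderOf_eq_prime c3 c1) ?_ c hc
    rw [norm_K1 _ (by rw [← map_pow, c3, map_one]) (by simpa using c1)
      (by rcases ha with ha | ha <;> rw [e', ha] <;> decide +kernel)
      (by rcases ha with ha | ha <;> rw [e', ha] <;> decide +kernel),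
      norm_K1 c6 c3 c1 (by decide +kernel) (by decide +kernel)]
  exfalso
  have ha' : σ a6 = b6 ∨ σ a6 = b6 * z6 := by
    have := key a6 (by decide +kernel) (by decide +kernel) (by decide +kernel) (by decide +kernel)
    tauto
  have hs : Sw σ := ⟨hz, ha', by
    have h1 : σ b6 ≠ σ a6 := σ.injective.ne (by decide +kernel)
    have h2 : σ b6 ≠ σ a6 * z6 := by
      rw [← hz, ← map_mul]; exact σ.injective.ne (by decide +kernel)
    rcases key b6 (by decide +kernel) (by decide +kernel) (by decide +kernel) (by decide +kernel)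
      with e | e | e | e
    · exact Or.inl e
    · exact Or.inr e
    · rcases ha' with e' | e'
      · exact absurd (e.trans e'.symm) h1
      · exact absurd (by rw [e, e', mul_assoc, z6_sq, mul_one]) h2
    · rcases ha' with e' | e'
      · exact absurd (by rw [e, e']) h2
      · exact absurd (e.trans e'.symm) h1⟩
  exact hcon.2 ⟨n, hσ ▸ hs⟩

open Equiv Equiv.Perm CfsgLib.Ord6 in
theorem k6_inv {u : A6} (hu : orderOf u = 2) : ∃ f : A6, orderOf f = 5 ∧ u * f * u⁻¹ = f⁻¹ := by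
  obtain ⟨n, hn⟩ := isConj_iff.1 (conj_z6 hu).symm
  let f : A6 := ⟨swap 4 0 * swap 0 2 * swap 2 3 * swap 3 1, mem_alternatingGroup.2 (by decide)⟩
  have e : z6 * f * z6⁻¹ = f⁻¹ := by decide +kernel
  refine ⟨n * f * n⁻¹, ?_, ?_⟩
  · rw [← MulAut.conj_apply, MulEquiv.orderOf_eq]
    exact ka_ord Nat.prime_five (by decide +kernel) (by decide +kernel)
  · rw [← hn, show n * z6 * n⁻¹ * (n * f * n⁻¹) * (n * z6 * n⁻¹)⁻¹ = n * (z6 * f * z6⁻¹) * n⁻¹ by group, e]
    group

theorem Mod.k6_end (h : Mod L A) {N : Subgroup L} (e : N ≃* A6) {g : L} (g8 : g ^ 8 = 1)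
    (g4 : g ^ 4 ≠ 1) (gN : g ^ 4 ∈ N) : Subsingleton A := by
  have o8 : orderOf g = 8 := by
    have := Fact.mk Nat.prime_two
    exact orderOf_eq_prime_pow (p := 2) (n := 2) g4 g8
  obtain ⟨f, f5, hf⟩ := k6_inv (u := e ⟨g ^ 4, gN⟩) (ka_ord Nat.prime_two
    (by rw [← map_pow, ← map_one e]; congr 1; exact Subtype.ext (by simpa [← pow_mul] using g8))
    (fun h1 => g4 (congrArg Subtype.val (e.map_eq_one_iff.1 h1))))
  refine h.mdC (f := e.symm f) o8 (.inl (by rw [orderOf_coe, MulEquiv.orderOf_eq, f5])) ?_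
  have := congrArg (fun x => (e.symm x : L)) hf
  simpa using this

open Equiv Equiv.Perm CfsgLib.Ord6 in
theorem Mod.k6 (h : Mod L A) {N : Subgroup L} [N.Normal] (e : N ≃* A6) (i2 : N.index = 2)
    (hC : 𝒞(N) = ⊥) : Subsingleton A := by
  have hin : ∀ a : A6, AltAut.indAut e (e.symm a) = MulAut.conj a := fun a => by
    rw [AltAut.indAut_coe, MulEquiv.apply_symm_apply]; exact MulAut.conjNormal_val
  by_cases h3 : ∀ g : L, ∀ c : A6, (c : Perm (Fin 6)).IsThreeCycle →
      (AltAut.indAut e g c : Perm (Fin 6)).IsThreeCycle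
  · obtain ⟨f, h1, h2, -⟩ := AltAut.exists_hom_perm (by simp) e hC h3
    obtain ⟨⟨e'⟩⟩ | ⟨⟨e'⟩⟩ := of_hom e f h1 h2
    · have c1 := N.card_mul_index
      rw [i2, Nat.card_congr e.toEquiv, Nat.card_congr e'.toEquiv] at c1
      have := Nat.card_pos (α := A6)
      exact absurd c1 (by change ¬ Nat.card A6 * 2 = Nat.card A6; omega)
    · letI := DistribMulAction.compHom A e'.symm.toMonoidHom
      exact (h.comp e'.symm.toMonoidHom e'.symm.injective).kS6
  push Not at h3
  obtain ⟨g, c, hc, hg⟩ := h3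
  obtain ⟨n, hs⟩ := (k6_sw (AltAut.indAut e g)).resolve_left fun h' => hg (h' c hc)
  rw [← hin, ← map_mul] at hs
  generalize (e.symm n : L) * g = g0 at hs
  have hs' := hs.pow 52
  rw [← map_pow] at hs'
  have g8 : (g0 ^ (2 * 52 + 1)) ^ 8 = 1 := by
    rw [← pow_mul, ← orderOf_dvd_iff_pow_eq_one]
    have h1 := h.cl g0
    have h2 := orderOf_pos g0
    generalize orderOf g0 = k at h1 h2
    interval_cases k <;> norm_num
  generalize g0 ^ (2 * 52 + 1) = g1 at hs' g8
  by_cases g4 : g1 ^ 4 = 1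
  · have h1 := hs'.order (by rw [← map_pow, g4, map_one])
    rw [← hin, ← hin, ← map_mul, ← map_pow] at h1
    have h2 := AltAut.indAut_injective e hC h1
    refine h.k6_end e (g := g1 * e.symm a6) ?_ ?_ (h2 ▸ (e.symm z6).2)
    · rw [show 8 = 4 * 2 from rfl, pow_mul, h2, pow_two, ← Subgroup.coe_mul, ← map_mul, z6_sq,
        map_one, Subgroup.coe_one]
    · rw [h2]
      exact fun h3 => absurd (e.symm.map_eq_one_iff.1 (Subtype.ext h3)) (by decide +kernel)
  · refine h.k6_end e g8 g4 ?_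
    rw [show 4 = 2 * 2 from rfl, pow_mul]
    exact pow_mem (sq_mem_of_index_two i2 g1) 2


end CfsgLib.O8
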