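import Mathlib
import Cfsg.Agent.Lib.O8.Md
import Cfsg.Agent.Lib.O8.Smf

/-! `L₃(2).2` has no module. -/

set_option autoImplicit false
set_option linter.unusedSectionVars false

namespace CfsgLib.O8

open Cfsg Subgroup CfsgLib.LAE CfsgLib.PLocal CfsgLib.ZJ CfsgLib.Blocks
open scoped CfsgLib.BG MatrixGroups commutatorElement

universe u

variable {L A : Type*} [Group L] [Finite L] [AddCommGroup A] [Finite A] [DistribMulAction L A]

theorem k7_ex : ∃ f y : L32, f ≠ 1 ∧ f ^ 7 = 1 ∧ y * f * y⁻¹ = f ^ 2 := by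
  let f : L32 := ⟨!![0, 0, 1; 1, 0, 1; 0, 1, 0], by decide⟩
  let y : L32 := ⟨!![1, 0, 0; 0, 0, 1; 0, 1, 1], by decide⟩
  refine ⟨f, y, fun e => absurd (congrArg Subtype.val e) (by decide), Subtype.ext (by decide),
    mul_inv_eq_iff_eq_mul.2 (Subtype.ext (by decide))⟩

theorem k7_pow {g f : L} {k : ℕ} (e : g * f * g⁻¹ = f ^ k) (n : ℕ) : g ^ n * f * (g ^ n)⁻¹ = f ^ k ^ n := by
  induction n with
  | zero => simp
  | succ n ih =>
    calc _ = g * (g ^ n * f * (g ^ n)⁻¹) * g⁻¹ := by rw [pow_succ']; group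
      _ = _ := by rw [ih, ← conj_pow, e, ← pow_mul, pow_succ']

theorem Mod.k7 (h : Mod L A) {N : Subgroup L} [N.Normal] (e : N ≃* L32) (i2 : N.index = 2) :
    Subsingleton A := by
  have : Fact (Nat.Prime 7) := ⟨by norm_num⟩
  have : Fact (Nat.Prime 3) := ⟨by norm_num⟩
  obtain ⟨f0, y0, h1, h2, h3⟩ := k7_ex
  obtain ⟨f, fN, f1, f7, y, yN, yf⟩ : ∃ f ∈ N, f ≠ 1 ∧ f ^ 7 = 1 ∧ ∃ y ∈ N, y * f * y⁻¹ = f ^ 2 := by
    refine ⟨e.symm f0, (e.symm f0).2, fun k => h1 (e.symm.injective (Subtype.ext (by simpa using k))), ?_,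
      e.symm y0, (e.symm y0).2, ?_⟩
    · rw [← coe_pow, ← map_pow, h2, map_one, coe_one]
    · rw [← coe_pow, ← map_pow, ← h3, map_mul, map_mul, map_inv]
      rfl
  have o7 : orderOf f = 7 := orderOf_eq_prime f7 f1
  have cN : Nat.card N = 168 := (Nat.card_congr e.toEquiv).trans card_L32
  have hP : IsSylowIn 7 (zpowers f) N := isSylowIn_of_not_dvd_relIndex (zpowers_le.2 fN)
    (IsPGroup.of_card (n := 1) (by rw [Nat.card_zpowers, o7, pow_one])) (by
      have := ((zpowers f).subgroupOf N).index_mul_card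
      rw [Nat.card_congr (subgroupOfEquivOfLe (zpowers_le.2 fN)).toEquiv, Nat.card_zpowers, o7, cN] at this
      unfold relIndex
      omega)
  obtain ⟨x, hx⟩ : ∃ x, x ∉ N := by
    by_contra! k
    rw [(eq_top_iff' N).2 k, index_top] at i2
    omega
  obtain ⟨n, hn, g, hg, rfl⟩ := hP.frattini (x := x) (by rw [normalizer_eq_top]; trivial)
  have gN : g ∉ N := fun k => hx (mul_mem hn k)
  obtain ⟨k, hk⟩ := (mem_powers_iff_mem_zpowers.2 (LAE.conj_mem_of_mem_normalizer hg (mem_zpowers f)))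
  have hk : g * f * g⁻¹ = f ^ k := hk.symm
  have md : ∀ a b : ℕ, a % 7 = b % 7 → f ^ a = f ^ b := fun a b k => by
    rw [pow_eq_pow_iff_modEq, o7]; exact k
  have hj : ∀ j : ℕ, g * y ^ j * f * (g * y ^ j)⁻¹ = f ^ (k * 2 ^ j) := fun j => by
    calc _ = g * (y ^ j * f * (y ^ j)⁻¹) * g⁻¹ := by group
      _ = _ := by rw [k7_pow yf, ← conj_pow, hk, ← pow_mul]
  have k0 : k % 7 ≠ 0 := fun k0 => f1 (by
    have := md k 0 k0
    rw [← hk, pow_zero, conj_eq_one_iff] at this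
    exact this)
  obtain ⟨u, uN, hu⟩ : ∃ u, u ∉ N ∧ (u * f * u⁻¹ = f ^ 1 ∨ u * f * u⁻¹ = f ^ 3) := by
    obtain ⟨j, hj'⟩ : ∃ j : ℕ, (k * 2 ^ j) % 7 = 1 ∨ (k * 2 ^ j) % 7 = 3 := by
      by_contra! c
      have c0 := c 0
      have c1 := c 1
      have c2 := c 2
      rw [Nat.mul_mod] at c0 c1 c2
      have c3 := Nat.mod_lt k (show 0 < 7 by norm_num)
      generalize k % 7 = r at *
      interval_cases r <;> simp at c0 c1 c2 k0
    exact ⟨g * y ^ j, fun c => gN ((mul_mem_cancel_right (pow_mem yN j)).1 c),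
      hj'.imp (fun c => (hj j).trans (md _ _ c)) fun c => (hj j).trans (md _ _ c)⟩
  rcases hu with hu | hu
  · have u7 := h.cl.big (p := 7) (x := f) (y := u) (.inr rfl) (by rw [o7])
      (by rw [pow_one, mul_inv_eq_iff_eq_mul] at hu; exact hu.symm)
    refine absurd ?_ uN
    have := pow_mem (sq_mem_of_index_two i2 u) 4
    rwa [← pow_mul, show 2 * 4 = 7 + 1 from rfl, pow_succ, u7, one_mul] at this
  have o6 : orderOf u = 6 := by
    have c1 := k7_pow hu (orderOf u)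
    rw [pow_orderOf_eq_one, one_mul, inv_one, mul_one] at c1
    nth_rewrite 1 [← pow_one f] at c1
    rw [pow_eq_pow_iff_modEq, o7] at c1
    have c2 := h.cl u
    have c3 := orderOf_pos u
    generalize orderOf u = n at *
    interval_cases n <;> first | rfl | exact absurd c1 (by decide)
  have u6 : u ^ 6 = 1 := o6 ▸ pow_orderOf_eq_one u
  have fr := h.free3 (x := u ^ 2) (t := u ^ 3) (f := f) (by rw [orderOf_pow, o6]; rfl)
    (by rw [← pow_add, u6]) (by rw [← pow_add, ← pow_add]) (.inr o7)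
    (by rw [k7_pow hu, eq_inv_iff_mul_eq_one, ← pow_succ, md (3 ^ 3 + 1) 0 rfl, pow_zero])
  have hB := mdB (A := A) h.two (y := u ^ 2) (f := f) (by rw [← pow_mul, u6]) f7
    (by rw [k7_pow hu, md (3 ^ 2) 2 rfl]) (h.fpf f (.inr o7))
  have c1 : nfix A (u ^ 2) = 1 := Nat.card_eq_one_iff_exists.2
    ⟨⟨0, smul_zero _⟩, fun a => Subtype.ext (fr _ a.2)⟩
  rw [c1, one_pow] at hB
  exact (Nat.card_eq_one_iff_unique.1 hB.symm).1


end CfsgLib.O8
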