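import Mathlib
import Cfsg.Agent.Lib.O8.Idx

/-! The rough structure theorem. -/

set_option autoImplicit false
set_option linter.unusedSectionVars false

namespace CfsgLib.O8

open Cfsg Subgroup CfsgLib.LAE CfsgLib.PLocal CfsgLib.ZJ CfsgLib.Blocks
open scoped CfsgLib.BG MatrixGroups commutatorElement

universe u

variable {G : Type u} [Group G] [Finite G]

/-- every non-trivial normal subgroup has order divisible by five or seven -/
def P57 (L : Type*) [Group L] : Prop :=
  ∀ N : Subgroup L, N.Normal → N ≠ ⊥ → ∃ r, (r = 5 ∨ r = 7) ∧ r ∣ Nat.card N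

theorem AS.p57 {H : Type*} [Group H] [Finite H] (a : AS H) : P57 H := fun M hM M1 => by
  obtain ⟨N, hN, s, -, c⟩ := a
  have := s.simple
  have h1 : N ≤ M := by
    rcases (Normal.subgroupOf hM N).eq_bot_or_eq_top with e | e
    · refine absurd (eq_bot_iff.2 fun x hx => c ▸ fun y hy => ?_) M1
      exact (commute_of_normal_of_disjoint M N hM hN (subgroupOf_eq_bot.1 e) x y hx hy).eq.symm
    · exact subgroupOf_eq_top.1 e
  have h2 := card_dvd_of_le h1
  rcases s.card with e | e | e | e | e <;> rw [e] at h2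
  · exact ⟨5, .inl rfl, dvd_trans (by norm_num) h2⟩
  · exact ⟨7, .inr rfl, dvd_trans (by norm_num) h2⟩
  all_goals exact ⟨5, .inl rfl, dvd_trans (by norm_num) h2⟩

theorem AS.fr {H : Type*} [Group H] [Finite H] (a : AS H) : Ord6.Fr H 2 2 := by
  obtain ⟨N, -, s, -⟩ := a
  exact s.fr.map _ N.subtype_injective

theorem prime57 {r : ℕ} (hr : r = 5 ∨ r = 7) : r.Prime := by rcases hr with rfl | rfl <;> norm_num

theorem Cl.no_ext {G : Type*} [Group G] [Finite G] (h : Cl G) {L : Type*} [Group L] (π : G →* L)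
    (hπ : Function.Surjective π) {V : Subgroup G} [hN : V.Normal] {p : ℕ} (hp : p.Prime)
    (hV : IsElementaryAbelian p V) (V1 : V ≠ ⊥) (hk : ∀ g, π g = 1 → ∀ v ∈ V, g * v = v * g)
    (hk' : ∀ v ∈ V, π v = 1) (fr : Ord6.Fr L 2 2) (h5 : P57 L) (p2 : p ≠ 2) : False := by
  have := Fact.mk hp
  have := Fact.mk Nat.prime_two
  have p3 := hp.two_le
  have : Finite L := Finite.of_surjective π hπ
  obtain ⟨F, s, f1, f2, f3, f4, f5⟩ := fr
  obtain ⟨s, rfl, hs⟩ := h.lift π hπ (.inl rfl) (f3 ▸ pow_orderOf_eq_one s)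
  obtain ⟨k, hk2⟩ := IsPGroup.iff_card.1 (Core.isPGroup_of_forall_pow_eq_one f4)
  have key := fun g hg v hv => h.maz1 π hπ hp hV hk hk' F s 2 f1 f2
    (hk2 ▸ ((Nat.coprime_primes Nat.prime_two hp).2 p2.symm).pow_left k) f3 (hs ▸ one_mem V) (by omega)
    (g := g) hg (v := v) hv
  obtain ⟨v, hv, v1⟩ := (V.bot_or_exists_ne_one).resolve_left V1
  obtain ⟨f, hf, e1⟩ := (F.bot_or_exists_ne_one).resolve_left f5
  obtain ⟨f, rfl⟩ := hπ f
  have ov : orderOf v = p := orderOf_eq_prime (hV.2 v hv) v1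
  obtain ⟨r, hr, hC⟩ := h5 ((centralizer (V : Set G)).map π) (Normal.map inferInstance π hπ)
    fun e => e1 (mem_bot.1 (e ▸ mem_map_of_mem π fun w hw => (key f hf w hw).symm))
  obtain ⟨x, hx, ox⟩ := Core.exists_mem_orderOf_eq_of_dvd_card (prime57 hr) (hC.trans (card_map_dvd _ π))
  have h1 := orderOf_dvd_of_pow_eq_one (h.big hr ox.symm.dvd (hx v hv).symm)
  rw [ov, Nat.prime_dvd_prime_iff_eq hp (prime57 hr)] at h1
  subst h1
  have h2 := orderOf_dvd_of_pow_eq_one (h.big hr ov.symm.dvd (key f hf v hv).symm)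
  have h3 := (orderOf_map_dvd π f).trans h2
  rw [orderOf_eq_prime (f4 _ hf) e1, Nat.prime_dvd_prime_iff_eq Nat.prime_two hp] at h3
  exact p2 h3.symm

theorem Cl.no_odd {G : Type*} [Group G] [Finite G] (h : Cl G) {L : Type*} [Group L] {V : Subgroup G}
    [hN : V.Normal] (π : G ⧸ V →* L) (hπ : Function.Surjective π) {p : ℕ} (hp : p.Prime)
    (hV : IsElementaryAbelian p V) (V1 : V ≠ ⊥) (hQ : IsPGroup 2 π.ker) (fr : Ord6.Fr L 2 2) (h5 : P57 L)
    (p2 : p ≠ 2) : False := by
  have : Finite L := Finite.of_surjective π hπ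
  have := Fact.mk Nat.prime_two
  have p3 := hp.two_le
  have hρ := QuotientGroup.mk'_surjective V
  have hV1 : ∀ v ∈ V, QuotientGroup.mk' V v = 1 := fun v hv => (QuotientGroup.eq_one_iff v).2 hv
  refine h.no_ext (π.comp (QuotientGroup.mk' V)) (hπ.comp hρ) hp hV V1 (fun g hg v hv => ?_)
    (fun v hv => by rw [MonoidHom.comp_apply, hV1 v hv, map_one]) fr h5 p2
  obtain ⟨F, -, -, -, -, -, f5⟩ := fr
  obtain ⟨r, hr, d5⟩ := h5 ⊤ inferInstance fun e => f5 (eq_bot_iff.2 (e ▸ le_top))
  have := Fact.mk (prime57 hr)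
  rw [card_top] at d5
  obtain ⟨s, o5⟩ := exists_prime_orderOf_dvd_card' r (d5.trans (card_dvd_of_surjective π hπ))
  obtain ⟨s, rfl, hs⟩ := h.lift _ hρ (.inr hr) (o5 ▸ pow_orderOf_eq_one s)
  obtain ⟨k, hk2⟩ := IsPGroup.iff_card.1 hQ
  obtain ⟨m, rfl⟩ : ∃ m, r = m + 1 := ⟨r - 1, by omega⟩
  refine h.maz1 _ hρ hp hV (fun g hg v hv => have := hV.1
    setLike_mul_comm ((QuotientGroup.eq_one_iff g).1 hg) hv) hV1 π.ker s m
    (fun f hf => π.normal_ker.conj_mem f hf _) (fun i hi f hf e => ?_)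
    (hk2 ▸ ((Nat.coprime_primes Nat.prime_two hp).2 p2.symm).pow_left k) o5 (hs ▸ one_mem V)
    (by rcases hr with e | e <;> rw [e] <;> omega) hg hv
  refine (h.of_surj _ hρ).fpf' hQ ?_ f hf e.symm
  rwa [Nat.Coprime.orderOf_pow, o5]
  rw [o5]
  exact Nat.coprime_of_lt_prime (by omega) (by omega) (prime57 hr)

theorem st0_aux (n : ℕ) : ∀ (G : Type u) [Group G] [Finite G], Nat.card G ≤ n → Cl G →
    Kn.{u} (Nat.card G) → ST0 G := by
  induction n with
  | zero => intro A _ _ e; exact absurd e (not_le.2 Nat.card_pos)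
  | succ n ih =>
  intro G _ _ hn h hS
  by_cases hs : Group.IsSolvable G
  · exact Or.inl hs
  have := Fact.mk Nat.prime_two
  have : Nontrivial G := by
    by_contra e
    have := not_nontrivial_iff_subsingleton.1 e
    exact hs inferInstance
  obtain ⟨N, hN, N1, -, hmin⟩ := Core.exists_minimal_normal_le (K := (⊤ : Subgroup G)) top_ne_bot
  have hc := card_eq_card_quotient_mul_card_subgroup N
  by_cases hNs : Group.IsSolvable N
  · obtain ⟨p, hp, hV⟩ := Core.isElementaryAbelian_of_minimal_normal N1 hmin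
    have hρ := QuotientGroup.mk'_surjective N
    have h1 := (one_lt_card_iff_ne_bot N).2 N1
    have h2 : Nat.card (G ⧸ N) < Nat.card G := by
      rw [hc]; exact (Nat.lt_mul_iff_one_lt_right Nat.card_pos).2 h1
    rcases ih (G ⧸ N) (by omega) (h.quot N) fun A _ _ e => hS A (by omega) with e | ⟨H, _, ⟨π, hπ, hk⟩, a⟩
    · exact absurd (Group.isSolvable_of_ker_le_range N.subtype (QuotientGroup.mk' N) (by simp)) hs
    have : Finite H := Finite.of_surjective π hπ
    by_cases p2 : p = 2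
    · subst p2
      refine Or.inr ⟨H, inferInstance, ⟨π.comp (QuotientGroup.mk' N), hπ.comp hρ, ?_⟩, a⟩
      rw [← MonoidHom.comap_ker]
      exact hk.comap_of_ker_isPGroup _ (by rw [QuotientGroup.ker_mk']; exact Core.isElementaryAbelian_isPGroup hV)
    · exact (h.no_odd π hπ hp hV N1 hk a.fr a.p57 p2).elim
  have fin : Sm N → ST0 G := fun s => Or.inr ⟨G, inferInstance, ⟨MonoidHom.id G, Function.surjective_id, by
    rw [MonoidHom.ker_id]; exact IsPGroup.of_bot⟩, N, hN, s, h.idx s⟩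
  by_cases hT : N = ⊤
  · subst hT
    exact fin ((hS G le_rfl h ⟨fun M hM => hmin M hM le_top⟩
      fun e => hs (Group.isSolvable_of_comm e.1.1)).of_equiv topEquiv.symm)
  have h2 : Nat.card N < Nat.card G := by
    rw [← card_top (G := G)]
    exact (card_le_of_le le_top).lt_of_ne fun e => hT (eq_of_le_of_card_ge le_top e.ge)
  rcases ih N (by omega) (h.sub N) fun A _ _ e => hS A (by omega) with e | ⟨H, _, ⟨π, hπ, hk⟩, M, hM, s, i2, -⟩
  · exact absurd e hNs
  have h3 : pCore 2 N = ⊥ := by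
    rcases hmin _ (Core.map_pCore_normal (p := 2) N) (map_subtype_le _) with e | e
    · exact (map_eq_bot_iff_of_injective _ N.subtype_injective).1 e
    · have := ((Core.isPGroup_pCore 2 N).map N.subtype).isNilpotent
      rw [e] at this
      exact (hNs inferInstance).elim
  let e := MulEquiv.ofBijective π ⟨(MonoidHom.ker_eq_bot_iff π).1 (eq_bot_iff.2 (h3 ▸ Core.le_pCore hk)), hπ⟩
  have : Finite H := Finite.of_surjective π hπ
  have h4 : _root_.commutator N = ⊤ := by
    rcases hmin ⁅N, N⁆ inferInstance (commutator_le_left N N) with e1 | e1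
    · exact absurd (Group.isSolvable_of_comm (commutator_self_eq_bot_iff.1 e1).1.1) hNs
    · exact map_injective N.subtype_injective (by
        rw [map_subtype_commutator, e1, ← MonoidHom.range_eq_map, range_subtype])
  have h5 : M = ⊤ := by
    have : IsCyclic (H ⧸ M) := isCyclic_of_card_dvd_prime (p := 2) i2
    have h6 := Abelianization.commutator_subset_ker
      (A := Abelianization (H ⧸ M)) (Abelianization.of.comp ((QuotientGroup.mk' M).comp π))
    rw [h4] at h6
    refine eq_top_iff.2 fun x _ => ?_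
    obtain ⟨y, rfl⟩ := hπ x
    have h7 : QuotientGroup.mk' M (π y) ∈ _root_.commutator (H ⧸ M) := by
      rw [← Abelianization.ker_of]; exact h6 (mem_top y)
    rw [(commutator_eq_bot_iff (H ⧸ M)).2 inferInstance] at h7
    exact (QuotientGroup.eq_one_iff _).1 h7
  subst h5
  exact fin ((s.of_equiv topEquiv).of_equiv e.symm)

theorem Cl.st0 (h : Cl G) (hK : Kn.{u} (Nat.card G)) : ST0 G := st0_aux _ G le_rfl h hK

end CfsgLib.O8
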