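import Mathlib
import Cfsg.Agent.Lib.O8.Tdm
import Cfsg.Agent.Lib.O8.Nsc

/-! Failure of factorization modules for `L₃(2), A₆`. -/

set_option autoImplicit false
set_option linter.unusedSectionVars false

namespace CfsgLib.O8

open Cfsg Subgroup CfsgLib.LAE CfsgLib.PLocal CfsgLib.ZJ CfsgLib.Blocks
open scoped CfsgLib.BG MatrixGroups commutatorElement

universe u

variable {G : Type*} [Group G] [Finite G] {M Q V T Q₁ Q₂ : Subgroup G} {x x₁ x₂ z : G}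

theorem TD.tdf_t4 (d : TD M Q V T Q₁ Q₂ x₁ x₂) (n : NS M Q V T)
    (big : ∀ t ∈ M, t ∉ Q → t * t ∈ Q → 4 ≤ (𝒞[t] : Subgroup G).relIndex V) {A : Subgroup G}
    (hA : A ∈ maxElemIn 2 T) (a1 : A ≤ Q₂) (a2 : ¬ A ≤ Q) : T4 M Q V T Q₁ Q₂ x₁ x₂ := by
  obtain ⟨a, b1, b2⟩ := SetLike.not_le_iff_exists.1 a2
  have k1 := (big a (n.TM (d.h2.leT (a1 b1))) b2 (d.h2.sq a (a1 b1))).trans (tdm_le b1)
  have k2 := off_le hA (n.VQ.trans n.QT) n.eaV
  rw [n.cV] at k2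
  have k4 : Q.relIndex A ≤ 4 := d.h2.i4 ▸ relIndex_le_of_le_right a1 index_ne_zero_of_finite
  have e := d.h2.tdb_cover a1 (by omega)
  exact ⟨d, big, by rw [n.tdm_cA e]; omega, A, hA, e⟩

theorem NS.tdf_comm (n : NS M Q V T) {u v : G} (hu : u ∈ V) (hv : v ∈ V) : u * v = v * u :=
  have := n.eaV.1
  setLike_mul_comm hu hv

theorem NS.tdf_sq (n : NS M Q V T) {u : G} (hu : u ∈ V) : u * u = 1 := by
  rw [← pow_two]; exact n.eaV.2 u hu

theorem NS.tdf_cj (n : NS M Q V T) {u g : G} (hg : g ∈ M) (hu : u ∈ V) : g * u * g⁻¹ ∈ V :=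
  LAE.conj_mem_of_mem_normalizer (n.nV.ge hg) hu

theorem NS.tdf_mem (n : NS M Q V T) {u g : G} (hg : g ∈ M) (hu : u ∈ V) : ⁅u, g⁆ ∈ V := by
  rw [commutatorElement_def, mul_assoc, mul_assoc, ← mul_assoc g]
  exact mul_mem hu (n.tdf_cj hg (inv_mem hu))

theorem NS.tdf_Q (n : NS M Q V T) {u q : G} (hq : q ∈ Q) (hu : u ∈ V) : u * q = q * u :=
  n.cV.ge hq u hu

theorem tdf_card (H : Subgroup G) : Nat.card (V ⊓ H : Subgroup G) * H.relIndex V = Nat.card V := by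
  rw [← inf_relIndex_left V H]
  exact tdb_card inf_le_left

/-- involutions of `M / Q` fix at least a square root of `V` -/
theorem NS.tdf_half (n : NS M Q V T) {t : G} (ht : t ∈ M) (t2 : t * t ∈ Q) :
    (𝒞[t] : Subgroup G).relIndex V ≤ Nat.card (V ⊓ 𝒞[t] : Subgroup G) := by
  let f : V →* G := MonoidHom.mk' (fun v => ⁅(v : G), t⁆) fun a b => by
    have e := n.tdf_comm (n.tdf_mem ht b.2) (n.tdf_cj ht (inv_mem a.2))
    calc ⁅(a : G) * b, t⁆ = a * (⁅(b : G), t⁆ * (t * (a : G)⁻¹ * t⁻¹)) := by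
          simp only [commutatorElement_def]; group
      _ = _ := by rw [e]; simp only [commutatorElement_def, mul_assoc]
  have k : f.ker = (𝒞[t] : Subgroup G).subgroupOf V := by
    ext v
    exact commutatorElement_eq_one_iff_mul_comm.trans mem_centralizer_singleton_iff.symm
  rw [relIndex, ← k, index_ker]
  refine card_le_of_le ?_
  rintro _ ⟨v, rfl⟩
  refine ⟨n.tdf_mem ht v.2, mem_centralizer_singleton_iff.2 ?_⟩
  have e1 := n.tdf_Q t2 v.2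
  have e2 := n.tdf_comm v.2 (n.tdf_cj ht v.2)
  change ⁅(v : G), t⁆ * t = t * ⁅(v : G), t⁆
  rw [commutatorElement_def, inv_eq_of_mul_eq_one_right (n.tdf_sq v.2)]
  calc _ = (v * (t * v * t⁻¹)) * t := by group
    _ = t * v * t⁻¹ * t⁻¹ * (t * v * t⁻¹ * (t * t)) := by rw [e2]; group
    _ = t * v * (t * t)⁻¹ * (t * v * t) := by group
    _ = t * v * t * ((t * t)⁻¹ * (v * (t * t))) * t⁻¹ := by group
    _ = _ := by rw [e1]; group

theorem tdf_uniq {t u v : G} (h : (𝒞[t] : Subgroup G).relIndex V = 2) (hu : u ∈ V) (hv : v ∈ V)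
    (h1 : ⁅u, t⁆ ≠ 1) (h2 : ⁅v, t⁆ ≠ 1) : ⁅u, t⁆ = ⁅v, t⁆ := by
  have c : ∀ {w : G}, w ∈ (𝒞[t] : Subgroup G) → ⁅w, t⁆ = 1 := fun e =>
    commutatorElement_eq_one_iff_mul_comm.2 (mem_centralizer_singleton_iff.1 e)
  have := c (tdb_two h (inv_mem hu) hv (fun e => h1 (c (inv_mem_iff.1 e))) fun e => h2 (c e))
  calc ⁅u, t⁆ = u * ⁅u⁻¹ * v, t⁆ * u⁻¹ * ⁅u, t⁆ := by rw [this]; group
    _ = _ := by simp only [commutatorElement_def]; group

theorem TD.tdf_t3 (d : TD M Q V T Q₁ Q₂ x₁ x₂) (n : NS M Q V T) (c8 : Nat.card V = 8)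
    (o : Q.relIndex M = 168) (tv : ∀ t ∈ M, t ∉ Q → t * t ∈ Q → (𝒞[t] : Subgroup G).relIndex V = 2)
    (h1 : Nat.card (V ⊓ 𝒞(Q₁) : Subgroup G) = 2) (h2 : Nat.card (V ⊓ 𝒞(Q₂) : Subgroup G) = 4) :
    ∃ z, T3 M Q V T Q₁ Q₂ x₁ x₂ z := by
  obtain ⟨⟨z, zm⟩, z1, hz⟩ := (Nat.card_eq_two_iff' 1).1 h1
  have z1' : z ≠ 1 := fun e => z1 (Subtype.ext e)
  have zz : ∀ u ∈ V ⊓ 𝒞(Q₁), u ≠ 1 → u = z := fun u hu e =>
    congrArg Subtype.val (hz ⟨u, hu⟩ fun k => e (congrArg Subtype.val k))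
  have c1 : V ⊓ 𝒞(Q₁) = zpowers z := le_antisymm (fun u hu => by
    by_cases e : u = 1
    · exact e ▸ one_mem _
    · exact zz u hu e ▸ mem_zpowers u) (zpowers_le.2 zm)
  have l1 : ZZ T ≤ V ⊓ 𝒞(Q₁) := (d.toTG.tdm_Z n).le.trans inf_le_left
  have Q1M : Q₁ ≤ M := d.h1.leT.trans n.TM
  refine ⟨z, d, c8, o, z1', ?_, c1, fun v hv a ha => ?_, h2, fun v hv hc => ?_⟩
  · rw [← c1]
    exact eq_of_le_of_card_ge l1 (h1 ▸ (ZZ T).one_lt_card_iff_ne_bot.2 n.Z1)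
  · by_cases e : ⁅v, a⁆ = 1
    · exact e ▸ one_mem _
    have aQ : a ∉ Q := fun k => e (commutatorElement_eq_one_iff_mul_comm.2 (n.tdf_Q k hv))
    rw [← c1]
    refine ⟨n.tdf_mem (Q1M ha) hv, fun b hb => ?_⟩
    have q : (a * a)⁻¹ * (a * b * (a * b)) * (b * b)⁻¹ ∈ Q :=
      mul_mem (mul_mem (inv_mem (d.h1.sq a ha)) (d.h1.sq _ (mul_mem ha hb))) (inv_mem (d.h1.sq b hb))
    have v' := n.tdf_cj (Q1M hb) hv
    have e1 := n.tdf_Q q (inv_mem v')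
    have e2 : b * ⁅v, a⁆ * b⁻¹ = ⁅b * v * b⁻¹, a⁆ := by
      calc _ = b * v * b⁻¹ * a * ((a * a)⁻¹ * (a * b * (a * b)) * (b * b)⁻¹ * (b * v * b⁻¹)⁻¹) *
            (b * a⁻¹ * b⁻¹) := by simp only [commutatorElement_def]; group
        _ = _ := by rw [← e1]; simp only [commutatorElement_def]; group
    rw [← mul_inv_eq_iff_eq_mul, e2]
    refine tdf_uniq (tv a (Q1M ha) aQ (d.h1.sq a ha)) v' hv (fun k => e ?_) e
    rwa [k, conj_eq_one_iff] at e2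
  · by_contra ne
    have zz' : ∀ a ∈ Q₂, a ∉ (𝒞[v] : Subgroup G) → ⁅v, a⁆ = z := fun a ha k =>
      zz _ (c1.ge (hc a ha)) fun e =>
        k (mem_centralizer_singleton_iff.2 (commutatorElement_eq_one_iff_mul_comm.1 e).symm)
    obtain ⟨a, a1, a2⟩ : ∃ a ∈ Q₂, a ∉ (𝒞[v] : Subgroup G) := by
      by_contra! e
      exact ne fun a ha => mem_centralizer_singleton_iff.1 (e a ha)
    have i2 : (𝒞[v] : Subgroup G).relIndex Q₂ = 2 :=
      relIndex_eq_two_iff_exists_notMem_and.2 ⟨a, a1, a2, fun b hb => (em _).symm.imp_left fun k => by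
        have e := (zz' b⁻¹ (inv_mem hb) fun q => k (inv_mem_iff.1 q)).trans (zz' a a1 a2).symm
        rw [mem_centralizer_singleton_iff]
        calc b * a * v = b * (⁅v, a⁆⁻¹ * v * a) := by simp only [commutatorElement_def]; group
          _ = _ := by rw [← e]; simp only [commutatorElement_def]; group⟩
    obtain ⟨c, c1, c2⟩ : ∃ c ∈ 𝒞[v] ⊓ Q₂, c ∉ Q := SetLike.not_le_iff_exists.1 fun e => by
      have := relIndex_le_of_le_left (L := Q₂) e index_ne_zero_of_finite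
      rw [inf_relIndex_right, i2, d.h2.i4] at this
      omega
    have k := tdf_card (V := V) 𝒞[c]
    rw [tv c (n.TM (d.h2.leT c1.2)) c2 (d.h2.sq c c1.2), c8] at k
    have e : V ⊓ 𝒞(Q₂) = V ⊓ 𝒞[c] :=
      eq_of_le_of_card_ge (inf_le_inf_left V (tdm_cent c1.2)) (by omega)
    exact ne (e.ge ⟨hv, mem_centralizer_singleton_iff.2 (mem_centralizer_singleton_iff.1 c1.1).symm⟩).2

theorem TD.ff (d : TD M Q V T Q₁ Q₂ x₁ x₂) (n : NS M Q V T) (hJ : ¬ JJ T ≤ Q) :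
    T4 M Q V T Q₁ Q₂ x₁ x₂ ∨ T4 M Q V T Q₂ Q₁ x₂ x₁ ∨ (∃ z, T3 M Q V T Q₁ Q₂ x₁ x₂ z) ∨
      ∃ z, T3 M Q V T Q₂ Q₁ x₂ x₁ z := by
  have := Fact.mk Nat.prime_two
  by_cases big : ∀ t ∈ M, t ∉ Q → t * t ∈ Q → 4 ≤ (𝒞[t] : Subgroup G).relIndex V
  · rw [thompsonSubgroupOf_le_iff] at hJ
    push Not at hJ
    obtain ⟨A, hA, a2⟩ := hJ
    rcases d.toTG.le_or hA.1 (fun a ha => by rw [← pow_two, hA.2.1.2 a ha]; exact one_mem _) with e | e
    exacts [.inr (.inl (d.symm.tdf_t4 n big hA e a2)), .inl (d.tdf_t4 n big hA e a2)]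
  refine .inr (.inr ?_)
  push Not at big
  obtain ⟨t, t1, t2, t3, t4⟩ := big
  obtain ⟨j, hj⟩ := IsPGroup.iff_card.1 (n.twoQ.to_le n.VQ)
  have k0 := tdf_card (V := V) 𝒞[t]
  have k1 : (𝒞[t] : Subgroup G).relIndex V ≤ 2 := by
    by_contra e
    have : 3 ∣ 2 ^ j := by
      rw [← hj, ← k0, show (𝒞[t] : Subgroup G).relIndex V = 3 by omega]
      exact dvd_mul_left _ _
    have := Nat.prime_three.dvd_of_dvd_pow this
    omega
  have k2 := (d.cod t t1 t2 t3).trans (Nat.pow_le_pow_left k1 3)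
  have k3 : 1 < Nat.card V := V.one_lt_card_iff_ne_bot.2 n.V1
  obtain ⟨f, f1, f2⟩ := n.ex57
  have md : ∀ X ≤ V, M ≤ 𝒩(X) → Nat.card X % orderOf f = 1 := fun X h1 h2 =>
    card_mod (by rcases f2 with e | e <;> rw [e] <;> norm_num) rfl (h2 f1)
      (n.cl.fpf' (n.twoQ.to_le (h1.trans n.VQ)) f2)
  have k4 := md V le_rfl n.nV.ge
  have j3 : j ≤ 3 := by
    by_contra e
    have := Nat.pow_le_pow_right (n := 2) (by norm_num) (show 4 ≤ j by omega)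
    omega
  obtain ⟨c8, f7⟩ : Nat.card V = 8 ∧ orderOf f = 7 := by
    rw [hj] at k3 k4 ⊢
    rcases f2 with e | e <;> rw [e] at k4 ⊢ <;> interval_cases j <;> simp_all
  have o : Q.relIndex M = 168 := by
    refine d.ord.resolve_right fun e => ?_
    obtain ⟨i, hi⟩ := IsPGroup.iff_card.1 n.twoQ
    have k := M.orderOf_dvd_natCard f1
    rw [← tdb_card (n.QT.trans n.TM), e, hi, f7] at k
    have := Nat.Coprime.dvd_of_dvd_mul_left (Nat.Coprime.pow_right i (by norm_num)) k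
    omega
  have tv : ∀ t ∈ M, t ∉ Q → t * t ∈ Q → (𝒞[t] : Subgroup G).relIndex V = 2 := fun s s1 s2 s3 => by
    have b1 := tdf_card (V := V) 𝒞[s]
    have b2 := n.tdf_half s1 s3
    have b3 := tdm_two (n.tdm_nc s2)
    rw [c8] at b1
    by_contra e
    have : 3 ≤ (𝒞[s] : Subgroup G).relIndex V := by omega
    nlinarith
  obtain ⟨c, c1, c2, c3⟩ := d.toTG.tdm_ex n
  have b := tdf_card (V := V) 𝒞[c]
  rw [tv c (n.TM (d.h1.leT c1)) c3 (d.h1.sq c c1), c8] at b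
  have b4 : Nat.card (V ⊓ 𝒞[c] : Subgroup G) = 4 := by omega
  have hZ := d.toTG.tdm_Z n
  have z2 : 2 ≤ Nat.card (ZZ T) := (ZZ T).one_lt_card_iff_ne_bot.2 n.Z1
  have cs : ∀ X : Subgroup G, ZZ T ≤ X → X ≤ V ⊓ 𝒞[c] →
      (Nat.card X = 2 ∧ X = ZZ T) ∨ (Nat.card X = 4 ∧ X = V ⊓ 𝒞[c]) := fun X h1 h2 => by
    have e1 := card_le_of_le h1
    have e2 := card_dvd_of_le h2
    rw [b4] at e2
    have e3 := Nat.le_of_dvd (by norm_num) e2
    have : Nat.card X = 2 ∨ Nat.card X = 4 := by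
      generalize Nat.card X = y at *
      have : 2 ≤ y := by omega
      interval_cases y <;> simp_all
    exact this.imp (fun e => ⟨e, (eq_of_le_of_card_ge h1 (by omega)).symm⟩)
      fun e => ⟨e, eq_of_le_of_card_ge h2 (by omega)⟩
  have ne : V ⊓ 𝒞(Q₁) = V ⊓ 𝒞(Q₂) → Nat.card (V ⊓ 𝒞(Q₁) : Subgroup G) % 7 = 1 := fun e => by
    refine f7 ▸ md _ inf_le_left (d.gen.ge.trans (sup_le ?_ ?_))
    · exact le_normalizer_inf ((d.h1.PM n).trans n.nV.ge) (le_normalizer_centralizer (d.h1.nQ n))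
    · rw [e]
      exact le_normalizer_inf ((d.h2.PM n).trans n.nV.ge) (le_normalizer_centralizer (d.h2.nQ n))
  rcases cs _ (hZ.le.trans inf_le_left) (inf_le_inf_left V (tdm_cent c1)) with e1 | e1 <;>
    rcases cs _ (hZ.le.trans inf_le_right) (inf_le_inf_left V (tdm_cent c2)) with e2 | e2
  · have := ne (e1.2.trans e2.2.symm)
    omega
  · exact .inl (d.tdf_t3 n c8 o tv e1.1 e2.1)
  · exact .inr (d.symm.tdf_t3 n c8 o tv e2.1 e1.1)
  · have := ne (e1.2.trans e2.2.symm)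
    omega


end CfsgLib.O8
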