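import Mathlib
import Cfsg.Agent.Lib.O8.Br
import Cfsg.Agent.Lib.O8.Md

/-! The data for `M / Q ≅ A₅`. -/

set_option autoImplicit false
set_option linter.unusedSectionVars false

namespace CfsgLib.O8

open Cfsg Subgroup CfsgLib.LAE CfsgLib.PLocal CfsgLib.ZJ CfsgLib.Blocks
open scoped CfsgLib.BG MatrixGroups commutatorElement

universe u

namespace Tya

open Equiv

/-- `(01)(23)` -/
def a : A5 := ⟨swap 0 1 * swap 2 3, Perm.mem_alternatingGroup.2 (by decide)⟩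
/-- `(02)(13)` -/
def b : A5 := ⟨swap 0 2 * swap 1 3, Perm.mem_alternatingGroup.2 (by decide)⟩
/-- `(012)` -/
def c : A5 := ⟨swap 0 1 * swap 1 2, Perm.mem_alternatingGroup.2 (by decide)⟩
/-- `(01)(34)` -/
def μ : A5 := ⟨swap 0 1 * swap 3 4, Perm.mem_alternatingGroup.2 (by decide)⟩

theorem sq : ∀ g : A5, g * a = a * g → g * g = 1 := by decide +kernel

theorem card : Nat.card (𝒞[a] : Subgroup A5) = 4 := by
  rw [Nat.card_congr (Equiv.subtypeEquivRight fun g => mem_centralizer_singleton_iff (g := a) (k := g)),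
    Nat.card_eq_fintype_card]
  decide +kernel

theorem nc : ∀ g : A5, g * a = a * g → c * g * c⁻¹ * a = a * (c * g * c⁻¹) := by decide +kernel

theorem nm : ∀ g : A5, g * a * g⁻¹ * a = a * (g * a * g⁻¹) →
    g * a = a * g ∨ g * c * a = a * (g * c) ∨ g * c⁻¹ * a = a * (g * c⁻¹) := by decide +kernel

theorem two : ∀ g : A5, g ^ 4 = 1 → (g * a) ^ 4 = 1 → g * a = a * g := by decide +kernel

theorem gen : ∀ g : A5, ∃ k₁ ∈ [1, a, b, a * b], ∃ k₂ ∈ [1, a, b, a * b], ∃ k₃ ∈ [1, a, b, a * b],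
    ∃ k₄ ∈ [1, a, b, a * b], k₁ * (μ * k₂ * μ⁻¹) * k₃ * (μ * k₄ * μ⁻¹) = g := by decide +kernel

theorem mem : ∀ k ∈ [1, a, b, a * b], k * a = a * k := by decide +kernel

theorem c3 : orderOf c = 3 := orderOf_eq_prime (by decide +kernel) (by decide +kernel)

theorem μc : μ * c * μ⁻¹ * c = 1 := by decide +kernel

theorem four {g : A5} {k : ℕ} (h : g ^ 2 ^ k = 1) : g ^ 4 = 1 := by
  have h1 := orderOf_dvd_of_pow_eq_one h
  have h2 : orderOf g ∣ 4 * 15 := by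
    have := orderOf_dvd_natCard g
    rwa [nat_card_alternatingGroup, Nat.card_eq_fintype_card, Fintype.card_fin] at this
  exact orderOf_dvd_iff_pow_eq_one.1 (Nat.Coprime.dvd_of_dvd_mul_right
    (Nat.Coprime.coprime_dvd_left h1 (Nat.Coprime.pow_left k (by norm_num))) h2)

end Tya

variable {G : Type*} [Group G] [Finite G] {M Q V T : Subgroup G}

open Tya in
theorem tya_core (n : NS M Q V T) (π : M →* A5) (hπ : Function.Surjective π)
    (hk : ∀ m : M, π m = 1 ↔ (m : G) ∈ Q) (h0 : ∀ m : M, π m * a = a * π m → (m : G) ∈ T) :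
    ∃ x, TA M Q V T x := by
  have := Fact.mk Nat.prime_five
  obtain ⟨t₀, e₀⟩ := hπ a
  have t₀T : (t₀ : G) ∈ T := h0 _ (by rw [e₀])
  have pw : ∀ m : M, (m : G) ∈ T → π m ^ 4 = 1 := fun m hm => by
    obtain ⟨k, e⟩ := isPGroup_iff_forall_mem.1 n.two _ hm
    exact four (k := k) (by rw [← map_pow, show m ^ 2 ^ k = 1 from Subtype.ext e, map_one])
  have hT : ∀ m : M, (m : G) ∈ T ↔ π m * a = a * π m := fun m =>
    ⟨fun hm => two _ (pw m hm) (by simpa [e₀] using pw (m * t₀) (mul_mem hm t₀T)), h0 m⟩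
  obtain ⟨x, ex, x3⟩ := (n.cl.sub M).lift' π hπ (.inl rfl) c3
  obtain ⟨m, em⟩ := hπ μ
  obtain ⟨A, _, _, _, md, cA, nf⟩ := n.mod π hπ hk
  have key : ∀ u : A5, u * u = 1 → u ≠ 1 → ∃ f : A5, orderOf f = 5 ∧ u * f * u⁻¹ = f⁻¹ := fun u h1 h2 =>
    (Ord6.a5_inv u h1 h2).imp fun f h => ⟨orderOf_eq_prime h.1 h.2.1, h.2.2⟩
  refine ⟨x, ?_, fun t ht => (hk (⟨t, n.TM ht⟩ * ⟨t, n.TM ht⟩)).1 ?_, x.2, by rwa [orderOf_coe],
    mem_normalizer_of_conjS_le (conjS_le_iff_forall.2 fun t ht => (hT (x * ⟨t, n.TM ht⟩ * x⁻¹)).2 ?_),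
    fun g hg => ?_, ⟨m, m.2, (hk (m * x * m⁻¹ * x)).1 (by simp [em, ex, μc]), ?_⟩, fun t ht hQ t2 => ?_,
    ?_, π, hπ, hk⟩
  · have e1 : Q.subgroupOf M = π.ker := Subgroup.ext fun m => (hk m).symm
    have e2 : T.subgroupOf M = (𝒞[a] : Subgroup A5).comap π :=
      Subgroup.ext fun m => (hT m).trans mem_centralizer_singleton_iff.symm
    rw [← relIndex_subgroupOf n.TM, e1, e2, relIndex_ker, map_comap_eq_self_of_surjective hπ, card]
  · rw [map_mul]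
    exact sq _ ((hT _).1 ht)
  · simpa [ex] using nc _ ((hT ⟨t, n.TM ht⟩).1 ht)
  · have h1 := (hT (⟨g, hg.1⟩ * t₀ * ⟨g, hg.1⟩⁻¹)).1 (LAE.conj_mem_of_mem_normalizer hg.2 t₀T)
    simp only [map_mul, map_inv, e₀] at h1
    have xm : (x : G) ∈ T ⊔ zpowers (x : G) := mem_sup_right (mem_zpowers _)
    rcases nm _ h1 with h | h | h
    · exact mem_sup_left ((hT _).2 h)
    · exact (mul_mem_cancel_right xm).1 (mem_sup_left ((hT (⟨g, hg.1⟩ * x)).2 (by rwa [map_mul, ex])))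
    · exact (mul_mem_cancel_right (inv_mem xm)).1
        (mem_sup_left ((hT (⟨g, hg.1⟩ * x⁻¹)).2 (by rwa [map_mul, map_inv, ex])))
  · refine le_antisymm (sup_le n.TM (conjS_le_of_le_of_mem n.TM m.2)) fun g hg => ?_
    obtain ⟨k₁, h₁, k₂, h₂, k₃, h₃, k₄, h₄, e⟩ := gen (π ⟨g, hg⟩)
    obtain ⟨t₁, rfl⟩ := hπ k₁
    obtain ⟨t₂, rfl⟩ := hπ k₂
    obtain ⟨t₃, rfl⟩ := hπ k₃
    obtain ⟨t₄, rfl⟩ := hπ k₄
    have h := (hk ((t₁ * (m * t₂ * m⁻¹) * t₃ * (m * t₄ * m⁻¹))⁻¹ * ⟨g, hg⟩)).1 (by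
      simp only [map_mul, map_inv, em, e, inv_mul_cancel])
    refine (mul_mem_cancel_left (inv_mem (mul_mem (mul_mem (mul_mem ?_ ?_) ?_) ?_))).1 (mem_sup_left (n.QT h))
    exacts [mem_sup_left (h0 _ (mem _ h₁)), mem_sup_right (conj_mem_conjS.2 (h0 _ (mem _ h₂))),
      mem_sup_left (h0 _ (mem _ h₃)), mem_sup_right (conj_mem_conjS.2 (h0 _ (mem _ h₄)))]
  · have u2 : π ⟨t, ht⟩ * π ⟨t, ht⟩ = 1 := by rw [← map_mul]; exact (hk _).2 t2
    obtain ⟨f, f5, e⟩ := key _ u2 fun h => hQ ((hk _).1 h)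
    rw [← cA, ← nf ⟨t, ht⟩]
    exact (mdA md.two u2 e (by rw [f5]; decide) (md.fpf f (.inl f5))).1
  · obtain ⟨f, f5, -⟩ := key a (sq a rfl) (by decide +kernel)
    obtain ⟨g, -, g5⟩ := (n.cl.sub M).lift' π hπ (.inr (.inl rfl)) f5
    exact ⟨g, g.2, by rwa [orderOf_coe]⟩

theorem NS.tya (n : NS M Q V T) (π : M →* A5) (hπ : Function.Surjective π)
    (hk : ∀ m : M, π m = 1 ↔ (m : G) ∈ Q) : ∃ x, TA M Q V T x := by
  have := Fact.mk Nat.prime_two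
  have e1 : π.ker = Q.subgroupOf M := Subgroup.ext hk
  have h1 : IsPGroup 2 ((𝒞[Tya.a] : Subgroup A5).comap π) :=
    (IsPGroup.of_card (n := 2) Tya.card).comap_of_ker_isPGroup π (e1 ▸ n.twoQ.comap_subtype)
  obtain ⟨h, hM, le⟩ := n.syl.exists_conj_le (h1.map M.subtype) (map_subtype_le _)
  refine tya_core n (π.comp (MulAut.conj (⟨h, hM⟩ : M)⁻¹).toMonoidHom)
    (hπ.comp (MulAut.conj _).surjective) (fun m => (hk _).trans ?_) fun m e =>
      le (mem_conjS.2 ⟨_, mem_centralizer_singleton_iff.2 e, by simp⟩)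
  simpa using (mem_normalizer_iff''.1 (n.nQ hM) (m : G)).symm


end CfsgLib.O8
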