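import Mathlib
import Cfsg.Agent.Lib.O8.Br
import Cfsg.Agent.Lib.O8.Md

/-! Pulling back the data for `M / Q ≅ L₃(2), A₆`. -/

set_option autoImplicit false
set_option linter.unusedSectionVars false

namespace CfsgLib.O8

open Cfsg Subgroup CfsgLib.LAE CfsgLib.PLocal CfsgLib.ZJ CfsgLib.Blocks
open scoped CfsgLib.BG MatrixGroups commutatorElement

universe u

variable {G : Type*} [Group G] [Finite G] {M Q V T : Subgroup G}

section pull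

variable {L : Type*} [Group L] (π : M →* L)

/-- the full preimage in `G` of a subgroup of `L` -/
def tyd0P (X : Subgroup L) : Subgroup G := (X.comap π).map M.subtype

variable {π}

theorem tyd0_mem {X : Subgroup L} {m : M} : (m : G) ∈ tyd0P π X ↔ π m ∈ X :=
  mem_map_iff_mem M.subtype_injective

theorem tyd0_le (X : Subgroup L) : tyd0P π X ≤ M := map_subtype_le _

theorem tyd0_mono {X Y : Subgroup L} (h : X ≤ Y) : tyd0P π X ≤ tyd0P π Y := map_mono (comap_mono h)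

theorem tyd0_top : tyd0P π ⊤ = M :=
  le_antisymm (tyd0_le _) fun m hm => (tyd0_mem (m := ⟨m, hm⟩)).2 (mem_top _)

theorem tyd0_sup (hπ : Function.Surjective π) (X Y : Subgroup L) :
    tyd0P π (X ⊔ Y) = tyd0P π X ⊔ tyd0P π Y := by
  rw [tyd0P, ← comap_sup_eq π X Y hπ, Subgroup.map_sup]; rfl

theorem tyd0_idx (hπ : Function.Surjective π) (X Y : Subgroup L) :
    (tyd0P π X).relIndex (tyd0P π Y) = X.relIndex Y := by
  rw [tyd0P, tyd0P, relIndex_map_map_of_injective _ _ M.subtype_injective, relIndex_comap,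
    map_comap_eq_self_of_surjective hπ]

theorem tyd0_norm (hπ : Function.Surjective π) {X : Subgroup L} {m : M} :
    (m : G) ∈ 𝒩(tyd0P π X) ↔ π m ∈ 𝒩(X) := by
  refine ⟨fun h => mem_normalizer_iff.2 fun a => ?_, fun h => mem_normalizer_fintype fun a ha => ?_⟩
  · obtain ⟨a, rfl⟩ := hπ a
    rw [← map_inv, ← map_mul, ← map_mul, ← tyd0_mem, ← tyd0_mem]
    exact mem_normalizer_iff.1 h a
  · have := (mem_normalizer_iff.1 h (π ⟨a, tyd0_le X ha⟩)).1 (tyd0_mem.1 ha)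
    rw [← map_inv, ← map_mul, ← map_mul, ← tyd0_mem] at this
    exact this

theorem tyd0_eq {X : Subgroup G} (h1 : tyd0P π ⊥ ≤ X) (h2 : X ≤ M) :
    tyd0P π ((X.subgroupOf M).map π) = X := by
  rw [tyd0P, comap_map_eq_self (fun a ha => mem_subgroupOf.2 (h1 (tyd0_mem.2 ha))),
    map_subgroupOf_eq_of_le h2]

theorem tyd0_zp (hπ : Function.Surjective π) (X : Subgroup L) (x : M) :
    tyd0P π (X ⊔ zpowers (π x)) = tyd0P π X ⊔ zpowers (x : G) := by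
  have hb : tyd0P π ⊥ ≤ tyd0P π X ⊔ zpowers (x : G) := (tyd0_mono bot_le).trans le_sup_left
  refine le_antisymm ?_ (sup_le (tyd0_mono le_sup_left)
    (zpowers_le.2 (tyd0_mem.2 (mem_sup_right (mem_zpowers _)))))
  rw [← tyd0_eq hb (sup_le (tyd0_le X) (zpowers_le.2 x.2))]
  refine tyd0_mono (sup_le (fun a ha => ?_) (zpowers_le.2 (mem_map_of_mem π
    (mem_subgroupOf.2 (mem_sup_right (mem_zpowers _))))))
  obtain ⟨a, rfl⟩ := hπ a
  exact mem_map_of_mem π (mem_subgroupOf.2 (mem_sup_left (tyd0_mem.2 ha)))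

theorem tyd0_th (hπ : Function.Surjective π) {T₀ Q₁ : Subgroup L} {x : M} (x3 : orderOf x = 3)
    (d : TH ⊤ ⊥ T₀ Q₁ (π x)) : TH M (tyd0P π ⊥) (tyd0P π T₀) (tyd0P π Q₁) x where
  le := tyd0_mono d.le
  leT := tyd0_mono d.leT
  i4 := (tyd0_idx hπ _ _).trans d.i4
  i2 := (tyd0_idx hπ _ _).trans d.i2
  sq a ha := (tyd0_mem (m := ⟨a, tyd0_le _ ha⟩ * ⟨a, tyd0_le _ ha⟩)).2
    (map_mul π _ _ ▸ d.sq _ (tyd0_mem.1 ha))
  xM := x.2
  x3 := by rw [orderOf_coe, x3]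
  xn := (tyd0_norm hπ).2 d.xn
  fpf a ha h := (tyd0_mem (m := ⟨a, tyd0_le _ ha⟩)).2 (d.fpf _ (tyd0_mem.1 ha) (by
    rw [← map_commutatorElement, ← tyd0_mem]; exact h))
  nn h := d.nn ((tyd0_norm hπ).1 h)
  i3 := by rw [← tyd0_zp hπ, tyd0_idx hπ, d.i3]
  max X h1 h2 := by
    rw [← tyd0_zp hπ] at h1 ⊢
    have e := tyd0_eq ((tyd0_mono bot_le).trans h1) h2
    rcases d.max ((X.subgroupOf M).map π) (fun a ha => by
      obtain ⟨a, rfl⟩ := hπ a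
      exact mem_map_of_mem π (mem_subgroupOf.2 (h1 (tyd0_mem.2 ha)))) le_top with c | c
    · exact .inl (by rw [← e, c])
    · exact .inr (by rw [← e, c, tyd0_top])

end pull

theorem NS.tg_of (n : NS M Q V T) {L : Type*} [Group L] [Finite L] (π : M →* L)
    (hπ : Function.Surjective π) (hk : ∀ m : M, π m = 1 ↔ (m : G) ∈ Q)
    (hL : ∃ (T₀ Q₁ Q₂ : Subgroup L) (x₁ x₂ : L), IsSylowIn 2 T₀ ⊤ ∧ TG ⊤ ⊥ T₀ Q₁ Q₂ x₁ x₂) :
    ∃ Q₁ Q₂ x₁ x₂, TG M Q T Q₁ Q₂ x₁ x₂ := by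
  have := Fact.mk Nat.prime_two
  obtain ⟨T₀, Q₁, Q₂, y₁, y₂, hT, d⟩ := hL
  have s1 : IsSylowIn 2 ((T.subgroupOf M).map π) ⊤ := by
    have := (n.syl.subgroupOf le_rfl).map π
    rwa [subgroupOf_self, map_top_of_surjective π hπ] at this
  obtain ⟨c, -, hc⟩ := s1.exists_conj hT
  set ρ : M →* L := (MulAut.conj c).toMonoidHom.comp π with hρ
  have sρ : Function.Surjective ρ := (MulAut.conj c).surjective.comp hπ
  have QM := n.QT.trans n.syl.le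
  have eQ : tyd0P ρ ⊥ = Q := by
    ext a
    refine ⟨fun ha => (hk ⟨a, tyd0_le _ ha⟩).1 ?_, fun ha => (tyd0_mem (m := ⟨a, QM ha⟩)).2 ?_⟩
    · exact (MulAut.conj c).map_eq_one_iff.1 ((tyd0_mem (m := ⟨a, tyd0_le _ ha⟩)).1 ha)
    · exact (MulAut.conj c).map_eq_one_iff.2 ((hk _).2 ha)
  have eT : tyd0P ρ T₀ = T := by
    rw [← hc, conjS_def, map_map, ← hρ, tyd0_eq (eQ.le.trans n.QT) n.syl.le]
  obtain ⟨x₁, rfl, o1⟩ := (n.cl.sub M).lift' ρ sρ (.inl rfl) d.h1.x3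
  obtain ⟨x₂, rfl, o2⟩ := (n.cl.sub M).lift' ρ sρ (.inl rfl) d.h2.x3
  refine ⟨tyd0P ρ Q₁, tyd0P ρ Q₂, x₁, x₂, ?_⟩
  rw [← eQ, ← eT]
  refine ⟨tyd0_th sρ o1 d.h1, tyd0_th sρ o2 d.h2, fun e => d.ne ?_, fun t ht h2 => ?_, ?_⟩
  · ext a
    obtain ⟨a, rfl⟩ := sρ a
    rw [← tyd0_mem, ← tyd0_mem, e]
  · lift t to M using tyd0_le _ ht
    rw [tyd0_mem, tyd0_mem]
    exact d.inv _ (tyd0_mem.1 ht) (map_mul ρ _ _ ▸ (tyd0_mem (m := t * t)).1 h2)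
  · rw [← tyd0_zp sρ, ← tyd0_zp sρ, ← tyd0_sup sρ, d.gen, tyd0_top]

theorem NS.td_of (n : NS M Q V T) {L : Type*} [Group L] [Finite L] (π : M →* L)
    (hπ : Function.Surjective π) (hk : ∀ m : M, π m = 1 ↔ (m : G) ∈ Q)
    (hL : ∃ (T₀ Q₁ Q₂ : Subgroup L) (x₁ x₂ : L), IsSylowIn 2 T₀ ⊤ ∧ TG ⊤ ⊥ T₀ Q₁ Q₂ x₁ x₂)
    (h57 : Inv57 L) (ho : Nat.card L = 168 ∨ Nat.card L = 360) :
    ∃ Q₁ Q₂ x₁ x₂, TD M Q V T Q₁ Q₂ x₁ x₂ := by
  obtain ⟨Q₁, Q₂, x₁, x₂, d⟩ := n.tg_of π hπ hk hL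
  refine ⟨Q₁, Q₂, x₁, x₂, d, fun t ht tQ t2 => ?_, ?_⟩
  · obtain ⟨A, _, _, _, hm, cA, fx⟩ := n.mod π hπ hk
    have := hm.cod3 h57 (t := π ⟨t, ht⟩) (by rw [← map_mul, hk]; exact t2) fun e => tQ ((hk _).1 e)
    rw [fx, cA] at this
    have e := card_eq_relIndex_mul (𝒞[t] : Subgroup G) V
    rw [inf_comm] at e
    have p1 : 0 < Nat.card ↥(V ⊓ 𝒞[t]) := Nat.card_pos
    have p2 : 0 < Nat.card V := Nat.card_pos
    simp only at this
    generalize Nat.card ↥(V ⊓ 𝒞[t]) = c at *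
    generalize (𝒞[t] : Subgroup G).relIndex V = i at *
    generalize Nat.card V = v at *
    refine Nat.le_of_mul_le_mul_right (c := v ^ 2) ?_ (by positivity)
    calc v * v ^ 2 = (i * c) ^ 3 := by rw [← e]; ring
      _ = i ^ 3 * c ^ 3 := mul_pow _ _ _
      _ ≤ _ := Nat.mul_le_mul_left _ this
  · have : Q.subgroupOf M = π.ker := by ext m; rw [mem_subgroupOf, MonoidHom.mem_ker, hk]
    rwa [relIndex, this, index_ker, MonoidHom.range_eq_top.2 hπ, card_top]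

end CfsgLib.O8
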