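import Mathlib
import Cfsg.Agent.Lib.O8.Defs
import Cfsg.Agent.Lib.SmallSimple.Basic

/-! The standard data from explicit lists of elements. -/

set_option autoImplicit false
set_option linter.unusedSectionVars false

namespace CfsgLib.O8

open Cfsg Subgroup CfsgLib.LAE CfsgLib.PLocal CfsgLib.ZJ CfsgLib.Blocks
open scoped CfsgLib.BG MatrixGroups commutatorElement

variable {L : Type*} [Group L] [Finite L] {s l lT lQ lP : List L} {x y : L}

/-- the subgroup generated by a list -/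
abbrev tyS (l : List L) : Subgroup L := closure {g | g ∈ l}

/-- a list of `n` elements closed under multiplication -/
def TyL (l : List L) (n : ℕ) : Prop :=
  1 ∈ l ∧ (∀ a ∈ l, ∀ b ∈ l, a * b ∈ l) ∧ l.Nodup ∧ l.length = n

/-- the checks for `TH` -/
def TyC (lT lQ lP : List L) (x : L) : Prop :=
  TyL lQ 4 ∧ (∀ a ∈ lQ, a ∈ lT ∧ a * a = 1 ∧ x * a * (x * x) ∈ lQ ∧ (x * a = a * x → a = 1)) ∧
    x * (x * x) = 1 ∧ x ≠ 1 ∧ (∃ t ∈ lT, x * t * (x * x) ∉ lT) ∧ 1 ∈ lP ∧ lP.length = 24 ∧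
      ∀ p ∈ lP, ∀ g ∈ x :: lT, p * g ∈ lP

instance tyDecL [DecidableEq L] {n : ℕ} : Decidable (TyL l n) := by unfold TyL; infer_instance

instance tyDecC [DecidableEq L] : Decidable (TyC lT lQ lP x) := by unfold TyC; infer_instance

theorem ty_mem (h1 : 1 ∈ l) (hm : ∀ a ∈ l, ∀ g ∈ s, a * g ∈ l) (hy : y ∈ tyS s) : y ∈ l := by
  have : y ∈ Submonoid.closure {g | g ∈ s} := by
    rw [← closure_toSubmonoid_of_finite]; exact hy
  clear hy
  induction this using Submonoid.closure_induction_right with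
  | one => exact h1
  | mul_right a _ g hg ih => exact hm _ ih _ hg

theorem TyL.mem {n : ℕ} (h : TyL l n) : y ∈ tyS l ↔ y ∈ l :=
  ⟨ty_mem h.1 h.2.1, fun e => subset_closure e⟩

theorem TyL.card {n : ℕ} (h : TyL l n) : Nat.card (tyS l) = n := by
  classical
  rw [← h.2.2.2, ← List.toFinset_card_of_nodup h.2.2.1, ← Nat.card_eq_finsetCard]
  exact Nat.card_congr (Equiv.subtypeEquivRight fun a => h.mem.trans List.mem_toFinset.symm)

theorem TyC.memP (c : TyC lT lQ lP x) (hy : y ∈ tyS lT ⊔ zpowers x) : y ∈ lP :=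
  ty_mem c.2.2.2.2.2.1 c.2.2.2.2.2.2.2 ((sup_le (closure_mono fun _ e => List.mem_cons_of_mem _ e)
    (zpowers_le.2 (subset_closure List.mem_cons_self)) : _ ≤ tyS (x :: lT)) hy)

theorem TyC.ord (c : TyC lT lQ lP x) : orderOf x = 3 :=
  orderOf_eq_prime (by rw [pow_three]; exact c.2.2.1) c.2.2.2.1

theorem TyC.cardP (c : TyC lT lQ lP x) (hT : TyL lT 8) : Nat.card ↥(tyS lT ⊔ zpowers x) = 24 := by
  classical
  have h1 := card_dvd_of_le (le_sup_left : tyS lT ≤ tyS lT ⊔ zpowers x)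
  have h2 := card_dvd_of_le (le_sup_right : zpowers x ≤ tyS lT ⊔ zpowers x)
  rw [hT.card] at h1
  rw [Nat.card_zpowers, c.ord] at h2
  have h3 : Nat.card ↥(tyS lT ⊔ zpowers x) ≤ 24 := by
    rw [← c.2.2.2.2.2.2.1]
    refine le_trans ?_ lP.toFinset_card_le
    rw [← Nat.card_eq_finsetCard]
    exact Nat.card_le_card_of_injective (fun a => ⟨a.1, List.mem_toFinset.2 (c.memP a.2)⟩)
      fun a b e => Subtype.ext (Subtype.mk.inj e)
  have h4 : 0 < Nat.card ↥(tyS lT ⊔ zpowers x) := Nat.card_pos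
  omega

theorem ty_max [IsSimpleGroup L] (hL : Nat.card L = 168 ∨ Nat.card L = 360) {P X : Subgroup L}
    (hP : Nat.card P = 24) (h : P ≤ X) : X = P ∨ X = ⊤ := by
  have nc : ¬ IsMulCommutative L := fun _ => by
    letI : CommGroup L := { (inferInstance : Group L) with mul_comm := mul_comm' }
    have := IsSimpleGroup.prime_card (α := L)
    rcases hL with e | e <;> rw [e] at this <;> norm_num at this
  refine or_iff_not_imp_right.2 fun e => ?_
  have h1 := SmallSimple.two_mul_card_dvd_factorial nc X e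
  have h2 := X.card_mul_index
  obtain ⟨k, hk⟩ := card_dvd_of_le h
  have h3 : X.index ≠ 1 := mt index_eq_one.1 e
  refine (eq_of_le_of_card_ge h ?_).symm
  rw [hP] at hk
  rw [hk] at h2
  rw [hk, hP]
  generalize X.index = n at *
  rcases hL with e | e <;> rw [e] at h1 h2
  · have h4 : k * n = 7 := by rw [mul_assoc] at h2; omega
    have h5 : n ≤ 7 := Nat.le_of_dvd (by norm_num) ⟨k, by rw [← h4, mul_comm]⟩
    interval_cases n <;> omega
  · have h4 : k * n = 15 := by rw [mul_assoc] at h2; omega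
    have h5 : n ≤ 15 := Nat.le_of_dvd (by norm_num) ⟨k, by rw [← h4, mul_comm]⟩
    interval_cases n <;> first | omega | (norm_num [Nat.factorial] at h1)

theorem TyC.th [IsSimpleGroup L] (hL : Nat.card L = 168 ∨ Nat.card L = 360) (c : TyC lT lQ lP x)
    (hT : TyL lT 8) : TH ⊤ ⊥ (tyS lT) (tyS lQ) x := by
  have xi : x⁻¹ = x * x := inv_eq_of_mul_eq_one_right c.2.2.1
  have QT : tyS lQ ≤ tyS lT := closure_mono fun a ha => (c.2.1 a ha).1
  refine ⟨bot_le, QT, by rw [relIndex_bot_left, c.1.card], ?_, fun a ha => (c.2.1 a (c.1.mem.1 ha)).2.1,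
    mem_top _, c.ord, mem_normalizer_fintype fun a ha => ?_, fun a ha e => ?_, fun e => ?_, ?_,
    fun X h _ => ty_max hL (c.cardP hT) h⟩
  · have := Core.card_mul_relIndex_of_le QT
    rw [c.1.card, hT.card] at this
    omega
  · rw [xi]; exact c.1.mem.2 (c.2.1 a (c.1.mem.1 ha)).2.2.1
  · exact (c.2.1 a (c.1.mem.1 ha)).2.2.2 (commutatorElement_eq_one_iff_mul_comm.1 e)
  · obtain ⟨t, ht, h⟩ := c.2.2.2.2.1
    exact h (hT.mem.1 (xi ▸ (mem_normalizer_iff.1 e t).1 (hT.mem.2 ht)))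
  · have := Core.card_mul_relIndex_of_le (le_sup_left : tyS lT ≤ tyS lT ⊔ zpowers x)
    rw [c.cardP hT, hT.card] at this
    omega

theorem TyL.syl (hL : Nat.card L = 168 ∨ Nat.card L = 360) (hT : TyL lT 8) :
    IsSylowIn 2 (tyS lT) ⊤ := by
  refine isSylowIn_of_not_dvd_relIndex le_top (IsPGroup.of_card (n := 3) hT.card) ?_
  have := (tyS lT).card_mul_index
  rw [hT.card] at this
  rw [relIndex_top_right]
  omega

theorem ty_tg [IsSimpleGroup L] (hL : Nat.card L = 168 ∨ Nat.card L = 360) {lQ' lP' : List L}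
    (hT : TyL lT 8) (c : TyC lT lQ lP x) (c' : TyC lT lQ' lP' y) (ne : ∃ a ∈ lQ, a ∉ lQ')
    (inv : ∀ t ∈ lT, t * t = 1 → t ∈ lQ ∨ t ∈ lQ') (hy : y ∉ lP) :
    ∃ (T₀ Q₁ Q₂ : Subgroup L) (x₁ x₂ : L), IsSylowIn 2 T₀ ⊤ ∧ TG ⊤ ⊥ T₀ Q₁ Q₂ x₁ x₂ := by
  refine ⟨_, _, _, x, y, hT.syl hL, c.th hL hT, c'.th hL hT, fun e => ?_, fun t ht e =>
    (inv t (hT.mem.1 ht) e).imp c.1.mem.2 c'.1.mem.2,
    (ty_max hL (c.cardP hT) le_sup_left).resolve_left fun e => hy (c.memP ?_)⟩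
  · obtain ⟨a, h1, h2⟩ := ne
    exact h2 (c'.1.mem.1 (e ▸ c.1.mem.2 h1))
  · exact e ▸ mem_sup_right (mem_sup_right (mem_zpowers y))

theorem ty_conj {T : Subgroup L} (hT : IsSylowIn 2 T ⊤) {z : L}
    (h : ∀ t ∈ T, t * t = 1 → t ≠ 1 → IsConj t z) (t : L) (tt : t * t = 1) (t1 : t ≠ 1) :
    IsConj t z := by
  obtain ⟨g, -, hg⟩ := hT.exists_conj_le (Q := zpowers t) (IsPGroup.of_card (n := 1) (by
    rw [Nat.card_zpowers, orderOf_eq_prime (p := 2) (by rw [pow_two, tt]) t1, pow_one])) le_top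
  exact (isConj_iff.2 ⟨g, rfl⟩).trans (h _ (hg (conj_mem_conjS.2 (mem_zpowers t)))
    (by rw [conj_mul, tt, mul_one, mul_inv_cancel]) (mt conj_eq_one_iff.1 t1))

theorem ty_inv57 {z a b : L} (h : ∀ t : L, t * t = 1 → t ≠ 1 → IsConj t z)
    (o : orderOf (z * (a * z * a⁻¹) * (b * z * b⁻¹)) = 5 ∨
      orderOf (z * (a * z * a⁻¹) * (b * z * b⁻¹)) = 7) : Inv57 L := fun t tt t1 => by
  obtain ⟨g, rfl⟩ := isConj_iff.1 (h t tt t1)
  refine ⟨g⁻¹ * a * g, g⁻¹ * b * g, ?_⟩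
  rwa [← (MulAut.conj g).orderOf_eq, show MulAut.conj g (t * (g⁻¹ * a * g * t * (g⁻¹ * a * g)⁻¹) *
    (g⁻¹ * b * g * t * (g⁻¹ * b * g)⁻¹)) = g * t * g⁻¹ * (a * (g * t * g⁻¹) * a⁻¹) *
      (b * (g * t * g⁻¹) * b⁻¹) by rw [MulAut.conj_apply]; group]

end CfsgLib.O8
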