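import Mathlib
import Cfsg.Agent.Lib.O8.TydG

/-! The standard data in `A₆`. -/

set_option autoImplicit false
set_option linter.unusedSectionVars false

namespace CfsgLib.O8

open Cfsg Subgroup CfsgLib.LAE CfsgLib.PLocal CfsgLib.ZJ CfsgLib.Blocks
open scoped CfsgLib.BG MatrixGroups commutatorElement

universe u

open Ord6 (z6 a6 b6 c6)

/-- `(0 2 4)(1 3 5)` -/
def ty6d : A6 := ⟨Equiv.swap 0 2 * Equiv.swap 2 4 * (Equiv.swap 1 3 * Equiv.swap 3 5),
  Equiv.Perm.mem_alternatingGroup.2 (by decide)⟩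

/-- a Sylow 2-subgroup -/
def ty6T : List A6 := [1, z6, a6, a6 * z6, b6, b6 * z6, a6 * b6, b6 * a6]

/-- a parabolic subgroup -/
def ty6P (x : A6) : List A6 := ty6T ++ ty6T.map (· * x) ++ ty6T.map (· * (x * x))

theorem tg_A6 : ∃ (T₀ Q₁ Q₂ : Subgroup A6) (x₁ x₂ : A6), IsSylowIn 2 T₀ ⊤ ∧ TG ⊤ ⊥ T₀ Q₁ Q₂ x₁ x₂ := by
  have := Ord6.simple_A6
  exact ty_tg (.inr Ord6.card_A6) (lT := ty6T) (lQ := [1, z6, a6, a6 * z6]) (lQ' := [1, z6, b6, b6 * z6])
    (lP := ty6P c6) (lP' := ty6P ty6d) (x := c6) (y := ty6d) (by decide +kernel) (by decide +kernel)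
    (by decide +kernel) (by decide +kernel) (by decide +kernel) (by decide +kernel)

theorem inv57_A6 : Inv57 A6 := by
  have := Fact.mk (show Nat.Prime 5 by norm_num)
  exact ty_inv57 (z := z6) (a := c6) (b := ty6d * c6 * ty6d)
    (fun t tt t1 => Ord6.conj_z6 (orderOf_eq_prime (by rw [pow_two, tt]) t1))
    (.inl (orderOf_eq_prime (by decide +kernel) (by decide +kernel)))

end CfsgLib.O8
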