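import Mathlib
import Cfsg.Agent.Lib.O8.TydG
import Cfsg.Agent.Lib.G23.Setup

/-! The standard data in `L₃(2)`. -/

set_option autoImplicit false
set_option linter.unusedSectionVars false

namespace CfsgLib.O8

open Cfsg Subgroup CfsgLib.LAE CfsgLib.PLocal CfsgLib.ZJ CfsgLib.Blocks
open scoped CfsgLib.BG MatrixGroups commutatorElement

universe u

/-- an element of `L₃(2)` from its entries -/
def ty7 (a b c d e f g h i : ZMod 2)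
    (p : a * e * i - a * f * h - b * d * i + b * f * g + c * d * h - c * e * g = 1 := by decide) : L32 :=
  ⟨!![a, b, c; d, e, f; g, h, i], by rw [Matrix.det_fin_three]; exact p⟩

/-- a Sylow 2-subgroup -/
def ty7T : List L32 := [
  ty7 1 0 0 0 1 0 0 0 1, ty7 1 0 1 0 1 0 0 0 1, ty7 1 1 0 0 1 0 0 0 1, ty7 1 1 1 0 1 0 0 0 1,
  ty7 1 0 0 0 1 1 0 0 1, ty7 1 0 1 0 1 1 0 0 1, ty7 1 1 0 0 1 1 0 0 1, ty7 1 1 1 0 1 1 0 0 1]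

/-- a parabolic subgroup -/
def ty7P : List L32 := ty7T ++ [
  ty7 1 0 0 0 0 1 0 1 1, ty7 1 1 1 0 0 1 0 1 1, ty7 1 0 1 0 0 1 0 1 1, ty7 1 1 0 0 0 1 0 1 1,
  ty7 1 0 0 0 1 0 0 1 1, ty7 1 1 1 0 1 0 0 1 1, ty7 1 0 1 0 1 0 0 1 1, ty7 1 1 0 0 1 0 0 1 1,
  ty7 1 0 0 0 1 1 0 1 0, ty7 1 1 0 0 1 1 0 1 0, ty7 1 1 1 0 1 1 0 1 0, ty7 1 0 1 0 1 1 0 1 0,
  ty7 1 0 0 0 0 1 0 1 0, ty7 1 1 0 0 0 1 0 1 0, ty7 1 1 1 0 0 1 0 1 0, ty7 1 0 1 0 0 1 0 1 0]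

/-- the other parabolic subgroup -/
def ty7P' : List L32 := ty7T ++ [
  ty7 0 1 0 1 1 0 0 0 1, ty7 0 1 1 1 1 0 0 0 1, ty7 1 0 0 1 1 0 0 0 1, ty7 1 0 1 1 1 0 0 0 1,
  ty7 0 1 0 1 1 1 0 0 1, ty7 0 1 1 1 1 1 0 0 1, ty7 1 0 0 1 1 1 0 0 1, ty7 1 0 1 1 1 1 0 0 1,
  ty7 1 1 0 1 0 0 0 0 1, ty7 1 1 1 1 0 0 0 0 1, ty7 0 1 0 1 0 0 0 0 1, ty7 0 1 1 1 0 0 0 0 1,
  ty7 1 1 0 1 0 1 0 0 1, ty7 1 1 1 1 0 1 0 0 1, ty7 0 1 0 1 0 1 0 0 1, ty7 0 1 1 1 0 1 0 0 1]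

theorem ty7_T : TyL ty7T 8 := by decide +kernel

theorem tg_L32 : ∃ (T₀ Q₁ Q₂ : Subgroup L32) (x₁ x₂ : L32), IsSylowIn 2 T₀ ⊤ ∧ TG ⊤ ⊥ T₀ Q₁ Q₂ x₁ x₂ := by
  have := G23.simple_SL32
  exact ty_tg (.inl G23.card_SL32) (lT := ty7T) (lQ := ty7T.take 4)
    (lQ' := ty7T.take 2 ++ (ty7T.drop 4).take 2) (lP := ty7P) (lP' := ty7P')
    (x := ty7 1 0 0 0 0 1 0 1 1) (y := ty7 0 1 0 1 1 0 0 0 1) ty7_T (by decide +kernel)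
    (by decide +kernel) (by decide +kernel) (by decide +kernel) (by decide +kernel)

theorem ty7_I : ∀ t ∈ ty7T, t * t = 1 → t ≠ 1 → ∃ g ∈ ty7P ++ ty7P',
    g * t = ty7 1 0 1 0 1 0 0 0 1 * g := by decide +kernel

theorem inv57_L32 : Inv57 L32 := by
  have := Fact.mk (show Nat.Prime 7 by norm_num)
  refine ty_inv57 (z := ty7 1 0 1 0 1 0 0 0 1) (a := ty7 0 0 1 0 1 0 1 0 0) (b := ty7 0 1 0 1 0 0 1 1 1)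
    (ty_conj (ty7_T.syl (.inl G23.card_SL32)) fun t ht tt t1 => ?_) (.inr ?_)
  · obtain ⟨g, -, hg⟩ := ty7_I t (ty7_T.mem.1 ht) tt t1
    exact isConj_iff.2 ⟨g, mul_inv_eq_iff_eq_mul.2 hg⟩
  · rw [(mul_inv_eq_iff_eq_mul (c := ty7 1 0 0 0 1 0 1 0 1)).2 (by decide +kernel),
      (mul_inv_eq_iff_eq_mul (c := ty7 1 0 0 1 0 1 1 1 0)).2 (by decide +kernel),
      show (ty7 1 0 1 0 1 0 0 0 1) * ty7 1 0 0 0 1 0 1 0 1 * ty7 1 0 0 1 0 1 1 1 0 = ty7 1 1 0 1 0 1 0 1 0 by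
        decide +kernel]
    refine orderOf_eq_prime ?_ (by decide +kernel)
    rw [show ∀ f : L32, f ^ 7 = f * f * (f * f) * (f * f) * f from fun f => by simp [pow_succ, mul_assoc],
      show (ty7 1 1 0 1 0 1 0 1 0) * ty7 1 1 0 1 0 1 0 1 0 = ty7 0 1 1 1 0 0 1 0 1 by decide +kernel]
    decide +kernel

end CfsgLib.O8
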